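/-
Project E11 (S3403): a class of subgroups of order 11 any two of which generate `L₂(11)` or `J₁`.
Definitions, the basic API, and the steps of the proof as propositions.
-/
import Cfsg.Agent.Base

set_option autoImplicit false
set_option linter.unusedSectionVars false

namespace CL.E11

open MulAction Subgroup

universe u

section Defs

variable {G Ω : Type u} [Group G] [MulAction G Ω]

/-- centraliser of a subgroup -/
abbrev Cz (L : Subgroup G) : Subgroup G := Subgroup.centralizer (L : Set G)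

/-- centraliser of an element -/
abbrev Ce (x : G) : Subgroup G := Subgroup.centralizer ({x} : Set G)

/-- type A: simple of order 660 -/
def TA (L : Subgroup G) : Prop := IsSimpleGroup L ∧ Nat.card L = 660

/-- type B: the facts on `J₁` that are used -/
structure TB (J : Subgroup G) : Prop where
  simple : IsSimpleGroup J
  card : Nat.card J = 175560
  inner : ∀ g : G, (∀ x ∈ J, g * x * g⁻¹ ∈ J) → ∃ j ∈ J, ∀ x ∈ J, g * x * g⁻¹ = j * x * j⁻¹
  no4 : ∀ y ∈ J, y ^ 4 = 1 → y ^ 2 = 1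
  cls : ∀ s ∈ J, ∀ t ∈ J, orderOf s = 2 → orderOf t = 2 → ∃ g ∈ J, g * s * g⁻¹ = t
  c11 : ∀ x ∈ J, orderOf x = 11 → ∀ y ∈ J, y * x = x * y → y ∈ zpowers x
  n11 : ∀ x ∈ J, orderOf x = 11 → ∃ y ∈ J, y * x * y⁻¹ = x ^ 2
  c10 : ∀ t ∈ J, ∀ j ∈ J, orderOf t = 2 → orderOf j = 5 → t * j = j * t →
    ∀ y ∈ J, y * t = t * y → y * j = j * y → y ∈ zpowers (t * j)
  cj10 : ∀ t ∈ J, ∀ j ∈ J, ∀ j' ∈ J, orderOf t = 2 → orderOf j = 5 → orderOf j' = 5 → t * j = j * t →
    t * j' = j' * t → ∃ g ∈ J, g * t = t * g ∧ g * j * g⁻¹ ∈ zpowers j'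
  inv5 : ∀ t ∈ J, ∀ j ∈ J, orderOf t = 2 → orderOf j = 5 → t * j = j * t →
    ∃ r ∈ J, r * t = t * r ∧ r * j * r⁻¹ = j⁻¹
  c15 : ∀ j ∈ J, orderOf j = 5 → ∃ w ∈ J, orderOf w = 3 ∧ w * j = j * w
  six : ∃ y ∈ J, orderOf y = 6

/-- the subgroup generated by two members -/
abbrev Ls (P : Ω → Subgroup G) (α β : Ω) : Subgroup G := P α ⊔ P β

/-- its centraliser -/
abbrev Kk (P : Ω → Subgroup G) (α β : Ω) : Subgroup G := Cz (Ls P α β)

/-- the members inside it (the "line") -/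
def Ln (P : Ω → Subgroup G) (α β : Ω) : Set Ω := {γ | P γ ≤ Ls P α β}

/-- two-point stabiliser -/
abbrev St (G : Type u) {Ω : Type u} [Group G] [MulAction G Ω] (α β : Ω) : Subgroup G :=
  stabilizer G α ⊓ stabilizer G β

/-- The standing hypothesis. -/
structure Base (P : Ω → Subgroup G) : Prop where
  simple : IsSimpleGroup G
  card : ∀ α, Nat.card (P α) = 11
  conj : ∀ (g : G) (α : Ω), ∀ x ∈ P α, g * x * g⁻¹ ∈ P (g • α)
  inj : Function.Injective P
  trans : ∀ α β : Ω, ∃ g : G, g • α = β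
  two : ∃ α β : Ω, α ≠ β
  pair : ∀ α β : Ω, α ≠ β → TA (Ls P α β) ∨ TB (Ls P α β)

open Classical in
/-- the exponent by which `g` acts on `P α` (meaningful when `g • α = α`) -/
noncomputable def chi (P : Ω → Subgroup G) (g : G) (α : Ω) : ZMod 11 :=
  if h : ∃ c : ZMod 11, ∀ x ∈ P α, g * x * g⁻¹ = x ^ c.val then h.choose else 0

end Defs

section Api

variable {G Ω : Type u} [Group G] [Finite G] [MulAction G Ω] {P : Ω → Subgroup G}

theorem mem_Ce {x y : G} : y ∈ Ce x ↔ y * x = x * y := mem_centralizer_singleton_iff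

theorem mem_Cz {L : Subgroup G} {y : G} : y ∈ Cz L ↔ ∀ x ∈ L, x * y = y * x := mem_centralizer_iff

theorem mem_St {α β : Ω} {g : G} : g ∈ St G α β ↔ g • α = α ∧ g • β = β := Iff.rfl

theorem mem_Ln {α β γ : Ω} : γ ∈ Ln P α β ↔ P γ ≤ Ls P α β := Iff.rfl

theorem left_mem_Ln (α β : Ω) : α ∈ Ln P α β := le_sup_left (a := P α) (b := P β)

theorem right_mem_Ln (α β : Ω) : β ∈ Ln P α β := le_sup_right (a := P α) (b := P β)

theorem Ls_comm (α β : Ω) : Ls P α β = Ls P β α := sup_comm _ _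

theorem Ln_congr {α β γ δ : Ω} (h : Ls P γ δ = Ls P α β) : Ln P γ δ = Ln P α β := by
  unfold Ln; rw [h]

theorem Ls_le {α β γ δ : Ω} (hγ : γ ∈ Ln P α β) (hδ : δ ∈ Ln P α β) : Ls P γ δ ≤ Ls P α β := sup_le hγ hδ

theorem TA.not_TB {L : Subgroup G} (h : TA L) : ¬ TB L := fun h' => by
  have := h.2.symm.trans h'.card; omega

/-- a simple subgroup of order divisible by 60 has trivial centre -/
theorem eq_one_of_central {L : Subgroup G} (hs : IsSimpleGroup L) (hc : 60 ∣ Nat.card L) {z : G} (hz : z ∈ L)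
    (hC : z ∈ Cz L) : z = 1 := by
  rcases hs.eq_bot_or_eq_top_of_normal (center L) inferInstance with h | h
  · have : (⟨z, hz⟩ : L) ∈ center L := mem_center_iff.2 fun g => Subtype.ext (mem_Cz.1 hC g g.2)
    rw [h, mem_bot] at this
    exact congrArg Subtype.val this
  · exfalso
    have hcomm : ∀ a b : L, a * b = b * a := fun a b => mem_center_iff.1 (h ▸ mem_top b) a
    letI : CommGroup L := { (inferInstance : Group L) with mul_comm := hcomm }
    have hp : (Nat.card L).Prime := IsSimpleGroup.prime_card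
    have := (Nat.prime_dvd_prime_iff_eq Nat.prime_two hp).1 (dvd_trans (by norm_num) hc)
    rw [← this] at hc
    omega

namespace Base

variable (hB : Base P)
include hB

theorem finite_Ω : Finite Ω := Finite.of_injective P hB.inj

theorem conj_iff (g : G) (α : Ω) (x : G) : g * x * g⁻¹ ∈ P (g • α) ↔ x ∈ P α :=
  ⟨fun h => by simpa [mul_assoc] using hB.conj g⁻¹ _ _ h, hB.conj g α x⟩

theorem conj_fix {g : G} {α : Ω} (h : g • α = α) {x : G} (hx : x ∈ P α) : g * x * g⁻¹ ∈ P α := by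
  have := hB.conj g α x hx; rwa [h] at this

theorem P_smul (g : G) (α : Ω) : P (g • α) = (P α).map (MulAut.conj g).toMonoidHom := by
  ext y
  constructor
  · intro hy
    exact ⟨g⁻¹ * y * g, (hB.conj_iff g α _).1 (by simpa [mul_assoc] using hy), by simp [mul_assoc]⟩
  · rintro ⟨x, hx, rfl⟩
    exact hB.conj g α x hx

theorem pow11 {α : Ω} {x : G} (hx : x ∈ P α) : x ^ 11 = 1 := by
  have := pow_card_eq_one' (x := (⟨x, hx⟩ : P α))
  rw [hB.card] at this
  exact congrArg Subtype.val this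

theorem orderOf_eq {α : Ω} {x : G} (hx : x ∈ P α) (h1 : x ≠ 1) : orderOf x = 11 :=
  haveI : Fact (Nat.Prime 11) := ⟨by norm_num⟩
  orderOf_eq_prime (hB.pow11 hx) h1

theorem zpowers_eq {α : Ω} {x : G} (hx : x ∈ P α) (h1 : x ≠ 1) : zpowers x = P α :=
  eq_of_le_of_card_ge ((zpowers_le).2 hx) (by rw [Nat.card_zpowers, hB.orderOf_eq hx h1, hB.card])

theorem exists_gen (α : Ω) : ∃ x ∈ P α, x ≠ 1 := by
  by_contra h
  push Not at h
  have : P α = ⊥ := (eq_bot_iff_forall _).2 h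
  have h2 := hB.card α
  rw [this, card_bot] at h2
  omega

theorem exists_pow {α : Ω} {x y : G} (hx : x ∈ P α) (h1 : x ≠ 1) (hy : y ∈ P α) : ∃ n : ℕ, y = x ^ n := by
  rw [← hB.zpowers_eq hx h1, ← mem_powers_iff_mem_zpowers] at hy
  obtain ⟨n, rfl⟩ := hy
  exact ⟨n, rfl⟩

theorem comm {α : Ω} {x y : G} (hx : x ∈ P α) (hy : y ∈ P α) : x * y = y * x := by
  by_cases h1 : x = 1
  · simp [h1]
  · obtain ⟨n, rfl⟩ := hB.exists_pow hx h1 hy
    exact (Commute.self_pow x n).eq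

/-- two members with a common non-trivial element are equal -/
theorem eq_of_mem {α β : Ω} {x : G} (ha : x ∈ P α) (hb : x ∈ P β) (h1 : x ≠ 1) : α = β :=
  hB.inj ((hB.zpowers_eq ha h1).symm.trans (hB.zpowers_eq hb h1))

/-- an element mapping a non-trivial element of `P α` into `P β` maps `α` to `β` -/
theorem smul_eq_of_conj {g x : G} {α β : Ω} (hx : x ∈ P α) (h1 : x ≠ 1) (h : g * x * g⁻¹ ∈ P β) : g • α = β :=
  hB.eq_of_mem (hB.conj g α x hx) h (fun e => h1 (by simpa [mul_assoc] using congrArg (fun y => g⁻¹ * y * g) e))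

theorem fix_of_norm {g : G} {α : Ω} (h : ∀ x ∈ P α, g * x * g⁻¹ ∈ P α) : g • α = α := by
  obtain ⟨x, hx, h1⟩ := hB.exists_gen α
  exact hB.smul_eq_of_conj hx h1 (h x hx)

theorem fix_of_cent {g : G} {α : Ω} (h : g ∈ Cz (P α)) : g • α = α :=
  hB.fix_of_norm fun x hx => by rw [← mem_Cz.1 h x hx]; simpa using hx

theorem self_fix {α : Ω} {x : G} (hx : x ∈ P α) : x • α = α :=
  hB.fix_of_cent (mem_Cz.2 fun _ hy => hB.comm hy hx)

theorem P_le_Cz (α : Ω) : P α ≤ Cz (P α) := fun _ hx => mem_Cz.2 fun _ hy => hB.comm hy hx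

theorem simple_Ls {α β : Ω} (h : α ≠ β) : IsSimpleGroup (Ls P α β) :=
  (hB.pair α β h).elim (fun h => h.1) (fun h => h.simple)

theorem dvd_card_Ls {α β : Ω} (h : α ≠ β) : 660 ∣ Nat.card (Ls P α β) :=
  (hB.pair α β h).elim (fun h => h.2 ▸ dvd_rfl) (fun h => h.card ▸ by norm_num)

/-- `L ⊓ C(L) = 1` -/
theorem eq_one_of_LK {α β : Ω} (h : α ≠ β) {z : G} (hz : z ∈ Ls P α β) (hC : z ∈ Kk P α β) : z = 1 :=
  eq_one_of_central (hB.simple_Ls h) (dvd_trans (by norm_num) (hB.dvd_card_Ls h)) hz hC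

theorem conj_Ls (g : G) (α β : Ω) {x : G} (hx : x ∈ Ls P α β) : g * x * g⁻¹ ∈ Ls P (g • α) (g • β) := by
  have : Ls P α β ≤ (Ls P (g • α) (g • β)).comap (MulAut.conj g).toMonoidHom :=
    sup_le (fun y hy => le_sup_left (a := P (g • α)) (hB.conj g α y hy))
      (fun y hy => le_sup_right (b := P (g • β)) (hB.conj g β y hy))
  exact this hx

theorem conj_Ls_iff (g : G) (α β : Ω) (x : G) : g * x * g⁻¹ ∈ Ls P (g • α) (g • β) ↔ x ∈ Ls P α β :=
  ⟨fun h => by simpa [mul_assoc] using hB.conj_Ls g⁻¹ _ _ h, hB.conj_Ls g α β⟩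

theorem Ls_smul (g : G) (α β : Ω) : Ls P (g • α) (g • β) = (Ls P α β).map (MulAut.conj g).toMonoidHom := by
  rw [Subgroup.map_sup, ← hB.P_smul, ← hB.P_smul]

theorem card_Ls_smul (g : G) (α β : Ω) : Nat.card (Ls P (g • α) (g • β)) = Nat.card (Ls P α β) := by
  rw [hB.Ls_smul]; exact card_map_of_injective (MulAut.conj g).injective

theorem conj_Kk (g : G) (α β : Ω) {k : G} (hk : k ∈ Kk P α β) : g * k * g⁻¹ ∈ Kk P (g • α) (g • β) := by
  refine mem_Cz.2 fun x hx => ?_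
  have h1 : g⁻¹ * x * g ∈ Ls P α β := (hB.conj_Ls_iff g α β _).1 (by simpa [mul_assoc] using hx)
  have h2 := mem_Cz.1 hk _ h1
  calc x * (g * k * g⁻¹) = g * ((g⁻¹ * x * g) * k) * g⁻¹ := by group
    _ = g * k * g⁻¹ * x := by rw [h2]; group

theorem conj_Kk_iff (g : G) (α β : Ω) (k : G) : g * k * g⁻¹ ∈ Kk P (g • α) (g • β) ↔ k ∈ Kk P α β :=
  ⟨fun h => by simpa [mul_assoc] using hB.conj_Kk g⁻¹ _ _ h, hB.conj_Kk g α β⟩

theorem card_Kk_smul (g : G) (α β : Ω) : Nat.card (Kk P (g • α) (g • β)) = Nat.card (Kk P α β) := by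
  have : Kk P (g • α) (g • β) = (Kk P α β).map (MulAut.conj g).toMonoidHom := by
    ext y
    constructor
    · intro hy
      exact ⟨g⁻¹ * y * g, (hB.conj_Kk_iff g α β _).1 (by simpa [mul_assoc] using hy), by simp [mul_assoc]⟩
    · rintro ⟨x, hx, rfl⟩
      exact hB.conj_Kk g α β hx
  rw [this]; exact card_map_of_injective (MulAut.conj g).injective

theorem smul_mem_Ln (g : G) {α β γ : Ω} (h : γ ∈ Ln P α β) : g • γ ∈ Ln P (g • α) (g • β) := by
  intro y hy
  have h1 : g⁻¹ * y * g ∈ P γ := (hB.conj_iff g γ _).1 (by simpa [mul_assoc] using hy)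
  simpa [mul_assoc] using hB.conj_Ls g α β (h h1)

theorem smul_mem_Ln_iff (g : G) (α β γ : Ω) : g • γ ∈ Ln P (g • α) (g • β) ↔ γ ∈ Ln P α β :=
  ⟨fun h => by simpa using hB.smul_mem_Ln g⁻¹ h, hB.smul_mem_Ln g⟩

/-- an element normalising `L` permutes the line -/
theorem smul_mem_Ln_of_norm {g : G} {α β γ : Ω} (hg : ∀ x ∈ Ls P α β, g * x * g⁻¹ ∈ Ls P α β)
    (h : γ ∈ Ln P α β) : g • γ ∈ Ln P α β := by
  intro y hy
  have h1 : g⁻¹ * y * g ∈ P γ := (hB.conj_iff g γ _).1 (by simpa [mul_assoc] using hy)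
  simpa [mul_assoc] using hg _ (h h1)

theorem smul_mem_Ln_of_mem {l : G} {α β γ : Ω} (hl : l ∈ Ls P α β) (h : γ ∈ Ln P α β) : l • γ ∈ Ln P α β :=
  hB.smul_mem_Ln_of_norm (fun _ hx => mul_mem (mul_mem hl hx) (inv_mem hl)) h

/-- an element fixing or interchanging two points normalises `L` -/
theorem norm_Ls {g : G} {α β : Ω} (h : g • α = α ∧ g • β = β ∨ g • α = β ∧ g • β = α) :
    ∀ x ∈ Ls P α β, g * x * g⁻¹ ∈ Ls P α β := fun x hx => by
  have := hB.conj_Ls g α β hx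
  rcases h with ⟨h1, h2⟩ | ⟨h1, h2⟩ <;> rw [h1, h2] at this
  · exact this
  · rwa [Ls_comm]

theorem norm_Kk {g : G} {α β : Ω} (h : g • α = α ∧ g • β = β ∨ g • α = β ∧ g • β = α) :
    ∀ k ∈ Kk P α β, g * k * g⁻¹ ∈ Kk P α β := fun x hx => by
  have := hB.conj_Kk g α β hx
  rcases h with ⟨h1, h2⟩ | ⟨h1, h2⟩ <;> rw [h1, h2] at this
  · exact this
  · unfold Kk; rwa [Ls_comm]

theorem Kk_le_Cz {α β γ : Ω} (h : γ ∈ Ln P α β) : Kk P α β ≤ Cz (P γ) :=
  fun _ hk => mem_Cz.2 fun x hx => mem_Cz.1 hk x (h hx)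

theorem Kk_fix {α β γ : Ω} (h : γ ∈ Ln P α β) {k : G} (hk : k ∈ Kk P α β) : k • γ = γ :=
  hB.fix_of_cent (hB.Kk_le_Cz h hk)

/-- `P α` fixes only `α` -/
theorem eq_of_fix {α β : Ω} {x : G} (hx : x ∈ P α) (h1 : x ≠ 1) (h : x • β = β) : β = α := by
  by_contra hne
  have hne' : α ≠ β := fun e => hne e.symm
  have hn : Ls P α β ≤ stabilizer G β := by
    refine sup_le ?_ fun y hy => hB.self_fix hy
    rw [← hB.zpowers_eq hx h1]
    exact zpowers_le.2 h
  have hN : ((P β).subgroupOf (Ls P α β)).Normal := ⟨fun y hy g => by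
    rw [mem_subgroupOf] at hy ⊢
    exact hB.conj_fix (hn g.2) hy⟩
  rcases (hB.simple_Ls hne').eq_bot_or_eq_top_of_normal _ hN with e | e
  · obtain ⟨y, hy, hy1⟩ := hB.exists_gen β
    have : (⟨y, le_sup_right (a := P α) hy⟩ : Ls P α β) ∈ (P β).subgroupOf (Ls P α β) := hy
    rw [e, mem_bot] at this
    exact hy1 (congrArg Subtype.val this)
  · have : (⟨x, le_sup_left (b := P β) hx⟩ : Ls P α β) ∈ (P β).subgroupOf (Ls P α β) := e ▸ mem_top _
    exact hne' (hB.eq_of_mem hx this h1)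

/-- `P α` acts freely off `α` -/
theorem free {α β : Ω} (h : β ≠ α) {x y : G} (hx : x ∈ P α) (hy : y ∈ P α) (e : x • β = y • β) : x = y := by
  by_contra hne
  refine h (hB.eq_of_fix (mul_mem (inv_mem hy) hx) (fun e' => hne (inv_mul_eq_one.1 e').symm) ?_)
  rw [mul_smul, e, inv_smul_smul]

theorem faithful {g : G} (h : ∀ α : Ω, g • α = α) : g = 1 := by
  rcases hB.simple.eq_bot_or_eq_top_of_normal (toPermHom G Ω).ker inferInstance with e | e
  · have : g ∈ (toPermHom G Ω).ker := by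
      rw [MonoidHom.mem_ker]; ext α; exact h α
    rwa [e, mem_bot] at this
  · obtain ⟨α, β, hne⟩ := hB.two
    obtain ⟨y, hy⟩ := hB.trans α β
    have : y ∈ (toPermHom G Ω).ker := e ▸ mem_top y
    rw [MonoidHom.mem_ker] at this
    exact absurd ((congrArg (fun f : Equiv.Perm Ω => f α) this).symm.trans hy) hne

theorem faithfulSMul : FaithfulSMul G Ω := ⟨fun {a b} h => by
  have : b⁻¹ * a = 1 := hB.faithful fun α => by rw [mul_smul, h, inv_smul_smul]
  exact (inv_mul_eq_one.1 this).symm⟩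

theorem dvd_card : 660 ∣ Nat.card G := by
  obtain ⟨α, β, h⟩ := hB.two
  exact (hB.dvd_card_Ls h).trans (card_subgroup_dvd_card _)

/-- the centre is trivial -/
theorem eq_one_of_comm {z : G} (h : ∀ g : G, g * z = z * g) : z = 1 := by
  haveI := hB.simple
  refine eq_one_of_central (L := ⊤) (topEquiv.isSimpleGroup) ?_ (mem_top z) (mem_Cz.2 fun x _ => h x)
  rw [card_top]; exact dvd_trans (by norm_num) hB.dvd_card

theorem not_comm : ¬ IsMulCommutative G := fun h => by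
  obtain ⟨α, -⟩ := hB.two
  obtain ⟨x, -, h1⟩ := hB.exists_gen α
  exact h1 (hB.eq_one_of_comm fun g => h.is_comm.comm g x)

/-- no homomorphism onto a group of order two: every element acts as an even permutation -/
theorem sign_eq_one [Fintype Ω] [DecidableEq Ω] (g : G) : Equiv.Perm.sign (toPerm g : Equiv.Perm Ω) = 1 := by
  let f : G →* ℤˣ := Equiv.Perm.sign.comp (toPermHom G Ω)
  rcases hB.simple.eq_bot_or_eq_top_of_normal f.ker inferInstance with e | e
  · exfalso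
    have h1 := Nat.card_le_card_of_injective f ((MonoidHom.ker_eq_bot_iff f).1 e)
    have h2 := Nat.le_of_dvd Nat.card_pos hB.dvd_card
    rw [Nat.card_eq_fintype_card (α := ℤˣ), Fintype.card_units_int] at h1
    omega
  · exact (show g ∈ f.ker from e ▸ mem_top g)

/-! ### the character `chi` -/

theorem pow_val_natCast {α : Ω} {x : G} (hx : x ∈ P α) (n : ℕ) : x ^ ((n : ZMod 11).val) = x ^ n := by
  rw [ZMod.val_natCast]
  exact (pow_eq_pow_mod n (hB.pow11 hx)).symm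

theorem pow_val_inj {α : Ω} {x : G} (hx : x ∈ P α) (h1 : x ≠ 1) {c d : ZMod 11} (h : x ^ c.val = x ^ d.val) :
    c = d := by
  rw [pow_eq_pow_iff_modEq, hB.orderOf_eq hx h1] at h
  exact ZMod.val_injective 11 (Nat.ModEq.eq_of_lt_of_lt h (ZMod.val_lt c) (ZMod.val_lt d))

theorem chi_spec {g : G} {α : Ω} (h : g • α = α) {x : G} (hx : x ∈ P α) : g * x * g⁻¹ = x ^ (chi P g α).val := by
  have hex : ∃ c : ZMod 11, ∀ x ∈ P α, g * x * g⁻¹ = x ^ c.val := by
    obtain ⟨y, hy, h1⟩ := hB.exists_gen α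
    obtain ⟨n, hn⟩ := hB.exists_pow hy h1 (hB.conj_fix h hy)
    refine ⟨n, fun z hz => ?_⟩
    obtain ⟨m, rfl⟩ := hB.exists_pow hy h1 hz
    rw [hB.pow_val_natCast hz, ← conj_pow, hn, ← pow_mul, ← pow_mul, mul_comm]
  unfold chi
  rw [dif_pos hex]
  exact hex.choose_spec x hx

theorem chi_eq {g : G} {α : Ω} {x : G} (hx : x ∈ P α) (h1 : x ≠ 1) {n : ℕ} (h : g * x * g⁻¹ = x ^ n) :
    chi P g α = n := by
  have hf : g • α = α := hB.smul_eq_of_conj hx h1 (h ▸ pow_mem hx n)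
  refine hB.pow_val_inj hx h1 ?_
  rw [← hB.chi_spec hf hx, h, hB.pow_val_natCast hx]

theorem chi_one (α : Ω) : chi P 1 α = 1 := by
  obtain ⟨x, hx, h1⟩ := hB.exists_gen α
  exact_mod_cast hB.chi_eq (g := 1) hx h1 (n := 1) (by simp)

theorem chi_mul {g g' : G} {α : Ω} (h : g • α = α) (h' : g' • α = α) :
    chi P (g * g') α = chi P g α * chi P g' α := by
  obtain ⟨x, hx, h1⟩ := hB.exists_gen α
  have : g * g' * x * (g * g')⁻¹ = x ^ ((chi P g α).val * (chi P g' α).val) := by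
    calc g * g' * x * (g * g')⁻¹ = g * (g' * x * g'⁻¹) * g⁻¹ := by group
      _ = _ := by rw [hB.chi_spec h' hx, ← conj_pow, hB.chi_spec h hx, ← pow_mul]
  rw [hB.chi_eq hx h1 this]
  simp

theorem chi_pow {g : G} {α : Ω} (h : g • α = α) (n : ℕ) : chi P (g ^ n) α = chi P g α ^ n := by
  induction n with
  | zero => simpa using hB.chi_one α
  | succ n ih => rw [pow_succ, hB.chi_mul ((stabilizer G α).pow_mem h n) h, ih, pow_succ]

theorem chi_inv {g : G} {α : Ω} (h : g • α = α) : chi P g⁻¹ α * chi P g α = 1 := by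
  rw [← hB.chi_mul ((stabilizer G α).inv_mem h) h, inv_mul_cancel, hB.chi_one]

theorem chi_ne_zero {g : G} {α : Ω} (h : g • α = α) : chi P g α ≠ 0 := fun e => by
  have := hB.chi_inv h
  rw [e, mul_zero] at this
  exact absurd this (by decide)

theorem chi_pow_ten {g : G} {α : Ω} (h : g • α = α) : chi P g α ^ 10 = 1 :=
  (by decide : ∀ c : ZMod 11, c ≠ 0 → c ^ 10 = 1) _ (hB.chi_ne_zero h)

theorem chi_conj (y : G) {g : G} {α : Ω} (h : g • α = α) : chi P (y * g * y⁻¹) (y • α) = chi P g α := by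
  obtain ⟨x, hx, h1⟩ := hB.exists_gen α
  have h2 : y * x * y⁻¹ ≠ 1 := fun e => h1 (by simpa [mul_assoc] using congrArg (fun z => y⁻¹ * z * y) e)
  have : y * g * y⁻¹ * (y * x * y⁻¹) * (y * g * y⁻¹)⁻¹ = (y * x * y⁻¹) ^ (chi P g α).val := by
    rw [conj_pow, ← hB.chi_spec h hx]; group
  rw [hB.chi_eq (hB.conj y α x hx) h2 this]
  simp

theorem chi_eq_one_iff {g : G} {α : Ω} (h : g • α = α) : chi P g α = 1 ↔ g ∈ Cz (P α) := by
  constructor
  · intro e
    refine mem_Cz.2 fun x hx => ?_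
    have := hB.chi_spec h hx
    rw [e, show (1 : ZMod 11).val = 1 from rfl, pow_one] at this
    exact (mul_inv_eq_iff_eq_mul.1 this).symm
  · intro e
    obtain ⟨x, hx, h1⟩ := hB.exists_gen α
    exact_mod_cast hB.chi_eq (g := g) hx h1 (n := 1) (by rw [← mem_Cz.1 e x hx]; simp)

theorem chi_of_cent {g : G} {α : Ω} (h : g ∈ Cz (P α)) : chi P g α = 1 :=
  (hB.chi_eq_one_iff (hB.fix_of_cent h)).2 h

theorem chi_Kk {α β γ : Ω} (h : γ ∈ Ln P α β) {k : G} (hk : k ∈ Kk P α β) : chi P k γ = 1 :=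
  hB.chi_of_cent (hB.Kk_le_Cz h hk)

theorem inv_of_chi {g : G} {α : Ω} (h : g • α = α) (e : chi P g α = -1) {x : G} (hx : x ∈ P α) :
    g * x * g⁻¹ = x⁻¹ := by
  rw [hB.chi_spec h hx, e, show (-1 : ZMod 11).val = 10 from rfl, eq_inv_iff_mul_eq_one, ← pow_succ, hB.pow11 hx]

/-- `chi` as a homomorphism on a point stabiliser -/
noncomputable def chiHom (α : Ω) : stabilizer G α →* ZMod 11 where
  toFun g := chi P g α
  map_one' := hB.chi_one α
  map_mul' g g' := hB.chi_mul g.2 g'.2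

theorem TA_smul (g : G) {α β : Ω} (h : α ≠ β) (hA : TA (Ls P α β)) : TA (Ls P (g • α) (g • β)) :=
  (hB.pair _ _ fun e => h (smul_left_cancel g e)).resolve_right fun h' => by
    have := h'.card; rw [hB.card_Ls_smul, hA.2] at this; omega

theorem TB_smul (g : G) {α β : Ω} (h : α ≠ β) (hA : TB (Ls P α β)) : TB (Ls P (g • α) (g • β)) :=
  (hB.pair _ _ fun e => h (smul_left_cancel g e)).resolve_left fun h' => by
    have := h'.2; rw [hB.card_Ls_smul, hA.card] at this; omega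

end Base

end Api

end CL.E11
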