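/-
Project E11 (S3403): the intermediate structures and the steps of the proof as propositions.
-/
import Cfsg.Agent.E11.Defs

set_option autoImplicit false
set_option linter.unusedSectionVars false

namespace CL.E11

open MulAction Subgroup

universe u

section Structures

variable {G Ω : Type u} [Group G] [MulAction G Ω]

/-- `h` generates the stabiliser of `α, β` in `L`, and the involution `s` swaps them and inverts `h`. -/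
structure HS (P : Ω → Subgroup G) (α β : Ω) (h s : G) : Prop where
  hL : h ∈ Ls P α β
  sL : s ∈ Ls P α β
  ha : h • α = α
  hb : h • β = β
  ho : orderOf h = 5
  hc : chi P h α = 3
  sa : s • α = β
  sb : s • β = α
  so : orderOf s = 2
  sh : s * h * s⁻¹ = h⁻¹
  st : ∀ l ∈ Ls P α β, l • α = α → l • β = β → l ∈ zpowers h

/-- geometry of a line of type A -/
structure LF1 (P : Ω → Subgroup G) (α β : Ω) : Prop where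
  card : (Ln P α β).ncard = 12
  sub : ∀ γ ∈ Ln P α β, ∀ δ ∈ Ln P α β, γ ≠ δ → Ls P γ δ = Ls P α β
  reg : ∀ γ ∈ Ln P α β, γ ≠ α → ∃ x ∈ P α, x • β = γ
  syl : ∀ x ∈ Ls P α β, orderOf x = 11 → ∃ γ ∈ Ln P α β, x ∈ P γ
  t2 : ∀ γ ∈ Ln P α β, ∀ δ ∈ Ln P α β, γ ≠ δ → ∃ l ∈ Ls P α β, l • α = γ ∧ l • β = δ
  cen : ∀ g : G, g • α = α → g • β = β → chi P g α = 1 → g ∈ Kk P α β
  three : ∀ g : G, g • α = α → g • β = β → ∀ γ ∈ Ln P α β, γ ≠ α → γ ≠ β → g • γ = γ → g ∈ Kk P α β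
  hs : ∃ h s : G, HS P α β h s
  inv : ∀ g : G, g • α = α → g • β = β → chi P g β * chi P g α = 1

/-- involutions of a group of type A -/
structure LF2 (P : Ω → Subgroup G) (α β : Ω) : Prop where
  fpf : ∀ v ∈ Ls P α β, orderOf v = 2 → ∀ γ ∈ Ln P α β, v • γ ≠ γ
  cls : ∀ v ∈ Ls P α β, ∀ w ∈ Ls P α β, orderOf v = 2 → orderOf w = 2 → ∃ l ∈ Ls P α β, l * v * l⁻¹ = w
  c55 : {v : G | v ∈ Ls P α β ∧ orderOf v = 2}.ncard = 55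
  c12 : ∀ v ∈ Ls P α β, orderOf v = 2 → Nat.card ↥(Ls P α β ⊓ Ce v) = 12
  no4 : ∀ y ∈ Ls P α β, y ^ 4 = 1 → y ^ 2 = 1
  four : ∀ v ∈ Ls P α β, orderOf v = 2 → ∃ w ∈ Ls P α β, orderOf w = 2 ∧ w ≠ v ∧ w * v = v * w
  no8 : ∀ v ∈ Ls P α β, ∀ w ∈ Ls P α β, ∀ y ∈ Ls P α β, orderOf v = 2 → orderOf w = 2 → orderOf y = 2 →
    w ≠ v → w * v = v * w → y * v = v * y → y * w = w * y → y = v ∨ y = w ∨ y = v * w

/-- elements normalising a group of type A, part 1 -/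
structure LF3 (P : Ω → Subgroup G) (α β : Ω) : Prop where
  sw : ∀ u : G, (u • α = α ∧ u • β = β ∨ u • α = β ∧ u • β = α) → u ^ 2 ∈ Kk P α β →
    ∃ s ∈ Ls P α β, orderOf s = 2 ∧ s • α = β ∧ s • β = α ∧ u * s = s * u
  d8 : ∀ u : G, u • α = α → u • β = β → chi P u α = -1 → ∃ s ∈ Ls P α β, ∃ w ∈ Ls P α β,
    orderOf s = 2 ∧ orderOf w = 2 ∧ w ≠ s ∧ s * w = w * s ∧ u * s = s * u ∧ u * w * u⁻¹ = s * w
  inner : ∀ t : G, t • α = β → t • β = α → t ^ 2 ∈ Kk P α β → (∀ γ ∈ Ln P α β, t • γ ≠ γ) →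
    ∃ v ∈ Ls P α β, orderOf v = 2 ∧ t * v ∈ Kk P α β
  nsq : ∀ y : G, y • α = β → y • β = α → chi P (y ^ 2) α ≠ -1

/-- not every involution of `L` fixes exactly one point -/
def SE (P : Ω → Subgroup G) (α β : Ω) : Prop :=
  ¬ ∀ v ∈ Ls P α β, orderOf v = 2 → ∃! γ : Ω, v • γ = γ

/-- A counterexample in which all pairs are of type A. -/
structure CA (P : Ω → Subgroup G) : Prop where
  base : Base P
  allA : ∀ α β : Ω, α ≠ β → TA (Ls P α β)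
  ind : ∀ X : Subgroup G, X ≠ ⊤ → ∀ α β : Ω, α ≠ β → P α ≤ X → P β ≤ X →
    ∃ γ δ : Ω, γ ≠ δ ∧ ∀ ε : Ω, P ε ≤ X → ε ∈ Ln P γ δ
  ne : ∀ α β : Ω, α ≠ β → Ls P α β ≠ ⊤
  lf1 : ∀ α β : Ω, α ≠ β → LF1 P α β
  lf2 : ∀ α β : Ω, α ≠ β → LF2 P α β
  lf3 : ∀ α β : Ω, α ≠ β → LF3 P α β
  se : ∀ α β : Ω, α ≠ β → SE P α β

/-- fixed points and double transitivity -/
structure Geo1 (P : Ω → Subgroup G) : Prop where
  fixK : ∀ α β : Ω, α ≠ β → ∀ k ∈ Kk P α β, k ≠ 1 → ∀ γ : Ω, k • γ = γ → γ ∈ Ln P α β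
  two : ∀ (g : G) (α β γ : Ω), α ≠ β → α ≠ γ → β ≠ γ → g • α = α → g • β = β → g • γ = γ → chi P g α ^ 2 = 1
  t2 : ∀ α β γ δ : Ω, α ≠ β → γ ≠ δ → ∃ g : G, g • α = γ ∧ g • β = δ
  deg : ∃ m : ℕ, Nat.card Ω = 1 + 11 * m ∧ m % 5 = 1 ∧ 1 < m
  out : ∀ α β : Ω, α ≠ β → ∃ γ : Ω, γ ∉ Ln P α β
  cenK : ∀ α β : Ω, α ≠ β → ∀ k ∈ Kk P α β, k ≠ 1 → ∀ y : G, y * k * y⁻¹ ∈ Kk P α β →
    ∀ γ ∈ Ln P α β, y • γ ∈ Ln P α β

/-- orders and stabilisers -/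
structure Geo2 (P : Ω → Subgroup G) : Prop where
  cardG : ∀ α β : Ω, α ≠ β → Nat.card G = Nat.card Ω * (Nat.card Ω - 1) * Nat.card (St G α β)
  cardS : ∀ α β : Ω, α ≠ β →
    (Nat.card (St G α β) = 5 * Nat.card (Kk P α β) ∧ ∀ g ∈ St G α β, chi P g α ^ 5 = 1) ∨
    (Nat.card (St G α β) = 10 * Nat.card (Kk P α β) ∧ ∃ g ∈ St G α β, chi P g α = -1)
  cardK : ∀ α β γ δ : Ω, α ≠ β → γ ≠ δ → Nat.card (Kk P γ δ) = Nat.card (Kk P α β)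
  fl : ∀ (g : G) (α γ : Ω), g • α = α → chi P g α ≠ 1 → (∃ y ∈ P α, g • γ = y • γ) →
    ∃ x ∈ P α, g • x • γ = x • γ
  stab : ∀ α β : Ω, α ≠ β → ∀ y : G, y • α ∈ Ln P α β → y • β ∈ Ln P α β →
    ∃ l ∈ Ls P α β, ∃ g ∈ St G α β, y = l * g
  pk : ∀ α β : Ω, α ≠ β → ∀ c ∈ Cz (P α), c • β ∈ Ln P α β → ∃ x ∈ P α, ∃ k ∈ Kk P α β, c = x * k
  semi : ∀ α β γ δ : Ω, α ≠ β → γ ≠ δ → (∀ ε ∈ Ln P γ δ, ε ∉ Ln P α β) → ∀ X : Subgroup G, X ≤ Kk P α β →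
    (∀ y ∈ X, ∀ ε ∈ Ln P γ δ, y • ε ∈ Ln P γ δ) → Nat.card X ∣ 12
  tr : Even (Nat.card Ω) → ∀ α β γ : Ω, β ≠ α → γ ≠ α → ∃ c ∈ Cz (P α), c • β = γ
  cardC : Even (Nat.card Ω) → ∀ α β : Ω, α ≠ β → Nat.card (Cz (P α)) = (Nat.card Ω - 1) * Nat.card (Kk P α β)

/-- everything known about a counterexample of type A before the case division -/
structure Geo (P : Ω → Subgroup G) : Prop where
  ca : CA P
  g1 : Geo1 P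
  g2 : Geo2 P

/-- Case I: no non-trivial element of `K` fixes a second line through `α`. -/
def CaseI (P : Ω → Subgroup G) : Prop :=
  ∀ α β γ : Ω, α ≠ β → γ ∉ Ln P α β → ∀ k ∈ Kk P α β, (∃ x ∈ P α, k • γ = x • γ) → k = 1

/-- Case II at the flag `(α, β)`. -/
def CaseII (P : Ω → Subgroup G) (α β : Ω) (k : G) : Prop :=
  α ≠ β ∧ k ∈ Kk P α β ∧ k ≠ 1 ∧ ∃ γ : Ω, γ ∉ Ln P α β ∧ ∃ x ∈ P α, k • γ = x • γ

/-- the Frobenius kernel of Case I -/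
structure FQ (P : Ω → Subgroup G) (α β : Ω) (Q : Subgroup G) : Prop where
  le : Q ≤ Cz (P α)
  nrm : ∀ g : G, g • α = α → ∀ y ∈ Q, g * y * g⁻¹ ∈ Q
  cop : (Nat.card Q).Coprime (Nat.card (Kk P α β))
  card : 11 * Nat.card Q = (Nat.card Ω - 1) * Nat.card ↥(Q ⊓ P α)
  fpf : ∀ k ∈ Kk P α β, k ≠ 1 → ∀ y ∈ Q, k * y = y * k → y ∈ P α
  tr : ∀ γ : Ω, γ ≠ α → ∃ x ∈ P α, ∃ y ∈ Q, (x * y) • β = γ

/-- an involution of `K` and the lines it fixes -/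
structure TLF (P : Ω → Subgroup G) (α β : Ω) (t : G) : Prop where
  mv : ∀ γ : Ω, γ ∉ Ln P α β → t • γ ≠ γ ∧ (∀ ε ∈ Ln P γ (t • γ), ε ∉ Ln P α β) ∧
    ∃ v ∈ Ls P γ (t • γ), orderOf v = 2 ∧ t * v ∈ Kk P γ (t • γ)
  dvd : 12 ∣ Nat.card Ω
  le : ∀ Z : Set G, (∀ γ : Ω, γ ∉ Ln P α β → ∃ z ∈ Z, z ≠ 1 ∧ z ∈ Kk P γ (t • γ)) → Nat.card Ω ≤ 12 + 12 * Z.ncard
  dec : ∀ (z : G) (γ δ : Ω), γ ≠ δ → z ∈ Kk P γ δ → orderOf z = 2 → z * t = t * z → z ∉ Kk P α β →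
    ∃ k ∈ Kk P α β, ∃ v ∈ Ls P α β, orderOf v = 2 ∧ z = k * v ∧ k ^ 2 = 1 ∧ k * t = t * k ∧
      Nat.card ↥(Kk P α β ⊓ Ce k) ∣ 12 ∧ ∀ ε ∈ Ln P γ δ, ε ∉ Ln P α β

/-- Case I, `|K|` even -/
structure EV (P : Ω → Subgroup G) (α β : Ω) (t : G) : Prop where
  tK : t ∈ Kk P α β
  ot : orderOf t = 2
  uniq : ∀ t' ∈ Kk P α β, orderOf t' = 2 → t' = t
  dvd : Nat.card (Kk P α β) ∣ 12

/-- Case II: the element of order 11 -/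
structure IIF (P : Ω → Subgroup G) (α β : Ω) (k : G) : Prop where
  ord : orderOf k = 11
  cen : ∀ y ∈ Kk P α β, y * k = k * y → y ∈ zpowers k
  nor : ∀ y ∈ Kk P α β, y * k * y⁻¹ ∈ zpowers k → y * k * y⁻¹ = k ∨ y * k * y⁻¹ = k⁻¹
  cnt : ∃ d ν : ℕ, (d = 1 ∨ d = 2) ∧ Nat.card (Kk P α β) = 11 * d * ν ∧ ν % 11 = 1
  syl : ∀ k' ∈ Kk P α β, orderOf k' = 11 → ∃ y ∈ Kk P α β, k' ∈ zpowers (y * k * y⁻¹)

/-- `|K|` odd -/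
structure OD (P : Ω → Subgroup G) : Prop where
  fpf : ∀ α β : Ω, α ≠ β → ∀ v ∈ Ls P α β, orderOf v = 2 → ∀ γ : Ω, v • γ ≠ γ
  four : 4 ∣ Nat.card Ω
  exu : ∀ α β : Ω, α ≠ β → ∀ g ∈ St G α β, chi P g α = -1 → ∃ u ∈ St G α β, orderOf u = 2 ∧ chi P u α = -1

/-- geometry of a pair of type B, part 1 -/
structure BF1 (P : Ω → Subgroup G) (α β : Ω) : Prop where
  dec : ∀ g : G, (∀ x ∈ Ls P α β, g * x * g⁻¹ ∈ Ls P α β) → ∃ j ∈ Ls P α β, ∃ k ∈ Kk P α β, g = j * k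
  tr : ∀ γ ∈ Ln P α β, ∃ j ∈ Ls P α β, j • α = γ
  sub : ∀ γ ∈ Ln P α β, ∀ δ ∈ Ln P α β, γ ≠ δ → TB (Ls P γ δ) → Ls P γ δ = Ls P α β
  cen : ∀ g : G, g • α = α → g • β = β → chi P g α = 1 → g ∈ Kk P α β
  ord5 : ∀ j ∈ Ls P α β, ∀ γ ∈ Ln P α β, ∀ δ ∈ Ln P α β, γ ≠ δ → j • γ = γ → j • δ = δ →
    chi P j γ ^ 5 = 1 → chi P j γ ≠ 1 → orderOf j = 5
  chi5 : ∀ j ∈ Ls P α β, ∀ γ ∈ Ln P α β, j • γ = γ → orderOf j = 5 → chi P j γ ≠ 1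
  exs : ∀ j ∈ Ls P α β, ∀ γ ∈ Ln P α β, j • γ = γ → orderOf j = 5 →
    ∃ s ∈ Ls P α β, orderOf s = 2 ∧ s • γ = γ ∧ chi P s γ = -1 ∧ s * j = j * s
  inv : ∀ t ∈ Ls P α β, orderOf t = 2 → ∃ ε ∈ Ln P α β, t • ε = ε ∧ chi P t ε = -1
  mate : ∀ j ∈ Ls P α β, ∀ γ ∈ Ln P α β, j • γ = γ → orderOf j = 5 →
    ∃ δ ∈ Ln P α β, δ ≠ γ ∧ j • δ = δ ∧ chi P j δ = chi P j γ
  exh : ∃ h ∈ Ls P α β, orderOf h = 5 ∧ h • α = α

/-- geometry of a pair of type B, part 2 -/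
structure BF2 (P : Ω → Subgroup G) (α β : Ω) : Prop where
  pm : ∀ g : G, g • α = α → g • β = β → chi P g β = chi P g α ∨ chi P g β * chi P g α = 1
  ten : ∀ g : G, g • α = α → g • β = β → chi P g α ^ 2 ≠ 1 → chi P g α ^ 5 ≠ 1 → chi P g β * chi P g α = 1
  two : ∀ t ∈ Ls P α β, ∀ j ∈ Ls P α β, orderOf t = 2 → orderOf j = 5 → t * j = j * t →
    ∃ ε ∈ Ln P α β, ∃ ε' ∈ Ln P α β, ε ≠ ε' ∧ t • ε = ε ∧ j • ε = ε ∧ t • ε' = ε' ∧ j • ε' = ε'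

/-- the local facts for all pairs -/
structure CB (P : Ω → Subgroup G) : Prop where
  base : Base P
  lf1 : ∀ α β : Ω, α ≠ β → TA (Ls P α β) → LF1 P α β
  lf3 : ∀ α β : Ω, α ≠ β → TA (Ls P α β) → LF3 P α β
  bf1 : ∀ α β : Ω, α ≠ β → TB (Ls P α β) → BF1 P α β
  bf2 : ∀ α β : Ω, α ≠ β → TB (Ls P α β) → BF2 P α β

/-- Claim A of the `J₁` case -/
def ClA (P : Ω → Subgroup G) : Prop :=
  ∀ (g : G) (γ δ : Ω), γ ≠ δ → g • γ = γ → g • δ = δ → chi P g δ = chi P g γ → chi P g γ ^ 5 = 1 →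
    chi P g γ ≠ 1 → TB (Ls P γ δ) ∧ ∀ ε : Ω, g • ε = ε → ε ∈ Ln P γ δ

/-- an element interchanging two points normalises a conjugate of `J` through them -/
def SwB (P : Ω → Subgroup G) (α β : Ω) : Prop :=
  ∀ (y : G) (γ δ : Ω), γ ≠ δ → y • γ = δ → y • δ = γ → ∃ g : G, γ ∈ Ln P (g • α) (g • β) ∧
    ∀ x ∈ Ls P (g • α) (g • β), y * x * y⁻¹ ∈ Ls P (g • α) (g • β)

end Structures

/-! ### Pure group theory -/

def JFs : Prop := ∀ (G : Type u) [Group G] [Finite G] (J : Subgroup G), Cfsg.Spor.IsoJ1 ↥J → TB J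

def ABs : Prop := ∀ (G : Type u) [Group G] [Finite G], IsSimpleGroup G →
  (∀ S : Sylow 2 G, IsMulCommutative (S : Subgroup G)) → 8 ∣ Nat.card G → 5 ∣ Nat.card G →
  (∃ y : G, orderOf y = 6) → Nat.card G = 175560

def PGs : Prop := ∀ (G : Type u) [Group G] [Finite G] (C : Subgroup G) (h k : G), Odd (Nat.card C) →
  ¬ 5 ∣ Nat.card C → orderOf h = 5 → (∀ y ∈ C, h * y * h⁻¹ ∈ C) → k ∈ C → orderOf k = 11 →
  (∀ y ∈ C, h * y = y * h ↔ y ∈ zpowers k) → Nat.card ↥(C ⊓ Ce k) ≤ 121 →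
  ∃ Q : Subgroup G, Q ≤ C ∧ (∀ g : G, (∀ y ∈ C, g * y * g⁻¹ ∈ C) → ∀ y ∈ Q, g * y * g⁻¹ ∈ Q) ∧
    ¬ 11 ∣ Nat.card Q ∧ ∃ e : ℕ, Nat.card C = Nat.card Q * 11 ^ e

def K132s : Prop := ∀ (G : Type u) [Group G] [Finite G] (K : Subgroup G) (k : G), k ∈ K → orderOf k = 11 →
  (∀ y ∈ K, y * k = k * y → y ∈ zpowers k) → Nat.card K ≠ 132 ∧ Nat.card K ≠ 264

def ZKs : Prop := ∀ (G : Type u) [Group G] [Finite G] (K : Subgroup G), Odd (Nat.card K) → ¬ 5 ∣ Nat.card K →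
  (∀ (r : ℕ) (R : Subgroup G), r.Prime → R ≤ K → IsPGroup r R → IsCyclic R) →
  (∀ x ∈ K, ∀ z ∈ K, (orderOf x).Prime → (orderOf z).Prime → z * x * z⁻¹ ∈ zpowers x → z * x = x * z) →
  (∀ (r : ℕ) (ρ : G), r.Prime → r ∣ Nat.card K → (r ≠ 3 ∨ 9 ∣ Nat.card K) → ρ ∈ K →
    orderOf ρ = r ^ (Nat.card K).factorization r → ∃ y ∈ K, y * ρ * y⁻¹ ∈ zpowers ρ ∧ y * ρ ≠ ρ * y) →
  Nat.card K = 1 ∨ Nat.card K = 3

/-! ### The steps; `G` acts on `Ω`, `P` is the family of subgroups of order 11 -/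

/-- a statement about all finite actions -/
def All (S : ∀ (G Ω : Type u) [Group G] [MulAction G Ω], (Ω → Subgroup G) → Prop) : Prop :=
  ∀ (G Ω : Type u) [Group G] [Finite G] [Finite Ω] [MulAction G Ω] (P : Ω → Subgroup G), S G Ω P

def LF1s : Prop := All.{u} fun _ Ω _ _ P => Base P → ∀ α β : Ω, α ≠ β → TA (Ls P α β) → LF1 P α β

def LF2s : Prop := All.{u} fun _ Ω _ _ P => Base P → ∀ α β : Ω, α ≠ β → TA (Ls P α β) → LF1 P α β → LF2 P α β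

def LF3s : Prop := All.{u} fun _ Ω _ _ P => Base P → ∀ α β : Ω, α ≠ β → TA (Ls P α β) → LF1 P α β →
  LF2 P α β → LF3 P α β

def SEs : Prop := All.{u} fun _ Ω _ _ P => Base P → ∀ α β : Ω, α ≠ β → TA (Ls P α β) → LF1 P α β →
  LF2 P α β → SE P α β

def Geo1s : Prop := All.{u} fun _ _ _ _ P => CA P → Geo1 P

def Geo2s : Prop := All.{u} fun _ _ _ _ P => CA P → Geo1 P → Geo2 P

def FQs : Prop := All.{u} fun G Ω _ _ P => Geo P → Even (Nat.card Ω) → CaseI P → ∀ α β : Ω, α ≠ β →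
  ∃ Q : Subgroup G, FQ P α β Q

def TLs : Prop := All.{u} fun _ Ω _ _ P => Geo P → ∀ α β : Ω, α ≠ β → ∀ t ∈ Kk P α β, orderOf t = 2 →
  TLF P α β t

def CYCs : Prop := All.{u} fun G Ω _ _ P => Geo P → ∀ α β : Ω, α ≠ β → IsCyclic (St G α β) →
  (Nat.card Ω = 672 ∨ Nat.card (St G α β) ∈ [5, 10, 15, 30, 55, 110]) →
  (∃! t : G, t ∈ St G α β ∧ t ≠ 1 ∧ 2 < Nat.card {x : Ω // t • x = x}) ∧
    ∀ s t : G, orderOf s = 2 → orderOf t = 2 → IsConj s t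

def E1s : Prop := All.{u} fun G Ω _ _ P => Geo P → CaseI P →
  (∀ α β : Ω, α ≠ β → ∀ t ∈ Kk P α β, orderOf t = 2 → TLF P α β t) →
  ∀ (α β : Ω) (Q : Subgroup G), α ≠ β → FQ P α β Q → ∀ t ∈ Kk P α β, orderOf t = 2 →
  EV P α β t ∧ ((Nat.card Ω = 672 ∧ ∃ z : G, orderOf z = 2 ∧ ¬ IsConj z t) ∨
    (Nat.card Ω = 1332 ∧ ∀ v ∈ Ls P α β, orderOf v = 2 → IsConj t v ∧ IsConj t (t * v)))

def E61s : Prop := All.{u} fun G Ω _ _ P => Geo P → ∀ (α β : Ω) (t : G), α ≠ β → EV P α β t →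
  Nat.card Ω = 672 → IsCyclic (St G α β)

def E121s : Prop := All.{u} fun G Ω _ _ P => Geo P → ∀ (α β : Ω) (t : G), α ≠ β → EV P α β t →
  Nat.card Ω = 1332 → (∀ v ∈ Ls P α β, orderOf v = 2 → IsConj t v ∧ IsConj t (t * v)) → False

def IIBs : Prop := All.{u} fun G Ω _ _ P => Geo P → ∀ (α β : Ω) (k : G), CaseII P α β k → IIF P α β k

def IICs : Prop := All.{u} fun G Ω _ _ P => Geo P → ∀ (α β : Ω) (k : G), CaseII P α β k →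
  (∀ k' : G, CaseII P α β k' → IIF P α β k') →
  ∃ a b : ℕ, Nat.card Ω = 12 + 5 * Nat.card (Kk P α β) * (a + 11 * b) ∧ a ≤ 2

def E2s : Prop := All.{u} fun G Ω _ _ P => Geo P →
  (∀ α β : Ω, α ≠ β → ∀ t ∈ Kk P α β, orderOf t = 2 → TLF P α β t) →
  ∀ (α β : Ω) (k : G), α ≠ β → k ∈ Kk P α β → IIF P α β k →
  (∃ a b : ℕ, Nat.card Ω = 12 + 5 * Nat.card (Kk P α β) * (a + 11 * b) ∧ a ≤ 2) → Odd (Nat.card (Kk P α β))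

def ODs : Prop := All.{u} fun _ Ω _ _ P => Geo P → (∀ α β : Ω, α ≠ β → Odd (Nat.card (Kk P α β))) → OD P

def O8s : Prop := All.{u} fun G Ω _ _ P => Geo P → OD P → ∀ α β : Ω, α ≠ β → Odd (Nat.card (Kk P α β)) →
  ∀ u ∈ St G α β, orderOf u = 2 → chi P u α = -1 → Nat.card Ω % 8 ≠ 4

def O1s : Prop := All.{u} fun G Ω _ _ P => Geo P → OD P → ∀ (α β : Ω) (Q : Subgroup G), α ≠ β →
  Odd (Nat.card (Kk P α β)) → FQ P α β Q → ∀ u ∈ St G α β, orderOf u = 2 → chi P u α = -1 →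
  (∃ k ∈ Kk P α β, u * k ≠ k * u) → Nat.card Ω % 8 = 4

def O4s : Prop := All.{u} fun G Ω _ _ P => Geo P → OD P → ∀ (α β : Ω) (k : G), α ≠ β →
  Nat.card (Kk P α β) = 11 → k ∈ Kk P α β → k ≠ 1 → ∀ u ∈ St G α β, orderOf u = 2 → u * k * u⁻¹ = k⁻¹ →
  Nat.card Ω % 8 = 4

def O2As : Prop := All.{u} fun G Ω _ _ P => Geo P → Even (Nat.card Ω) → ∀ (α β : Ω) (Q : Subgroup G), α ≠ β →
  Odd (Nat.card (Kk P α β)) → FQ P α β Q →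
  ¬ 5 ∣ Nat.card (Kk P α β) ∧
  (∀ (r : ℕ) (R : Subgroup G), r.Prime → R ≤ Kk P α β → IsPGroup r R → IsCyclic R) ∧
  (∀ x ∈ Kk P α β, ∀ z ∈ Kk P α β, (orderOf x).Prime → (orderOf z).Prime → z * x * z⁻¹ ∈ zpowers x →
    z * x = x * z)

def BTs : Prop := All.{u} fun G Ω _ _ P => Geo P → CaseI P → ∀ (α β : Ω) (Q : Subgroup G), α ≠ β →
  Odd (Nat.card (Kk P α β)) → ¬ 5 ∣ Nat.card (Kk P α β) → FQ P α β Q →
  (∀ g ∈ St G α β, ∃ k' ∈ Kk P α β, ∀ k ∈ Kk P α β, g * k * g⁻¹ = k' * k * k'⁻¹) →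
  ∀ (r : ℕ) (ρ : G), r.Prime → r ∣ Nat.card (Kk P α β) → (r ≠ 3 ∨ 9 ∣ Nat.card (Kk P α β)) → ρ ∈ Kk P α β →
    orderOf ρ = r ^ (Nat.card (Kk P α β)).factorization r →
    ∃ y ∈ Kk P α β, y * ρ * y⁻¹ ∈ zpowers ρ ∧ y * ρ ≠ ρ * y

/-- Case II, `|K|` odd, `K ≠ ⟨k⟩`: `P α` is the largest normal `11`-subgroup of `G_α` inside `C(P α)`. -/
def O3As : Prop := All.{u} fun G Ω _ _ P => Geo P → ∀ (α β : Ω) (k : G) (M W : Subgroup G), α ≠ β →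
  k ∈ Kk P α β → orderOf k = 11 → M ≤ Kk P α β → M ≠ ⊥ → ¬ 11 ∣ Nat.card M → (∀ c ∈ M, k * c * k⁻¹ ∈ M) →
  W ≤ Cz (P α) → P α ≤ W → (∀ g : G, g • α = α → ∀ y ∈ W, g * y * g⁻¹ ∈ W) → IsPGroup 11 W →
  W ⊓ Kk P α β = ⊥ → W = P α

def O3s : Prop := All.{u} fun G Ω _ _ P => Geo P → Even (Nat.card Ω) → ∀ (α β : Ω) (k : G), α ≠ β →
  k ∈ Kk P α β → IIF P α β k → Odd (Nat.card (Kk P α β)) → Nat.card (Kk P α β) = 11

def BF1s : Prop := All.{u} fun _ Ω _ _ P => Base P → ∀ α β : Ω, α ≠ β → TB (Ls P α β) → BF1 P α β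

def BF2s : Prop := All.{u} fun _ Ω _ _ P => Base P → ∀ α β : Ω, α ≠ β → TB (Ls P α β) → BF1 P α β → BF2 P α β

def JCs : Prop := All.{u} fun _ _ _ _ P => CB P → ClA P

def JDs : Prop := All.{u} fun _ Ω _ _ P => CB P → ClA P → ∀ α β : Ω, α ≠ β → TB (Ls P α β) → SwB P α β

def JEs : Prop := All.{u} fun _ Ω _ _ P => CB P → ∀ α β : Ω, α ≠ β → TB (Ls P α β) → SwB P α β → Ls P α β = ⊤

/-- the simple case -/
def Core : Prop := All.{u} fun G Ω _ _ P => Base P →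
  (∀ X : Subgroup G, X ≠ ⊤ → ∀ α β : Ω, α ≠ β → P α ≤ X → P β ≤ X →
    ∃ γ δ : Ω, γ ≠ δ ∧ ∀ ε : Ω, P ε ≤ X → ε ∈ Ln P γ δ) → ∃ α β : Ω, α ≠ β ∧ Ls P α β = ⊤

/-- the hypothesis of the theorem -/
structure Hy {G : Type u} [Group G] (P : Subgroup G) : Prop where
  card : Nat.card P = 11
  nn : ¬ P.Normal
  gen : normalClosure (P : Set G) = ⊤
  pair : ∀ g : G, P.map (MulAut.conj g).toMonoidHom ≠ P → TA (P ⊔ P.map (MulAut.conj g).toMonoidHom) ∨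
    Cfsg.Spor.IsoJ1 ↥(P ⊔ P.map (MulAut.conj g).toMonoidHom)

/-- the conclusion: two members generate the group -/
def Cn {G : Type u} [Group G] (P : Subgroup G) : Prop :=
  ∃ g : G, P.map (MulAut.conj g).toMonoidHom ≠ P ∧ P ⊔ P.map (MulAut.conj g).toMonoidHom = ⊤

def Red1s : Prop := ∀ (G : Type u) [Group G] [Finite G] (P : Subgroup G), Hy P → IsSimpleGroup G →
  (∀ Y : Subgroup G, Y ≠ ⊤ → ∀ P' : Subgroup Y, Hy P' → Cn P') → Cn P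

def Red2s : Prop := ∀ (G : Type u) [Group G] [Finite G] (P : Subgroup G), Hy P → ¬ IsSimpleGroup G →
  (∀ (N : Subgroup G) [N.Normal], N ≠ ⊥ → ∀ P' : Subgroup (G ⧸ N), Hy P' → Cn P') → Cn P

end CL.E11
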