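/-
Project E11 (S3403): assembly of the steps.
-/
import Cfsg.Agent.E11.St

set_option autoImplicit false
set_option linter.unusedSectionVars false

namespace CL.E11

open MulAction Subgroup

universe u

section

variable {G Ω : Type u} [Group G] [Finite G] [Finite Ω] [MulAction G Ω] {P : Ω → Subgroup G}

theorem three_lt_card {g : G} {α β γ : Ω} (h1 : α ≠ β) (h2 : α ≠ γ) (h3 : β ≠ γ) (ha : g • α = α)
    (hb : g • β = β) (hc : g • γ = γ) : 2 < Nat.card {x : Ω // g • x = x} := by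
  have : Fintype {x : Ω // g • x = x} := Fintype.ofFinite _
  rw [Nat.card_eq_fintype_card, Fintype.two_lt_card_iff]
  exact ⟨⟨α, ha⟩, ⟨β, hb⟩, ⟨γ, hc⟩, fun e => h1 (congrArg Subtype.val e), fun e => h2 (congrArg Subtype.val e),
    fun e => h3 (congrArg Subtype.val e)⟩

theorem exists_third {g : G} {α β : Ω} (h : 2 < Nat.card {x : Ω // g • x = x}) :
    ∃ γ : Ω, α ≠ γ ∧ β ≠ γ ∧ g • γ = γ := by
  have : Fintype {x : Ω // g • x = x} := Fintype.ofFinite _
  rw [Nat.card_eq_fintype_card, Fintype.two_lt_card_iff] at h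
  obtain ⟨a, b, c, h1, h2, h3⟩ := h
  by_contra hn
  push Not at hn
  have key : ∀ x : {x : Ω // g • x = x}, α = x.1 ∨ β = x.1 := fun x => by
    by_contra hx
    push Not at hx
    exact hn x.1 hx.1 hx.2 x.2
  rcases key a with ea | ea <;> rcases key b with eb | eb <;> rcases key c with ec | ec <;>
    first
    | exact h1 (Subtype.ext (ea.symm.trans eb))
    | exact h2 (Subtype.ext (ea.symm.trans ec))
    | exact h3 (Subtype.ext (eb.symm.trans ec))

/-- the end of the odd case: a cyclic two-point stabiliser -/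
theorem fin_odd (hC : CYCs.{u}) (hG : Geo P) (hO : OD P) {α β : Ω} (hab : α ≠ β)
    (hκ : Nat.card (Kk P α β) = 1 ∨ Nat.card (Kk P α β) = 3 ∨ Nat.card (Kk P α β) = 11)
    (hu : ∀ u ∈ St G α β, orderOf u = 2 → chi P u α = -1 → ∀ k ∈ Kk P α β, u * k = k * u) : False := by
  have hB := hG.ca.base
  have L1 := hG.ca.lf1 α β hab
  obtain ⟨h, s, H⟩ := L1.hs
  have hcyc : IsCyclic (Kk P α β) := by
    rcases hκ with e | e | e
    · haveI := (Nat.card_eq_one_iff_unique.1 e).1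
      infer_instance
    · haveI : Fact (Nat.Prime 3) := ⟨by norm_num⟩
      exact isCyclic_of_prime_card e
    · haveI : Fact (Nat.Prime 11) := ⟨by norm_num⟩
      exact isCyclic_of_prime_card e
  obtain ⟨⟨k, hk⟩, hko⟩ := hcyc.exists_ofOrder_eq_natCard
  rw [Subgroup.orderOf_mk] at hko
  have hkS : k ∈ St G α β := ⟨hB.Kk_fix (left_mem_Ln α β) hk, hB.Kk_fix (right_mem_Ln α β) hk⟩
  have hhS : h ∈ St G α β := ⟨H.ha, H.hb⟩
  have hkh : Commute k h := (mem_Cz.1 hk h H.hL).symm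
  have o1 : orderOf (k * h) = Nat.card (Kk P α β) * 5 := by
    rw [hkh.orderOf_mul_eq_mul_orderOf_of_coprime, hko, H.ho]
    rw [hko, H.ho]
    rcases hκ with e | e | e <;> rw [e] <;> norm_num
  have hS : IsCyclic (St G α β) ∧ Nat.card (St G α β) ∈ [5, 10, 15, 30, 55, 110] := by
    rcases hG.g2.cardS α β hab with ⟨c, -⟩ | ⟨c, g, hg, hχ⟩
    · refine ⟨isCyclic_of_orderOf_eq_card (⟨k * h, mul_mem hkS hhS⟩ : St G α β) ?_, ?_⟩
      · rw [Subgroup.orderOf_mk, o1, c, mul_comm]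
      · rcases hκ with e | e | e <;> rw [c, e] <;> simp
    · obtain ⟨u, huS, huo, huχ⟩ := hO.exu α β hab g hg hχ
      have huh : Commute h u := by
        have h1 : u * h * u⁻¹ * h⁻¹ ∈ Ls P α β :=
          mul_mem (hB.norm_Ls (Or.inl huS) h H.hL) (inv_mem H.hL)
        have hS' : u * h * u⁻¹ ∈ St G α β := mul_mem (mul_mem huS hhS) (inv_mem huS)
        have h2 : u * h * u⁻¹ * h⁻¹ ∈ Kk P α β := by
          refine L1.cen _ (mul_mem hS' (inv_mem hhS)).1 (mul_mem hS' (inv_mem hhS)).2 ?_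
          have e1 := hB.chi_conj u H.ha
          rw [show u • α = α from huS.1] at e1
          rw [hB.chi_mul hS'.1 (inv_mem hhS).1, e1, mul_comm]
          exact hB.chi_inv H.ha
        have := hB.eq_one_of_LK hab h1 h2
        rw [mul_inv_eq_one, mul_inv_eq_iff_eq_mul] at this
        exact this.symm
      have hc : Commute (k * h) u := Commute.mul_left (hu u huS huo huχ k hk).symm huh
      refine ⟨isCyclic_of_orderOf_eq_card (⟨k * h * u, mul_mem (mul_mem hkS hhS) huS⟩ : St G α β) ?_, ?_⟩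
      · rw [Subgroup.orderOf_mk, hc.orderOf_mul_eq_mul_orderOf_of_coprime, o1, huo, c]
        · ring
        · rw [o1, huo]
          rcases hκ with e | e | e <;> rw [e] <;> norm_num
      · rcases hκ with e | e | e <;> rw [c, e] <;> simp
  obtain ⟨⟨t, ⟨htS, ht1, ht2⟩, huniq⟩, hcl⟩ := hC G Ω P hG α β hab hS.1 (Or.inr hS.2)
  by_cases h1 : Nat.card (Kk P α β) = 1
  · have hbot : Kk P α β = ⊥ := card_eq_one.1 h1
    obtain ⟨γ, h2, h3, h4⟩ := exists_third (α := α) (β := β) ht2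
    have h5 := hG.g1.two t α β γ hab h2 h3 htS.1 htS.2 h4
    have h6 : t ^ 2 ∈ Kk P α β :=
      L1.cen _ (pow_mem htS 2).1 (pow_mem htS 2).2 (by rw [hB.chi_pow htS.1, h5])
    rw [hbot, mem_bot] at h6
    have ho : orderOf t = 2 := orderOf_eq_prime h6 ht1
    obtain ⟨c, hc⟩ := isConj_iff.1 (hcl t s ho H.so)
    refine hO.fpf α β hab s H.sL H.so (c • α) ?_
    rw [← hc, mul_smul, mul_smul, inv_smul_smul, show t • α = α from htS.1]
  · have hk1 : k ≠ 1 := fun e => h1 (by rw [← hko, e, orderOf_one])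
    have h12 := L1.card
    obtain ⟨γ, hγ, h2, h3⟩ : ∃ γ ∈ Ln P α β, α ≠ γ ∧ β ≠ γ := by
      by_contra hn
      push Not at hn
      have : Ln P α β ⊆ {α, β} := fun γ hγ => by
        by_cases e : α = γ
        · exact Or.inl e.symm
        · exact Or.inr (hn γ hγ e).symm
      have h4 := Set.ncard_le_ncard this (Set.toFinite _)
      have h5 := Set.ncard_pair hab
      omega
    have key : ∀ k' ∈ Kk P α β, k' ≠ 1 → k' = t := fun k' hk' h1' =>
      huniq k' ⟨⟨hB.Kk_fix (left_mem_Ln α β) hk', hB.Kk_fix (right_mem_Ln α β) hk'⟩, h1',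
        three_lt_card hab h2 h3 (hB.Kk_fix (left_mem_Ln α β) hk') (hB.Kk_fix (right_mem_Ln α β) hk')
          (hB.Kk_fix hγ hk')⟩
    have e : k⁻¹ = k := (key k⁻¹ (inv_mem hk) (inv_ne_one.2 hk1)).trans (key k hk hk1).symm
    have e2 : k ^ 2 = 1 := by rw [pow_two]; nth_rewrite 1 [← e]; exact inv_mul_cancel k
    have := orderOf_dvd_of_pow_eq_one e2
    rw [hko] at this
    rcases hκ with e | e | e
    · exact h1 e
    · rw [e] at this; omega
    · rw [e] at this; omega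

/-- if no involution inverting `P α` moves `K`, the two-point stabiliser induces inner automorphisms on `K` -/
theorem inner_of (hG : Geo P) (hO : OD P) {α β : Ω} (hab : α ≠ β)
    (hu : ∀ u ∈ St G α β, orderOf u = 2 → chi P u α = -1 → ∀ k ∈ Kk P α β, u * k = k * u) :
    ∀ g ∈ St G α β, ∃ k' ∈ Kk P α β, ∀ k ∈ Kk P α β, g * k * g⁻¹ = k' * k * k'⁻¹ := by
  have hB := hG.ca.base
  have L1 := hG.ca.lf1 α β hab
  obtain ⟨h, s, H⟩ := L1.hs
  have hhS : h ∈ St G α β := ⟨H.ha, H.hb⟩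
  have main : ∀ g ∈ St G α β, ∀ y ∈ St G α β, (∀ k ∈ Kk P α β, y * k = k * y) → chi P (g * y) α = 1 →
      ∃ k' ∈ Kk P α β, ∀ k ∈ Kk P α β, g * k * g⁻¹ = k' * k * k'⁻¹ := fun g hg y hy hc e =>
    ⟨g * y, L1.cen _ (mul_mem hg hy).1 (mul_mem hg hy).2 e, fun k hk => by
      calc g * k * g⁻¹ = g * (k * y) * y⁻¹ * g⁻¹ := by group
        _ = _ := by rw [← hc k hk]; group⟩
  have hh : ∀ i : ℕ, ∀ k ∈ Kk P α β, h ^ i * k = k * h ^ i := fun i k hk => mem_Cz.1 hk _ (pow_mem H.hL i)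
  intro g hg
  obtain ⟨i, hi⟩ : ∃ i : Fin 5, chi P g α * 3 ^ (i : ℕ) = 1 ∨ chi P g α * 3 ^ (i : ℕ) = -1 :=
    (by decide : ∀ c : ZMod 11, c ≠ 0 → ∃ i : Fin 5, c * 3 ^ (i : ℕ) = 1 ∨ c * 3 ^ (i : ℕ) = -1) _
      (hB.chi_ne_zero hg.1)
  have e1 : chi P (g * h ^ (i : ℕ)) α = chi P g α * 3 ^ (i : ℕ) := by
    rw [hB.chi_mul hg.1 (pow_mem hhS _).1, hB.chi_pow H.ha, H.hc]
  rcases hi with hi | hi
  · exact main g hg _ (pow_mem hhS _) (hh _) (e1.trans hi)
  · obtain ⟨u, huS, huo, huχ⟩ := hO.exu α β hab _ (mul_mem hg (pow_mem hhS i)) (e1.trans hi)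
    refine main g hg (h ^ (i : ℕ) * u) (mul_mem (pow_mem hhS _) huS) (fun k hk => ?_) ?_
    · rw [mul_assoc, hu u huS huo huχ k hk, ← mul_assoc, hh _ k hk, mul_assoc]
    · rw [← mul_assoc, hB.chi_mul (mul_mem hg (pow_mem hhS _)).1 huS.1, e1, hi, huχ]
      decide

end

theorem coreA (h1 : Geo1s.{u}) (h2 : Geo2s.{u}) (hFQ : FQs.{u}) (hTL : TLs.{u}) (hC : CYCs.{u}) (hE1 : E1s.{u})
    (h61 : E61s.{u}) (h121 : E121s.{u}) (hIIB : IIBs.{u}) (hIIC : IICs.{u}) (hE2 : E2s.{u}) (hOD : ODs.{u})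
    (hO8 : O8s.{u}) (hO1 : O1s.{u}) (hO4 : O4s.{u}) (hO2 : O2As.{u}) (hBT : BTs.{u}) (hZK : ZKs.{u})
    (hO3 : O3s.{u}) : All.{u} fun _ _ _ _ P => CA P → False := by
  intro G Ω _ _ _ _ P hA
  have g1 := h1 G Ω P hA
  have hG : Geo P := ⟨hA, g1, h2 G Ω P hA g1⟩
  have hB := hA.base
  have hT := hTL G Ω P hG
  have odd : ∀ α β : Ω, α ≠ β → Odd (Nat.card (Kk P α β)) → OD P := fun α β hab ho =>
    hOD G Ω P hG fun γ δ h => by rw [hG.g2.cardK α β γ δ hab h]; exact ho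
  have ev : OD P → Even (Nat.card Ω) := fun hO => even_iff_two_dvd.2 (dvd_trans (by norm_num) hO.four)
  by_cases hI : CaseI P
  · obtain ⟨α, β, hab⟩ := hB.two
    rcases Nat.even_or_odd (Nat.card (Kk P α β)) with he | ho
    · obtain ⟨⟨t, ht⟩, hto⟩ := exists_prime_orderOf_dvd_card' 2 (even_iff_two_dvd.1 he)
      rw [Subgroup.orderOf_mk] at hto
      have hn : Even (Nat.card Ω) := even_iff_two_dvd.2 (dvd_trans (by norm_num) (hT α β hab t ht hto).dvd)
      obtain ⟨Q, hQ⟩ := hFQ G Ω P hG hn hI α β hab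
      obtain ⟨hE, ⟨hn', z, hz, hzt⟩ | ⟨hn', hv⟩⟩ := hE1 G Ω P hG hI hT α β Q hab hQ t ht hto
      · exact hzt ((hC G Ω P hG α β hab (h61 G Ω P hG α β t hab hE hn') (Or.inl hn')).2 z t hz hto)
      · exact h121 G Ω P hG α β t hab hE hn' hv
    · have hO := odd α β hab ho
      obtain ⟨Q, hQ⟩ := hFQ G Ω P hG (ev hO) hI α β hab
      by_cases hu : ∀ u ∈ St G α β, orderOf u = 2 → chi P u α = -1 → ∀ k ∈ Kk P α β, u * k = k * u
      · obtain ⟨a1, a2, a3⟩ := hO2 G Ω P hG (ev hO) α β Q hab ho hQ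
        have := hZK G (Kk P α β) ho a1 a2 a3 (hBT G Ω P hG hI α β Q hab ho a1 hQ (inner_of hG hO hab hu))
        exact fin_odd hC hG hO hab (this.elim Or.inl fun e => Or.inr (Or.inl e)) hu
      · push Not at hu
        obtain ⟨u, huS, huo, huχ, hk⟩ := hu
        exact hO8 G Ω P hG hO α β hab ho u huS huo huχ (hO1 G Ω P hG hO α β Q hab ho hQ u huS huo huχ hk)
  · unfold CaseI at hI
    push Not at hI
    obtain ⟨α, β, γ, hab, hγ, k, hk, hx, hk1⟩ := hI
    have hII : CaseII P α β k := ⟨hab, hk, hk1, γ, hγ, hx⟩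
    have hF := hIIB G Ω P hG α β k hII
    have ho := hE2 G Ω P hG hT α β k hab hk hF (hIIC G Ω P hG α β k hII (hIIB G Ω P hG α β))
    have hO := odd α β hab ho
    have h11 := hO3 G Ω P hG (ev hO) α β k hab hk hF ho
    by_cases hu : ∀ u ∈ St G α β, orderOf u = 2 → chi P u α = -1 → ∀ k ∈ Kk P α β, u * k = k * u
    · exact fin_odd hC hG hO hab (Or.inr (Or.inr h11)) hu
    · push Not at hu
      obtain ⟨u, huS, huo, huχ, k', hk', hne⟩ := hu
      have hK : zpowers k = Kk P α β :=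
        eq_of_le_of_card_ge (zpowers_le.2 hk) (by rw [Nat.card_zpowers, hF.ord, h11])
      have h3 : u * k * u⁻¹ ∈ zpowers k := hK ▸ hB.norm_Kk (Or.inl huS) k hk
      rw [← mem_powers_iff_mem_zpowers] at h3
      obtain ⟨i, hi⟩ := h3
      have hi : k ^ i = u * k * u⁻¹ := hi
      have hu2 : u * u = 1 := by rw [← pow_two, ← huo, pow_orderOf_eq_one]
      have h4 : k ^ (i * i) = k ^ 1 := by
        rw [pow_mul, hi, conj_pow, hi, pow_one]
        calc u * (u * k * u⁻¹) * u⁻¹ = (u * u) * k * (u * u)⁻¹ := by group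
          _ = k := by rw [hu2]; simp
      rw [pow_eq_pow_iff_modEq, hF.ord] at h4
      have h5 : i % 11 = 1 ∨ i % 11 = 10 := by
        have : (i % 11) * (i % 11) % 11 = 1 := by rw [← Nat.mul_mod]; exact h4
        have hlt := Nat.mod_lt i (show 0 < 11 by norm_num)
        generalize i % 11 = j at this hlt
        interval_cases j <;> omega
      have h11' : k ^ 11 = 1 := by rw [← hF.ord, pow_orderOf_eq_one]
      rw [pow_eq_pow_mod i h11'] at hi
      rcases h5 with e | e <;> rw [e] at hi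
      · rw [← hK, ← mem_powers_iff_mem_zpowers] at hk'
        obtain ⟨j, rfl⟩ := hk'
        have : Commute u k := by
          rw [pow_one, eq_mul_inv_iff_mul_eq] at hi
          exact hi.symm
        exact hne (this.pow_right j).eq
      · refine hO8 G Ω P hG hO α β hab ho u huS huo huχ (hO4 G Ω P hG hO α β k hab h11 hk hk1 u huS huo ?_)
        rw [← hi, eq_inv_iff_mul_eq_one, ← pow_succ, h11']

theorem core (l1 : LF1s.{u}) (l2 : LF2s.{u}) (l3 : LF3s.{u}) (hS : SEs.{u}) (b1 : BF1s.{u}) (b2 : BF2s.{u})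
    (jc : JCs.{u}) (jd : JDs.{u}) (je : JEs.{u}) (hA : All.{u} fun _ _ _ _ P => CA P → False) : Core.{u} := by
  intro G Ω _ _ _ _ P hB hind
  have f1 : ∀ α β : Ω, α ≠ β → TA (Ls P α β) → LF1 P α β := l1 G Ω P hB
  have f2 : ∀ α β : Ω, α ≠ β → TA (Ls P α β) → LF2 P α β := fun α β h a => l2 G Ω P hB α β h a (f1 α β h a)
  have f3 : ∀ α β : Ω, α ≠ β → TA (Ls P α β) → LF3 P α β := fun α β h a =>
    l3 G Ω P hB α β h a (f1 α β h a) (f2 α β h a)
  by_cases hall : ∀ α β : Ω, α ≠ β → TA (Ls P α β)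
  · by_contra hn
    push Not at hn
    exact hA G Ω P ⟨hB, hall, hind, hn, fun α β h => f1 α β h (hall α β h), fun α β h => f2 α β h (hall α β h),
      fun α β h => f3 α β h (hall α β h),
      fun α β h => hS G Ω P hB α β h (hall α β h) (f1 α β h (hall α β h)) (f2 α β h (hall α β h))⟩
  · push Not at hall
    obtain ⟨α, β, hab, hn⟩ := hall
    have hT := (hB.pair α β hab).resolve_left hn
    have hCB : CB P := ⟨hB, f1, f3, b1 G Ω P hB, fun α β h a => b2 G Ω P hB α β h a (b1 G Ω P hB α β h a)⟩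
    exact ⟨α, β, hab, je G Ω P hCB α β hab hT (jd G Ω P hCB (jc G Ω P hCB) α β hab hT)⟩

theorem cn_of_hy (r1 : Red1s.{u}) (r2 : Red2s.{u}) (G : Type u) [Group G] [Finite G] (P : Subgroup G)
    (h : Hy P) : Cn P := by
  obtain ⟨n, hn⟩ : ∃ n, Nat.card G = n := ⟨_, rfl⟩
  induction n using Nat.strong_induction_on generalizing G with
  | _ n ih =>
    by_cases hs : IsSimpleGroup G
    · refine r1 G P h hs fun Y hY P' h' => ih _ ?_ Y P' h' rfl
      rw [← hn]
      exact lt_of_le_of_ne (card_le_card_group Y) fun e => hY (eq_top_of_card_eq Y e)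
    · refine r2 G P h hs fun N _ hN P' h' => ih _ ?_ (G ⧸ N) P' h' rfl
      rw [← hn, card_eq_card_quotient_mul_card_subgroup N]
      exact lt_mul_of_one_lt_right Nat.card_pos ((one_lt_card_iff_ne_bot N).2 hN)

end CL.E11
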