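/-
Project E11 (S3403): geometry of a pair of type B, part 1.
-/
import Cfsg.Agent.E11.St

set_option autoImplicit false
set_option linter.unusedSectionVars false

namespace CL.E11

open MulAction Subgroup

universe u

namespace BF1x

variable {G Ω : Type u} [Group G] [Finite G] [MulAction G Ω] {P : Ω → Subgroup G} (hB : Base P)
  {α β : Ω} (hJ : TB (Ls P α β))
include hB hJ

omit hB in
theorem dec (g : G) (hg : ∀ x ∈ Ls P α β, g * x * g⁻¹ ∈ Ls P α β) :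
    ∃ j ∈ Ls P α β, ∃ k ∈ Kk P α β, g = j * k := by
  obtain ⟨j, hj, h⟩ := hJ.inner g hg
  refine ⟨j, hj, j⁻¹ * g, mem_Cz.2 fun x hx => ?_, by group⟩
  calc x * (j⁻¹ * g) = j⁻¹ * (j * x * j⁻¹) * g := by group
    _ = _ := by rw [← h x hx]; group

theorem tr {γ : Ω} (hγ : γ ∈ Ln P α β) : ∃ j ∈ Ls P α β, j • α = γ := by
  haveI : Fact (Nat.Prime 11) := ⟨by norm_num⟩
  have key : ∀ δ ∈ Ln P α β, ∃ Q : Sylow 11 (Ls P α β), (Q : Subgroup _) = (P δ).subgroupOf (Ls P α β) := by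
    intro δ hδ
    have h1 : Nat.card ((P δ).subgroupOf (Ls P α β)) = 11 :=
      (Nat.card_congr (subgroupOfEquivOfLe hδ).toEquiv).trans (hB.card δ)
    have h2 := ((P δ).subgroupOf (Ls P α β)).card_mul_index
    rw [h1, hJ.card] at h2
    exact ⟨IsPGroup.toSylow (IsPGroup.of_card (n := 1) h1) (by omega), rfl⟩
  obtain ⟨Q, hQ⟩ := key α (left_mem_Ln α β)
  obtain ⟨Q', hQ'⟩ := key γ hγ
  obtain ⟨j, hj⟩ := exists_smul_eq (Ls P α β) Q Q'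
  obtain ⟨x, hx, h1⟩ := hB.exists_gen α
  refine ⟨j, j.2, hB.smul_eq_of_conj hx h1 ?_⟩
  have h2 : (⟨x, left_mem_Ln α β hx⟩ : Ls P α β) ∈ (Q : Subgroup _) := hQ ▸ hx
  have h3 : j * ⟨x, left_mem_Ln α β hx⟩ * j⁻¹ ∈ (Q' : Subgroup _) := hj ▸ ⟨_, h2, rfl⟩
  rw [hQ'] at h3
  exact h3

theorem memP {j : G} (hj : j ∈ Ls P α β) {γ : Ω} (hγ : γ ∈ Ln P α β) (h : j • γ = γ) (hc : chi P j γ = 1) :
    j ∈ P γ := by
  obtain ⟨x, hx, h1⟩ := hB.exists_gen γ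
  rw [← hB.zpowers_eq hx h1]
  exact hJ.c11 x (hγ hx) (hB.orderOf_eq hx h1) j hj (mem_Cz.1 ((hB.chi_eq_one_iff h).1 hc) x hx).symm

theorem eq_one {j : G} (hj : j ∈ Ls P α β) {γ δ : Ω} (hγ : γ ∈ Ln P α β) (hne : γ ≠ δ) (h : j • γ = γ)
    (h' : j • δ = δ) (hc : chi P j γ = 1) : j = 1 :=
  by_contra fun e => hne (hB.eq_of_fix (memP hB hJ hj hγ h hc) e h').symm

theorem cen (hne : α ≠ β) (g : G) (h1 : g • α = α) (h2 : g • β = β) (hc : chi P g α = 1) : g ∈ Kk P α β := by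
  obtain ⟨j, hj, k, hk, rfl⟩ := dec hJ g (hB.norm_Ls (Or.inl ⟨h1, h2⟩))
  have ka := hB.Kk_fix (left_mem_Ln α β) hk
  rw [mul_smul, ka] at h1
  rw [mul_smul, hB.Kk_fix (right_mem_Ln α β) hk] at h2
  rw [hB.chi_mul h1 ka, hB.chi_Kk (left_mem_Ln α β) hk, mul_one] at hc
  rw [eq_one hB hJ hj (left_mem_Ln α β) hne h1 h2 hc, one_mul]
  exact hk

theorem chi5 {j : G} (hj : j ∈ Ls P α β) {γ : Ω} (hγ : γ ∈ Ln P α β) (h : j • γ = γ) (ho : orderOf j = 5) :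
    chi P j γ ≠ 1 := fun e => by
  have := orderOf_dvd_of_pow_eq_one (hB.pow11 (memP hB hJ hj hγ h e))
  rw [ho] at this
  omega

theorem exy {γ : Ω} (hγ : γ ∈ Ln P α β) :
    ∃ y ∈ Ls P α β, y • γ = γ ∧ chi P y γ = 2 ∧ y ^ 110 = 1 := by
  obtain ⟨x, hx, h1⟩ := hB.exists_gen γ
  obtain ⟨y, hy, e⟩ := hJ.n11 x (hγ hx) (hB.orderOf_eq hx h1)
  have h2 : y • γ = γ := hB.smul_eq_of_conj hx h1 (e ▸ pow_mem hx 2)
  refine ⟨y, hy, h2, hB.chi_eq hx h1 e, ?_⟩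
  have h3 := memP hB hJ (pow_mem hy 10) hγ ((stabilizer G γ).pow_mem h2 10)
    (by rw [hB.chi_pow h2, hB.chi_pow_ten h2])
  rw [show 110 = 10 * 11 from rfl, pow_mul, hB.pow11 h3]

omit hJ in
theorem ord2 {s : G} {γ : Ω} (hc : chi P s γ = -1) (h : s * s = 1) : orderOf s = 2 :=
  orderOf_eq_prime (by rw [pow_two, h]) fun e => by
    rw [e, hB.chi_one] at hc
    exact absurd hc (by decide)

theorem exs0 {γ : Ω} (hγ : γ ∈ Ln P α β) :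
    ∃ s ∈ Ls P α β, s • γ = γ ∧ chi P s γ = -1 ∧ s * s = 1 := by
  obtain ⟨y, hy, h1, h2, h3⟩ := exy hB hJ hγ
  refine ⟨y ^ 55, pow_mem hy _, (stabilizer G γ).pow_mem h1 55, ?_, by rw [← pow_add, h3]⟩
  rw [hB.chi_pow h1, h2]
  decide

theorem exs {j : G} (hj : j ∈ Ls P α β) {γ : Ω} (hγ : γ ∈ Ln P α β) (h : j • γ = γ) (ho : orderOf j = 5) :
    ∃ s ∈ Ls P α β, orderOf s = 2 ∧ s • γ = γ ∧ chi P s γ = -1 ∧ s * j = j * s := by
  obtain ⟨s, hs, h1, h2, h3⟩ := exs0 hB hJ hγ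
  have h4 : (j * s * j⁻¹) • γ = γ := (stabilizer G γ).mul_mem ((stabilizer G γ).mul_mem h h1)
    ((stabilizer G γ).inv_mem h)
  have h5 : chi P (j * s * j⁻¹) γ = -1 := by
    have := hB.chi_conj j h1
    rwa [h, h2] at this
  have hz : j * s * j⁻¹ * s ∈ P γ := memP hB hJ (mul_mem (mul_mem (mul_mem hj hs) (inv_mem hj)) hs) hγ
    (by rw [mul_smul, h1, h4]) (by rw [hB.chi_mul h4 h1, h5, h2]; decide)
  obtain ⟨z, hze⟩ : ∃ z, z = j * s * j⁻¹ * s := ⟨_, rfl⟩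
  rw [← hze] at hz
  have h6 : j * s * j⁻¹ = z * s := by rw [hze, mul_assoc _ s s, h3, mul_one]
  obtain ⟨m, hm⟩ := (by decide : ∀ c : ZMod 11, c ≠ 1 → ∃ m : Fin 11, (c.val * m.val + 1) % 11 = m.val) _
    (chi5 hB hJ hj hγ h ho)
  have hw := pow_mem hz m.val
  have h7 := hB.self_fix hw
  have h8 : chi P (z ^ m.val * s) γ = -1 := by
    rw [hB.chi_mul h7 h1, hB.chi_of_cent (hB.P_le_Cz γ hw), h2, one_mul]
  refine ⟨z ^ m.val * s, mul_mem (hγ hw) hs, ord2 hB h8 ?_, by rw [mul_smul, h1, h7], h8, ?_⟩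
  · have := hB.inv_of_chi h1 h2 hw
    rw [inv_eq_of_mul_eq_one_right h3] at this
    rw [mul_assoc, ← mul_assoc s, this, mul_inv_cancel]
  · symm
    rw [← mul_inv_eq_iff_eq_mul, ← conj_mul, h6, ← conj_pow, hB.chi_spec h hz, ← pow_mul, ← mul_assoc,
      ← pow_succ, pow_eq_pow_mod _ (hB.pow11 hz), hm]

theorem mate {j : G} (hj : j ∈ Ls P α β) {γ : Ω} (hγ : γ ∈ Ln P α β) (h : j • γ = γ) (ho : orderOf j = 5) :
    ∃ δ ∈ Ln P α β, δ ≠ γ ∧ j • δ = δ ∧ chi P j δ = chi P j γ := by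
  obtain ⟨w, hw, h3, hc⟩ := hJ.c15 j hj ho
  refine ⟨w • γ, hB.smul_mem_Ln_of_mem hw hγ, fun e => ?_, by rw [← mul_smul, ← hc, mul_smul, h], ?_⟩
  · have h1 := hB.chi_pow e 3
    rw [← h3, pow_orderOf_eq_one, hB.chi_one, h3] at h1
    have h2 := (by decide : ∀ c : ZMod 11, 1 = c ^ 3 → c = 1) _ h1
    have := orderOf_dvd_of_pow_eq_one (hB.pow11 (memP hB hJ hw hγ e h2))
    rw [h3] at this
    omega
  · have := hB.chi_conj w h
    rwa [hc, mul_inv_cancel_right] at this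

end BF1x

open BF1x in
theorem bf1 : BF1s.{u} := by
  intro G Ω _ _ _ _ P hB α β hne hJ
  haveI : Fact (Nat.Prime 5) := ⟨by norm_num⟩
  refine ⟨dec hJ, fun γ hγ => tr hB hJ hγ, fun γ hγ δ hδ _ h => ?_, cen hB hJ hne,
    fun j hj γ hγ δ _ hd h1 h2 h3 h4 => ?_, fun j hj γ hγ => chi5 hB hJ hj hγ,
    fun j hj γ hγ => exs hB hJ hj hγ, fun t ht ho => ?_, fun j hj γ hγ => mate hB hJ hj hγ, ?_⟩
  · exact eq_of_le_of_card_ge (Ls_le hγ hδ) (by rw [h.card, hJ.card])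
  · refine orderOf_eq_prime (eq_one hB hJ (pow_mem hj 5) hγ hd ((stabilizer G γ).pow_mem h1 5)
      ((stabilizer G δ).pow_mem h2 5) (by rw [hB.chi_pow h1, h3])) fun e => h4 ?_
    rw [e, hB.chi_one]
  · obtain ⟨s, hs, h1, h2, h3⟩ := exs0 hB hJ (left_mem_Ln α β)
    obtain ⟨g, hg, rfl⟩ := hJ.cls s hs t ht (ord2 hB h2 h3) ho
    exact ⟨g • α, hB.smul_mem_Ln_of_mem hg (left_mem_Ln α β),
      by rw [mul_smul, mul_smul, inv_smul_smul, h1], (hB.chi_conj g h1).trans h2⟩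
  · obtain ⟨y, hy, h1, h2, h3⟩ := exy hB hJ (left_mem_Ln α β)
    refine ⟨y ^ 22, pow_mem hy _, orderOf_eq_prime (by rw [← pow_mul, h3]) fun e => ?_,
      (stabilizer G α).pow_mem h1 22⟩
    have := hB.chi_pow h1 22
    rw [e, hB.chi_one, h2] at this
    exact absurd this (by decide)

end CL.E11
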