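import Cfsg.Agent.E11.BF1

/-! Geometry of a pair of type B, part 2. -/

set_option autoImplicit false
set_option linter.unusedSectionVars false

namespace CL.E11

open MulAction Subgroup

universe u

namespace BF2x

variable {G Ω : Type u} [Group G] [Finite G] [MulAction G Ω] {P : Ω → Subgroup G}

theorem solve (hB : Base P) {γ : Ω} {g x : G} (hf : g • γ = γ) (hc : chi P g γ ≠ 1) (hx : x ∈ P γ) :
    ∃ z ∈ P γ, z * g * z⁻¹ = x * g := by
  obtain ⟨n, hn⟩ := (by decide : ∀ c : ZMod 11, c ≠ 1 → ∃ n : ZMod 11, n * c + 1 = n) _ hc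
  have e : g * x ^ n.val * g⁻¹ * x = x ^ n.val := by
    rw [hB.chi_spec hf (pow_mem hx _), ← pow_mul, ← pow_succ, ← hB.pow_val_natCast hx]
    congr 2
    simpa using hn
  rw [hB.comm (hB.conj_fix hf (pow_mem hx _)) hx] at e
  refine ⟨x ^ n.val, pow_mem hx _, ?_⟩
  calc x ^ n.val * g * (x ^ n.val)⁻¹ = x * (g * x ^ n.val * g⁻¹) * g * (x ^ n.val)⁻¹ := by rw [e]
    _ = x * g := by group

theorem sq_comm {J : Subgroup G} (h4 : ∀ y ∈ J, y ^ 4 = 1 → y ^ 2 = 1) {y j : G} (hy : y ∈ J)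
    (hc : Commute (y ^ 4) j) : Commute (y ^ 2) j := by
  have key : ∀ e : ℕ, ∀ w ∈ J, w ^ 2 ^ (e + 1) = 1 → w ^ 2 = 1 := by
    intro e
    induction e with
    | zero => intro w _ h; simpa using h
    | succ e ih =>
      intro w hw h
      refine h4 w hw ?_
      have := ih (w ^ 2) (pow_mem hw 2) (by rw [← pow_mul, ← h]; congr 1; ring)
      rwa [← pow_mul] at this
  obtain ⟨e, o, ⟨m, rfl⟩, ho⟩ := Nat.exists_eq_two_pow_mul_odd (orderOf_pos y).ne'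
  have h1 := key e (y ^ (2 * m + 1)) (pow_mem hy _) (by
    rw [← pow_mul, show (2 * m + 1) * 2 ^ (e + 1) = orderOf y * 2 by rw [ho]; ring, pow_mul, pow_orderOf_eq_one,
      one_pow])
  have h2 : y ^ 2 = ((y ^ 4) ^ m)⁻¹ := by
    rw [eq_inv_iff_mul_eq_one, ← pow_mul, ← pow_add, ← h1, ← pow_mul]; congr 1; ring
  rw [h2]
  exact (hc.pow_left m).inv_left

theorem conj_iter {y j : G} {i : ℕ} (h : y⁻¹ * j * y = j ^ i) (n : ℕ) : (y ^ n)⁻¹ * j * y ^ n = j ^ i ^ n := by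
  induction n with
  | zero => simp
  | succ n ih =>
    calc (y ^ (n + 1))⁻¹ * j * y ^ (n + 1) = y⁻¹ * ((y ^ n)⁻¹ * j * y ^ n) * y⁻¹⁻¹ := by rw [pow_succ]; group
      _ = j ^ i ^ (n + 1) := by rw [ih, ← conj_pow, inv_inv, h, ← pow_mul, pow_succ']

variable (hB : Base P) {α β : Ω} (hne : α ≠ β) (hT : TB (Ls P α β))
include hB hne hT

theorem inj {g g' : G} (hg : g ∈ Ls P α β) (hg' : g' ∈ Ls P α β) (h : g ∈ St G α β) (h' : g' ∈ St G α β)
    (e : chi P g α = chi P g' α) : g = g' := by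
  have hi := inv_mem h'
  refine (inv_mul_eq_one.1 (BF1x.eq_one hB hT (mul_mem (inv_mem hg') hg) (left_mem_Ln α β) hne
    (mul_mem hi h).1 (mul_mem hi h).2 ?_)).symm
  rw [hB.chi_mul hi.1 h.1, e, hB.chi_inv h'.1]

theorem pow_iff {j : G} (hj : j ∈ Ls P α β) (h : j ∈ St G α β) (n : ℕ) :
    (chi P j α ^ n = 1 ↔ j ^ n = 1) ∧ (chi P j β ^ n = 1 ↔ j ^ n = 1) := by
  rw [← hB.chi_pow h.1, ← hB.chi_pow h.2]
  exact ⟨⟨BF1x.eq_one hB hT (pow_mem hj n) (left_mem_Ln α β) hne (pow_mem h n).1 (pow_mem h n).2,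
    fun e => e ▸ hB.chi_one α⟩, BF1x.eq_one hB hT (pow_mem hj n) (right_mem_Ln α β) hne.symm (pow_mem h n).2
      (pow_mem h n).1, fun e => e ▸ hB.chi_one β⟩

theorem core (h1 : BF1 P α β) {j : G} (hj : j ∈ Ls P α β) (h : j ∈ St G α β) (h2 : chi P j α ^ 2 ≠ 1) :
    chi P j β * chi P j α = 1 ∨ chi P j β = chi P j α ∧ ∃ y ∈ Ls P α β, y • α = β ∧ y * j = j * y := by
  have hp : ∀ n, chi P j α ^ n = 1 ↔ chi P j β ^ n = 1 := fun n =>
    (pow_iff hB hne hT hj h n).1.trans (pow_iff hB hne hT hj h n).2.symm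
  obtain ⟨i, hi, hi1, hi4, hi2⟩ := (by decide +kernel : ∀ c c' : ZMod 11, c ≠ 0 → c' ≠ 0 → c ^ 2 ≠ 1 → c' ^ 2 ≠ 1 →
    (c ^ 5 = 1 ↔ c' ^ 5 = 1) → ∃ i : Fin 10, c' = c ^ i.val ∧ c' ≠ 1 ∧ c ^ (i.val ^ 4 % 10) = c ∧
      (c ^ (i.val ^ 2 % 10) = c → c' * c = 1 ∨ c' = c)) _ _ (hB.chi_ne_zero h.1) (hB.chi_ne_zero h.2) h2
    (fun e => h2 ((hp 2).2 e)) (hp 5)
  rw [← pow_eq_pow_mod _ (hB.chi_pow_ten h.1)] at hi4 hi2
  obtain ⟨y, hy, ey⟩ := h1.tr β (right_mem_Ln α β)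
  have ey' : y⁻¹ • β = α := by rw [← ey, inv_smul_smul]
  have f1 : (y⁻¹ * j * y) • α = α := by rw [mul_smul, mul_smul, ey, show j • β = β from h.2, ey']
  have c1 : chi P (y⁻¹ * j * y) α = chi P j β := by
    have := hB.chi_conj y⁻¹ (show j • β = β from h.2)
    rwa [inv_inv, ey'] at this
  have hs := pow_mem h i.val
  have c2 : chi P (j ^ i.val) α = chi P j β := by rw [hB.chi_pow h.1, ← hi]
  have hx : y⁻¹ * j * y * (j ^ i.val)⁻¹ ∈ P α := BF1x.memP hB hT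
    (mul_mem (mul_mem (mul_mem (inv_mem hy) hj) hy) (inv_mem (pow_mem hj _))) (left_mem_Ln α β)
    ((stabilizer G α).mul_mem f1 (inv_mem hs).1)
    (by rw [hB.chi_mul f1 (inv_mem hs).1, c1, ← c2, mul_comm, hB.chi_inv hs.1])
  obtain ⟨z, hz, ez⟩ := solve hB hs.1 (by rwa [c2]) hx
  have hw : y * z ∈ Ls P α β := mul_mem hy (left_mem_Ln α β hz)
  have ew : (y * z)⁻¹ * j * (y * z) = j ^ i.val := by
    rw [inv_mul_cancel_right] at ez
    calc (y * z)⁻¹ * j * (y * z) = z⁻¹ * (y⁻¹ * j * y) * z := by group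
      _ = j ^ i.val := by rw [← ez]; group
  have hpow : ∀ n, chi P j α ^ n = chi P j α → j ^ n = j := fun n e =>
    inj hB hne hT (pow_mem hj n) hj (pow_mem h n) h (by rw [hB.chi_pow h.1, e])
  have hcm : ∀ w : G, w⁻¹ * j * w = j → Commute w j := fun w e => by
    calc w * j = w * (w⁻¹ * j * w) := by rw [e]
      _ = j * w := by group
  have k4 := hcm _ ((conj_iter ew 4).trans (hpow _ hi4))
  have k2 := sq_comm hT.no4 hw k4
  have e2 := conj_iter ew 2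
  rw [mul_assoc, ← k2.eq, inv_mul_cancel_left] at e2
  refine (hi2 (by rw [← hB.chi_pow h.1, ← e2])).imp id fun e => ⟨e, y * z, hw, ?_, ?_⟩
  · rw [mul_smul, hB.self_fix hz, ey]
  · exact hcm _ (ew.trans (hpow _ (hi.symm.trans e)))

theorem red (h1 : BF1 P α β) {g : G} (ha : g • α = α) (hb : g • β = β) :
    ∃ j ∈ Ls P α β, j ∈ St G α β ∧ chi P g α = chi P j α ∧ chi P g β = chi P j β := by
  obtain ⟨j, hj, k, hk, rfl⟩ := h1.dec g (hB.norm_Ls (.inl ⟨ha, hb⟩))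
  have ka := hB.Kk_fix (left_mem_Ln α β) hk
  have kb := hB.Kk_fix (right_mem_Ln α β) hk
  rw [mul_smul, ka] at ha
  rw [mul_smul, kb] at hb
  exact ⟨j, hj, ⟨ha, hb⟩, by rw [hB.chi_mul ha ka, hB.chi_Kk (left_mem_Ln α β) hk, mul_one],
    by rw [hB.chi_mul hb kb, hB.chi_Kk (right_mem_Ln α β) hk, mul_one]⟩

end BF2x

open BF2x

theorem bf2 : BF2s.{u} := by
  intro G Ω _ _ _ _ P hB α β hne hT h1
  have : Fact (Nat.Prime 5) := ⟨by norm_num⟩
  refine ⟨fun g ha hb => ?_, fun g ha hb h2 h5 => ?_, fun t ht j hj ot oj e => ?_⟩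
  · obtain ⟨j, hj, h, e1, e2⟩ := red hB hne hT h1 ha hb
    rw [e1, e2]
    by_cases h2 : chi P j α ^ 2 = 1
    · have hp : ∀ n, chi P j α ^ n = 1 ↔ chi P j β ^ n = 1 := fun n =>
        (pow_iff hB hne hT hj h n).1.trans (pow_iff hB hne hT hj h n).2.symm
      exact .inl ((by decide : ∀ c c' : ZMod 11, c ^ 2 = 1 → c' ^ 2 = 1 → (c ^ 1 = 1 ↔ c' ^ 1 = 1) → c' = c) _ _ h2
        ((hp 2).1 h2) (hp 1))
    · exact (core hB hne hT h1 hj h h2).elim .inr fun e => .inl e.1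
  · obtain ⟨j, hj, h, e1, e2⟩ := red hB hne hT h1 ha hb
    rw [e1] at h2 h5
    rw [e1, e2]
    refine (core hB hne hT h1 hj h h2).resolve_right ?_
    rintro ⟨-, y, hy, ey, hc⟩
    have h10 := (pow_iff hB hne hT hj h 10).1.1 (hB.chi_pow_ten h.1)
    have o2 : orderOf (j ^ 5) = 2 := orderOf_eq_prime (by rw [← pow_mul]; exact h10)
      fun e => h5 ((pow_iff hB hne hT hj h 5).1.2 e)
    have o5 : orderOf (j ^ 6) = 5 := orderOf_eq_prime
      (by rw [← pow_mul, show 6 * 5 = 10 * 3 from rfl, pow_mul, h10, one_pow]) fun e => h2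
      ((by decide : ∀ c : ZMod 11, c ^ 6 = 1 → c ^ 10 = 1 → c ^ 2 = 1) _ ((pow_iff hB hne hT hj h 6).1.2 e)
        (hB.chi_pow_ten h.1))
    have hm := hT.c10 _ (pow_mem hj 5) _ (pow_mem hj 6) o2 o5 (Commute.pow_pow_self j 5 6) y hy
      (Commute.pow_right hc 5) (Commute.pow_right hc 6)
    exact hne ((zpowers_le.2 (mul_mem (pow_mem h 5) (pow_mem h 6)) hm).1.symm.trans ey)
  · obtain ⟨h, hh, oh, ha⟩ := h1.exh
    obtain ⟨s, hs, os, sa, -, sh⟩ := h1.exs h hh α (left_mem_Ln α β) ha oh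
    obtain ⟨r, hr, rs, rh⟩ := hT.inv5 s hs h hh os oh sh
    have hb : h • r • α = r • α := by
      have e' : h * r = r * h⁻¹ := by
        calc h * r = (r * h * r⁻¹)⁻¹ * r := by rw [rh, inv_inv]
          _ = r * h⁻¹ := by group
      rw [← mul_smul, e', mul_smul, show h⁻¹ • α = α from (stabilizer G α).inv_mem ha]
    have sb : s • r • α = r • α := by rw [← mul_smul, ← rs, mul_smul, sa]
    have hne' : α ≠ r • α := fun e' => by
      have c := hB.chi_conj r ha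
      rw [rh, ← e'] at c
      have c2 := hB.chi_inv ha
      rw [c] at c2
      refine h1.chi5 h hh α (left_mem_Ln α β) ha oh
        ((by decide : ∀ c : ZMod 11, c * c = 1 → c ^ 5 = 1 → c = 1) _ c2 ?_)
      rw [← hB.chi_pow ha, ← oh, pow_orderOf_eq_one, hB.chi_one]
    obtain ⟨g1, hg1, rfl⟩ := hT.cls s hs t ht os ot
    have oc : ∀ a b : G, orderOf (a * b * a⁻¹) = orderOf b := fun a b =>
      (MulAut.conj a).orderOf_eq b
    obtain ⟨g, hg, gt, gj⟩ := hT.cj10 _ ht (g1 * h * g1⁻¹) (mul_mem (mul_mem hg1 hh) (inv_mem hg1)) j hj ot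
      ((oc _ _).trans oh) oj (by
        calc g1 * s * g1⁻¹ * (g1 * h * g1⁻¹) = g1 * (s * h) * g1⁻¹ := by group
          _ = _ := by rw [sh]; group) e
    have hz : zpowers (g * (g1 * h * g1⁻¹) * g⁻¹) = zpowers j := eq_of_le_of_card_ge (zpowers_le.2 gj)
      (by rw [Nat.card_zpowers, Nat.card_zpowers, oc, oc, oh, oj])
    have key : ∀ δ : Ω, s • δ = δ → h • δ = δ →
        (g1 * s * g1⁻¹) • (g * g1) • δ = (g * g1) • δ ∧ j • (g * g1) • δ = (g * g1) • δ := fun δ k1 k2 => by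
      constructor
      · rw [← mul_smul, ← mul_assoc, ← gt, show g * (g1 * s * g1⁻¹) * g1 = g * g1 * s by group, mul_smul, k1]
      · have : zpowers j ≤ stabilizer G ((g * g1) • δ) := by
          rw [← hz, zpowers_le, mem_stabilizer_iff, ← mul_smul,
            show g * (g1 * h * g1⁻¹) * g⁻¹ * (g * g1) = g * g1 * h by group, mul_smul, k2]
        exact this (mem_zpowers j)
    exact ⟨(g * g1) • α, hB.smul_mem_Ln_of_mem (mul_mem hg hg1) (left_mem_Ln α β), (g * g1) • r • α,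
      hB.smul_mem_Ln_of_mem (mul_mem hg hg1) (hB.smul_mem_Ln_of_mem hr (left_mem_Ln α β)),
      fun e' => hne' (smul_left_cancel _ e'), (key α sa ha).1, (key α sa ha).2, (key _ sb hb).1, (key _ sb hb).2⟩

end CL.E11
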