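/-
Project E11 (S3403): the transfer step: a cyclic Sylow subgroup of `K` is not central in its normaliser.
-/
import Cfsg.Agent.E11.St
import Cfsg.Agent.S0105
import Cfsg.Agent.Fgs.FixCount

set_option autoImplicit false
set_option linter.unusedSectionVars false

namespace CL.E11

open MulAction Subgroup

universe u

namespace BT

/-- An abelian Sylow subgroup `R × T` of a non-abelian simple group meets the centre of its normaliser trivially. -/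
theorem fin {G : Type u} [Group G] [Finite G] (hs : IsSimpleGroup G) (hn : ¬ IsMulCommutative G) {r : ℕ}
    (hr : r.Prime) (R T : Subgroup G) (hRT : ∀ x ∈ R, ∀ t ∈ T, x * t = t * x)
    (hR : ∀ x ∈ R, ∀ y ∈ R, x * y = y * x) (hT : ∀ x ∈ T, ∀ y ∈ T, x * y = y * x) (hd : ∀ x ∈ R, x ∈ T → x = 1)
    {e m : ℕ} (hc : Nat.card R * Nat.card T = r ^ e) (hG : Nat.card G = r ^ e * m) (hm : ¬ r ∣ m) {ρ : G}
    (hρ : ρ ∈ R) (h1 : ρ ≠ 1)
    (hN : ∀ y : G, (∀ x ∈ R, ∀ t ∈ T, ∃ x' ∈ R, ∃ t' ∈ T, y * (x * t) * y⁻¹ = x' * t') → y * ρ = ρ * y) :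
    False := by
  have : Fact r.Prime := ⟨hr⟩
  obtain ⟨W, hW, hcW⟩ : ∃ W : Subgroup G, (∀ w, w ∈ W ↔ ∃ x ∈ R, ∃ t ∈ T, w = x * t) ∧ Nat.card W = r ^ e := by
    let f : R × T →* G := MonoidHom.noncommCoprod R.subtype T.subtype fun x t => hRT x x.2 t t.2
    have hf : Function.Injective f := by
      rw [injective_iff_map_eq_one]
      rintro ⟨x, t⟩ h
      have h2 : (x : G) * t = 1 := h
      have h3 : (x : G) = 1 := hd x x.2 (by rw [eq_inv_of_mul_eq_one_left h2]; exact T.inv_mem t.2)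
      rw [h3, one_mul] at h2
      exact Prod.ext (Subtype.ext h3) (Subtype.ext h2)
    refine ⟨f.range, fun w => ⟨?_, ?_⟩, ?_⟩
    · rintro ⟨⟨x, t⟩, rfl⟩
      exact ⟨x, x.2, t, t.2, rfl⟩
    · rintro ⟨x, hx, t, ht, rfl⟩
      exact ⟨(⟨x, hx⟩, ⟨t, ht⟩), rfl⟩
    · rw [← Nat.card_congr (f.ofInjective hf).toEquiv, Nat.card_prod, hc]
  have hi : W.index = m := by
    have := W.card_mul_index
    rw [hcW, hG] at this
    exact Nat.eq_of_mul_eq_mul_left (pow_pos hr.pos e) this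
  have hcomm : ∀ a ∈ W, ∀ b ∈ W, a * b = b * a := by
    intro a ha b hb
    obtain ⟨x, hx, t, ht, rfl⟩ := (hW a).1 ha
    obtain ⟨x', hx', t', ht', rfl⟩ := (hW b).1 hb
    calc x * t * (x' * t') = x * (t * x') * t' := by group
      _ = (x * x') * (t * t') := by rw [← hRT x' hx' t ht]; group
      _ = x' * (x * t') * t := by rw [hR x hx x' hx', hT t ht t' ht']; group
      _ = x' * t' * (x * t) := by rw [hRT x hx t' ht']; group
  let S : Sylow r G := (IsPGroup.of_card hcW).toSylow (by rw [hi]; exact hm)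
  have hS : (S : Subgroup G) = W := rfl
  have hSc : IsMulCommutative S := ⟨⟨fun a b => Subtype.ext (hcomm a a.2 b b.2)⟩⟩
  obtain ⟨N, hNn, ⟨φ⟩⟩ := Cfsg.Agent.S0105.result S hSc
  rcases hs.eq_bot_or_eq_top_of_normal N hNn with rfl | rfl
  · refine hn ⟨⟨fun a b => ?_⟩⟩
    let ψ := (QuotientGroup.quotientBot (G := G)).symm.trans φ
    refine ψ.injective ?_
    rw [map_mul, map_mul]
    exact Subtype.ext (hcomm _ (ψ a).2.1 _ (ψ b).2.1)
  · have hρW : ρ ∈ W := (hW ρ).2 ⟨ρ, hρ, 1, T.one_mem, (mul_one ρ).symm⟩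
    have hρD : ρ ∈ (S : Subgroup G) ⊓ centralizer (normalizer (S : Set G) : Set G) := by
      refine ⟨hρW, mem_centralizer_iff.2 fun y hy => hN y fun x hx t ht => (hW _).1 ?_⟩
      exact (mem_normalizer_iff.1 hy (x * t)).1 ((hW _).2 ⟨x, hx, t, ht, rfl⟩)
    have hsub : Subsingleton (G ⧸ (⊤ : Subgroup G)) := QuotientGroup.subsingleton_quotient_top
    have h2 : φ.symm ⟨ρ, hρD⟩ = φ.symm 1 := Subsingleton.elim _ _
    exact h1 (congrArg Subtype.val (φ.symm.injective h2))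

variable {G Ω : Type u} [Group G] [Finite G] [Finite Ω] [MulAction G Ω] {P : Ω → Subgroup G}

/-- an element conjugating a non-trivial element of `K` into `K` acts on `K` as an element of `K` -/
theorem lemN (hG : Geo P) {α β : Ω} (h : α ≠ β)
    (hI : ∀ g ∈ St G α β, ∃ k' ∈ Kk P α β, ∀ k ∈ Kk P α β, g * k * g⁻¹ = k' * k * k'⁻¹)
    {y k0 : G} (hk : k0 ∈ Kk P α β) (h1 : k0 ≠ 1) (hy : y * k0 * y⁻¹ ∈ Kk P α β) :
    ∃ k' ∈ Kk P α β, ∀ k ∈ Kk P α β, y * k * y⁻¹ = k' * k * k'⁻¹ := by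
  have hc := hG.g1.cenK α β h k0 hk h1 y hy
  obtain ⟨l, hl, g, hg, rfl⟩ := hG.g2.stab α β h y (hc α (left_mem_Ln α β)) (hc β (right_mem_Ln α β))
  obtain ⟨k', hk', hh⟩ := hI g hg
  refine ⟨k', hk', fun k hk => ?_⟩
  have h2 : k' * k * k'⁻¹ ∈ Kk P α β := mul_mem (mul_mem hk' hk) (inv_mem hk')
  calc l * g * k * (l * g)⁻¹ = l * (g * k * g⁻¹) * l⁻¹ := by group
    _ = k' * k * k'⁻¹ := by rw [hh k hk, mem_Cz.1 h2 l hl]; group

/-- the transfer argument with the complement `T ≤ L` -/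
theorem main (hG : Geo P) {α β : Ω} (h : α ≠ β)
    (hI : ∀ g ∈ St G α β, ∃ k' ∈ Kk P α β, ∀ k ∈ Kk P α β, g * k * g⁻¹ = k' * k * k'⁻¹)
    {r : ℕ} (hr : r.Prime) {ρ : G} (hρ : ρ ∈ Kk P α β) (h1 : ρ ≠ 1)
    (hcon : ∀ y ∈ Kk P α β, y * ρ * y⁻¹ ∈ zpowers ρ → y * ρ = ρ * y) (T : Subgroup G) (hTL : T ≤ Ls P α β)
    (hT : ∀ x ∈ T, ∀ y ∈ T, x * y = y * x) {e m : ℕ} (hc : orderOf ρ * Nat.card T = r ^ e)
    (hcG : Nat.card G = r ^ e * m) (hm : ¬ r ∣ m)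
    (hN : ∀ y : G, (∀ x ∈ zpowers ρ, ∀ t ∈ T, ∃ x' ∈ zpowers ρ, ∃ t' ∈ T, y * (x * t) * y⁻¹ = x' * t') →
      ∃ k0 ∈ Kk P α β, k0 ≠ 1 ∧ y * k0 * y⁻¹ ∈ Kk P α β) : False := by
  have hB := hG.ca.base
  have hRK : zpowers ρ ≤ Kk P α β := zpowers_le.2 hρ
  refine fin hB.simple hB.not_comm hr (zpowers ρ) T (fun x hx t ht => (mem_Cz.1 (hRK hx) t (hTL ht)).symm) ?_ hT
    (fun x hx ht => hB.eq_one_of_LK h (hTL ht) (hRK hx)) (by rw [Nat.card_zpowers, hc]) hcG hm (mem_zpowers ρ) h1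
    fun y hy => ?_
  · rintro _ ⟨i, rfl⟩ _ ⟨j, rfl⟩
    exact zpow_mul_comm ρ i j
  · obtain ⟨k0, hk0, h01, hy0⟩ := hN y hy
    obtain ⟨k', hk', hh⟩ := lemN hG h hI hk0 h01 hy0
    obtain ⟨x, hx, t, ht, e⟩ := hy ρ (mem_zpowers ρ) 1 T.one_mem
    rw [mul_one, hh ρ hρ] at e
    have ht1 : t = 1 := hB.eq_one_of_LK h (hTL ht) (by
      rw [show t = x⁻¹ * (k' * ρ * k'⁻¹) by rw [e]; group]
      exact mul_mem (inv_mem (hRK hx)) (mul_mem (mul_mem hk' hρ) (inv_mem hk')))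
    rw [ht1, mul_one] at e
    have h2 := hh ρ hρ
    rw [hcon k' hk' (e ▸ hx), mul_inv_cancel_right] at h2
    exact mul_inv_eq_iff_eq_mul.1 h2

/-- the search for `k₀` when `T` has exponent `j` -/
theorem find_pow {α β : Ω} {ρ : G} (hρ : ρ ∈ Kk P α β) {T : Subgroup G} (hTL : T ≤ Ls P α β) {j : ℕ}
    (hj : ρ ^ j ≠ 1) (hT : ∀ t ∈ T, t ^ j = 1) (y : G)
    (hy : ∀ x ∈ zpowers ρ, ∀ t ∈ T, ∃ x' ∈ zpowers ρ, ∃ t' ∈ T, y * (x * t) * y⁻¹ = x' * t') :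
    ∃ k0 ∈ Kk P α β, k0 ≠ 1 ∧ y * k0 * y⁻¹ ∈ Kk P α β := by
  have hRK : zpowers ρ ≤ Kk P α β := zpowers_le.2 hρ
  obtain ⟨x, hx, t, ht, e⟩ := hy ρ (mem_zpowers ρ) 1 T.one_mem
  refine ⟨ρ ^ j, pow_mem hρ j, hj, ?_⟩
  have hc : Commute x t := (mem_Cz.1 (hRK hx) t (hTL ht)).symm
  rw [mul_one] at e
  rw [← conj_pow, e, hc.mul_pow, hT t ht, mul_one]
  exact pow_mem (hRK hx) j

/-- the search for `k₀` when `T = P α` -/
theorem find_P (hG : Geo P) (hI : CaseI P) {α β : Ω} (h : α ≠ β) {ρ : G} (hρ : ρ ∈ Kk P α β) (h1 : ρ ≠ 1) (y : G)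
    (hy : ∀ x ∈ zpowers ρ, ∀ t ∈ P α, ∃ x' ∈ zpowers ρ, ∃ t' ∈ P α, y * (x * t) * y⁻¹ = x' * t') :
    ∃ k0 ∈ Kk P α β, k0 ≠ 1 ∧ y * k0 * y⁻¹ ∈ Kk P α β := by
  have hB := hG.ca.base
  have hRK : zpowers ρ ≤ Kk P α β := zpowers_le.2 hρ
  have hne : ∀ z : G, z ≠ 1 → y * z * y⁻¹ ≠ 1 := fun z hz e =>
    hz (by simpa [mul_assoc] using congrArg (fun w => y⁻¹ * w * y) e)
  have hya : y • α = α := by
    obtain ⟨z, hz, hz1⟩ := hB.exists_gen α
    obtain ⟨x, hx, t, ht, e⟩ := hy 1 (one_mem _) z hz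
    rw [one_mul] at e
    refine (hB.eq_of_fix (hB.conj y α z hz) (hne z hz1) ?_).symm
    rw [e, mul_smul, hB.self_fix ht, hB.Kk_fix (left_mem_Ln α β) (hRK hx)]
  have hab : α ≠ y • β := fun e => h (smul_left_cancel y (hya.trans e))
  have hk : y * ρ * y⁻¹ ∈ Kk P α (y • β) := by
    have := hB.conj_Kk y α β hρ
    rwa [hya] at this
  obtain ⟨x, hx, t, ht, e⟩ := hy ρ (mem_zpowers ρ) 1 (one_mem _)
  rw [mul_one] at e
  have hb : β ∈ Ln P α (y • β) := by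
    by_contra hb
    refine hne ρ h1 (hI α (y • β) β hab hb _ hk ⟨t, ht, ?_⟩)
    rw [e, ← mem_Cz.1 (hRK hx) t (le_sup_left (a := P α) ht), mul_smul, hB.Kk_fix (right_mem_Ln α β) (hRK hx)]
  refine ⟨ρ, hρ, h1, ?_⟩
  have := (hG.ca.lf1 α (y • β) hab).sub α (left_mem_Ln _ _) β hb h
  unfold Kk
  rw [this]
  exact hk

end BT

theorem bt : BTs.{u} := by
  intro G Ω _ _ _ _ P hG hI α β Q h hodd h5 hQ hS r ρ hr hrK h39 hρ ho
  have hB := hG.ca.base
  by_contra hcon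
  push Not at hcon
  have hK0 : Nat.card (Kk P α β) ≠ 0 := Nat.card_pos.ne'
  obtain ⟨a, ha⟩ : ∃ a, a = (Nat.card (Kk P α β)).factorization r := ⟨_, rfl⟩
  obtain ⟨κ, hκ, hκr⟩ : ∃ κ, Nat.card (Kk P α β) = r ^ a * κ ∧ ¬ r ∣ κ :=
    ⟨_, by rw [ha]; exact (Nat.ordProj_mul_ordCompl_eq_self _ r).symm, Nat.not_dvd_ordCompl hr hK0⟩
  rw [← ha] at ho
  have ha1 : 1 ≤ a := ha ▸ (hr.dvd_iff_one_le_factorization hK0).1 hrK
  have h1 : ρ ≠ 1 := fun e => by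
    rw [e, orderOf_one] at ho
    exact absurd ho (Nat.one_lt_pow (by omega) hr.one_lt).ne
  have hr2 : r ≠ 2 := fun e => by
    rw [e] at hrK
    exact (Nat.not_even_iff_odd.2 hodd) (even_iff_two_dvd.2 hrK)
  have hr5 : r ≠ 5 := fun e => h5 (e ▸ hrK)
  obtain ⟨c, hc, hcr⟩ : ∃ c, Nat.card (St G α β) = c * Nat.card (Kk P α β) ∧ ¬ r ∣ c := by
    have h10 : ¬ r ∣ 2 * 5 := fun hd => (hr.dvd_mul.1 hd).elim
      (fun hd => hr2 ((Nat.prime_dvd_prime_iff_eq hr Nat.prime_two).1 hd))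
      (fun hd => hr5 ((Nat.prime_dvd_prime_iff_eq hr Nat.prime_five).1 hd))
    rcases hG.g2.cardS α β h with hc | hc
    · exact ⟨5, hc.1, fun hd => h10 (hd.mul_left 2)⟩
    · exact ⟨10, hc.1, h10⟩
  have hcG := hG.g2.cardG α β h
  rw [hc, hκ] at hcG
  have hRK : zpowers ρ ≤ Kk P α β := zpowers_le.2 hρ
  obtain ⟨j, hj⟩ : ∃ j, Nat.card Ω = 12 + r ^ a * j := by
    have hd := CL.Fgs.card_dvd_ncard_of_semiregular (zpowers ρ) (Ln P α β)ᶜ
      (fun g hg x hx hx' => hx (by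
        have := hB.Kk_fix hx' (inv_mem (hRK hg))
        rw [inv_smul_smul] at this
        exact this ▸ hx'))
      (fun g hg x hx e => by_contra fun hg1 => hx (hG.g1.fixK α β h g (hRK hg) hg1 x e))
    rw [Nat.card_zpowers, ho] at hd
    obtain ⟨j, hj⟩ := hd
    exact ⟨j, by rw [← Set.ncard_add_ncard_compl (Ln P α β), (hG.ca.lf1 α β h).card, hj]⟩
  by_cases h11 : r = 11
  · subst h11
    have hq : ¬ 11 ∣ Nat.card Q := fun hd => by
      have := Nat.eq_one_of_dvd_coprimes hQ.cop hd hrK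
      omega
    have hQP : Nat.card ↥(Q ⊓ P α) = 1 := by
      have d1 : Nat.card ↥(Q ⊓ P α) ∣ 11 := hB.card α ▸ card_dvd_of_le inf_le_right
      refine ((Nat.dvd_prime hr).1 d1).resolve_right fun e => hq ?_
      exact e ▸ card_dvd_of_le (inf_le_left : Q ⊓ P α ≤ Q)
    have hn := hQ.card
    rw [hQP, mul_one] at hn
    refine BT.main hG h hS hr hρ h1 hcon (P α) le_sup_left (fun x hx y hy => hB.comm hx hy) (e := a + 1)
      (m := Nat.card Ω * Nat.card Q * c * κ) (by rw [ho, hB.card, pow_succ]) (by rw [hcG, ← hn]; ring) ?_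
      (BT.find_P hG hI h hρ h1)
    intro hd
    rcases hr.dvd_mul.1 hd with hd | hd
    · rcases hr.dvd_mul.1 hd with hd | hd
      · rcases hr.dvd_mul.1 hd with hd | hd
        · omega
        · exact hq hd
      · exact hcr hd
    · exact hκr hd
  by_cases h3 : r = 3
  · subst h3
    have ha2 : 2 ≤ a := ha ▸ (hr.pow_dvd_iff_le_factorization hK0).1 (h39.resolve_left fun e => e rfl)
    obtain ⟨b, rfl⟩ := Nat.exists_eq_add_of_le ha2
    have : Fact (Nat.Prime 3) := ⟨hr⟩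
    obtain ⟨w, hw⟩ := exists_prime_orderOf_dvd_card' (G := Ls P α β) 3 (by rw [(hG.ca.allA α β h).2]; norm_num)
    have hw3 : orderOf (w : G) = 3 := by rw [← hw]; exact Subgroup.orderOf_coe w
    have hn : Nat.card Ω = 3 * (4 + 3 * (3 ^ b * j)) := by rw [hj]; ring
    have hTL : zpowers (w : G) ≤ Ls P α β := zpowers_le.2 w.2
    refine BT.main hG h hS hr hρ h1 hcon (zpowers (w : G)) hTL ?_ (e := 2 + b + 1)
      (m := (4 + 3 * (3 ^ b * j)) * (Nat.card Ω - 1) * c * κ) (by rw [ho, Nat.card_zpowers, hw3, pow_succ])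
      (by rw [hcG]; generalize Nat.card Ω - 1 = n1; rw [hn]; ring) ?_ (BT.find_pow hρ hTL (j := 3) ?_ ?_)
    · rintro _ ⟨i, rfl⟩ _ ⟨j, rfl⟩
      exact zpow_mul_comm (w : G) i j
    · intro hd
      rcases hr.dvd_mul.1 hd with hd | hd
      · rcases hr.dvd_mul.1 hd with hd | hd
        · rcases hr.dvd_mul.1 hd with hd | hd
          · omega
          · omega
        · exact hcr hd
      · exact hκr hd
    · intro e
      have := Nat.le_of_dvd (by norm_num) (orderOf_dvd_of_pow_eq_one e)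
      rw [ho, pow_add] at this
      have := Nat.pow_pos (n := b) (show 0 < 3 by norm_num)
      omega
    · rintro _ ⟨i, rfl⟩
      show ((w : G) ^ i) ^ 3 = 1
      rw [← zpow_natCast, ← zpow_mul, mul_comm, zpow_mul, zpow_natCast, ← hw3, pow_orderOf_eq_one, one_zpow]
  · obtain ⟨b, rfl⟩ := Nat.exists_eq_add_of_le ha1
    have hn : Nat.card Ω = 12 + r * (r ^ b * j) := by rw [hj]; ring
    refine BT.main hG h hS hr hρ h1 hcon ⊥ bot_le ?_ (e := 1 + b) (m := Nat.card Ω * (Nat.card Ω - 1) * c * κ)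
      (by rw [ho, card_bot, mul_one]) (by rw [hcG]; ring) ?_
      (BT.find_pow hρ bot_le (j := 1) (by rwa [pow_one]) fun t ht => by rw [pow_one]; exact mem_bot.1 ht)
    · intro x hx y _
      rw [mem_bot.1 hx, one_mul, mul_one]
    · intro hd
      rcases hr.dvd_mul.1 hd with hd | hd
      · rcases hr.dvd_mul.1 hd with hd | hd
        · rcases hr.dvd_mul.1 hd with hd | hd
          · rw [hn] at hd
            have h12 : r ∣ 2 ^ 2 * 3 := (Nat.dvd_add_left (dvd_mul_right r _)).1 hd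
            rcases hr.dvd_mul.1 h12 with hd | hd
            · exact hr2 ((Nat.prime_dvd_prime_iff_eq hr Nat.prime_two).1 (hr.dvd_of_dvd_pow hd))
            · exact h3 ((Nat.prime_dvd_prime_iff_eq hr Nat.prime_three).1 hd)
          · rw [show Nat.card Ω - 1 = 11 + r * (r ^ b * j) by omega] at hd
            exact h11 ((Nat.prime_dvd_prime_iff_eq hr (by norm_num)).1 ((Nat.dvd_add_left (dvd_mul_right r _)).1 hd))
        · exact hcr hd
      · exact hκr hd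

end CL.E11
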