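/-
Project E11 (S3403): Case I, `|K|` even: the involution of `K` is unique and the degree is 672 or 1332.
-/
import Cfsg.Agent.E11.St

set_option autoImplicit false
set_option linter.unusedSectionVars false

namespace CL.E11

open MulAction Subgroup

universe u

namespace E1

section Grp

variable {G : Type u} [Group G]

theorem mul_self_of_two {t : G} (ot : orderOf t = 2) : t * t = 1 := by
  have := pow_orderOf_eq_one t
  rwa [ot, pow_two] at this

theorem ne_one_of_two {t : G} (ot : orderOf t = 2) : t ≠ 1 := fun e => by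
  rw [e, orderOf_one] at ot; omega

theorem two_of_mul_self {t : G} (h : t * t = 1) (h1 : t ≠ 1) : orderOf t = 2 :=
  haveI : Fact (Nat.Prime 2) := ⟨Nat.prime_two⟩
  orderOf_eq_prime (by rw [pow_two, h]) h1

theorem two_conj {t : G} (ot : orderOf t = 2) (g : G) : orderOf (g * t * g⁻¹) = 2 := by
  refine two_of_mul_self ?_ fun e => ne_one_of_two ot ?_
  · calc g * t * g⁻¹ * (g * t * g⁻¹) = g * (t * t) * g⁻¹ := by group
      _ = 1 := by rw [mul_self_of_two ot]; group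
  · calc t = g⁻¹ * (g * t * g⁻¹) * g := by group
      _ = 1 := by rw [e]; group

/-- an involution acting on a group of odd order with central fixed points inverts it modulo these -/
theorem inv_mod [Finite G] {Q A : Subgroup G} {t : G} (ho : Odd (Nat.card Q)) (tt : t * t = 1)
    (hn : ∀ y ∈ Q, t * y * t⁻¹ ∈ Q) (hc : ∀ y ∈ Q, ∀ p ∈ A, p * y = y * p)
    (hf : ∀ y ∈ Q, t * y = y * t → y ∈ A) {y : G} (hy : y ∈ Q) : ∃ p ∈ A, t * y * t⁻¹ = p * y⁻¹ := by
  obtain ⟨m, hm⟩ := ho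
  have ti : t⁻¹ = t := inv_eq_of_mul_eq_one_right tt
  set a := y⁻¹ * (t * y * t⁻¹) with ha
  have aQ : a ∈ Q := mul_mem (inv_mem hy) (hn y hy)
  have h1 : t * a * t⁻¹ = a⁻¹ := by
    calc t * a * t⁻¹ = t * y⁻¹ * (t * t)⁻¹ * t * ((t * t) * y * (t * t)⁻¹) := by
          rw [ha, tt, ti]
          calc t * (y⁻¹ * (t * y * t)) * t = t * y⁻¹ * t * y * (t * t) := by group
            _ = _ := by rw [tt]; group
      _ = a⁻¹ := by rw [ha, tt, ti]; simp [mul_assoc, ti]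
  have h2 : a ^ (2 * m + 1) = 1 := by
    have := pow_card_eq_one' (x := (⟨a, aQ⟩ : Q))
    rw [hm] at this
    exact congrArg Subtype.val this
  set b := a ^ (m + 1) with hb
  have bQ : b ∈ Q := pow_mem aQ _
  have h3 : b * b = a := by
    rw [hb, ← pow_add, show m + 1 + (m + 1) = 2 * m + 1 + 1 by ring, pow_succ, h2, one_mul]
  have h4 : t * b * t⁻¹ = b⁻¹ := by
    rw [hb, ← conj_pow, h1, inv_pow]
  have h5 : t * y * t⁻¹ = y * (b * b) := by rw [h3, ha]; group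
  have h6 : t * (y * b) * t⁻¹ = y * b := by
    calc t * (y * b) * t⁻¹ = (t * y * t⁻¹) * (t * b * t⁻¹) := by group
      _ = y * b := by rw [h4, h5]; group
  have pA : y * b ∈ A := hf _ (mul_mem hy bQ) (mul_inv_eq_iff_eq_mul.1 h6)
  refine ⟨y * b * (y * b), mul_mem pA pA, ?_⟩
  have h7 := hc y⁻¹ (inv_mem hy) _ pA
  calc t * y * t⁻¹ = y * b * (y⁻¹ * (y * b)) := by rw [h5]; group
    _ = y * b * (y * b) * y⁻¹ := by rw [← h7]; group

end Grp

variable {G Ω : Type u} [Group G] [Finite G] [Finite Ω] [MulAction G Ω] {P : Ω → Subgroup G}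

/-- the involution of `K` is unique -/
theorem uniq (hG : Geo P) (hI : CaseI P) {α β : Ω} {Q : Subgroup G} (hne : α ≠ β) (hQ : FQ P α β Q)
    {t : G} (ht : t ∈ Kk P α β) (ot : orderOf t = 2) : ∀ t' ∈ Kk P α β, orderOf t' = 2 → t' = t := by
  intro t' ht' ot'
  have hB := hG.ca.base
  have h2 : 2 ∣ Nat.card (Kk P α β) := ot ▸ (Kk P α β).orderOf_dvd_natCard ht
  have ho : Odd (Nat.card Q) := by
    rcases Nat.even_or_odd (Nat.card Q) with h | h
    · have := Nat.dvd_gcd h.two_dvd h2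
      rw [hQ.cop] at this
      omega
    · exact h
  have hc : ∀ y ∈ Q, ∀ p ∈ P α, p * y = y * p := fun y hy p hp => mem_Cz.1 (hQ.le hy) p hp
  have key : ∀ s ∈ Kk P α β, orderOf s = 2 → ∀ y ∈ Q, ∃ p ∈ P α, s * y * s⁻¹ = p * y⁻¹ := fun s hs os y hy =>
    inv_mod ho (mul_self_of_two os) (hQ.nrm s (hB.Kk_fix (left_mem_Ln α β) hs)) hc
      (hQ.fpf s hs (ne_one_of_two os)) hy
  obtain ⟨γ, hγ⟩ := hG.g1.out α β hne
  have hγα : γ ≠ α := fun e => hγ (by rw [e]; exact left_mem_Ln α β)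
  obtain ⟨x, hx, y, hy, rfl⟩ := hQ.tr γ hγα
  obtain ⟨p, hp, e1⟩ := key t ht ot y hy
  obtain ⟨q, hq, e2⟩ := key t' ht' ot' y hy
  have cK : t * t' ∈ Kk P α β := mul_mem ht ht'
  have tC : ∀ r ∈ P α, r * t = t * r := mem_Cz.1 (hB.Kk_le_Cz (left_mem_Ln α β) ht)
  have cC : ∀ r ∈ P α, r * (t * t') = (t * t') * r := mem_Cz.1 (hB.Kk_le_Cz (left_mem_Ln α β) cK)
  have e3 : t * t' * y * (t * t')⁻¹ = q * p⁻¹ * y := by
    calc t * t' * y * (t * t')⁻¹ = t * (t' * y * t'⁻¹) * t⁻¹ := by group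
      _ = (t * q) * t⁻¹ * (t * y * t⁻¹)⁻¹ := by rw [e2]; group
      _ = q * (y * p⁻¹) := by rw [← tC q hq, e1]; group
      _ = q * p⁻¹ * y := by rw [← hc y hy p⁻¹ (inv_mem hp)]; group
  have e4 : t * t' * (x * y) = (q * p⁻¹) * (x * y) * (t * t') := by
    calc t * t' * (x * y) = (t * t' * x) * y := by group
      _ = x * (t * t' * y * (t * t')⁻¹) * (t * t') := by rw [← cC x hx]; group
      _ = (x * (q * p⁻¹)) * y * (t * t') := by rw [e3]; group
      _ = _ := by rw [hB.comm hx (mul_mem hq (inv_mem hp))]; group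
  have e5 : t * t' = 1 := by
    refine hI α β _ hne hγ _ cK ⟨q * p⁻¹, mul_mem hq (inv_mem hp), ?_⟩
    rw [← mul_smul, e4, mul_smul, hB.Kk_fix (right_mem_Ln α β) cK, mul_smul]
  calc t' = (t * t) * t' := by rw [mul_self_of_two ot, one_mul]
    _ = t := by rw [mul_assoc, e5, mul_one]

/-- every `K` has a unique involution, conjugate to `t` -/
theorem uniq_all (hG : Geo P) {α β : Ω} (hne : α ≠ β) {t : G} (ht : t ∈ Kk P α β)
    (hu : ∀ t' ∈ Kk P α β, orderOf t' = 2 → t' = t) {γ δ : Ω} (h : γ ≠ δ) :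
    ∃ g : G, g * t * g⁻¹ ∈ Kk P γ δ ∧ ∀ z ∈ Kk P γ δ, orderOf z = 2 → z = g * t * g⁻¹ := by
  have hB := hG.ca.base
  obtain ⟨g, rfl, rfl⟩ := hG.g1.t2 α β γ δ hne h
  refine ⟨g, hB.conj_Kk g α β ht, fun z hz oz => ?_⟩
  have h1 : g⁻¹ * z * g⁻¹⁻¹ ∈ Kk P α β := (hB.conj_Kk_iff g α β _).1 (by simpa [mul_assoc] using hz)
  rw [← hu _ h1 (two_conj oz g⁻¹)]
  group

/-- the involutions commuting with `t` that centralise another line -/
def Zs (P : Ω → Subgroup G) (α β : Ω) (t : G) : Set G :=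
  {z | orderOf z = 2 ∧ z * t = t * z ∧ z ∉ Kk P α β ∧ ∃ γ δ : Ω, γ ≠ δ ∧ z ∈ Kk P γ δ}

theorem card_le (hG : Geo P) {α β : Ω} (hne : α ≠ β) {t : G} (ht : t ∈ Kk P α β) (ot : orderOf t = 2)
    (hu : ∀ t' ∈ Kk P α β, orderOf t' = 2 → t' = t) (hT : TLF P α β t) :
    Nat.card Ω ≤ 12 + 12 * (Zs P α β t).ncard := by
  have hB := hG.ca.base
  refine hT.le _ fun γ hγ => ?_
  obtain ⟨hm, -, -⟩ := hT.mv γ hγ
  obtain ⟨g, h1, h2⟩ := uniq_all hG hne ht hu hm.symm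
  have oz := two_conj ot g
  have h3 : t * (g * t * g⁻¹) * t⁻¹ ∈ Kk P γ (t • γ) :=
    hB.norm_Kk (Or.inr ⟨rfl, by rw [← mul_smul, mul_self_of_two ot, one_smul]⟩) _ h1
  have h4 := h2 _ h3 (two_conj oz t)
  refine ⟨g * t * g⁻¹, ⟨oz, (mul_inv_eq_iff_eq_mul.1 h4).symm, fun hK => hγ ?_, γ, t • γ, hm.symm, h1⟩,
    ne_one_of_two oz, h1⟩
  exact hG.g1.fixK α β hne _ hK (ne_one_of_two oz) γ (hB.Kk_fix (left_mem_Ln _ _) h1)

theorem card_ge (hG : Geo P) {α β : Ω} (hne : α ≠ β) {t : G} (ht : t ∈ Kk P α β)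
    (hu : ∀ t' ∈ Kk P α β, orderOf t' = 2 → t' = t) (hT : TLF P α β t) :
    12 + 12 * (Zs P α β t).ncard ≤ Nat.card Ω := by
  classical
  have hB := hG.ca.base
  have := Fintype.ofFinite Ω
  have := Fintype.ofFinite G
  let F : G → Finset Ω := fun z => Finset.univ.filter fun ε => z • ε = ε
  have hF : ∀ z ε, ε ∈ F z ↔ z • ε = ε := fun z ε => by simp [F]
  have hL : ∀ z γ δ, γ ≠ δ → z ∈ Kk P γ δ → orderOf z = 2 → ∀ ε, z • ε = ε ↔ ε ∈ Ln P γ δ :=
    fun z γ δ h hz oz ε => ⟨hG.g1.fixK γ δ h z hz (ne_one_of_two oz) ε, fun hε => hB.Kk_fix hε hz⟩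
  have c12 : ∀ z ∈ (Zs P α β t).toFinset, (F z).card = 12 := by
    intro z hz
    obtain ⟨oz, -, -, γ, δ, h, hK⟩ := Set.mem_toFinset.1 hz
    rw [← (hG.ca.lf1 γ δ h).card, ← Set.ncard_coe_finset]
    congr 1
    ext ε
    rw [Finset.mem_coe, hF, hL z γ δ h hK oz]
  have hout : ∀ z ∈ Zs P α β t, ∀ ε, z • ε = ε → ε ∉ Ln P α β := by
    rintro z ⟨oz, hc, hn, γ, δ, h, hK⟩ ε hε
    obtain ⟨k, -, v, -, -, -, -, -, -, h9⟩ := hT.dec z γ δ h hK oz hc hn
    exact h9 ε ((hL z γ δ h hK oz ε).1 hε)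
  have hmem : ∀ z ∈ Zs P α β t, ∀ ε, z • ε = ε → z ∈ Kk P ε (t • ε) := by
    intro z hz ε hε
    have hm := (hT.mv ε (hout z hz ε hε)).1
    obtain ⟨oz, hc, hn, γ, δ, h, hK⟩ := hz
    have h1 : z • t • ε = t • ε := by rw [← mul_smul, hc, mul_smul, hε]
    have h2 := (hG.ca.lf1 γ δ h).sub ε ((hL z γ δ h hK oz ε).1 hε) _ ((hL z γ δ h hK oz _).1 h1) hm.symm
    unfold Kk
    rw [h2]
    exact hK
  have hd : ((Zs P α β t).toFinset : Set G).PairwiseDisjoint F := by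
    intro z hz z' hz' hzz
    rw [Finset.mem_coe, Set.mem_toFinset] at hz hz'
    rw [Function.onFun, Finset.disjoint_left]
    intro ε h1 h2
    rw [hF] at h1 h2
    have hm := (hT.mv ε (hout z hz ε h1)).1
    obtain ⟨g, -, h3⟩ := uniq_all hG hne ht hu hm.symm
    exact hzz ((h3 z (hmem z hz ε h1) hz.1).trans (h3 z' (hmem z' hz' ε h2) hz'.1).symm)
  have h1 := Finset.card_biUnion hd
  rw [Finset.sum_congr rfl c12, Finset.sum_const, smul_eq_mul] at h1
  have h2 : Disjoint (Ln P α β).toFinset ((Zs P α β t).toFinset.biUnion F) := by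
    rw [Finset.disjoint_right]
    intro ε hε
    obtain ⟨z, hz, h3⟩ := Finset.mem_biUnion.1 hε
    rw [Set.mem_toFinset] at hz ⊢
    exact hout z hz ε ((hF z ε).1 h3)
  have h3 := Finset.card_le_univ ((Ln P α β).toFinset ∪ (Zs P α β t).toFinset.biUnion F)
  rw [Finset.card_union_of_disjoint h2, h1, ← Set.ncard_eq_toFinset_card', ← Set.ncard_eq_toFinset_card',
    (hG.ca.lf1 α β hne).card, ← Nat.card_eq_fintype_card] at h3
  omega

theorem conj_Zs (hB : Base P) {α β : Ω} {t : G} (ht : t ∈ Kk P α β) {l z : G} (hl : l ∈ Ls P α β)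
    (hz : z ∈ Zs P α β t) : l * z * l⁻¹ ∈ Zs P α β t := by
  obtain ⟨oz, hc, hn, γ, δ, h, hK⟩ := hz
  have h1 : l * t = t * l := mem_Cz.1 ht l hl
  have h2 : l⁻¹ * t = t * l⁻¹ := mem_Cz.1 ht l⁻¹ (inv_mem hl)
  refine ⟨two_conj oz l, ?_, fun hK' => hn ?_, l • γ, l • δ, fun e => h (smul_left_cancel l e),
    hB.conj_Kk l γ δ hK⟩
  · calc l * z * l⁻¹ * t = l * z * (l⁻¹ * t) := by group
      _ = l * (z * t) * l⁻¹ := by rw [h2]; group
      _ = (l * t) * z * l⁻¹ := by rw [hc]; group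
      _ = t * (l * z * l⁻¹) := by rw [h1]; group
  · have h3 := mem_Cz.1 hK' l⁻¹ (inv_mem hl)
    have h4 : z = l * z * l⁻¹ := by
      calc z = (l⁻¹ * (l * z * l⁻¹)) * l := by group
        _ = l * z * l⁻¹ := by rw [h3]; group
    rw [h4]
    exact hK'

end E1

open E1 in
theorem e1 : E1s.{u} := by
  intro G Ω _ _ _ _ P hG hI hT α β Q hne hQ t ht ot
  have hB := hG.ca.base
  have hu := uniq hG hI hne hQ ht ot
  have hTL := hT α β hne t ht ot
  have tt := mul_self_of_two ot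
  have hn : Nat.card Ω = 12 + 12 * (Zs P α β t).ncard :=
    le_antisymm (card_le hG hne ht ot hu hTL) (card_ge hG hne ht hu hTL)
  have hZ : (Zs P α β t).Nonempty := by
    obtain ⟨m, h1, -, h2⟩ := hG.g1.deg
    exact Set.nonempty_of_ncard_ne_zero (by omega)
  have hk : ∀ k ∈ Kk P α β, k ^ 2 = 1 → k = 1 ∨ k = t := fun k hk h2 => by
    by_cases h1 : k = 1
    · exact Or.inl h1
    · exact Or.inr (hu k hk (two_of_mul_self (by rw [← pow_two, h2]) h1))
  have hdvd : Nat.card (Kk P α β) ∣ 12 := by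
    obtain ⟨z, oz, hc, hnK, γ, δ, h, hK⟩ := hZ
    obtain ⟨k, kK, v, -, -, -, k2, -, h8, -⟩ := hTL.dec z γ δ h hK oz hc hnK
    have : Kk P α β ⊓ Ce k = Kk P α β := by
      refine inf_eq_left.2 fun y hy => mem_Ce.2 ?_
      rcases hk k kK k2 with rfl | rfl
      · simp
      · exact mul_inv_eq_iff_eq_mul.1 (hu _ (mul_mem (mul_mem hy kK) (inv_mem hy)) (two_conj ot y))
    rwa [this] at h8
  refine ⟨⟨ht, ot, hu, hdvd⟩, ?_⟩
  set I : Set G := {v : G | v ∈ Ls P α β ∧ orderOf v = 2} with hIdef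
  have c55 : I.ncard = 55 := (hG.ca.lf2 α β hne).c55
  have c55' : ((fun v => t * v) '' I).ncard = 55 := by
    rw [Set.ncard_image_of_injective _ (mul_right_injective t), c55]
  have tL : t ∉ Ls P α β := fun h => ne_one_of_two ot (hB.eq_one_of_LK hne h ht)
  have hsub : ∀ z ∈ Zs P α β t, z ∈ I ∨ ∃ v ∈ I, t * v = z := by
    rintro z ⟨oz, hc, hnK, γ, δ, h, hK⟩
    obtain ⟨k, kK, v, vL, ov, e, k2, -, -, -⟩ := hTL.dec z γ δ h hK oz hc hnK
    rcases hk k kK k2 with rfl | rfl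
    · left
      rw [e, one_mul]
      exact ⟨vL, ov⟩
    · exact Or.inr ⟨v, ⟨vL, ov⟩, e.symm⟩
  have hA : ∀ v ∈ I, v ∈ Zs P α β t → ∀ w ∈ I, w ∈ Zs P α β t := by
    intro v hv hz w hw
    obtain ⟨l, hl, rfl⟩ := (hG.ca.lf2 α β hne).cls v hv.1 w hw.1 hv.2 hw.2
    exact conj_Zs hB ht hl hz
  have hBB : ∀ v ∈ I, t * v ∈ Zs P α β t → ∀ w ∈ I, t * w ∈ Zs P α β t := by
    intro v hv hz w hw
    obtain ⟨l, hl, rfl⟩ := (hG.ca.lf2 α β hne).cls v hv.1 w hw.1 hv.2 hw.2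
    have : t * (l * v * l⁻¹) = l * (t * v) * l⁻¹ := by
      calc t * (l * v * l⁻¹) = (t * l) * v * l⁻¹ := by group
        _ = l * (t * v) * l⁻¹ := by rw [← mem_Cz.1 ht l hl]; group
    rw [this]
    exact conj_Zs hB ht hl hz
  have hcj : ∀ z ∈ Zs P α β t, IsConj t z := by
    rintro z ⟨oz, -, -, γ, δ, h, hK⟩
    obtain ⟨g, -, h3⟩ := uniq_all hG hne ht hu h
    exact isConj_iff.2 ⟨g, (h3 z hK oz).symm⟩
  have hin : ∀ z : G, IsConj z t → z * t = t * z → z ∉ Kk P α β → z ∈ Zs P α β t := by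
    intro z hz hc hnK
    obtain ⟨g, rfl⟩ := isConj_iff.1 hz.symm
    exact ⟨two_conj ot g, hc, hnK, g • α, g • β, fun e => hne (smul_left_cancel g e), hB.conj_Kk g α β ht⟩
  obtain ⟨s, hs⟩ : I.Nonempty := Set.nonempty_of_ncard_ne_zero (by omega)
  have st : s * t = t * s := mem_Cz.1 ht s hs.1
  have sK : s ∉ Kk P α β := fun h => ne_one_of_two hs.2 (hB.eq_one_of_LK hne hs.1 h)
  by_cases h1 : s ∈ Zs P α β t <;> by_cases h2 : t * s ∈ Zs P α β t
  · right
    have e : Zs P α β t = I ∪ (fun v => t * v) '' I := by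
      ext z
      refine ⟨fun hz => hsub z hz, ?_⟩
      rintro (hz | ⟨v, hv, rfl⟩)
      · exact hA s hs h1 z hz
      · exact hBB s hs h2 v hv
    have hd : Disjoint I ((fun v => t * v) '' I) := by
      rw [Set.disjoint_right]
      rintro _ ⟨v, hv, rfl⟩ h
      exact tL (by simpa using mul_mem h.1 (inv_mem hv.1))
    refine ⟨?_, fun v hv ov => ⟨hcj v (hA s hs h1 v ⟨hv, ov⟩), hcj _ (hBB s hs h2 v ⟨hv, ov⟩)⟩⟩
    rw [hn, e, Set.ncard_union_eq hd, c55, c55']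
  · left
    have e : Zs P α β t = I := by
      ext z
      refine ⟨fun hz => ?_, hA s hs h1 z⟩
      rcases hsub z hz with h | ⟨v, hv, rfl⟩
      · exact h
      · exact absurd (hBB v hv hz s hs) h2
    refine ⟨by rw [hn, e, c55], t * s, two_of_mul_self ?_ fun h => tL ?_, fun hc => h2 (hin _ hc ?_ fun h => sK ?_)⟩
    · calc t * s * (t * s) = t * (s * t) * s := by group
        _ = (t * t) * (s * s) := by rw [st]; group
        _ = 1 := by rw [tt, mul_self_of_two hs.2, one_mul]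
    · rw [eq_inv_of_mul_eq_one_left h]
      exact inv_mem hs.1
    · rw [mul_assoc, st]
    · simpa using mul_mem (inv_mem ht) h
  · left
    have e : Zs P α β t = (fun v => t * v) '' I := by
      ext z
      constructor
      · intro hz
        rcases hsub z hz with h | h
        · exact absurd (hA z h hz s hs) h1
        · exact h
      · rintro ⟨v, hv, rfl⟩
        exact hBB s hs h2 v hv
    exact ⟨by rw [hn, e, c55'], s, hs.2, fun hc => h1 (hin s hc st sK)⟩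
  · exfalso
    obtain ⟨z, hz⟩ := hZ
    rcases hsub z hz with h | ⟨v, hv, rfl⟩
    · exact h1 (hA z h hz s hs)
    · exact h2 (hBB v hv hz s hs)

end CL.E11
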