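/-
Project E11 (S3403): the case `n = 1332`.
-/
import Cfsg.Agent.E11.St
import Cfsg.Agent.Grp.PNilpFrob

set_option autoImplicit false
set_option linter.unusedSectionVars false

namespace CL.E11

open MulAction Subgroup
open scoped Pointwise

universe u

namespace E121x

variable {G : Type u} [Group G] [Finite G]

theorem exists_prod (T V : Subgroup G) (h : ∀ y ∈ T, ∀ v ∈ V, y * v * y⁻¹ ∈ V)
    (hd : ∀ x ∈ T, x ∈ V → x = 1) :
    ∃ R : Subgroup G, (∀ x, x ∈ R ↔ ∃ y ∈ T, ∃ v ∈ V, x = y * v) ∧ Nat.card R = Nat.card T * Nat.card V := by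
  let R : Subgroup G :=
    { carrier := {x | ∃ y ∈ T, ∃ v ∈ V, x = y * v}
      one_mem' := ⟨1, one_mem _, 1, one_mem _, by simp⟩
      mul_mem' := by
        rintro _ _ ⟨y, hy, v, hv, rfl⟩ ⟨y', hy', v', hv', rfl⟩
        exact ⟨y * y', mul_mem hy hy', y'⁻¹ * v * y'⁻¹⁻¹ * v', mul_mem (h _ (inv_mem hy') _ hv) hv', by group⟩
      inv_mem' := by
        rintro _ ⟨y, hy, v, hv, rfl⟩
        exact ⟨y⁻¹, inv_mem hy, y * v⁻¹ * y⁻¹, h _ hy _ (inv_mem hv), by group⟩ }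
  refine ⟨R, fun x => Iff.rfl, ?_⟩
  rw [← Nat.card_prod]
  symm
  refine Nat.card_congr (Equiv.ofBijective
    (fun p : T × V => (⟨p.1 * p.2, p.1, p.1.2, p.2, p.2.2, rfl⟩ : R)) ⟨?_, ?_⟩)
  · rintro ⟨⟨y, hy⟩, ⟨v, hv⟩⟩ ⟨⟨y', hy'⟩, ⟨v', hv'⟩⟩ e
    have e1 : y * v = y' * v' := congrArg Subtype.val e
    have e2 : y'⁻¹ * y = v' * v⁻¹ := by
      calc y'⁻¹ * y = y'⁻¹ * (y * v) * v⁻¹ := by group
        _ = v' * v⁻¹ := by rw [e1]; group
    have e3 : y'⁻¹ * y = 1 := hd _ (mul_mem (inv_mem hy') hy) (e2 ▸ mul_mem hv' (inv_mem hv))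
    have e4 : y = y' := (inv_mul_eq_one.1 e3).symm
    subst e4
    have e5 : v = v' := mul_left_cancel e1
    subst e5
    rfl
  · rintro ⟨_, y, hy, v, hv, rfl⟩
    exact ⟨(⟨y, hy⟩, ⟨v, hv⟩), rfl⟩

theorem mem_zp2 {s : G} (os : orderOf s = 2) {x : G} : x ∈ zpowers s ↔ x = 1 ∨ x = s := by
  constructor
  · intro hx
    rw [← mem_powers_iff_mem_zpowers] at hx
    obtain ⟨n, rfl⟩ := hx
    have : s ^ n = s ^ (n % 2) := by rw [← os, pow_mod_orderOf]
    rcases Nat.mod_two_eq_zero_or_one n with e | e <;> rw [e] at this <;> simp [this]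
  · rintro (rfl | rfl)
    · exact one_mem _
    · exact mem_zpowers _

theorem exists_four {s w : G} (os : orderOf s = 2) (ow : orderOf w = 2) (hne : w ≠ s) (hc : s * w = w * s) :
    ∃ V : Subgroup G, (∀ x, x ∈ V ↔ x = 1 ∨ x = s ∨ x = w ∨ x = s * w) ∧ Nat.card V = 4 := by
  obtain ⟨V, hV, hc'⟩ := exists_prod (zpowers s) (zpowers w) (by
    intro y hy v hv
    rcases (mem_zp2 os).1 hy with rfl | rfl
    · simpa using hv
    · rcases (mem_zp2 ow).1 hv with rfl | rfl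
      · simp
      · rw [hc]; simp) (by
    intro x hx hx'
    rcases (mem_zp2 os).1 hx with rfl | rfl
    · rfl
    · rcases (mem_zp2 ow).1 hx' with e | e
      · exact e
      · exact absurd e.symm hne)
  refine ⟨V, fun x => ?_, by rw [hc', Nat.card_zpowers, Nat.card_zpowers, os, ow]⟩
  rw [hV]
  constructor
  · rintro ⟨y, hy, v, hv, rfl⟩
    rcases (mem_zp2 os).1 hy with rfl | rfl <;> rcases (mem_zp2 ow).1 hv with rfl | rfl <;> simp
  · rintro (rfl | rfl | rfl | rfl)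
    · exact ⟨1, one_mem _, 1, one_mem _, by simp⟩
    · exact ⟨_, mem_zpowers _, 1, one_mem _, by simp⟩
    · exact ⟨1, one_mem _, _, mem_zpowers _, by simp⟩
    · exact ⟨_, mem_zpowers _, _, mem_zpowers _, rfl⟩

theorem exists_syl (S : Subgroup G) {t : G} (ht : t ∈ S) (ot : orderOf t = 2) :
    ∃ T : Subgroup G, T ≤ S ∧ t ∈ T ∧ ∃ a m : ℕ, Nat.card T = 2 ^ a ∧ ¬ 2 ∣ m ∧ Nat.card S = 2 ^ a * m := by
  have h1 : IsPGroup 2 (zpowers (⟨t, ht⟩ : S)) :=
    IsPGroup.of_card (n := 1) (by rw [Nat.card_zpowers, ← Subgroup.orderOf_coe]; simpa using ot)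
  obtain ⟨Q, hQ⟩ := h1.exists_le_sylow
  obtain ⟨a, ha⟩ := IsPGroup.iff_card.1 Q.isPGroup'
  refine ⟨(Q : Subgroup S).map S.subtype, map_subtype_le _, ⟨⟨t, ht⟩, hQ (mem_zpowers _), rfl⟩, a,
    (Q : Subgroup S).index, ?_, Q.not_dvd_index, ?_⟩
  · rw [card_map_of_injective S.subtype_injective, ha]
  · rw [← ha, card_mul_index]

theorem exists_sylow (R : Subgroup G) {a m : ℕ} (hR : Nat.card R = 2 ^ a) (hm : ¬ 2 ∣ m)
    (hG : Nat.card G = 2 ^ a * m) : ∃ Q : Sylow 2 G, (Q : Subgroup G) = R := by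
  have h1 : R.index = m := by
    have := R.card_mul_index
    rw [hR, hG] at this
    exact Nat.eq_of_mul_eq_mul_left (by positivity) this
  exact ⟨(IsPGroup.of_card hR).toSylow (h1 ▸ hm), rfl⟩

theorem fuse (Q : Sylow 2 G) {x y : G} (hx : ∀ r ∈ (Q : Subgroup G), r * x = x * r)
    (hy : ∀ r ∈ (Q : Subgroup G), r * y = y * r) (h : IsConj x y) :
    ∃ n : G, (∀ r, r ∈ (Q : Subgroup G) ↔ n * r * n⁻¹ ∈ (Q : Subgroup G)) ∧ n * x * n⁻¹ = y := by
  obtain ⟨c, hc⟩ := isConj_iff.1 h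
  obtain ⟨n, hn, e⟩ := CL.Grp.burnside_fusion_sets Q {x} {y}
    (fun r hr => by rw [Set.smul_set_singleton]; simp [hx r hr])
    (fun r hr => by rw [Set.smul_set_singleton]; simp [hy r hr]) c
    (by rw [Set.smul_set_singleton]; simp [hc])
  refine ⟨n, fun r => mem_set_normalizer_iff.1 hn r, ?_⟩
  rw [Set.smul_set_singleton] at e
  simpa using e

/-- subgroups of order dividing four with at most one involution -/
theorem tri {T : Subgroup G} {t : G} (h4 : Nat.card T ∣ 4) (hu : ∀ y ∈ T, orderOf y = 2 → y = t) :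
    ∀ a ∈ T, a = 1 ∨ a = t ∨ (a ^ 2 = t ∧ a ^ 2 ≠ 1 ∧ a ^ 4 = 1 ∧ ∀ b ∈ T, b = 1 ∨ b = a ∨ b = a ^ 2 ∨ b = a⁻¹) := by
  intro a ha
  by_cases h1 : a = 1
  · exact Or.inl h1
  by_cases h2 : a ^ 2 = 1
  · exact Or.inr (Or.inl (hu a ha (orderOf_eq_prime h2 h1)))
  have h3 : a ^ 4 = 1 := orderOf_dvd_iff_pow_eq_one.1 ((T.orderOf_dvd_natCard ha).trans h4)
  have ho : orderOf a = 4 := by
    have := orderOf_eq_prime_pow (p := 2) (n := 1) (x := a) (by simpa using h2) (by simpa using h3)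
    simpa using this
  refine Or.inr (Or.inr ⟨hu _ (pow_mem ha 2) (orderOf_eq_prime (by rw [← pow_mul]; exact h3) h2), h2, h3, ?_⟩)
  have he : zpowers a = T := eq_of_le_of_card_ge (zpowers_le.2 ha)
    (by rw [Nat.card_zpowers, ho]; exact Nat.le_of_dvd (by norm_num) h4)
  intro b hb
  rw [← he, ← mem_powers_iff_mem_zpowers] at hb
  obtain ⟨n, rfl⟩ := hb
  have e : a ^ n = a ^ (n % 4) := by rw [← ho, pow_mod_orderOf]
  have e3 : a ^ 3 = a⁻¹ := by rw [eq_inv_iff_mul_eq_one, ← pow_succ, h3]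
  have : n % 4 = 0 ∨ n % 4 = 1 ∨ n % 4 = 2 ∨ n % 4 = 3 := by omega
  rcases this with e' | e' | e' | e' <;> rw [e'] at e <;> simp [e, e3]

theorem comm_T {T : Subgroup G} {t : G} (h4 : Nat.card T ∣ 4) (hu : ∀ y ∈ T, orderOf y = 2 → y = t)
    (hc : ∀ y ∈ T, y * t = t * y) : ∀ a ∈ T, ∀ b ∈ T, a * b = b * a := by
  intro a ha b hb
  rcases tri h4 hu a ha with rfl | rfl | ⟨-, -, -, h⟩
  · simp
  · exact (hc b hb).symm
  · rcases h b hb with rfl | rfl | rfl | rfl <;> group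

/-- the non-abelian case -/
theorem key (Q : Sylow 2 G) (T2 T V : Subgroup G) {t s w g : G}
    (hQ : ∀ x, x ∈ (Q : Subgroup G) ↔ ∃ y ∈ T2, ∃ v ∈ V, x = y * v)
    (hV : ∀ x, x ∈ V ↔ x = 1 ∨ x = s ∨ x = w ∨ x = s * w)
    (os : orderOf s = 2) (ow : orderOf w = 2) (sw : s * w = w * s) (ot : orderOf t = 2)
    (hn : ∀ y ∈ T2, ∀ v ∈ V, y * v * y⁻¹ ∈ V) (hd : ∀ x ∈ T2, x ∈ V → x = 1)
    (hT : T ≤ T2) (tT : t ∈ T) (h4 : Nat.card T ∣ 4) (hu : ∀ y ∈ T, orderOf y = 2 → y = t)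
    (hct : ∀ y ∈ T2, y * t = t * y) (hTV : ∀ y ∈ T, ∀ v ∈ V, y * v = v * y)
    (hg : g ∈ T2) (hg2 : g * g ∈ T) (hgT : ∀ c ∈ T, g * c * g⁻¹ ∈ T)
    (hdec : ∀ y ∈ T2, y ∈ T ∨ ∃ c ∈ T, y = g * c)
    (gs : g * s = s * g) (gw : g * w * g⁻¹ = s * w) (c1 : IsConj t s) (c2 : IsConj t (t * s)) : False := by
  have s2 : s * s = 1 := by rw [← sq, ← os, pow_orderOf_eq_one]
  have w2 : w * w = 1 := by rw [← sq, ← ow, pow_orderOf_eq_one]
  have s1 : s ≠ 1 := by rintro rfl; simp at os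
  have t1 : t ≠ 1 := by rintro rfl; simp at ot
  have sV : s ∈ V := (hV s).2 (by simp)
  have wV : w ∈ V := (hV w).2 (by simp)
  have v2 : ∀ v ∈ V, v * v = 1 := by
    intro v hv
    rcases (hV v).1 hv with rfl | rfl | rfl | rfl
    · simp
    · exact s2
    · exact w2
    · calc s * w * (s * w) = s * (w * s) * w := by group
        _ = 1 := by rw [← sw, show s * (s * w) * w = (s * s) * (w * w) by group, s2, w2, one_mul]
  have vs : ∀ v ∈ V, v * s = s * v := by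
    intro v hv
    rcases (hV v).1 hv with rfl | rfl | rfl | rfl
    · simp
    · rfl
    · exact sw.symm
    · rw [mul_assoc, ← sw]
  have cT := comm_T h4 hu fun y hy => hct y (hT hy)
  have T2Q : ∀ y ∈ T2, y ∈ (Q : Subgroup G) := fun y hy => (hQ y).2 ⟨y, hy, 1, one_mem _, by simp⟩
  have VQ : ∀ v ∈ V, v ∈ (Q : Subgroup G) := fun v hv => (hQ v).2 ⟨1, one_mem _, v, hv, by simp⟩
  have zt : ∀ r ∈ (Q : Subgroup G), r * t = t * r := by
    intro r hr
    obtain ⟨y, hy, v, hv, rfl⟩ := (hQ r).1 hr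
    rw [mul_assoc, ← hTV t tT v hv, ← mul_assoc, hct y hy, mul_assoc]
  have zs : ∀ r ∈ (Q : Subgroup G), r * s = s * r := by
    intro r hr
    obtain ⟨y, hy, v, hv, rfl⟩ := (hQ r).1 hr
    have : y * s = s * y := by
      rcases hdec y hy with h | ⟨c, hc, rfl⟩
      · exact hTV y h s sV
      · rw [mul_assoc, hTV c hc s sV, ← mul_assoc, gs, mul_assoc]
    rw [mul_assoc, vs v hv, ← mul_assoc, this, mul_assoc]
  have zts : ∀ r ∈ (Q : Subgroup G), r * (t * s) = t * s * r := by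
    intro r hr
    rw [← mul_assoc, zt r hr, mul_assoc, zs r hr, mul_assoc]
  obtain ⟨n, hnQ, e1⟩ := fuse Q zt zs c1
  obtain ⟨n', hnQ', e2⟩ := fuse Q zt zts c2
  -- `g` does not centralise `T`
  have hk : ∃ k ∈ T, g * k ≠ k * g := by
    by_contra hcon
    push Not at hcon
    have cT2 : ∀ y ∈ T2, ∀ y' ∈ T2, y * y' = y' * y := by
      intro y hy y' hy'
      rcases hdec y hy with h | ⟨c, hc, rfl⟩ <;> rcases hdec y' hy' with h' | ⟨c', hc', rfl⟩
      · exact cT _ h _ h'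
      · rw [← mul_assoc, ← hcon y h, mul_assoc, cT _ h _ hc', mul_assoc]
      · rw [mul_assoc, cT _ hc _ h', ← mul_assoc, hcon y' h', mul_assoc]
      · calc g * c * (g * c') = g * (c * g) * c' := by group
          _ = g * g * (c * c') := by rw [← hcon c hc]; group
          _ = g * (g * c') * c := by rw [cT _ hc _ hc']; group
          _ = g * (c' * g) * c := by rw [hcon c' hc']
          _ = g * c' * (g * c) := by group
    obtain ⟨y, hy, v, hv, ea⟩ := (hQ (n⁻¹ * g * n)).1 ((hnQ _).2 (by simpa [mul_assoc] using T2Q g hg))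
    obtain ⟨y', hy', v', hv', eb⟩ := (hQ (n⁻¹ * w * n)).1 ((hnQ _).2 (by simpa [mul_assoc] using VQ w wV))
    have e3 : t = (y * v) * (y' * v') * (y * v)⁻¹ * (y' * v')⁻¹ := by
      rw [← ea, ← eb]
      calc t = n⁻¹ * (n * t * n⁻¹) * n := by group
        _ = n⁻¹ * (s * w * w⁻¹) * n := by rw [e1]; group
        _ = _ := by rw [← gw]; group
    have e4 : y'⁻¹ * y⁻¹ * y' = y⁻¹ := by
      rw [mul_assoc, cT2 _ (inv_mem hy) _ hy']; group
    have e5 : t = (y * v * y⁻¹) * ((y * y') * (v' * v⁻¹) * (y * y')⁻¹) * (y' * v'⁻¹ * y'⁻¹) := by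
      calc t = y * v * y' * v' * v⁻¹ * y⁻¹ * v'⁻¹ * y'⁻¹ := by rw [e3]; group
        _ = y * v * y' * v' * v⁻¹ * (y'⁻¹ * y⁻¹ * y') * v'⁻¹ * y'⁻¹ := by rw [e4]
        _ = _ := by group
    refine t1 (hd t (hT tT) ?_)
    rw [e5]
    exact mul_mem (mul_mem (hn _ hy _ hv) (hn _ (mul_mem hy hy') _ (mul_mem hv' (inv_mem hv))))
      (hn _ hy' _ (inv_mem hv'))
  obtain ⟨k, hkT, hgk⟩ := hk
  rcases tri h4 hu k hkT with rfl | rfl | ⟨k2, k21, k4, hall⟩
  · simp at hgk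
  · exact hgk (hct g hg)
  have ginv : g * k * g⁻¹ = k⁻¹ := by
    rcases hall _ (hgT k hkT) with e | e | e | e
    · exact absurd (by rw [show k = g⁻¹ * (g * k * g⁻¹) * g by group, e]; group) k21
    · exact absurd (mul_inv_eq_iff_eq_mul.1 e) hgk
    · refine absurd ?_ k21
      calc k ^ 2 = g⁻¹ * (g * k * g⁻¹) ^ 2 * g := by rw [conj_pow]; group
        _ = 1 := by rw [e, ← pow_mul, k4]; group
    · exact e
  have ginv' : ∀ c ∈ T, g * c * g⁻¹ = c⁻¹ := by
    intro c hc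
    rcases hall c hc with rfl | rfl | rfl | rfl
    · simp
    · exact ginv
    · rw [← conj_pow, ginv, inv_pow]
    · rw [← conj_inv, ginv]
  have sq' : ∀ c ∈ T, g * c * (g * c) = g * g := by
    intro c hc
    calc g * c * (g * c) = (g * c * g⁻¹) * ((g * g) * c) := by group
      _ = g * g := by rw [ginv' c hc, cT _ hg2 _ hc, inv_mul_cancel_left]
  -- squares
  have main : ∀ (m z : G), z ∈ T → (∀ r, r ∈ (Q : Subgroup G) ↔ m * r * m⁻¹ ∈ (Q : Subgroup G)) →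
      m * t * m⁻¹ = z * s → g * g = z := by
    intro m z hz hm e
    obtain ⟨y, hy, v, hv, ea⟩ := (hQ (m * k * m⁻¹)).1 ((hm _).1 (T2Q k (hT hkT)))
    have e3 : y * v * (y * v) = z * s := by
      rw [← ea, ← e, ← k2, sq]; group
    have e4 : z⁻¹ * (y * y) = s * (y⁻¹ * v * y⁻¹⁻¹ * v)⁻¹ := by
      calc z⁻¹ * (y * y) = z⁻¹ * (y * v * (y * v)) * (y⁻¹ * v * y⁻¹⁻¹ * v)⁻¹ := by group
        _ = _ := by rw [e3]; group
    have e5 : z⁻¹ * (y * y) = 1 := hd _ (mul_mem (inv_mem (hT hz)) (mul_mem hy hy))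
      (e4 ▸ mul_mem sV (inv_mem (mul_mem (hn _ (inv_mem hy) _ hv) hv)))
    have e6 : z = y * y := inv_mul_eq_one.1 e5
    rcases hdec y hy with h | ⟨c, hc, rfl⟩
    · exfalso
      apply s1
      have : z * s = z * 1 := by
        calc z * s = y * (v * y) * v := by rw [← e3]; group
          _ = y * y * (v * v) := by rw [← hTV y h v hv]; group
          _ = z * 1 := by rw [v2 v hv, e6]
      exact mul_left_cancel this
    · rw [e6, sq' c hc]
  exact t1 ((main n' t tT hnQ' e2).symm.trans (main n 1 (one_mem _) hnQ (by rw [e1, one_mul])))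

end E121x

open E121x in
theorem e121 (hAB : ABs.{u}) : E121s.{u} := by
  intro G Ω _ _ _ _ P hG α β t hne hE hn hconj
  have hB := hG.ca.base
  have l1 := hG.ca.lf1 α β hne
  have l2 := hG.ca.lf2 α β hne
  have l3 := hG.ca.lf3 α β hne
  have KS : Kk P α β ≤ St G α β := fun k hk =>
    mem_St.2 ⟨hB.Kk_fix (left_mem_Ln α β) hk, hB.Kk_fix (right_mem_Ln α β) hk⟩
  obtain ⟨T2, hTS, tT2, a, m, hca, hm, hS⟩ := exists_syl (St G α β) (KS hE.tK) hE.ot
  have hcG : Nat.card G = 2 ^ (a + 2) * (333 * 1331 * m) := by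
    rw [hG.g2.cardG α β hne, hn, hS]; ring
  have hm' : ¬ 2 ∣ 333 * 1331 * m := by omega
  have hct : ∀ y ∈ St G α β, y * t = t * y := by
    intro y hy
    have h1 := hE.uniq _ (hB.norm_Kk (Or.inl (mem_St.1 hy)) t hE.tK)
      (by rw [← hE.ot]; exact (SemiconjBy.orderOf_eq y (by simp [SemiconjBy])).symm)
    exact mul_inv_eq_iff_eq_mul.1 h1
  have hS120 : Nat.card (St G α β) ∣ 120 := by
    rcases hG.g2.cardS α β hne with ⟨h, -⟩ | ⟨h, -⟩ <;> rw [h]
    · exact (Nat.mul_dvd_mul_left 5 hE.dvd).trans (by norm_num)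
    · exact Nat.mul_dvd_mul_left 10 hE.dvd
  have h8 : Nat.card T2 ∣ 8 := by
    have h1 : 2 ^ a ∣ 8 * 15 := (Dvd.intro m hS.symm).trans hS120
    rw [hca]
    exact (Nat.Coprime.pow_left a (by norm_num : Nat.Coprime 2 15)).dvd_of_dvd_mul_right h1
  have hchi : ∀ y ∈ T2, chi P y α = 1 ∨ chi P y α = -1 := by
    intro y hy
    have h1 : y ^ 8 = 1 := orderOf_dvd_iff_pow_eq_one.1 ((T2.orderOf_dvd_natCard hy).trans h8)
    have h2 := hB.chi_pow (hTS hy).1 8
    rw [h1, hB.chi_one] at h2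
    exact (by decide : ∀ c : ZMod 11, 1 = c ^ 8 → c = 1 ∨ c = -1) _ h2
  have h4 : Nat.card ↥(T2 ⊓ Kk P α β) ∣ 4 := by
    have h1 := (card_dvd_of_le (inf_le_left : T2 ⊓ Kk P α β ≤ T2)).trans h8
    have h2 := (card_dvd_of_le (inf_le_right : T2 ⊓ Kk P α β ≤ _)).trans hE.dvd
    exact Nat.dvd_gcd h1 h2
  have hu : ∀ y ∈ T2 ⊓ Kk P α β, orderOf y = 2 → y = t := fun y hy => hE.uniq y hy.2
  have hK : ∀ y ∈ T2, chi P y α = 1 → y ∈ T2 ⊓ Kk P α β := fun y hy h =>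
    ⟨hy, l1.cen y (hTS hy).1 (hTS hy).2 h⟩
  -- the Sylow subgroup
  have syl : ∀ (s w : G) (V : Subgroup G), s ∈ Ls P α β → w ∈ Ls P α β → orderOf s = 2 → orderOf w = 2 → w ≠ s →
      s * w = w * s → (∀ x, x ∈ V ↔ x = 1 ∨ x = s ∨ x = w ∨ x = s * w) → Nat.card V = 4 →
      (∀ y ∈ T2, ∀ v ∈ V, y * v * y⁻¹ ∈ V) → V ≤ Ls P α β ∧ (∀ x ∈ T2, x ∈ V → x = 1) ∧
      ∃ Q : Sylow 2 G, ∀ x, x ∈ (Q : Subgroup G) ↔ ∃ y ∈ T2, ∃ v ∈ V, x = y * v := by
    intro s w V sL wL os ow ws sw hV hV4 hnV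
    have VL : V ≤ Ls P α β := by
      intro v hv
      rcases (hV v).1 hv with rfl | rfl | rfl | rfl
      exacts [one_mem _, sL, wL, mul_mem sL wL]
    have hd : ∀ x ∈ T2, x ∈ V → x = 1 := by
      intro x hx hv
      by_contra h1
      have h2 : x ^ 4 = 1 := orderOf_dvd_iff_pow_eq_one.1 (hV4 ▸ V.orderOf_dvd_natCard hv)
      exact l2.fpf x (VL hv) (orderOf_eq_prime (l2.no4 x (VL hv) h2) h1) α (left_mem_Ln α β) (hTS hx).1
    obtain ⟨R, hR, hRc⟩ := exists_prod T2 V hnV hd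
    obtain ⟨Q, hQ⟩ := exists_sylow R (a := a + 2) (by rw [hRc, hca, hV4]; ring) hm' hcG
    exact ⟨VL, hd, Q, fun x => by rw [hQ]; exact hR x⟩
  rcases hG.g2.cardS α β hne with ⟨h5, hc5⟩ | ⟨h10, -⟩
  · have T2K : ∀ y ∈ T2, y ∈ T2 ⊓ Kk P α β := by
      intro y hy
      refine hK y hy ((hchi y hy).resolve_right fun e => ?_)
      have := hc5 y (hTS hy)
      rw [e] at this
      exact absurd this (by decide)
    obtain ⟨h, s, hs⟩ := l1.hs
    obtain ⟨w, wL, ow, ws, sw⟩ := l2.four s hs.sL hs.so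
    obtain ⟨V, hV, hV4⟩ := exists_four hs.so ow ws sw.symm
    have VL : V ≤ Ls P α β := by
      intro v hv
      rcases (hV v).1 hv with rfl | rfl | rfl | rfl
      exacts [one_mem _, hs.sL, wL, mul_mem hs.sL wL]
    have cTV : ∀ y ∈ T2, ∀ v ∈ V, y * v = v * y := fun y hy v hv => (mem_Cz.1 (T2K y hy).2 v (VL hv)).symm
    obtain ⟨-, -, Q, hQ⟩ := syl s w V hs.sL wL hs.so ow ws sw.symm hV hV4
      (fun y hy v hv => by rw [cTV y hy v hv]; simpa using hv)
    have cT := comm_T h4 hu fun y hy => hct y (hTS hy.1)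
    have cV : ∀ v ∈ V, ∀ v' ∈ V, v * v' = v' * v := by
      have c : Commute s w := sw.symm
      intro v hv v' hv'
      rcases (hV v).1 hv with rfl | rfl | rfl | rfl <;> rcases (hV v').1 hv' with rfl | rfl | rfl | rfl <;>
        first
        | rfl
        | exact (Commute.one_left _).eq
        | exact (Commute.one_right _).eq
        | exact c.eq
        | exact c.symm.eq
        | exact ((Commute.refl _).mul_right c).eq
        | exact (c.symm.mul_right (Commute.refl _)).eq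
        | exact ((Commute.refl _).mul_left c.symm).eq
        | exact (c.mul_left (Commute.refl _)).eq
    have cQ : ∀ x ∈ (Q : Subgroup G), ∀ x' ∈ (Q : Subgroup G), x * x' = x' * x := by
      intro x hx x' hx'
      obtain ⟨y, hy, v, hv, rfl⟩ := (hQ x).1 hx
      obtain ⟨y', hy', v', hv', rfl⟩ := (hQ x').1 hx'
      have c1 : Commute y y' := cT _ (T2K y hy) _ (T2K y' hy')
      have c2 : Commute y v' := cTV _ hy _ hv'
      have c3 : Commute v y' := (cTV _ hy' _ hv).symm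
      have c4 : Commute v v' := cV _ hv _ hv'
      exact ((c1.mul_right c2).mul_left (c3.mul_right c4)).eq
    have ha : 1 ≤ a := by
      have := T2.orderOf_dvd_natCard tT2
      rw [hE.ot, hca] at this
      rcases a with _ | a
      · simp at this
      · omega
    obtain ⟨c, hc⟩ := exists_prime_orderOf_dvd_card' (G := Ls P α β) 3 (hp := ⟨Nat.prime_three⟩)
      (dvd_trans (by norm_num) (hB.dvd_card_Ls hne))
    have hc' : orderOf (c : G) = 3 := by rw [Subgroup.orderOf_coe, hc]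
    have h6 : orderOf (t * c) = 6 := by
      have cc : Commute t (c : G) := (mem_Cz.1 hE.tK c c.2).symm
      rw [cc.orderOf_mul_eq_mul_orderOf_of_coprime (by rw [hE.ot, hc']; norm_num), hE.ot, hc']
    have := hAB G hB.simple (fun S => ⟨⟨fun x y => by
        obtain ⟨x', rfl⟩ := (Sylow.equiv Q S).surjective x
        obtain ⟨y', rfl⟩ := (Sylow.equiv Q S).surjective y
        rw [← map_mul, ← map_mul]
        exact congrArg _ (Subtype.ext (cQ _ x'.2 _ y'.2))⟩⟩)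
      (by
        obtain ⟨b, rfl⟩ := Nat.exists_eq_add_of_le ha
        rw [hcG]; exact Dvd.intro (2 ^ b * (333 * 1331 * m)) (by ring))
      (dvd_trans (by norm_num) hB.dvd_card) ⟨_, h6⟩
    have h37 : 37 ∣ Nat.card G := by rw [hcG]; exact Dvd.intro (2 ^ (a + 2) * (9 * 1331 * m)) (by ring)
    rw [this] at h37
    norm_num at h37
  · have hg : ∃ g ∈ T2, chi P g α = -1 := by
      by_contra hcon
      push Not at hcon
      have hle : T2 ≤ Kk P α β := fun y hy => (hK y hy ((hchi y hy).resolve_right (hcon y hy))).2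
      obtain ⟨c, hc⟩ := card_dvd_of_le hle
      rw [hS, hc, hca] at h10
      have : m = 10 * c := Nat.eq_of_mul_eq_mul_left (show 0 < 2 ^ a by positivity) (by rw [h10]; ring)
      omega
    obtain ⟨g, gT, hgc⟩ := hg
    have ga := (hTS gT).1
    obtain ⟨s, sL, w, wL, os, ow, ws, sw, gs, gw⟩ := l3.d8 g ga (hTS gT).2 hgc
    obtain ⟨V, hV, hV4⟩ := exists_four os ow ws sw
    have VL : V ≤ Ls P α β := by
      intro v hv
      rcases (hV v).1 hv with rfl | rfl | rfl | rfl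
      exacts [one_mem _, sL, wL, mul_mem sL wL]
    have hdec : ∀ y ∈ T2, y ∈ T2 ⊓ Kk P α β ∨ ∃ c ∈ T2 ⊓ Kk P α β, y = g * c := by
      intro y hy
      rcases hchi y hy with e | e
      · exact Or.inl (hK y hy e)
      · refine Or.inr ⟨g⁻¹ * y, hK _ (mul_mem (inv_mem gT) hy) ?_, by group⟩
        rw [hB.chi_mul ((stabilizer G α).inv_mem ga) (hTS hy).1, e, ← hgc, hB.chi_inv ga]
    have cTV : ∀ y ∈ T2 ⊓ Kk P α β, ∀ v ∈ V, y * v = v * y := fun y hy v hv => (mem_Cz.1 hy.2 v (VL hv)).symm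
    have gV : ∀ v ∈ V, g * v * g⁻¹ ∈ V := by
      have s2 : s * s = 1 := by rw [← sq, ← os, pow_orderOf_eq_one]
      have gs' : g * s * g⁻¹ = s := by rw [gs]; group
      intro v hv
      rw [hV]
      rcases (hV v).1 hv with rfl | rfl | rfl | rfl
      · simp
      · exact Or.inr (Or.inl gs')
      · exact Or.inr (Or.inr (Or.inr gw))
      · refine Or.inr (Or.inr (Or.inl ?_))
        rw [← conj_mul, gs', gw, ← mul_assoc, s2, one_mul]
    have hnV : ∀ y ∈ T2, ∀ v ∈ V, y * v * y⁻¹ ∈ V := by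
      intro y hy v hv
      rcases hdec y hy with h | ⟨c, hc, rfl⟩
      · rw [cTV y h v hv]; simpa using hv
      · have : g * c * v * (g * c)⁻¹ = g * v * g⁻¹ := by
          rw [mul_assoc g c v, cTV c hc v hv]; group
        rw [this]; exact gV v hv
    obtain ⟨-, hd, Q, hQ⟩ := syl s w V sL wL os ow ws sw hV hV4 hnV
    exact key Q T2 (T2 ⊓ Kk P α β) V hQ hV os ow sw hE.ot hnV hd inf_le_left ⟨tT2, hE.tK⟩ h4 hu
      (fun y hy => hct y (hTS hy)) cTV gT
      (hK _ (mul_mem gT gT) (by rw [hB.chi_mul ga ga, hgc]; decide))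
      (fun c hc => ⟨T2.mul_mem (T2.mul_mem gT hc.1) (T2.inv_mem gT), hB.norm_Kk (Or.inl (mem_St.1 (hTS gT))) c hc.2⟩)
      hdec gs gw (hconj s sL os).1 (hconj s sL os).2

end CL.E11
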