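/-
Project E11 (S3403): in Case II the order of `K` is odd.
-/
import Cfsg.Agent.E11.St

set_option autoImplicit false
set_option linter.unusedSectionVars false

namespace CL.E11

open MulAction Subgroup

universe u

namespace E2x

theorem arith {n a b c d ν : ℕ} (hd : d = 1 ∨ d = 2) (hν : ν % 11 = 1)
    (e : n = 12 + 5 * (11 * d * ν) * (a + 11 * b)) (ha : a ≤ 2) (h12 : 12 ∣ n) (hn : 12 < n)
    (hle : n ≤ 12 + 12 * ((c - 1) * 55)) (c1 : c ∣ 12) (c2 : c ∣ 11 * d * ν) (ev : 2 ∣ 11 * d * ν) :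
    11 * d * ν = 132 ∨ 11 * d * ν = 264 := by
  obtain ⟨j, rfl⟩ : ∃ j, ν = 11 * j + 1 := ⟨ν / 11, by omega⟩
  have c3 := Nat.le_of_dvd (by norm_num) c1
  have c4 := Nat.le_of_dvd (Nat.gcd_pos_of_pos_left _ (by norm_num)) (Nat.dvd_gcd c1 c2)
  have w : 0 < a + 11 * b := Nat.pos_of_ne_zero fun h => by rw [h] at e; omega
  obtain ⟨X, hX⟩ : ∃ X, X = d * (11 * j + 1) * (a + 11 * b) := ⟨_, rfl⟩
  rw [show 5 * (11 * d * (11 * j + 1)) * (a + 11 * b) = 55 * X by rw [hX]; ring] at e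
  obtain ⟨y, hy⟩ : 12 ∣ X := by omega
  have hc : y + 1 ≤ c := by omega
  have hj : j ≤ 11 := by
    by_contra h
    have : 1 * (11 * 12 + 1) * 1 ≤ d * (11 * j + 1) * (a + 11 * b) := by gcongr <;> omega
    omega
  rw [hy] at hX
  clear e h12 hn hle c1 c2 hy hν
  rcases hd with rfl | rfl <;> interval_cases j <;> norm_num at c4 <;> omega

variable {G Ω : Type u} [Group G] [Finite G] [MulAction G Ω] {P : Ω → Subgroup G}

theorem lemZ (hG : Geo P) {α β γ : Ω} {t : G} (h : α ≠ β) (tK : t ∈ Kk P α β) (ot : orderOf t = 2)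
    (T : TLF P α β t) (h11 : 11 ∣ Nat.card (Kk P α β)) (hγ : γ ∉ Ln P α β) :
    ∃ k ∈ Kk P α β, ∃ v ∈ Ls P α β, orderOf v = 2 ∧ k * v ≠ 1 ∧ k * v ∈ Kk P γ (t • γ) ∧ k ^ 2 = 1 ∧ k ≠ 1 ∧
      k * t = t * k ∧ Nat.card ↥(Kk P α β ⊓ Ce k) ∣ 12 := by
  have : Fact (Nat.Prime 2) := ⟨Nat.prime_two⟩
  have hB := hG.ca.base
  obtain ⟨h1, h2, v, vL, ov, zK⟩ := T.mv γ hγ
  have n12 : ¬ Nat.card (Kk P α β) ∣ 12 := fun e => absurd (h11.trans e) (by norm_num)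
  have c : v * t = t * v := mul_right_cancel (b := v) (by rw [mul_assoc, mem_Cz.1 zK v vL])
  have t2 : t ^ 2 = 1 := ot ▸ pow_orderOf_eq_one t
  have v2 : v ^ 2 = 1 := ov ▸ pow_orderOf_eq_one v
  have t1 : t ≠ 1 := fun e => by simp [e] at ot
  have z1 : t * v ≠ 1 := fun e => by
    have tL : t ∈ Ls P γ (t • γ) := (Ls P γ (t • γ)).mul_mem_cancel_right vL |>.1 (e ▸ one_mem _)
    refine n12 (hG.g2.cardK α β γ (t • γ) h h1.symm ▸ hG.g2.semi γ (t • γ) α β h1.symm h (fun ε a b => h2 ε b a) _ le_rfl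
      fun y hy => hG.g1.cenK α β h t tK t1 y ?_)
    rwa [← mem_Cz.1 hy t tL, mul_inv_cancel_right]
  have oz : orderOf (t * v) = 2 := orderOf_eq_prime (by rw [Commute.mul_pow c.symm, t2, v2, mul_one]) z1
  obtain ⟨k, kK, w, wL, ow, e, k2, kt, kc, -⟩ := T.dec (t * v) γ (t • γ) h1.symm zK oz (by rw [mul_assoc, c])
    fun e => hγ (hG.g1.fixK α β h _ e z1 γ (hB.Kk_fix (left_mem_Ln _ _) zK))
  refine ⟨k, kK, w, wL, ow, e ▸ z1, e ▸ zK, k2, fun e' => n12 ?_, kt, kc⟩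
  rwa [e', inf_eq_left.2 fun y _ => mem_Ce.2 (by simp)] at kc

end E2x

theorem e2 (h132 : K132s.{u}) : E2s.{u} := by
  intro G Ω _ _ _ _ P hG hT α β k h kK hI ⟨a, b, hn, ha⟩
  have : Fact (Nat.Prime 2) := ⟨Nat.prime_two⟩
  refine Nat.not_even_iff_odd.1 fun ev => ?_
  obtain ⟨d, ν, hd, hκ, hν⟩ := hI.cnt
  have h11 : 11 ∣ Nat.card (Kk P α β) := hκ ▸ ⟨d * ν, mul_assoc _ _ _⟩
  obtain ⟨t0, o0⟩ := exists_prime_orderOf_dvd_card' (G := Kk P α β) 2 ev.two_dvd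
  rw [← Subgroup.orderOf_coe] at o0
  obtain ⟨γ, hγ⟩ := hG.g1.out α β h
  obtain ⟨t, tK, -, -, -, -, -, t2, t1, -, tc⟩ := E2x.lemZ hG h t0.2 o0 (hT α β h _ t0.2 o0) h11 hγ
  have ot : orderOf t = 2 := orderOf_eq_prime t2 t1
  have T := hT α β h t tK ot
  have le := T.le ((fun p : G × G => p.1 * p.2) '' ((((Kk P α β ⊓ Ce t : Subgroup G) : Set G) \ {1}) ×ˢ
      {v : G | v ∈ Ls P α β ∧ orderOf v = 2})) fun δ hδ => by
    obtain ⟨l, lK, v, vL, ov, a1, a2, -, l1, lt, -⟩ := E2x.lemZ hG h tK ot T h11 hδ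
    exact ⟨_, ⟨(l, v), ⟨⟨⟨lK, mem_Ce.2 lt⟩, l1⟩, vL, ov⟩, rfl⟩, a1, a2⟩
  replace le := le.trans (Nat.add_le_add_left (Nat.mul_le_mul_left 12 (Set.ncard_image_le (Set.toFinite _))) 12)
  rw [Set.ncard_prod, (hG.ca.lf2 α β h).c55, Set.ncard_diff_singleton_of_mem (one_mem (Kk P α β ⊓ Ce t)),
    ← Nat.card_coe_set_eq] at le
  obtain ⟨m, m1, m2, m3⟩ := hG.g1.deg
  obtain ⟨n1, n2⟩ := h132 G _ k kK hI.ord hI.cen
  rw [hκ] at hn n1 n2 ev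
  exact (E2x.arith hd hν hn ha T.dvd (by omega) le tc (hκ ▸ card_dvd_of_le inf_le_left) ev.two_dvd).elim n1 n2

end CL.E11
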