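/-
Project E11, job E61: in degree 672 the two-point stabiliser is cyclic.
-/
import Cfsg.Agent.E11.St

set_option autoImplicit false

namespace CL.E11

open MulAction Subgroup

universe u

namespace E61

/-- a group of order `671 κ`, `κ ∣ 12`, has one subgroup of order 61 -/
theorem syl {C : Type u} [Group C] [Finite C] {κ : ℕ} (h : Nat.card C = 671 * κ) (hκ : κ ∣ 12) :
    ∃ y : C, orderOf y = 61 ∧ ∀ c : C, c ^ 61 = 1 → c ∈ zpowers y := by
  haveI : Fact (Nat.Prime 61) := ⟨by norm_num⟩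
  obtain ⟨y, hy⟩ := exists_prime_orderOf_dvd_card' (G := C) 61 (h ▸ Dvd.dvd.mul_right (by norm_num) κ)
  have c1 : Nat.card (zpowers y) = 61 ^ 1 := by rw [Nat.card_zpowers, hy, pow_one]
  have c2 : (zpowers y).index ∣ 132 := by
    have := (zpowers y).card_mul_index
    rw [c1, h] at this
    rw [show (zpowers y).index = 11 * κ by omega]
    exact Nat.mul_dvd_mul_left 11 hκ
  let S : Sylow 61 C := (IsPGroup.of_card c1).toSylow fun e => absurd (e.trans c2) (by norm_num)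
  have c3 : Nat.card (Sylow 61 C) = 1 := by
    have a := card_sylow_modEq_one 61 C
    have b : Nat.card (Sylow 61 C) ∣ 132 := S.card_dvd_index.trans c2
    have := Nat.le_of_dvd (by norm_num) b
    generalize Nat.card (Sylow 61 C) = m at a b this
    unfold Nat.ModEq at a
    obtain rfl | rfl | rfl : m = 1 ∨ m = 62 ∨ m = 123 := by omega
    · rfl
    all_goals exact absurd b (by norm_num)
  haveI := (Nat.card_eq_one_iff_unique.1 c3).1
  refine ⟨y, hy, fun c hc => ?_⟩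
  obtain ⟨T, hT⟩ := (show IsPGroup 61 (zpowers c) from fun g => ⟨1, by
    obtain ⟨_, k, rfl⟩ := g
    exact Subtype.ext (by simp only [pow_one, coe_pow, coe_one]; rw [← zpow_natCast, ← zpow_mul, mul_comm, zpow_mul,
      zpow_natCast, hc, one_zpow])⟩).exists_le_sylow
  exact (show (T : Subgroup C) ≤ S from Subsingleton.elim T S ▸ le_rfl) (hT (mem_zpowers c))

variable {G Ω : Type u} [Group G] [Finite G] [Finite Ω] [MulAction G Ω] {P : Ω → Subgroup G} {α β : Ω}

theorem eq_one {c : G} {a b : ℕ} (h : a.Coprime b) (ha : c ^ a = 1) (hb : c ^ b = 1) : c = 1 :=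
  orderOf_eq_one_iff.1 (Nat.eq_one_of_dvd_coprimes h (orderOf_dvd_of_pow_eq_one ha) (orderOf_dvd_of_pow_eq_one hb))

theorem free (hG : Geo P) (ne : α ≠ β) (hκ : Nat.card (Kk P α β) ∣ 12) {c : G} {γ : Ω} (hc : c ∈ Cz (P α))
    (h : c ^ 671 = 1) (hγ : γ ≠ α) (e : c • γ = γ) : c = 1 := by
  have a := (hG.ca.lf1 α γ hγ.symm).cen c (hG.ca.base.fix_of_cent hc) e (hG.ca.base.chi_of_cent hc)
  have b := (orderOf_dvd_natCard _ a).trans (hG.g2.cardK α β α γ ne hγ.symm ▸ hκ)
  exact eq_one (by norm_num) h (orderOf_dvd_iff_pow_eq_one.1 b)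

theorem inj (hG : Geo P) (ne : α ≠ β) (hκ : Nat.card (Kk P α β) ∣ 12) {r : G} (hr : r ∈ Cz (P α)) (h : r ^ 671 = 1) :
    Function.Injective fun c : zpowers r => (c : G) • β := fun a b e => by
  refine Subtype.ext (inv_mul_eq_one.1 (free hG ne hκ (zpowers_le.2 hr (mul_mem (inv_mem a.2) b.2)) ?_ ne.symm ?_))
  · obtain ⟨k, hk⟩ := mul_mem (inv_mem a.2) b.2
    rw [← hk, ← zpow_natCast, ← zpow_mul, mul_comm, zpow_mul, zpow_natCast, h, one_zpow]
  · rw [mul_smul, inv_smul_eq_iff]; exact e.symm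

theorem kone (hG : Geo P) (ne : α ≠ β) (hκ : Nat.card (Kk P α β) ∣ 12) {q k : G} (hq : q ∈ Cz (P α))
    (o : orderOf q = 61) (hk : k ∈ Kk P α β) (c : Commute k q) : k = 1 := by
  by_contra k1
  have i := inj hG ne hκ hq (orderOf_dvd_iff_pow_eq_one.1 (o ▸ by norm_num))
  have m : ∀ a : zpowers q, (a : G) • β ∈ Ln P α β := fun ⟨_, n, e⟩ => hG.g1.fixK α β ne k hk k1 _ (by
    subst e
    rw [← mul_smul, (c.zpow_right n).eq, mul_smul, hG.ca.base.Kk_fix (right_mem_Ln α β) hk])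
  have := Nat.card_le_card_of_injective (fun a => (⟨_, m a⟩ : Ln P α β)) fun a b e => i (congrArg Subtype.val e)
  rw [Nat.card_zpowers, o, Nat.card_coe_set_eq, (hG.ca.lf1 α β ne).card] at this
  omega

theorem sgn (hG : Geo P) (ne : α ≠ β) (hκ : Nat.card (Kk P α β) ∣ 12) (hn : Nat.card Ω = 672) {r u : G}
    (hr : r ∈ Cz (P α)) (o : orderOf r = 671) (u2 : u ^ 2 = 1) (ua : u • α = α) (ub : u • β = β)
    (e : u * r * u⁻¹ = r⁻¹) : False := by
  classical
  haveI := Fintype.ofFinite Ω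
  have hB := hG.ca.base
  have r1 : r ^ 671 = 1 := o ▸ pow_orderOf_eq_one r
  have m : ∀ a : zpowers r, (a : G) • β ≠ α := fun a k =>
    ne (smul_left_cancel (a : G) ((hB.fix_of_cent (zpowers_le.2 hr a.2)).trans k.symm))
  have bij := Function.Injective.bijective_of_nat_card_le (f := fun a => (⟨_, m a⟩ : {γ // ¬ γ = α}))
    (fun a b e => inj hG ne hκ hr r1 (congrArg Subtype.val e)) (by
      rw [Nat.card_zpowers, o, Nat.card_eq_fintype_card, Fintype.card_subtype_compl, Fintype.card_subtype_eq,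
        ← Nat.card_eq_fintype_card, hn])
  have f : Function.fixedPoints (toPerm u : Equiv.Perm Ω) = {α, β} := by
    ext γ
    refine ⟨fun h => ?_, by rintro (rfl | rfl); exacts [ua, ub]⟩
    by_cases k : γ = α
    · exact .inl k
    obtain ⟨⟨_, n, rfl⟩, hc⟩ := bij.2 ⟨γ, k⟩
    obtain rfl : r ^ n • β = γ := congrArg Subtype.val hc
    have h : u • r ^ n • β = r ^ n • β := h
    have h' : (r ^ n)⁻¹ • β = r ^ n • β := by
      rw [← h, ← inv_zpow, ← e, conj_zpow, mul_smul, mul_smul, inv_smul_eq_iff.2 ub.symm]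
    have a := congrArg Subtype.val (inj hG ne hκ hr r1 (a₁ := ⟨r ^ n, n, rfl⟩⁻¹) (a₂ := ⟨r ^ n, n, rfl⟩) h')
    have b : r ^ n = 1 := eq_one (a := 2) (b := 671) (by norm_num) (by rw [pow_two]; exact inv_eq_iff_mul_eq_one.1 a)
      (by rw [← zpow_natCast, ← zpow_mul, mul_comm, zpow_mul, zpow_natCast, r1, one_zpow])
    exact .inr (by rw [b, one_smul]; rfl)
  have s := Equiv.Perm.sign_of_pow_two_eq_one (σ := (toPerm u : Equiv.Perm Ω))
    (by rw [← toPermHom_apply, ← map_pow, u2, map_one])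
  rw [hB.sign_eq_one, ← Nat.card_eq_fintype_card, ← Nat.card_eq_fintype_card, f, hn, Nat.card_coe_set_eq,
    Set.ncard_pair ne, Odd.neg_one_pow (by decide)] at s
  exact absurd s (by decide)

end E61

open E61 in
theorem e61 : E61s.{u} := by
  intro G Ω _ _ _ _ P hG α β t ne ev hn
  haveI : Fact (Nat.Prime 61) := ⟨by norm_num⟩
  have hB := hG.ca.base
  obtain ⟨⟨y, yC⟩, o, hy⟩ := syl (κ := Nat.card (Kk P α β))
    (by rw [hG.g2.cardC (hn ▸ by norm_num) α β ne, hn]) ev.dvd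
  rw [orderOf_mk] at o
  have y61 : y ^ 61 = 1 := o ▸ pow_orderOf_eq_one y
  have hy' : ∀ c ∈ Cz (P α), c ^ 61 = 1 → c ∈ zpowers y := fun c a b => by
    obtain ⟨n, e⟩ := hy ⟨c, a⟩ (Subtype.ext b)
    exact ⟨n, congrArg Subtype.val e⟩
  have cj : ∀ g : G, g • α = α → g * y * g⁻¹ ∈ zpowers y := fun g hg => hy' _ (mem_Cz.2 fun x hx => by
    have := mem_Cz.1 yC _ (hB.conj_fix (inv_smul_eq_iff.2 hg.symm) hx)
    calc x * (g * y * g⁻¹) = g * (g⁻¹ * x * g⁻¹⁻¹ * y) * g⁻¹ := by group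
      _ = _ := by rw [this]; group) (by rw [conj_pow, y61]; simp)
  have cj' : ∀ g : G, g • α = α → ∀ q ∈ zpowers y, g * q * g⁻¹ ∈ zpowers y := by
    rintro g hg _ ⟨n, rfl⟩
    have := zpow_mem (cj g hg) n
    rwa [conj_zpow] at this
  have le : St G α β ≤ normalizer (zpowers y : Set G) := fun g hg => mem_normalizer_iff.2 fun q =>
    ⟨cj' g hg.1 q, fun h => by simpa [mul_assoc] using cj' g⁻¹ (inv_smul_eq_iff.2 hg.1.symm) _ h⟩
  haveI := ZMod.isCyclic_units_prime (p := Nat.card (zpowers y)) (by rw [Nat.card_zpowers, o]; norm_num)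
  refine isCyclic_of_injective ((IsCyclic.mulAutMulEquiv (zpowers y)).toMonoidHom.comp
    ((zpowers y).normalizerMonoidHom.comp (inclusion le))) ((IsCyclic.mulAutMulEquiv _).injective.comp
      ((injective_iff_map_eq_one _).2 fun ⟨g, ga, gb⟩ e => by_contra fun g1 => ?_))
  have cg : Commute y g := by
    have : inclusion le ⟨g, ga, gb⟩ ∈ (zpowers y).normalizerMonoidHom.ker := e
    rw [normalizerMonoidHom_ker] at this
    exact this y (mem_zpowers y)
  replace g1 : g ≠ 1 := fun e => g1 (Subtype.ext e)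
  have ga : g • α = α := ga
  have gb : g • β = β := gb
  have cen := (hG.ca.lf1 α β ne).cen
  have c2 := hG.g1.two g α β (y • β) ne (fun k => ne (smul_left_cancel y ((hB.fix_of_cent yC).trans k)))
    (fun k => by
      have := free hG ne ev.dvd yC (orderOf_dvd_iff_pow_eq_one.1 (o ▸ by norm_num)) ne.symm k.symm
      rw [this, orderOf_one] at o; omega) ga gb (by rw [← mul_smul, ← cg.eq, mul_smul, gb])
  have c1 : chi P g α = -1 := ((by decide : ∀ c : ZMod 11, c ^ 2 = 1 → c = 1 ∨ c = -1) _ c2).resolve_left fun k =>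
    g1 (kone hG ne ev.dvd yC o (cen g ga gb k) cg.symm)
  have g2 : g ^ 2 = 1 := kone hG ne ev.dvd yC o (cen _ ((stabilizer G α).pow_mem ga 2) ((stabilizer G β).pow_mem gb 2)
    (by rw [hB.chi_pow ga, c2])) (cg.symm.pow_left 2)
  have t2 : t ^ 2 = 1 := ev.ot ▸ pow_orderOf_eq_one t
  have ta := hB.Kk_fix (left_mem_Ln α β) ev.tK
  have tb := hB.Kk_fix (right_mem_Ln α β) ev.tK
  have ty : t * y * t⁻¹ = y⁻¹ := by
    obtain ⟨n, e⟩ := cj t ta
    have cm : Commute y (t * y * t⁻¹) := e ▸ Commute.self_zpow y n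
    have m := mul_mem (mem_zpowers y) (cj t ta)
    refine eq_inv_of_mul_eq_one_right (by_contra fun w1 => ?_)
    have := kone hG ne ev.dvd (zpowers_le.2 yC m) (orderOf_eq_prime (by rw [cm.mul_pow, conj_pow, y61]; simp) w1) ev.tK
      (by
        show _ = _
        rw [mul_assoc y, inv_mul_cancel_right, cm.eq, ← mul_assoc, ← mul_assoc, ← mul_assoc, ← pow_two, t2, one_mul,
          inv_eq_of_mul_eq_one_right ((pow_two t).symm.trans t2), mul_assoc])
    have o := ev.ot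
    rw [this, orderOf_one] at o; omega
  have gt : Commute g t := mul_inv_eq_iff_eq_mul.1 (ev.uniq _ (hB.norm_Kk (.inl ⟨ga, gb⟩) t ev.tK)
    (by rw [← ev.ot]; exact (orderOf_injective (MulAut.conj g).toMonoidHom (MulAut.conj g).injective t)))
  obtain ⟨x, hx, x1⟩ := hB.exists_gen α
  have cx : Commute x y := mem_Cz.1 yC x hx
  refine sgn hG ne ev.dvd hn (r := x * y) (u := g * t) (mul_mem (hB.P_le_Cz α hx) yC)
    (by rw [cx.orderOf_mul_eq_mul_orderOf_of_coprime (by rw [hB.orderOf_eq hx x1, o]; norm_num), hB.orderOf_eq hx x1, o])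
    (by rw [gt.mul_pow, g2, t2, one_mul]) (by rw [mul_smul, ta, ga]) (by rw [mul_smul, tb, gb]) ?_
  have tx : x * t = t * x := mem_Cz.1 (hB.Kk_le_Cz (left_mem_Ln α β) ev.tK) x hx
  calc g * t * (x * y) * (g * t)⁻¹ = g * (t * x * t⁻¹) * g⁻¹ * (g * (t * y * t⁻¹) * g⁻¹) := by group
    _ = x⁻¹ * y⁻¹ := by
      rw [← tx, mul_inv_cancel_right, hB.inv_of_chi ga c1 hx, ty, ← cg.inv_left.eq, mul_inv_cancel_right]
    _ = _ := by rw [cx.eq, mul_inv_rev]

end CL.E11
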