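/-
Project E11 (S3403): the Frobenius kernel of Case I.
-/
import Cfsg.Agent.E11.St
import Cfsg.Agent.Char.FrobeniusKernel
import Cfsg.Agent.Grp.Frob

set_option autoImplicit false
set_option linter.unusedSectionVars false

namespace CL.E11

open MulAction Subgroup

universe u

namespace FQx

variable {G : Type u} [Group G] [Finite G]

/-- product of two commuting subgroups -/
def pr (A K : Subgroup G) (h : ∀ x ∈ A, ∀ k ∈ K, x * k = k * x) : Subgroup G where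
  carrier := {y | ∃ x ∈ A, ∃ k ∈ K, y = x * k}
  one_mem' := ⟨1, one_mem _, 1, one_mem _, by simp⟩
  mul_mem' := by
    rintro _ _ ⟨x, hx, k, hk, rfl⟩ ⟨x', hx', k', hk', rfl⟩
    refine ⟨x * x', mul_mem hx hx', k * k', mul_mem hk hk', ?_⟩
    calc x * k * (x' * k') = x * (k * x') * k' := by group
      _ = _ := by rw [← h x' hx' k hk]; group
  inv_mem' := by
    rintro _ ⟨x, hx, k, hk, rfl⟩
    exact ⟨x⁻¹, inv_mem hx, k⁻¹, inv_mem hk, by rw [h x hx k hk, mul_inv_rev]⟩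

theorem card_mul {A K C : Subgroup G} (hA : A ≤ C) (hK : K ≤ C) (h1 : ∀ x ∈ A, x ∈ K → x = 1)
    (h2 : ∀ c ∈ C, ∃ x ∈ A, ∃ k ∈ K, c = x * k) : Nat.card C = Nat.card A * Nat.card K := by
  rw [← Nat.card_prod]
  refine (Nat.card_congr (Equiv.ofBijective
    (fun p : A × K => (⟨p.1 * p.2, mul_mem (hA p.1.2) (hK p.2.2)⟩ : C)) ⟨?_, ?_⟩)).symm
  · rintro ⟨⟨a, ha⟩, ⟨k, hk⟩⟩ ⟨⟨a', ha'⟩, ⟨k', hk'⟩⟩ e
    have e : a * k = a' * k' := congrArg Subtype.val e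
    have e1 : a'⁻¹ * a = k' * k⁻¹ := by
      calc a'⁻¹ * a = a'⁻¹ * (a * k) * k⁻¹ := by group
        _ = _ := by rw [e]; group
    have e2 := h1 _ (mul_mem (inv_mem ha') ha) (e1 ▸ mul_mem hk' (inv_mem hk))
    obtain rfl : a' = a := inv_mul_eq_one.1 e2
    obtain rfl : k = k' := mul_left_cancel e
    rfl
  · rintro ⟨c, hc⟩
    obtain ⟨x, hx, k, hk, rfl⟩ := h2 c hc
    exact ⟨(⟨x, hx⟩, ⟨k, hk⟩), rfl⟩

theorem fw {C H M : Subgroup G} (hH : H ≤ C) (hMH : M ≤ H) (hM : ∀ h ∈ H, ∀ m ∈ M, h * m * h⁻¹ ∈ M)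
    (hFW : ∀ x ∈ C, x ∉ H → ∀ h ∈ H, x * h * x⁻¹ ∈ H → h ∈ M) :
    ∃ N : Subgroup G, (∀ g, g ∈ N ↔ g ∈ C ∧ ∀ x ∈ C, x * g * x⁻¹ ∈ H → x * g * x⁻¹ ∈ M) ∧
      (∀ g ∈ N, g ∈ H → g ∈ M) ∧ M ≤ N ∧ ∀ c ∈ C, ∃ y ∈ N, ∃ h ∈ H, c = y * h := by
  obtain ⟨N, hN, h1, h2, h3⟩ := CL.Char.frobenius_wielandt (G := C) (H := H.subgroupOf C) (M := M.subgroupOf C)
    (fun x hx => hMH hx) (fun h hh m hm => hM h hh m hm) (fun x hx h hh e => hFW x x.2 hx h hh e)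
  refine ⟨N.map C.subtype, fun g => ⟨?_, fun ⟨hg, h⟩ => ⟨⟨g, hg⟩, (h1 _).2 fun x hx => h x x.2 hx, rfl⟩⟩,
    ?_, ?_, ?_⟩
  · rintro ⟨g, hg, rfl⟩
    exact ⟨g.2, fun x hx e => (h1 g).1 hg ⟨x, hx⟩ e⟩
  · rintro _ ⟨g, hg, rfl⟩ h
    have : g ∈ N ⊓ H.subgroupOf C := ⟨hg, h⟩
    rw [h2] at this
    exact this
  · intro m hm
    have : (⟨m, hH (hMH hm)⟩ : C) ∈ N ⊓ H.subgroupOf C := by rw [h2]; exact hm
    exact ⟨_, this.1, rfl⟩
  · intro c hc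
    have : (⟨c, hc⟩ : C) ∈ N ⊔ H.subgroupOf C := h3 ▸ mem_top _
    rw [← SetLike.mem_coe, normal_mul] at this
    obtain ⟨y, hy, h, hh, e⟩ := this
    exact ⟨y, ⟨y, hy, rfl⟩, h, hh, (congrArg Subtype.val e).symm⟩

theorem split {N A : Subgroup G} (hA : A ≤ N) (hc : ∀ x ∈ A, ∀ y ∈ N, x * y = y * x) {m : ℕ}
    (cA : Nat.card A = 11) (cN : Nat.card N = 11 * m) (hm : ¬ 11 ∣ m) :
    ∃ Q : Subgroup G, (∀ y, y ∈ Q ↔ y ∈ N ∧ y ^ m = 1) ∧ Nat.card Q = m ∧ Q ⊓ A = ⊥ ∧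
      ∀ y ∈ N, ∃ x ∈ A, ∃ q ∈ Q, y = x * q := by
  haveI : (A.subgroupOf N).Normal := ⟨fun x hx y => by
    rw [mem_subgroupOf] at hx ⊢
    show (y : G) * x * (y : G)⁻¹ ∈ A
    rw [← hc x hx y y.2, mul_inv_cancel_right]
    exact hx⟩
  have cop : Nat.Coprime 11 m := (Nat.Prime.coprime_iff_not_dvd (by norm_num)).2 hm
  have c1 : Nat.card (A.subgroupOf N) = 11 := by
    rw [← cA]; exact Nat.card_congr (subgroupOfEquivOfLe hA).toEquiv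
  have c2 : (A.subgroupOf N).index = m := by
    have := (A.subgroupOf N).card_mul_index
    rw [c1, cN] at this
    omega
  obtain ⟨Q, hQ⟩ := exists_right_complement'_of_coprime (N := A.subgroupOf N) (by rw [c1, c2]; exact cop)
  have cQ : Nat.card Q = m := by rw [← c2]; exact hQ.symm.index_eq_card.symm
  have triv : ∀ x ∈ A, x ^ m = 1 → x = 1 := fun x hx e => by
    have h11 : x ^ 11 = 1 := by
      have := pow_card_eq_one' (x := (⟨x, hx⟩ : A))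
      rw [cA] at this
      exact congrArg Subtype.val this
    have := Nat.dvd_gcd (orderOf_dvd_of_pow_eq_one h11) (orderOf_dvd_of_pow_eq_one e)
    rw [cop.gcd_eq_one, Nat.dvd_one] at this
    exact orderOf_eq_one_iff.1 this
  have pw : ∀ q ∈ Q.map N.subtype, q ∈ N ∧ q ^ m = 1 := by
    rintro _ ⟨q, hq, rfl⟩
    have := pow_card_eq_one' (x := (⟨q, hq⟩ : Q))
    rw [cQ] at this
    exact ⟨q.2, congrArg (fun z : Q => ((z : N) : G)) this⟩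
  have dec : ∀ y ∈ N, ∃ x ∈ A, ∃ q ∈ Q.map N.subtype, y = x * q := fun y hy => by
    obtain ⟨⟨x, q⟩, e⟩ := hQ.2 ⟨y, hy⟩
    exact ⟨(x : N), x.2, (q : N), ⟨q, q.2, rfl⟩, (congrArg Subtype.val e).symm⟩
  refine ⟨Q.map N.subtype, fun y => ⟨pw y, fun ⟨hy, e⟩ => ?_⟩, ?_, ?_, dec⟩
  · obtain ⟨x, hx, q, hq, rfl⟩ := dec y hy
    rw [Commute.mul_pow (hc x hx q (pw q hq).1), (pw q hq).2, mul_one] at e
    rw [triv x hx e, one_mul]
    exact hq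
  · rw [card_map_of_injective N.subtype_injective, cQ]
  · exact (eq_bot_iff_forall _).2 fun x hx => triv x hx.2 (pw x hx.1).2

end FQx

open FQx in
theorem fq : FQs.{u} := by
  intro G Ω _ _ _ _ P hG ev hI α β hne
  have hB := hG.ca.base
  obtain ⟨m, hn, -, hm1⟩ := hG.g1.deg
  have aL := left_mem_Ln (P := P) α β
  have bL := right_mem_Ln (P := P) α β
  have PL : P α ≤ Ls P α β := le_sup_left
  have KC : Kk P α β ≤ Cz (P α) := hB.Kk_le_Cz aL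
  have cm : ∀ x ∈ P α, ∀ k ∈ Kk P α β, x * k = k * x := fun x hx k hk => mem_Cz.1 (KC hk) x hx
  have PK : ∀ x ∈ P α, x ∈ Kk P α β → x = 1 := fun x hx hk => hB.eq_one_of_LK hne (PL hx) hk
  obtain ⟨H, mH⟩ : ∃ H : Subgroup G, ∀ y, y ∈ H ↔ ∃ x ∈ P α, ∃ k ∈ Kk P α β, y = x * k :=
    ⟨pr _ _ cm, fun _ => Iff.rfl⟩
  have PH : P α ≤ H := fun x hx => (mH x).2 ⟨x, hx, 1, one_mem _, by simp⟩
  have KH : Kk P α β ≤ H := fun k hk => (mH k).2 ⟨1, one_mem _, k, hk, by simp⟩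
  have HC : H ≤ Cz (P α) := fun y hy => by
    obtain ⟨x, hx, k, hk, rfl⟩ := (mH y).1 hy
    exact mul_mem (hB.P_le_Cz α hx) (KC hk)
  have cH : Nat.card H = 11 * Nat.card (Kk P α β) := by
    rw [card_mul PH KH PK fun c hc => (mH c).1 hc, hB.card]
  have HL : ∀ y ∈ H, ∀ γ ∈ Ln P α β, y • γ ∈ Ln P α β := fun y hy γ hγ => by
    obtain ⟨x, hx, k, hk, rfl⟩ := (mH y).1 hy
    rw [mul_smul, hB.Kk_fix hγ hk]
    exact hB.smul_mem_Ln_of_mem (PL hx) hγ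
  have pk : ∀ c ∈ Cz (P α), c • β ∈ Ln P α β → c ∈ H := fun c hc h => (mH c).2 (hG.g2.pk α β hne c hc h)
  have cx : ∀ c ∈ Cz (P α), ∀ x ∈ P α, c * x * c⁻¹ = x := fun c hc x hx => by
    rw [← mem_Cz.1 hc x hx, mul_inv_cancel_right]
  obtain ⟨N, mN, NH, PN, CN⟩ := fw HC PH (fun h hh x hx => by rw [cx h (HC hh) x hx]; exact hx) (by
    intro c hc hcH y hy e
    obtain ⟨x, hx, k, hk, rfl⟩ := (mH y).1 hy
    have e1 : c * k * c⁻¹ ∈ H := by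
      have : c * k * c⁻¹ = x⁻¹ * (c * (x * k) * c⁻¹) := by
        calc c * k * c⁻¹ = (c * x * c⁻¹)⁻¹ * (c * (x * k) * c⁻¹) := by group
          _ = _ := by rw [cx c hc x hx]
      rw [this]
      exact mul_mem (inv_mem (PH hx)) e
    obtain ⟨x', hx', k', hk', e2⟩ := (mH _).1 e1
    have hγ : c⁻¹ • β ∉ Ln P α β := fun h => hcH (inv_mem_iff.1 (pk _ (inv_mem hc) h))
    have : k = 1 := hI α β _ hne hγ k hk ⟨x', hx', by
      calc k • c⁻¹ • β = c⁻¹ • (c * k * c⁻¹) • β := by simp [mul_smul]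
        _ = (c⁻¹ * x' * c⁻¹⁻¹) • c⁻¹ • β := by rw [e2]; simp [mul_smul, hB.Kk_fix bL hk']
        _ = _ := by rw [cx _ (inv_mem hc) x' hx']⟩
    rw [this, mul_one]
    exact hx)
  have NC : N ≤ Cz (P α) := fun y hy => ((mN y).1 hy).1
  have κ0 : 0 < Nat.card (Kk P α β) := Nat.card_pos
  have cN : Nat.card N = 11 * m := by
    have h1 := card_mul NC KC (fun y hy hk => PK y (NH y hy (KH hk)) hk) fun c hc => by
      obtain ⟨y, hy, h, hh, rfl⟩ := CN c hc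
      obtain ⟨x, hx, k, hk, rfl⟩ := (mH h).1 hh
      exact ⟨y * x, mul_mem hy (PN hx), k, hk, (mul_assoc _ _ _).symm⟩
    rw [hG.g2.cardC ev α β hne] at h1
    have := Nat.eq_of_mul_eq_mul_right κ0 h1
    omega
  -- elements fixing `α` normalise `C`
  have nC : ∀ g : G, g • α = α → ∀ c ∈ Cz (P α), g * c * g⁻¹ ∈ Cz (P α) := fun g hg c hc => by
    refine mem_Cz.2 fun x hx => ?_
    have h1 : g⁻¹ * x * g⁻¹⁻¹ ∈ P α := hB.conj_fix (inv_smul_eq_iff.2 hg.symm) hx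
    have h2 := mem_Cz.1 hc _ h1
    calc x * (g * c * g⁻¹) = g * ((g⁻¹ * x * g⁻¹⁻¹) * c) * g⁻¹ := by group
      _ = g * c * g⁻¹ * x := by rw [h2]; group
  have nN : ∀ g : G, g • α = α → ∀ y ∈ N, g * y * g⁻¹ ∈ N := fun g hg y hy => by
    have hgb : g • β ≠ α := fun e => hne (MulAction.injective g (hg.trans e.symm))
    obtain ⟨c, hc, e⟩ := hG.g2.tr ev α β _ hne.symm hgb
    have ca : c • α = α := hB.fix_of_cent hc
    obtain ⟨s, sa, sb, rfl⟩ : ∃ s : G, s • α = α ∧ s • β = β ∧ g = c * s :=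
      ⟨c⁻¹ * g, by rw [mul_smul, hg, inv_smul_eq_iff, ca], by rw [mul_smul, ← e, inv_smul_smul], by group⟩
    have sa' : s⁻¹ • α = α := inv_smul_eq_iff.2 sa.symm
    have sb' : s⁻¹ • β = β := inv_smul_eq_iff.2 sb.symm
    refine (mN _).2 ⟨nC _ hg y (NC hy), fun z hz h => ?_⟩
    have e1 : z * (c * s * y * (c * s)⁻¹) * z⁻¹ =
        s * ((s⁻¹ * (z * c) * s⁻¹⁻¹) * y * (s⁻¹ * (z * c) * s⁻¹⁻¹)⁻¹) * s⁻¹ := by group
    rw [e1] at h ⊢
    refine hB.conj_fix sa (((mN y).1 hy).2 _ (nC _ sa' _ (mul_mem hz hc)) ?_)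
    obtain ⟨x, hx, k, hk, e2⟩ := (mH _).1 h
    refine (mH _).2 ⟨_, hB.conj_fix sa' hx, _, hB.norm_Kk (.inl ⟨sa', sb'⟩) k hk, ?_⟩
    calc _ = s⁻¹ * (s * ((s⁻¹ * (z * c) * s⁻¹⁻¹) * y * (s⁻¹ * (z * c) * s⁻¹⁻¹)⁻¹) * s⁻¹) * s := by group
      _ = _ := by rw [e2]; group
  have tN : ∀ γ : Ω, γ ≠ α → ∃ y ∈ N, y • β = γ := fun γ hγ => by
    obtain ⟨c, hc, e⟩ := hG.g2.tr ev α β γ hne.symm hγ
    obtain ⟨y, hy, h, hh, rfl⟩ := CN c hc
    obtain ⟨x, hx, k, hk, rfl⟩ := (mH h).1 hh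
    refine ⟨y * x, mul_mem hy (PN hx), ?_⟩
    rw [← e, mul_smul, mul_smul, mul_smul, hB.Kk_fix bL hk]
  have fN : ∀ k ∈ Kk P α β, k ≠ 1 → ∀ y ∈ N, k * y = y * k → y ∈ P α := fun k hk k1 y hy e =>
    NH y hy (pk y (NC hy) (hG.g1.cenK α β hne k hk k1 y (by rw [← e, mul_inv_cancel_right]; exact hk) β bL))
  have dv : Nat.card (Kk P α β) ∣ m - 1 := by
    have h1 := CL.Grp.card_dvd_card_of_free_on (A := H) (X := Ω) (Ln P α β)ᶜ
      (fun a γ hγ h => hγ (by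
        have := HL _ (inv_mem a.2) _ h
        rwa [Subgroup.smul_def, inv_smul_smul] at this))
      (fun a γ hγ h => by
        obtain ⟨x, hx, k, hk, e⟩ := (mH a).1 a.2
        rw [Subgroup.smul_def, e, mul_smul] at h
        have k1 : k = 1 := hI α β γ hne hγ k hk ⟨x⁻¹, inv_mem hx, eq_inv_smul_iff.2 h⟩
        rw [k1, one_smul] at h
        have x1 : x = 1 := by_contra fun x1 => hγ (hB.eq_of_fix hx x1 h ▸ aL)
        exact Subtype.ext (by rw [e, x1, k1, mul_one]; rfl))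
    have h2 := Set.ncard_add_ncard_compl (Ln P α β)
    rw [(hG.ca.lf1 α β hne).card, hn] at h2
    rw [cH, Nat.card_coe_set_eq, show (Ln P α β)ᶜ.ncard = 11 * (m - 1) by omega] at h1
    exact Nat.dvd_of_mul_dvd_mul_left (by norm_num) h1
  have cop : Nat.Coprime m (Nat.card (Kk P α β)) := by
    refine Nat.Coprime.coprime_dvd_right dv ?_
    obtain ⟨m', rfl⟩ : ∃ m', m = m' + 1 := ⟨m - 1, by omega⟩
    simp
  by_cases h11 : 11 ∣ Nat.card (Kk P α β)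
  · have hm : ¬ 11 ∣ m := fun h => by
      have := h11.trans dv
      omega
    obtain ⟨Q, mQ, cQ, QA, dec⟩ := split PN (fun x hx y hy => mem_Cz.1 (NC hy) x hx) (hB.card α) cN hm
    refine ⟨Q, fun y hy => NC ((mQ y).1 hy).1, fun g hg y hy => (mQ _).2 ⟨nN g hg y ((mQ y).1 hy).1, ?_⟩,
      cQ ▸ cop, ?_, fun k hk k1 y hy => fN k hk k1 y ((mQ y).1 hy).1, fun γ hγ => ?_⟩
    · rw [conj_pow, ((mQ y).1 hy).2, mul_one, mul_inv_cancel]
    · rw [QA, card_bot, cQ]; omega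
    · obtain ⟨y, hy, e⟩ := tN γ hγ
      obtain ⟨x, hx, q, hq, rfl⟩ := dec y hy
      exact ⟨x, hx, q, hq, e⟩
  · refine ⟨N, NC, nN, ?_, ?_, fN, fun γ hγ => ?_⟩
    · rw [cN]
      exact Nat.Coprime.mul_left ((Nat.Prime.coprime_iff_not_dvd (by norm_num)).2 h11) cop
    · rw [inf_eq_right.2 PN, hB.card, cN]; omega
    · obtain ⟨y, hy, e⟩ := tN γ hγ
      exact ⟨1, one_mem _, y, hy, by rwa [one_mul]⟩

end CL.E11
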