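/-
Project E11 (S3403): fixed points and double transitivity.
-/
import Cfsg.Agent.E11.St

set_option autoImplicit false
set_option linter.unusedSectionVars false

namespace CL.E11

open MulAction Subgroup

universe u

section

variable {G Ω : Type u} [Group G] [Finite G] [Finite Ω] [MulAction G Ω] {P : Ω → Subgroup G}

theorem geo1_mod {p : ℕ} [Fact p.Prime] {W : Subgroup G} (hW : IsPGroup p W) :
    Nat.card Ω ≡ {ε : Ω | ∀ w ∈ W, w • ε = ε}.ncard [MOD p] := by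
  have e : fixedPoints W Ω = {ε : Ω | ∀ w ∈ W, w • ε = ε} :=
    Set.ext fun ε => ⟨fun h w hw => h ⟨w, hw⟩, fun h w => h w w.2⟩
  have := hW.card_modEq_card_fixedPoints Ω
  rwa [e, Nat.card_coe_set_eq] at this

theorem geo1_fixK (h : CA P) (α β : Ω) (ne : α ≠ β) (k : G) (hk : k ∈ Kk P α β) (k1 : k ≠ 1) (γ : Ω)
    (e : k • γ = γ) : γ ∈ Ln P α β := by
  have hB := h.base
  by_cases c : α = γ
  · exact c ▸ left_mem_Ln α β
  have e1 := (h.lf1 α γ c).inv k (hB.Kk_fix (left_mem_Ln α β) hk) e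
  rw [hB.chi_Kk (left_mem_Ln α β) hk, mul_one, hB.chi_eq_one_iff e] at e1
  have le : ∀ ε, k ∈ Cz (P ε) → P ε ≤ Ce k := fun ε f x hx => mem_Ce.2 (mem_Cz.1 f x hx)
  have la := le α (hB.Kk_le_Cz (left_mem_Ln α β) hk)
  have lb := le β (hB.Kk_le_Cz (right_mem_Ln α β) hk)
  obtain ⟨γ', δ', ne', f⟩ := h.ind (Ce k)
    (fun t => k1 (hB.eq_one_of_comm fun g => mem_Ce.1 (t ▸ mem_top g))) α β ne la lb
  rw [Ln_congr ((h.lf1 γ' δ' ne').sub α (f α la) β (f β lb) ne)]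
  exact f γ (le γ e1)

theorem geo1_two (h : CA P) (g : G) (α β γ : Ω) (n1 : α ≠ β) (n2 : α ≠ γ) (n3 : β ≠ γ) (e1 : g • α = α)
    (e2 : g • β = β) (e3 : g • γ = γ) : chi P g α ^ 2 = 1 := by
  have a := (h.lf1 α β n1).inv g e1 e2
  have b := (h.lf1 α γ n2).inv g e1 e3
  have c := (h.lf1 β γ n3).inv g e2 e3
  linear_combination (-chi P g α ^ 2) * c + chi P g β * chi P g α * b + a

theorem geo1_syl (h : CA P) [Fact (Nat.Prime 5)] (α β : Ω) (ne : α ≠ β) :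
    Nat.card Ω % 5 = 2 ∧ ∃ W : Sylow 5 G, {ε : Ω | ∀ w ∈ (W : Subgroup G), w • ε = ε} = {α, β} := by
  obtain ⟨x, s, H⟩ := (h.lf1 α β ne).hs
  have f : ∀ ε, x • ε = ε → ε ∈ ({α, β} : Set Ω) := fun ε e => by
    by_contra c
    simp only [Set.mem_insert_iff, Set.mem_singleton_iff, not_or] at c
    have := geo1_two h x α β ε ne (Ne.symm c.1) (Ne.symm c.2) H.ha H.hb e
    rw [H.hc] at this
    exact absurd this (by decide)
  have hp : IsPGroup 5 (zpowers x) := IsPGroup.of_card (n := 1) (by rw [Nat.card_zpowers, H.ho, pow_one])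
  have e1 : {ε : Ω | ∀ w ∈ zpowers x, w • ε = ε} = {α, β} := by
    refine Set.Subset.antisymm (fun ε e => f ε (e x (mem_zpowers x))) ?_
    rintro ε (rfl | rfl) w hw
    · exact (zpowers_le (H := stabilizer G ε)).2 H.ha hw
    · exact (zpowers_le (H := stabilizer G ε)).2 H.hb hw
  have m1 := geo1_mod (Ω := Ω) hp
  rw [e1, Set.ncard_pair ne] at m1
  obtain ⟨W, hW⟩ := hp.exists_le_sylow
  have m2 := geo1_mod (Ω := Ω) W.isPGroup'
  have sub : {ε : Ω | ∀ w ∈ (W : Subgroup G), w • ε = ε} ⊆ {α, β} := fun ε e => f ε (e x (hW (mem_zpowers x)))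
  have l := Set.ncard_le_ncard sub
  rw [Set.ncard_pair ne] at l
  unfold Nat.ModEq at m1 m2
  exact ⟨m1, W, Set.eq_of_subset_of_ncard_le sub (by rw [Set.ncard_pair ne]; omega)⟩

theorem geo1_t2 (h : CA P) (α β γ δ : Ω) (n1 : α ≠ β) (n2 : γ ≠ δ) : ∃ g : G, g • α = γ ∧ g • β = δ := by
  have : Fact (Nat.Prime 5) := ⟨by norm_num⟩
  obtain ⟨-, W, e⟩ := geo1_syl h α β n1
  obtain ⟨-, W', e'⟩ := geo1_syl h γ δ n2
  obtain ⟨g, hg⟩ := exists_smul_eq G W W'
  have f : ∀ ε ∈ ({α, β} : Set Ω), g • ε ∈ ({γ, δ} : Set Ω) := fun ε hε => by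
    rw [← e] at hε
    rw [← e', ← hg]
    rintro _ ⟨w, hw, rfl⟩
    change (g * w * g⁻¹) • g • ε = g • ε
    rw [mul_smul, inv_smul_smul, mul_smul, hε w hw]
  obtain ⟨x, s, H⟩ := (h.lf1 γ δ n2).hs
  have n3 : g • α ≠ g • β := fun c => n1 (smul_left_cancel g c)
  rcases f α (by simp) with a | a <;> rcases f β (by simp) with b | b
  · exact absurd (a.trans b.symm) n3
  · exact ⟨g, a, b⟩
  · exact ⟨s * g, by rw [mul_smul, a, H.sb], by rw [mul_smul, b, H.sa]⟩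
  · exact absurd (a.trans b.symm) n3

theorem geo1_out (h : CA P) (α β : Ω) (ne : α ≠ β) : ∃ γ : Ω, γ ∉ Ln P α β := by
  have hB := h.base
  by_contra! c
  have hN : (Ls P α β).Normal := ⟨fun x hx g => Ls_le (c _) (c _) (hB.conj_Ls g α β hx)⟩
  rcases hB.simple.eq_bot_or_eq_top_of_normal _ hN with e | e
  · obtain ⟨x, hx, x1⟩ := hB.exists_gen α
    have : x ∈ Ls P α β := left_mem_Ln α β hx
    rw [e, mem_bot] at this
    exact x1 this
  · exact h.ne α β ne e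

theorem geo1_deg (h : CA P) : ∃ m : ℕ, Nat.card Ω = 1 + 11 * m ∧ m % 5 = 1 ∧ 1 < m := by
  have : Fact (Nat.Prime 5) := ⟨by norm_num⟩
  have : Fact (Nat.Prime 11) := ⟨by norm_num⟩
  have hB := h.base
  obtain ⟨α, β, ne⟩ := hB.two
  have m1 := (geo1_syl h α β ne).1
  have m2 := geo1_mod (Ω := Ω) (IsPGroup.of_card (p := 11) (n := 1) (hB.card α))
  have e : {ε : Ω | ∀ w ∈ P α, w • ε = ε} = {α} := by
    obtain ⟨x, hx, x1⟩ := hB.exists_gen α
    refine Set.Subset.antisymm (fun ε e => hB.eq_of_fix hx x1 (e x hx)) ?_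
    rintro ε rfl w hw
    exact hB.self_fix hw
  rw [e, Set.ncard_singleton] at m2
  obtain ⟨γ, hγ⟩ := geo1_out h α β ne
  have l := Set.ncard_le_card (insert γ (Ln P α β))
  rw [Set.ncard_insert_of_notMem hγ, (h.lf1 α β ne).card] at l
  unfold Nat.ModEq at m2
  exact ⟨(Nat.card Ω - 1) / 11, by omega, by omega, by omega⟩

end

theorem geo1 : Geo1s.{u} := by
  intro G Ω _ _ _ _ P h
  refine ⟨geo1_fixK h, geo1_two h, geo1_t2 h, geo1_deg h, geo1_out h, fun α β ne k hk k1 y hy γ hγ => ?_⟩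
  refine geo1_fixK h α β ne _ hy (fun e => k1 (conj_eq_one_iff.1 e)) _ ?_
  rw [mul_smul, inv_smul_smul, mul_smul, h.base.Kk_fix hγ hk]

end CL.E11
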