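/-
E11-GEO2: orders and stabilisers in a counterexample of type A.
-/
import Cfsg.Agent.E11.St

set_option autoImplicit false
set_option linter.unusedSectionVars false

namespace CL.E11

open MulAction Subgroup

universe u

section
variable {G Ω : Type u} [Group G] [Finite G] [Finite Ω] [MulAction G Ω] {P : Ω → Subgroup G}

theorem g2_orb (X : Subgroup G) (β : Ω) (S : Set Ω) (h : ∀ γ, γ ∈ S ↔ ∃ x ∈ X, x • β = γ) :
    Nat.card X = S.ncard * Nat.card (X ⊓ stabilizer G β :) := by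
  have e : S = orbit X β := Set.ext fun γ => (h γ).trans
    ⟨fun ⟨x, a, b⟩ => ⟨⟨x, a⟩, b⟩, fun ⟨x, b⟩ => ⟨x, x.2, b⟩⟩
  rw [e, ← index_stabilizer, ← (stabilizer X β).index_mul_card,
    ← Nat.card_congr (subgroupOfEquivOfLe (inf_le_left : X ⊓ stabilizer G β ≤ X)).toEquiv, inf_subgroupOf_left]
  rfl

theorem g2_compl (α : Ω) : ({α}ᶜ : Set Ω).ncard = Nat.card Ω - 1 := by
  have := Set.ncard_add_ncard_compl ({α} : Set Ω)
  rw [Set.ncard_singleton] at this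
  omega

theorem g2_ne : (3 : ZMod 11) ≠ 1 := by decide

theorem g2_rng (hB : Base P) {α : Ω} {X : Subgroup G} (le : X ≤ stabilizer G α) {h : G} (hh : h ∈ X)
    (h3 : chi P h α = 3) : (Nat.card X = 5 * Nat.card (X ⊓ Cz (P α) :) ∧ ∀ g ∈ X, chi P g α ^ 5 = 1) ∨
      (Nat.card X = 10 * Nat.card (X ⊓ Cz (P α) :) ∧ ∃ g ∈ X, chi P g α = -1) := by
  have : Fact (Nat.Prime 11) := ⟨by norm_num⟩
  have : Fact (Nat.Prime 5) := ⟨by norm_num⟩
  let φ : X →* (ZMod 11)ˣ := ((hB.chiHom α).comp (inclusion le)).toHomUnits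
  have v : ∀ g : X, (φ g : ZMod 11) = chi P g α := fun _ => rfl
  have k : φ.ker = (X ⊓ Cz (P α)).subgroupOf X := Subgroup.ext fun g => by
    rw [MonoidHom.mem_ker, Units.ext_iff, v, Units.val_one, hB.chi_eq_one_iff (le g.2), mem_subgroupOf, mem_inf]
    exact ⟨fun e => ⟨g.2, e⟩, fun e => e.2⟩
  have c := φ.ker.index_mul_card
  rw [index_ker, k, Nat.card_congr (subgroupOfEquivOfLe inf_le_left).toEquiv] at c
  have u : Nat.card (ZMod 11)ˣ = 10 := by rw [Nat.card_eq_fintype_card, ZMod.card_units]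
  have d1 : Nat.card φ.range ∣ 10 := u ▸ card_subgroup_dvd_card _
  have d2 : 5 ∣ Nat.card φ.range := by
    have : orderOf (φ ⟨h, hh⟩) = 5 := orderOf_eq_prime (Units.ext (by rw [Units.val_pow_eq_pow_val, v, h3]; rfl))
      fun e => by have := congrArg Units.val e; rw [v, h3, Units.val_one] at this; exact g2_ne this
    exact this ▸ orderOf_dvd_natCard _ ⟨_, rfl⟩
  have := Nat.le_of_dvd (by norm_num) d1
  rcases (show Nat.card φ.range = 5 ∨ Nat.card φ.range = 10 by interval_cases Nat.card φ.range <;> omega) with e | e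
  · refine Or.inl ⟨by rw [← c, e], fun g hg => ?_⟩
    have := pow_card_eq_one' (x := (⟨φ ⟨g, hg⟩, _, rfl⟩ : φ.range))
    rw [e] at this
    exact congrArg Units.val (congrArg Subtype.val this)
  · refine Or.inr ⟨by rw [← c, e], ?_⟩
    obtain ⟨g, hg⟩ := (eq_top_of_card_eq φ.range (e.trans u.symm)).ge (mem_top (-1))
    exact ⟨g, g.2, (v g).symm.trans (congrArg Units.val hg)⟩

theorem g2_K (h : CA P) {α β : Ω} (ne : α ≠ β) : Cz (P α) ⊓ stabilizer G β = Kk P α β :=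
  le_antisymm (fun g hg => (h.lf1 α β ne).cen g (h.base.fix_of_cent hg.1) hg.2 (h.base.chi_of_cent hg.1))
    (le_inf (h.base.Kk_le_Cz (left_mem_Ln α β)) fun _ hk => h.base.Kk_fix (right_mem_Ln α β) hk)

theorem g2_K' (h : CA P) {α β : Ω} (ne : α ≠ β) : St G α β ⊓ Cz (P α) = Kk P α β := by
  rw [← g2_K h ne]
  exact le_antisymm (fun _ hg => ⟨hg.2, hg.1.2⟩) fun _ hg => ⟨⟨h.base.fix_of_cent hg.1, hg.2⟩, hg.1⟩

theorem g2_S (h : CA P) {α β : Ω} (ne : α ≠ β) :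
    (Nat.card (St G α β) = 5 * Nat.card (Kk P α β) ∧ ∀ g ∈ St G α β, chi P g α ^ 5 = 1) ∨
    (Nat.card (St G α β) = 10 * Nat.card (Kk P α β) ∧ ∃ g ∈ St G α β, chi P g α = -1) := by
  obtain ⟨x, s, hs⟩ := (h.lf1 α β ne).hs
  rw [← g2_K' h ne]
  exact g2_rng h.base inf_le_left ⟨hs.ha, hs.hb⟩ hs.hc

theorem g2_A (h1 : Geo1 P) {α β : Ω} (ne : α ≠ β) :
    Nat.card (stabilizer G α) = (Nat.card Ω - 1) * Nat.card (St G α β) := by
  rw [← g2_compl α]
  refine g2_orb _ β _ fun γ => ⟨fun e => ?_, ?_⟩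
  · obtain ⟨g, a, b⟩ := h1.t2 α β α γ ne (Ne.symm e)
    exact ⟨g, a, b⟩
  · rintro ⟨g, a, rfl⟩ e
    exact ne (smul_left_cancel g (a.trans (Eq.symm e)))

theorem g2_tr (h : CA P) (h1 : Geo1 P) (ev : Even (Nat.card Ω)) {α β : Ω} (ne : α ≠ β) :
    {γ | ∃ c ∈ Cz (P α), c • β = γ} = {α}ᶜ := by
  have le : {γ | ∃ c ∈ Cz (P α), c • β = γ} ⊆ {α}ᶜ := by
    rintro _ ⟨g, a, rfl⟩ e
    exact ne (smul_left_cancel g ((h.base.fix_of_cent a).trans (Eq.symm e)))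
  refine Set.eq_of_subset_of_ncard_le le ?_
  have c1 := Set.ncard_le_ncard le
  have c2 := g2_orb (Cz (P α)) β {γ | ∃ c ∈ Cz (P α), c • β = γ} fun _ => Iff.rfl
  obtain ⟨x, s, hs⟩ := (h.lf1 α β ne).hs
  have c3 := g2_rng h.base (le_refl (stabilizer G α)) hs.ha hs.hc
  rw [inf_eq_right.2 fun _ hg => h.base.fix_of_cent hg, c2, g2_K h ne, g2_A h1 ne] at c3
  have c4 := g2_S h ne
  have c5 : 0 < Nat.card (Kk P α β) := Nat.card_pos
  obtain ⟨m, hm, -, m1⟩ := h1.deg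
  obtain ⟨r, hr⟩ := ev
  rw [g2_compl] at c1 ⊢
  generalize {γ | ∃ c ∈ Cz (P α), c • β = γ}.ncard = o at *
  rcases c3 with ⟨c3, -⟩ | ⟨c3, -⟩ <;> rcases c4 with ⟨c4, -⟩ | ⟨c4, -⟩ <;>
    rw [c4, ← mul_assoc, ← mul_assoc] at c3 <;> have := Nat.eq_of_mul_eq_mul_right c5 c3 <;> omega

end

theorem geo2 : Geo2s.{u} := by
  intro G Ω _ _ _ _ P h h1
  have hB := h.base
  refine ⟨fun α β ne => ?_, fun α β ne => g2_S h ne, fun α β γ δ a b => ?_, fun g α γ hg c ⟨y, hy, e⟩ => ?_,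
    fun α β ne y a b => ?_, fun α β ne c hc e => ?_, fun α β γ δ a b d X le hX => ?_, fun ev α β γ a b => ?_,
    fun ev α β ne => ?_⟩
  · have := g2_orb (⊤ : Subgroup G) α Set.univ fun γ => ⟨fun _ => (hB.trans α γ).imp fun _ e => ⟨mem_top _, e⟩,
      fun _ => trivial⟩
    rw [card_top, Set.ncard_univ, top_inf_eq, g2_A h1 ne] at this
    rw [this, mul_assoc]
  · obtain ⟨g, rfl, rfl⟩ := h1.t2 α β γ δ a b
    exact hB.card_Kk_smul g α β
  · obtain ⟨x, hx, x1⟩ := hB.exists_gen α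
    obtain ⟨n, rfl⟩ := hB.exists_pow hx x1 hy
    obtain ⟨b, hb⟩ := (by decide : ∀ c a : ZMod 11, c ≠ 1 → ∃ b, b * c + a = b) _ n c
    refine ⟨x ^ b.val, pow_mem hx _, ?_⟩
    rw [show g • x ^ b.val • γ = (g * x ^ b.val * g⁻¹) • g • γ by simp [mul_smul], hB.chi_spec hg (pow_mem hx _), e,
      ← mul_smul, ← pow_mul, ← pow_add, ← hB.pow_val_natCast hx (_ + _)]
    simp [hb]
  · obtain ⟨l, hl, c, d⟩ := (h.lf1 α β ne).t2 _ a _ b fun e => ne (smul_left_cancel y e)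
    exact ⟨l, hl, l⁻¹ * y, mem_St.2 ⟨by rw [mul_smul, ← c, inv_smul_smul], by rw [mul_smul, ← d, inv_smul_smul]⟩,
      by group⟩
  · obtain ⟨x, hx, k⟩ := (h.lf1 α β ne).reg _ e fun z =>
      ne (smul_left_cancel c ((hB.fix_of_cent hc).trans z.symm))
    exact ⟨x, hx, x⁻¹ * c, g2_K h ne ▸ mem_inf.2 ⟨mul_mem (inv_mem (hB.P_le_Cz α hx)) hc,
      by rw [mem_stabilizer_iff, mul_smul, ← k, inv_smul_smul]⟩, by group⟩
  · let S : SubMulAction X Ω := ⟨Ln P γ δ, fun y _ e => hX y y.2 _ e⟩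
    have := Nat.card_congr (selfEquivOrbitsQuotientProd (G := X) (X := S) fun ε => eq_bot_iff.2 fun y hy => by
      by_contra n
      exact d ε ε.2 (h1.fixK α β a y (le y.2) (fun z => n (Subtype.ext z)) ε (congrArg Subtype.val hy)))
    rw [Nat.card_prod] at this
    exact ⟨_, ((h.lf1 γ δ b).card.symm.trans this).trans (mul_comm _ _)⟩
  · exact (g2_tr h h1 ev a.symm).ge b
  · rw [g2_orb (Cz (P α)) β {γ | ∃ c ∈ Cz (P α), c • β = γ} fun _ => Iff.rfl, g2_K h ne, g2_tr h h1 ev ne, g2_compl]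

end CL.E11
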