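/-
Project E11 (S3403): Case II, the element of order 11 in `K`.
-/
import Cfsg.Agent.E11.St

set_option autoImplicit false
set_option linter.unusedSectionVars false
set_option linter.style.haveILetI false

namespace CL.E11

open MulAction Subgroup

universe u

/-- a self-centralising element of order 11 generates a Sylow subgroup -/
theorem iib_exs {H : Type u} [Group H] [Finite H] (k : H) (ho : orderOf k = 11)
    (cen : ∀ y : H, y * k = k * y → y ∈ zpowers k) :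
    ∃ T : Sylow 11 H, (T : Subgroup H) = zpowers k := by
  haveI : Fact (Nat.Prime 11) := ⟨by norm_num⟩
  have hS : IsPGroup 11 (zpowers k) := IsPGroup.of_card (n := 1) (by rw [Nat.card_zpowers, ho, pow_one])
  obtain ⟨T, hT⟩ := hS.exists_le_sylow
  refine ⟨T, le_antisymm ?_ hT⟩
  have hk1 : k ≠ 1 := fun e => by rw [e, orderOf_one] at ho; omega
  have hkT : k ∈ (T : Subgroup H) := hT (mem_zpowers k)
  haveI : Nontrivial (T : Subgroup H) := ⟨⟨⟨k, hkT⟩, 1, fun e => hk1 (congrArg Subtype.val e)⟩⟩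
  haveI := T.isPGroup'.center_nontrivial
  obtain ⟨z, hz⟩ := exists_ne (1 : center (T : Subgroup H))
  have hzc : ∀ t ∈ (T : Subgroup H), t * (z.1 : H) = z.1 * t := fun t ht =>
    congrArg Subtype.val (mem_center_iff.1 z.2 ⟨t, ht⟩)
  have hz1 : (z.1 : H) ≠ 1 := fun e => hz (Subtype.ext (Subtype.ext e))
  have hzk : (z.1 : H) ∈ zpowers k := cen _ (hzc k hkT).symm
  have hoz : orderOf (z.1 : H) = 11 := by
    refine orderOf_eq_prime ?_ hz1
    obtain ⟨n, hn⟩ := mem_zpowers_iff.1 hzk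
    rw [← hn, ← zpow_natCast, ← zpow_mul, mul_comm, zpow_mul, zpow_natCast, ← ho, pow_orderOf_eq_one, one_zpow]
  have he : zpowers (z.1 : H) = zpowers k :=
    eq_of_le_of_card_ge (zpowers_le.2 hzk) (by rw [Nat.card_zpowers, Nat.card_zpowers, ho, hoz])
  intro t ht
  refine cen t ?_
  obtain ⟨n, hn⟩ := mem_zpowers_iff.1 (he ▸ mem_zpowers k : k ∈ zpowers (z.1 : H))
  rw [← hn]
  exact (Commute.zpow_right (hzc t ht) n).eq

theorem iib_syl {H : Type u} [Group H] [Finite H] (k : H) (ho : orderOf k = 11)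
    (cen : ∀ y : H, y * k = k * y → y ∈ zpowers k) (k' : H) (ho' : orderOf k' = 11) :
    ∃ y : H, k' ∈ zpowers (y * k * y⁻¹) := by
  haveI : Fact (Nat.Prime 11) := ⟨by norm_num⟩
  obtain ⟨T, hT⟩ := iib_exs k ho cen
  have hS : IsPGroup 11 (zpowers k') := IsPGroup.of_card (n := 1) (by rw [Nat.card_zpowers, ho', pow_one])
  obtain ⟨T', hT'⟩ := hS.exists_le_sylow
  obtain ⟨y, hy⟩ := exists_smul_eq H T T'
  refine ⟨y, ?_⟩
  have h1 : k' ∈ ((y • T : Sylow 11 H) : Subgroup H) := hy ▸ hT' (mem_zpowers k')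
  rw [Sylow.coe_subgroup_smul, Subgroup.mem_pointwise_smul_iff_inv_smul_mem, hT] at h1
  obtain ⟨n, hn⟩ := mem_zpowers_iff.1 h1
  refine mem_zpowers_iff.2 ⟨n, ?_⟩
  rw [conj_zpow, hn]
  simp [MulAut.smul_def, mul_assoc]

theorem iib_cnt {H : Type u} [Group H] [Finite H] (k : H) (ho : orderOf k = 11)
    (cen : ∀ y : H, y * k = k * y → y ∈ zpowers k)
    (nor : ∀ y : H, y * k * y⁻¹ ∈ zpowers k → y * k * y⁻¹ = k ∨ y * k * y⁻¹ = k⁻¹) :
    ∃ d ν : ℕ, (d = 1 ∨ d = 2) ∧ Nat.card H = 11 * d * ν ∧ ν % 11 = 1 := by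
  haveI : Fact (Nat.Prime 11) := ⟨by norm_num⟩
  obtain ⟨T, hT⟩ := iib_exs k ho cen
  have hν : Nat.card (Sylow 11 H) % 11 = 1 := card_sylow_modEq_one 11 H
  have hi := T.card_eq_index_normalizer
  set N : Subgroup H := normalizer (T : Set H) with hN
  have hSN : zpowers k ≤ N := hT ▸ le_normalizer
  have hnor : ∀ y ∈ N, y * k * y⁻¹ = k ∨ y * k * y⁻¹ = k⁻¹ := fun y hy => by
    refine nor y ?_
    have hk : k ∈ (T : Subgroup H) := hT ▸ mem_zpowers k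
    have := (mem_normalizer_iff.1 hy k).1 hk
    rwa [hT] at this
  have hmem : ∀ y : H, y ∈ zpowers k ↔ y * k * y⁻¹ = k := fun y => by
    constructor
    · intro hy
      obtain ⟨n, rfl⟩ := mem_zpowers_iff.1 hy
      group
    · intro hy
      exact cen y (mul_inv_eq_iff_eq_mul.1 hy)
  have hkk : k⁻¹ ≠ k := fun e => by
    have h2 : k ^ 2 = 1 := by rw [pow_two]; nth_rewrite 1 [← e]; exact inv_mul_cancel k
    have := orderOf_dvd_of_pow_eq_one h2
    rw [ho] at this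
    omega
  have hc : Nat.card N = 11 * (zpowers k).relIndex N := by
    have h1 := ((zpowers k).subgroupOf N).card_mul_index
    rw [Nat.card_congr (subgroupOfEquivOfLe hSN).toEquiv, Nat.card_zpowers, ho] at h1
    exact h1.symm
  have hH : Nat.card H = 11 * (zpowers k).relIndex N * Nat.card (Sylow 11 H) := by
    rw [hi, ← hc]; exact N.card_mul_index.symm
  refine ⟨_, _, ?_, hH, hν⟩
  by_cases hr : ∃ r ∈ N, r * k * r⁻¹ = k⁻¹
  · right
    obtain ⟨r, hrN, hr⟩ := hr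
    refine index_eq_two_iff.2 ⟨⟨r, hrN⟩, fun b => ?_⟩
    rw [mem_subgroupOf, mem_subgroupOf, hmem, hmem]
    have e : ((b * ⟨r, hrN⟩ : N) : H) * k * ((b * ⟨r, hrN⟩ : N) : H)⁻¹ = (b * k * (b : H)⁻¹)⁻¹ := by
      calc ((b * ⟨r, hrN⟩ : N) : H) * k * ((b * ⟨r, hrN⟩ : N) : H)⁻¹ = b * (r * k * r⁻¹) * (b : H)⁻¹ := by
            rw [Subgroup.coe_mul]; group
        _ = _ := by rw [hr]; group
    rw [e]
    rcases hnor b b.2 with h | h <;> rw [h]
    · exact Or.inr ⟨rfl, hkk⟩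
    · exact Or.inl ⟨inv_inv k, hkk⟩
  · left
    refine relIndex_eq_one.2 fun y hy => (hmem y).2 ((hnor y hy).resolve_right fun h => hr ⟨y, hy, h⟩)

theorem iib_dec : ∀ c : ZMod 11, c = 0 ∨ c = 1 ∨ c = 10 ∨
    ∃ i : Fin 5, 3 ^ (i : ℕ) = c ^ 2 ∧ c ^ 2 ≠ 1 ∧ (c ^ 2) ^ 2 ≠ 1 := by decide

section

variable {G Ω : Type u} [Group G] [Finite G] [MulAction G Ω] {P : Ω → Subgroup G}

theorem iib_pow {α β γ : Ω} {c z : G} (hc : c ∈ Kk P α β) (hz : z ∈ P α) (e : c • γ = z • γ) (n : ℕ) :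
    (c ^ n) • γ = (z ^ n) • γ := by
  induction n with
  | zero => simp
  | succ n ih =>
    have h1 : z * c ^ n = c ^ n * z := mem_Cz.1 (pow_mem hc n) z (le_sup_left (a := P α) (b := P β) hz)
    rw [pow_succ, mul_smul, e, ← mul_smul, ← h1, mul_smul, ih, ← mul_smul, ← pow_succ']

end

theorem iib : IIBs.{u} := by
  intro G Ω _ _ _ _ P hG α β k ⟨hne, hk, hk1, γ, hγ, x, hx, hkx⟩
  haveI : Fact (Nat.Prime 11) := ⟨by norm_num⟩
  have hB := hG.ca.base
  have hαγ : α ≠ γ := fun e => hγ (e ▸ left_mem_Ln α β)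
  have hfix : ∀ c ∈ Kk P α β, c • γ = γ → c = 1 := fun c hc e => by
    by_contra h1
    exact hγ (hG.g1.fixK α β hne c hc h1 γ e)
  have hKa : ∀ c ∈ Kk P α β, c • α = α := fun c hc => hB.Kk_fix (left_mem_Ln α β) hc
  have hKb : ∀ c ∈ Kk P α β, c • β = β := fun c hc => hB.Kk_fix (right_mem_Ln α β) hc
  have hxL : x ∈ Ls P α β := le_sup_left (a := P α) (b := P β) hx
  have hx1 : x ≠ 1 := fun e => hk1 (hfix k hk (by rw [hkx, e, one_smul]))
  have hxk : x * k = k * x := mem_Cz.1 hk x hxL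
  have hk'C : x⁻¹ * k ∈ Cz (P α) := mul_mem (inv_mem (hB.P_le_Cz α hx)) (hB.Kk_le_Cz (left_mem_Ln α β) hk)
  have hk' : x⁻¹ * k ∈ Kk P α γ :=
    (hG.ca.lf1 α γ hαγ).cen _ (hB.fix_of_cent hk'C) (by rw [mul_smul, hkx, inv_smul_smul]) (hB.chi_of_cent hk'C)
  have hk'1 : x⁻¹ * k ≠ 1 := fun e => by
    have e' : x = k := inv_mul_eq_one.1 e
    exact hne (hB.eq_of_fix hx hx1 (e' ▸ hKb k hk)).symm
  -- an element fixing `α` and normalising `⟨k'⟩` keeps the `P α`-orbit of `γ`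
  have horb : ∀ g : G, g • α = α → g * (x⁻¹ * k) * g⁻¹ ∈ Kk P α γ → ∃ z ∈ P α, g • γ = z • γ := fun g hg hg' => by
    have h1 := hG.g1.cenK α γ hαγ _ hk' hk'1 g hg' γ (right_mem_Ln α γ)
    have h2 : g • γ ≠ α := fun e => hαγ (smul_left_cancel g (hg.trans e.symm))
    obtain ⟨z, hz, e⟩ := (hG.ca.lf1 α γ hαγ).reg _ h1 h2
    exact ⟨z, hz, e.symm⟩
  have h11 : k ^ 11 = 1 := hfix _ (pow_mem hk 11) (by rw [iib_pow hk hx hkx, hB.pow11 hx, one_smul])
  have ho : orderOf k = 11 := orderOf_eq_prime h11 hk1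
  have cen : ∀ y ∈ Kk P α β, y * k = k * y → y ∈ zpowers k := fun y hy hyk => by
    have hyx : x * y = y * x := mem_Cz.1 hy x hxL
    have h1 : y * (x⁻¹ * k) * y⁻¹ = x⁻¹ * k := by
      have : y * x⁻¹ = x⁻¹ * y := (Commute.inv_right (show Commute y x from hyx.symm)).eq
      rw [← mul_assoc, this, mul_assoc x⁻¹, hyk]; group
    obtain ⟨z, hz, e⟩ := horb y (hKa y hy) (by rw [h1]; exact hk')
    obtain ⟨n, rfl⟩ := hB.exists_pow hx hx1 hz
    have h2 : (k ^ n)⁻¹ * y = 1 := hfix _ (mul_mem (inv_mem (pow_mem hk n)) hy) (by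
      rw [mul_smul, e, ← iib_pow hk hx hkx, inv_smul_smul])
    rw [← inv_mul_eq_one.1 h2]
    exact pow_mem (mem_zpowers k) n
  have nor : ∀ y ∈ Kk P α β, y * k * y⁻¹ ∈ zpowers k → y * k * y⁻¹ = k ∨ y * k * y⁻¹ = k⁻¹ := fun y hy hyk => by
    rw [← mem_powers_iff_mem_zpowers] at hyk
    obtain ⟨a, ha⟩ := hyk
    replace ha : k ^ a = y * k * y⁻¹ := ha
    have hmod : k ^ a = k ^ ((a : ZMod 11).val) := by rw [ZMod.val_natCast]; exact pow_eq_pow_mod a h11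
    rcases iib_dec (a : ZMod 11) with h | h | h | ⟨i, hi, h1, h2⟩
    · exfalso
      rw [h, show (0 : ZMod 11).val = 0 from rfl, pow_zero, ha] at hmod
      exact hk1 (by simpa [mul_assoc] using congrArg (fun w => y⁻¹ * w * y) hmod)
    · left
      rw [← ha, hmod, h, show (1 : ZMod 11).val = 1 from rfl, pow_one]
    · right
      rw [← ha, hmod, h, show (10 : ZMod 11).val = 10 from rfl, eq_inv_iff_mul_eq_one, ← pow_succ, h11]
    · exfalso
      obtain ⟨h, s, hs⟩ := (hG.ca.lf1 α β hne).hs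
      have hha : (h ^ (i : ℕ)) • α = α := (stabilizer G α).pow_mem hs.ha i
      have hhb : (h ^ (i : ℕ)) • β = β := (stabilizer G β).pow_mem hs.hb i
      have hy2 : y ^ 2 ∈ Kk P α β := pow_mem hy 2
      have hga : (y ^ 2 * h ^ (i : ℕ)) • α = α := by rw [mul_smul, hha, hKa _ hy2]
      have hgb : (y ^ 2 * h ^ (i : ℕ)) • β = β := by rw [mul_smul, hhb, hKb _ hy2]
      have hχ : chi P (y ^ 2 * h ^ (i : ℕ)) α = (a : ZMod 11) ^ 2 := by
        rw [hB.chi_mul (hKa _ hy2) hha, hB.chi_Kk (left_mem_Ln α β) hy2, hB.chi_pow hs.ha, hs.hc, one_mul, hi]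
      have hgx : (y ^ 2 * h ^ (i : ℕ)) * x * (y ^ 2 * h ^ (i : ℕ))⁻¹ = x ^ (a ^ 2) := by
        rw [hB.chi_spec hga hx, hχ, ← Nat.cast_pow, hB.pow_val_natCast hx]
      have hgk : (y ^ 2 * h ^ (i : ℕ)) * k * (y ^ 2 * h ^ (i : ℕ))⁻¹ = k ^ (a ^ 2) := by
        have e1 : h ^ (i : ℕ) * k = k * h ^ (i : ℕ) := mem_Cz.1 hk _ (pow_mem hs.hL _)
        calc (y ^ 2 * h ^ (i : ℕ)) * k * (y ^ 2 * h ^ (i : ℕ))⁻¹
            = y * (y * ((h ^ (i : ℕ) * k) * (h ^ (i : ℕ))⁻¹) * y⁻¹) * y⁻¹ := by rw [pow_two]; group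
          _ = y * (y * k * y⁻¹) * y⁻¹ := by rw [e1, mul_inv_cancel_right]
          _ = k ^ (a ^ 2) := by rw [← ha, ← conj_pow, ← ha, ← pow_mul, pow_two]
      have hg' : (y ^ 2 * h ^ (i : ℕ)) * (x⁻¹ * k) * (y ^ 2 * h ^ (i : ℕ))⁻¹ = (x⁻¹ * k) ^ (a ^ 2) := by
        rw [(Commute.inv_left (show Commute x k from hxk)).mul_pow, inv_pow, ← hgx, ← hgk]; group
      obtain ⟨x', hx', e⟩ := hG.g2.fl _ α γ hga (by rw [hχ]; exact h1) (horb _ hga (by rw [hg']; exact pow_mem hk' _))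
      have hx'L : x'⁻¹ ∈ Ls P α β := inv_mem (le_sup_left (a := P α) (b := P β) hx')
      have hout : ∀ δ ∈ Ln P α β, δ ≠ x' • γ := fun δ hδ e' => hγ (by
        have := hB.smul_mem_Ln_of_mem hx'L hδ
        rwa [e', inv_smul_smul] at this)
      exact h2 (hχ ▸ hG.g1.two _ α β (x' • γ) hne (hout α (left_mem_Ln α β)) (hout β (right_mem_Ln α β)) hga hgb e)
  have hz : ∀ a b : Kk P α β, a ∈ zpowers b ↔ (a : G) ∈ zpowers (b : G) := fun a b => by
    rw [mem_zpowers_iff, mem_zpowers_iff]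
    exact exists_congr fun n => by rw [Subtype.ext_iff, Subgroup.coe_zpow]
  have ho' : orderOf (⟨k, hk⟩ : Kk P α β) = 11 := by rw [← Subgroup.orderOf_coe]; exact ho
  have cen' : ∀ y : Kk P α β, y * ⟨k, hk⟩ = ⟨k, hk⟩ * y → y ∈ zpowers (⟨k, hk⟩ : Kk P α β) := fun y e =>
    (hz _ _).2 (cen y y.2 (congrArg Subtype.val e))
  refine ⟨ho, cen, nor, iib_cnt _ ho' cen' fun y e => ?_, fun k' hk'' h' => ?_⟩
  · exact (nor y y.2 ((hz _ _).1 e)).imp Subtype.ext Subtype.ext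
  · obtain ⟨y, hy⟩ := iib_syl _ ho' cen' ⟨k', hk''⟩ (by rw [← Subgroup.orderOf_coe]; exact h')
    exact ⟨y, y.2, (hz _ _).1 hy⟩

end CL.E11
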