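/-
Project E11 (S3403): the counting step of Case II.
-/
import Cfsg.Agent.E11.St

set_option autoImplicit false
set_option linter.unusedSectionVars false

namespace CL.E11

open MulAction Subgroup

universe u

namespace IIC

variable {G Ω : Type u} [Group G] [Finite G] [Finite Ω] [MulAction G Ω] {P : Ω → Subgroup G}

theorem card_dvd_of_free (X : Subgroup G) (S : Set Ω) (h1 : ∀ g ∈ X, ∀ γ ∈ S, g • γ ∈ S)
    (h2 : ∀ g ∈ X, ∀ γ ∈ S, g • γ = γ → g = 1) : Nat.card X ∣ S.ncard := by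
  let T : SubMulAction X Ω := ⟨S, fun g {γ} hγ => h1 g g.2 γ hγ⟩
  have h : ∀ b : T, stabilizer X b = ⊥ := fun b => (eq_bot_iff_forall _).2 fun g hg =>
    Subtype.ext (h2 g g.2 b b.2 (congrArg Subtype.val (mem_stabilizer_iff.1 hg)))
  have e := Nat.card_congr (selfEquivOrbitsQuotientProd h)
  rw [Nat.card_prod] at e
  have e2 : S.ncard = Nat.card T := rfl
  rw [e2, e]
  exact Dvd.intro_left _ rfl

theorem card_eq_mul {A B X : Subgroup G} (hA : A ≤ X) (hB : B ≤ X) (h1 : ∀ a ∈ A, a ∈ B → a = 1)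
    (h2 : ∀ g ∈ X, ∃ a ∈ A, ∃ b ∈ B, g = a * b) : Nat.card X = Nat.card A * Nat.card B := by
  rw [← Nat.card_prod]
  refine (Nat.card_eq_of_bijective (fun p : A × B => (⟨p.1 * p.2, mul_mem (hA p.1.2) (hB p.2.2)⟩ : X))
    ⟨?_, ?_⟩).symm
  · rintro ⟨a, b⟩ ⟨a', b'⟩ e
    have e1 : (a : G) * b = a' * b' := congrArg Subtype.val e
    have e2 : (a' : G)⁻¹ * a = b' * (b : G)⁻¹ := by
      rw [inv_mul_eq_iff_eq_mul, ← mul_assoc, ← e1, mul_inv_cancel_right]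
    have e3 : (a' : G)⁻¹ * a = 1 :=
      h1 _ (mul_mem (inv_mem a'.2) a.2) (e2 ▸ mul_mem b'.2 (inv_mem b.2))
    have e4 : a = a' := Subtype.ext (inv_mul_eq_one.1 e3).symm
    subst e4
    exact Prod.ext rfl (Subtype.ext (mul_left_cancel e1))
  · rintro ⟨g, hg⟩
    obtain ⟨a, ha, b, hb, rfl⟩ := h2 g hg
    exact ⟨(⟨a, ha⟩, ⟨b, hb⟩), rfl⟩

theorem ncard_le_of_cover {ι : Type u} [Finite ι] (S : Set Ω) (T : Set ι) (R : ι → Set Ω) (n : ℕ)
    (h1 : ∀ γ ∈ S, ∃ i ∈ T, γ ∈ R i) (h2 : ∀ i ∈ T, (S ∩ R i).ncard ≤ n) : S.ncard ≤ T.ncard * n := by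
  classical
  have hs : S.toFinite.toFinset ⊆ T.toFinite.toFinset.biUnion fun i => (S ∩ R i).toFinite.toFinset := by
    intro γ hγ
    rw [Set.Finite.mem_toFinset] at hγ
    obtain ⟨i, hi, h⟩ := h1 γ hγ
    exact Finset.mem_biUnion.2 ⟨i, by simpa using hi, by simpa using ⟨hγ, h⟩⟩
  rw [Set.ncard_eq_toFinset_card S, Set.ncard_eq_toFinset_card T]
  refine (Finset.card_le_card hs).trans (Finset.card_biUnion_le_card_mul _ _ _ fun i hi => ?_)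
  rw [← Set.ncard_eq_toFinset_card]
  exact h2 i (by simpa using hi)

theorem class_le (K : Subgroup G) {k : G} (hk : k ∈ K) :
    {c : G | ∃ y ∈ K, c = y * k * y⁻¹}.ncard * orderOf k ≤ Nat.card K := by
  set C := {c : G | ∃ y ∈ K, c = y * k * y⁻¹} with hC
  have hc : ∀ c : C, ∃ y ∈ K, (c : G) = y * k * y⁻¹ := fun c => c.2
  choose f hf hf' using hc
  have e2 : C.ncard = Nat.card C := rfl
  rw [e2, ← Nat.card_zpowers, ← Nat.card_prod]
  have key : ∀ (c : C) (z : zpowers k), (f c * z) * k * (f c * z)⁻¹ = c := by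
    intro c z
    obtain ⟨z, m, rfl⟩ := z
    rw [hf' c]
    simp only
    group
  refine Nat.card_le_card_of_injective
    (fun p : C × zpowers k => (⟨f p.1 * p.2, mul_mem (hf _) (zpowers_le.2 hk p.2.2)⟩ : K)) ?_
  rintro ⟨c, z⟩ ⟨c', z'⟩ e
  have e1 : f c * z = f c' * z' := congrArg Subtype.val e
  have e3 : c = c' := Subtype.ext (by rw [← key c z, ← key c' z', e1])
  subst e3
  exact Prod.ext rfl (Subtype.ext (mul_left_cancel e1))

/-- elements fixing `α` and mapping `β` into the line permute the line -/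
theorem perm_Ln (hB : Base P) {α β : Ω} (hne : α ≠ β) (hl : LF1 P α β) {g : G} (ha : g • α = α)
    (hb : g • β ∈ Ln P α β) : ∃ x ∈ P α, ∃ y : G, y • α = α ∧ y • β = β ∧ g = x * y := by
  obtain ⟨x, hx, e⟩ := hl.reg _ hb (fun e => hne (smul_left_cancel g (ha.trans e.symm)))
  refine ⟨x, hx, x⁻¹ * g, ?_, ?_, by group⟩
  · rw [mul_smul, ha, hB.self_fix (inv_mem hx)]
  · rw [mul_smul, ← e, inv_smul_smul]

theorem smul_Ln (hB : Base P) {α β : Ω} (hne : α ≠ β) (hl : LF1 P α β) {g : G} (ha : g • α = α)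
    (hb : g • β ∈ Ln P α β) {γ : Ω} (hγ : γ ∈ Ln P α β) : g • γ ∈ Ln P α β := by
  obtain ⟨x, hx, y, h1, h2, rfl⟩ := perm_Ln hB hne hl ha hb
  rw [mul_smul]
  exact hB.smul_mem_Ln_of_mem (le_sup_left (a := P α) hx)
    (hB.smul_mem_Ln_of_norm (hB.norm_Ls (Or.inl ⟨h1, h2⟩)) hγ)

theorem conj_K (hB : Base P) {α β : Ω} (hne : α ≠ β) (hl : LF1 P α β) {g : G} (ha : g • α = α)
    (hb : g • β ∈ Ln P α β) {c : G} (hc : c ∈ Kk P α β) : g * c * g⁻¹ ∈ Kk P α β := by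
  obtain ⟨x, hx, y, h1, h2, rfl⟩ := perm_Ln hB hne hl ha hb
  have h3 := hB.norm_Kk (Or.inl ⟨h1, h2⟩) c hc
  have h4 := mem_Cz.1 h3 x (le_sup_left (a := P α) hx)
  have : x * y * c * (x * y)⁻¹ = y * c * y⁻¹ := by
    calc x * y * c * (x * y)⁻¹ = x * (y * c * y⁻¹) * x⁻¹ := by group
      _ = _ := by rw [h4]; group
  rwa [this]

theorem inv_five (hB : Base P) {α : Ω} {g : G} (ha : g • α = α) (h : chi P g α ^ 5 = 1) :
    chi P g⁻¹ α ^ 5 = 1 :=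
  (by decide : ∀ a b : ZMod 11, a * b = 1 → b ^ 5 = 1 → a ^ 5 = 1) _ _ (hB.chi_inv ha) h

/-- the group `⟨h⟩ × K` -/
def Hh (hB : Base P) (α β : Ω) : Subgroup G where
  carrier := {g | g • α = α ∧ g • β = β ∧ chi P g α ^ 5 = 1}
  one_mem' := ⟨one_smul _ _, one_smul _ _, by rw [hB.chi_one, one_pow]⟩
  mul_mem' := fun {a b} ha hb => ⟨by rw [mul_smul, hb.1, ha.1], by rw [mul_smul, hb.2.1, ha.2.1],
    by rw [hB.chi_mul ha.1 hb.1, mul_pow, ha.2.2, hb.2.2, mul_one]⟩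
  inv_mem' := fun {a} ha => ⟨inv_smul_eq_iff.2 ha.1.symm, inv_smul_eq_iff.2 ha.2.1.symm,
    inv_five hB ha.1 ha.2.2⟩

/-- the group `P α ⟨h⟩ × K` -/
def Ee (hB : Base P) {α β : Ω} (hne : α ≠ β) (hl : LF1 P α β) : Subgroup G where
  carrier := {g | g • α = α ∧ g • β ∈ Ln P α β ∧ chi P g α ^ 5 = 1}
  one_mem' := ⟨one_smul _ _, by rw [one_smul]; exact right_mem_Ln α β, by rw [hB.chi_one, one_pow]⟩
  mul_mem' := fun {a b} ha hb => ⟨by rw [mul_smul, hb.1, ha.1],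
    by rw [mul_smul]; exact smul_Ln hB hne hl ha.1 ha.2.1 hb.2.1,
    by rw [hB.chi_mul ha.1 hb.1, mul_pow, ha.2.2, hb.2.2, mul_one]⟩
  inv_mem' := fun {a} ha => ⟨inv_smul_eq_iff.2 ha.1.symm, by
    obtain ⟨x, hx, y, h1, h2, rfl⟩ := perm_Ln hB hne hl ha.1 ha.2.1
    rw [mul_inv_rev, mul_smul]
    exact hB.smul_mem_Ln_of_norm
      (hB.norm_Ls (Or.inl ⟨inv_smul_eq_iff.2 h1.symm, inv_smul_eq_iff.2 h2.symm⟩))
      (hB.smul_mem_Ln_of_mem (le_sup_left (a := P α) (inv_mem hx)) (right_mem_Ln α β)),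
    inv_five hB ha.1 ha.2.2⟩

theorem card_Hh (hB : Base P) {α β : Ω} (hne : α ≠ β) (hl : LF1 P α β) :
    Nat.card (Hh hB α β) = 5 * Nat.card (Kk P α β) := by
  obtain ⟨h, s, hs⟩ := hl.hs
  have hh : h ∈ Hh hB α β := ⟨hs.ha, hs.hb, by rw [hs.hc]; decide⟩
  rw [← hs.ho, ← Nat.card_zpowers]
  refine card_eq_mul (zpowers_le.2 hh) (fun c hc => ⟨hB.Kk_fix (left_mem_Ln α β) hc,
    hB.Kk_fix (right_mem_Ln α β) hc, by rw [hB.chi_Kk (left_mem_Ln α β) hc, one_pow]⟩)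
    (fun a ha hk => hB.eq_one_of_LK hne (zpowers_le.2 hs.hL ha) hk) ?_
  intro g hg
  obtain ⟨i, hi⟩ := (by decide : ∀ a : ZMod 11, a ^ 5 = 1 → ∃ i : Fin 5, 3 ^ (i : ℕ) * a = 1) _ hg.2.2
  have h1 : h ^ (i : ℕ) * g ∈ Hh hB α β := mul_mem (pow_mem hh _) hg
  refine ⟨(h ^ (i : ℕ))⁻¹, inv_mem (pow_mem (mem_zpowers h) _), h ^ (i : ℕ) * g,
    hl.cen _ h1.1 h1.2.1 ?_, by group⟩
  rw [hB.chi_mul (pow_mem hh (i : ℕ)).1 hg.1, hB.chi_pow hs.ha, hs.hc, hi]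

theorem Hh_le (hB : Base P) {α β : Ω} (hne : α ≠ β) (hl : LF1 P α β) : Hh hB α β ≤ Ee hB hne hl :=
  fun g hg => ⟨hg.1, by rw [hg.2.1]; exact right_mem_Ln α β, hg.2.2⟩

theorem card_Ee (hB : Base P) {α β : Ω} (hne : α ≠ β) (hl : LF1 P α β) :
    Nat.card (Ee hB hne hl) = 11 * (5 * Nat.card (Kk P α β)) := by
  rw [← card_Hh hB hne hl, ← hB.card α]
  refine card_eq_mul (fun x hx => ⟨hB.self_fix hx,
    hB.smul_mem_Ln_of_mem (le_sup_left (a := P α) hx) (right_mem_Ln α β),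
    by rw [hB.chi_of_cent (hB.P_le_Cz α hx), one_pow]⟩) (Hh_le hB hne hl) ?_ ?_
  · intro a ha hh
    by_contra h1
    exact hne (hB.eq_of_fix ha h1 hh.2.1).symm
  · intro g hg
    obtain ⟨x, hx, y, h1, h2, rfl⟩ := perm_Ln hB hne hl hg.1 hg.2.1
    refine ⟨x, hx, y, ⟨h1, h2, ?_⟩, rfl⟩
    have := hg.2.2
    rwa [hB.chi_mul (hB.self_fix hx) h1, hB.chi_of_cent (hB.P_le_Cz α hx), one_mul] at this

/-- the points off the line whose line through `α` is fixed by a non-trivial element of `K` -/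
def Sg (P : Ω → Subgroup G) (α β : Ω) : Set Ω :=
  {γ | γ ∉ Ln P α β ∧ ∃ c ∈ Kk P α β, c ≠ 1 ∧ ∃ x ∈ P α, c • γ = x • γ}

theorem out_inv (hB : Base P) {α β : Ω} (hne : α ≠ β) (hl : LF1 P α β) {g : G} (hg : g ∈ Ee hB hne hl)
    {γ : Ω} (hγ : γ ∉ Ln P α β) : g • γ ∉ Ln P α β := fun h => hγ (by
  have h1 := inv_mem hg
  simpa using smul_Ln hB hne hl h1.1 h1.2.1 h)

theorem Sg_inv (hB : Base P) {α β : Ω} (hne : α ≠ β) (hl : LF1 P α β) {g : G} (hg : g ∈ Ee hB hne hl)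
    {γ : Ω} (hγ : γ ∈ Sg P α β) : g • γ ∈ Sg P α β := by
  obtain ⟨h0, c, hc, h1, x, hx, e⟩ := hγ
  refine ⟨out_inv hB hne hl hg h0, g * c * g⁻¹, conj_K hB hne hl hg.1 hg.2.1 hc, fun e' => h1 ?_,
    g * x * g⁻¹, hB.conj_fix hg.1 hx, ?_⟩
  · simpa [mul_assoc] using congrArg (fun z => g⁻¹ * z * g) e'
  · simp only [mul_smul, inv_smul_smul, e]

theorem five_two : ∀ a : ZMod 11, a ^ 2 = 1 → a ^ 5 = 1 → a = 1 := by decide

theorem Hh_free (hG : Geo P) {α β : Ω} (hne : α ≠ β) {g : G} (hg : g ∈ Hh hG.ca.base α β) {γ : Ω}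
    (hγ : γ ∉ Ln P α β) (e : g • γ = γ) : g = 1 := by
  by_contra h1
  have h2 := hG.g1.two g α β γ hne (fun e => hγ (e ▸ left_mem_Ln α β))
    (fun e => hγ (e ▸ right_mem_Ln α β)) hg.1 hg.2.1 e
  exact hγ (hG.g1.fixK α β hne g ((hG.ca.lf1 α β hne).cen g hg.1 hg.2.1 (five_two _ h2 hg.2.2)) h1 γ e)

theorem Ee_free (hG : Geo P) {α β : Ω} (hne : α ≠ β) {g : G}
    (hg : g ∈ Ee hG.ca.base hne (hG.ca.lf1 α β hne)) {γ : Ω}
    (hγ : γ ∉ Ln P α β) (hS : γ ∉ Sg P α β) (e : g • γ = γ) : g = 1 := by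
  have hB := hG.ca.base
  have hl := hG.ca.lf1 α β hne
  have hγα : γ ≠ α := fun e => hγ (e.symm ▸ left_mem_Ln α β)
  have hchi : chi P g α = 1 := by
    by_contra h1
    obtain ⟨y, hy, ey⟩ := hl.reg _ hg.2.1 (fun e => hne (smul_left_cancel g (hg.1.trans e.symm)))
    obtain ⟨x, hx, ex⟩ := hG.g2.fl g α β hg.1 h1 ⟨y, hy, ey.symm⟩
    have hδ : x • β ∈ Ln P α β := hB.smul_mem_Ln_of_mem (le_sup_left (a := P α) hx) (right_mem_Ln α β)
    have h2 := hG.g1.two g α (x • β) γ (fun e => hne (smul_left_cancel x ((hB.self_fix hx).trans e)))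
      hγα.symm (fun e => hγ (e ▸ hδ)) hg.1 ex e
    exact h1 (five_two _ h2 hg.2.2)
  obtain ⟨x, hx, c, hc, rfl⟩ := hG.g2.pk α β hne g ((hB.chi_eq_one_iff hg.1).1 hchi) hg.2.1
  have hc1 : c = 1 := by
    by_contra h1
    refine hS ⟨hγ, c, hc, h1, x⁻¹, inv_mem hx, ?_⟩
    rw [eq_inv_smul_iff, ← mul_smul, e]
  subst hc1
  rw [mul_one] at e ⊢
  by_contra h1
  exact hγα (hB.eq_of_fix hx h1 e)

theorem Sg_le (hG : Geo P) {α β : Ω} {k : G} (hk : CaseII P α β k)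
    (hI : ∀ k', CaseII P α β k' → IIF P α β k') : (Sg P α β).ncard ≤ 10 * Nat.card (Kk P α β) := by
  have hB := hG.ca.base
  have hne := hk.1
  have hF := hI k hk
  have h1 := class_le (Kk P α β) hk.2.1
  rw [hF.ord] at h1
  set C := {c : G | ∃ y ∈ Kk P α β, c = y * k * y⁻¹} with hC
  have hord : ∀ c ∈ C, orderOf c = 11 := by
    rintro c ⟨y, -, rfl⟩
    rw [← hF.ord]
    exact ((MulAut.conj y).orderOf_eq k)
  have hCK : ∀ c ∈ C, c ∈ Kk P α β := by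
    rintro c ⟨y, hy, rfl⟩
    exact mul_mem (mul_mem hy hk.2.1) (inv_mem hy)
  have hC1 : ∀ c ∈ C, c ≠ 1 := fun c hc e => by
    have := hord c hc
    rw [e, orderOf_one] at this
    omega
  have h10 : ((P α : Set G) \ {1}).ncard = 10 := by
    rw [Set.ncard_sdiff_singleton_of_mem (by exact one_mem _)]
    have : (P α : Set G).ncard = Nat.card (P α) := rfl
    rw [this, hB.card]
  have h2 := ncard_le_of_cover (Sg P α β) (C ×ˢ ((P α : Set G) \ {1})) (fun p => {γ | p.1 • γ = p.2 • γ}) 11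
    ?_ ?_
  · rw [Set.ncard_prod, h10] at h2
    omega
  · rintro γ ⟨h0, c, hc, hc1, x, hx, e⟩
    have hoc := (hI c ⟨hne, hc, hc1, γ, h0, x, hx, e⟩).ord
    obtain ⟨y, hy, hcy⟩ := hF.syl c hc hoc
    have hm : y * k * y⁻¹ ∈ C := ⟨y, hy, rfl⟩
    have hz : zpowers c = zpowers (y * k * y⁻¹) :=
      eq_of_le_of_card_ge (zpowers_le.2 hcy) (by rw [Nat.card_zpowers, Nat.card_zpowers, hoc, hord _ hm])
    have hz2 : y * k * y⁻¹ ∈ zpowers c := hz ▸ mem_zpowers _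
    rw [← mem_powers_iff_mem_zpowers] at hz2
    obtain ⟨j, hj⟩ := hz2
    have hj' : c ^ j = y * k * y⁻¹ := hj
    have hcm : Commute x⁻¹ c := mem_Cz.1 hc _ (le_sup_left (a := P α) (inv_mem hx))
    have hst : x⁻¹ * c ∈ stabilizer G γ := by
      rw [mem_stabilizer_iff, mul_smul, e, inv_smul_smul]
    have hst2 : (x⁻¹ * c) ^ j • γ = γ := pow_mem hst j
    rw [hcm.mul_pow, mul_smul, inv_pow, inv_smul_eq_iff, hj'] at hst2
    refine ⟨(y * k * y⁻¹, x ^ j), ⟨hm, pow_mem hx j, fun e1 => ?_⟩, hst2⟩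
    have e2 : x ^ j = 1 := e1
    rw [e2, one_smul] at hst2
    exact h0 (hG.g1.fixK α β hne _ (hCK _ hm) (hC1 _ hm) γ hst2)
  · rintro ⟨c, x⟩ ⟨hc, hx, hx1⟩
    rcases (Sg P α β ∩ {γ | c • γ = x • γ}).eq_empty_or_nonempty with e | ⟨γ, hγ, e⟩
    · simp only [e, Set.ncard_empty, Nat.zero_le]
    · have hx' : x ∈ P α := hx
      have e' : c • γ = x • γ := e
      have hαγ : α ≠ γ := fun e => hγ.1 (e ▸ left_mem_Ln α β)
      have hcα : c • α = α := hB.Kk_fix (left_mem_Ln α β) (hCK c hc)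
      have hz : x⁻¹ * c ∈ Kk P α γ := by
        refine (hG.ca.lf1 α γ hαγ).cen _ ?_ ?_ ?_
        · rw [mul_smul, hcα, hB.self_fix (inv_mem hx')]
        · rw [mul_smul, e', inv_smul_smul]
        · exact hB.chi_of_cent (mul_mem (hB.P_le_Cz α (inv_mem hx'))
            (hB.Kk_le_Cz (left_mem_Ln α β) (hCK c hc)))
      have hz1 : x⁻¹ * c ≠ 1 := fun e1 => hC1 c hc (hB.eq_one_of_LK hne
        (inv_mul_eq_one.1 e1 ▸ le_sup_left (a := P α) hx') (hCK c hc))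
      have h11 : (Ln P α γ \ {α}).ncard = 11 := by
        rw [Set.ncard_sdiff_singleton_of_mem (left_mem_Ln α γ), (hG.ca.lf1 α γ hαγ).card]
      rw [← h11]
      refine Set.ncard_le_ncard ?_
      rintro δ ⟨hδ, eδ⟩
      have eδ' : c • δ = x • δ := eδ
      refine ⟨hG.g1.fixK α γ hαγ _ hz hz1 δ (by rw [mul_smul, eδ', inv_smul_smul]), fun e1 => hδ.1 ?_⟩
      have e2 : δ = α := e1
      exact e2.symm ▸ left_mem_Ln α β

end IIC

open IIC in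
theorem iic : IICs.{u} := by
  intro G Ω _ _ _ _ P hG α β k hk hI
  have hB := hG.ca.base
  have hne := hk.1
  have hl := hG.ca.lf1 α β hne
  obtain ⟨a, ha⟩ := card_dvd_of_free (Hh hB α β) (Sg P α β)
    (fun g hg γ hγ => Sg_inv hB hne hl (Hh_le hB hne hl hg) hγ)
    (fun g hg γ hγ e => Hh_free hG hne hg hγ.1 e)
  obtain ⟨b, hb⟩ := card_dvd_of_free (Ee hB hne hl) ((Ln P α β)ᶜ \ Sg P α β)
    (fun g hg γ hγ => ⟨out_inv hB hne hl hg hγ.1, fun h => hγ.2 (by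
      simpa using Sg_inv hB hne hl (inv_mem hg) h)⟩)
    (fun g hg γ hγ e => Ee_free hG hne hg hγ.1 hγ.2 e)
  rw [card_Hh hB hne hl] at ha
  rw [card_Ee hB hne hl] at hb
  have h1 := Sg_le hG hk hI
  have h2 : (Ln P α β).ncard + (Ln P α β)ᶜ.ncard = Nat.card Ω := Set.ncard_add_ncard_compl _
  have h3 : ((Ln P α β)ᶜ \ Sg P α β).ncard + (Sg P α β).ncard = (Ln P α β)ᶜ.ncard :=
    Set.ncard_sdiff_add_ncard_of_subset (fun γ hγ => hγ.1)
  have hpos : 0 < Nat.card (Kk P α β) := Nat.card_pos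
  refine ⟨a, b, ?_, ?_⟩
  · rw [← h2, ← h3, ha, hb, hl.card]; ring
  · rw [ha] at h1
    by_contra h4
    nlinarith

end CL.E11
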