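/-
Project E11 (S3403): claim A of the `J₁` case.
-/
import Cfsg.Agent.E11.St

set_option autoImplicit false
set_option linter.unusedSectionVars false

namespace CL.E11

open MulAction Subgroup

universe u

namespace JC

variable {G Ω : Type u} [Group G] [Finite G] [MulAction G Ω] {P : Ω → Subgroup G} (hC : CB P)
include hC

theorem pm {g : G} {α β : Ω} (h : α ≠ β) (ha : g • α = α) (hb : g • β = β) :
    chi P g β = chi P g α ∨ chi P g β * chi P g α = 1 :=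
  (hC.base.pair α β h).elim (fun hA => Or.inr ((hC.lf1 α β h hA).inv g ha hb))
    (fun hT => (hC.bf2 α β h hT).pm g ha hb)

theorem ten {g : G} {α β : Ω} (h : α ≠ β) (ha : g • α = α) (hb : g • β = β) (h2 : chi P g α ^ 2 ≠ 1)
    (h5 : chi P g α ^ 5 ≠ 1) : chi P g β * chi P g α = 1 :=
  (hC.base.pair α β h).elim (fun hA => (hC.lf1 α β h hA).inv g ha hb)
    (fun hT => (hC.bf2 α β h hT).ten g ha hb h2 h5)

theorem three {g : G} {γ β ε : Ω} (h : γ ≠ β) (ha : g • γ = γ) (hb : g • β = β) (he : g • ε = ε)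
    (h2 : chi P g γ ^ 2 ≠ 1) (h5 : chi P g γ ^ 5 ≠ 1) : ε = γ ∨ ε = β := by
  by_contra hne
  push Not at hne
  have e1 := ten hC h ha hb h2 h5
  have e2 := ten hC hne.1.symm ha he h2 h5
  have k1 : ∀ b c : ZMod 11, b * c = 1 → c ^ 2 ≠ 1 → c ^ 5 ≠ 1 → b ^ 2 ≠ 1 ∧ b ^ 5 ≠ 1 := by decide
  have e3 := ten hC hne.2.symm hb he (k1 _ _ e1 h2 h5).1 (k1 _ _ e1 h2 h5).2
  have k2 : ∀ b c d : ZMod 11, b * c = 1 → d * c = 1 → d * b = 1 → c ^ 2 = 1 := by decide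
  exact h2 (k2 _ _ _ e1 e2 e3)

theorem typeB {g : G} {γ δ : Ω} (h : γ ≠ δ) (ha : g • γ = γ) (hb : g • δ = δ) (e : chi P g δ = chi P g γ)
    (h5 : chi P g γ ^ 5 = 1) (h1 : chi P g γ ≠ 1) : TB (Ls P γ δ) :=
  (hC.base.pair γ δ h).resolve_left fun hA => by
    have := (hC.lf1 γ δ h hA).inv g ha hb
    rw [e] at this
    exact h1 ((by decide : ∀ c : ZMod 11, c * c = 1 → c ^ 5 = 1 → c = 1) _ this h5)

theorem fix_left {α β ε : Ω} {j k : G} (hk : k ∈ Kk P α β) (hε : ε ∈ Ln P α β) (h : (j * k) • ε = ε) :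
    j • ε = ε ∧ chi P j ε = chi P (j * k) ε := by
  have hkε := hC.base.Kk_fix hε hk
  have hj : j • ε = ε := by rwa [mul_smul, hkε] at h
  exact ⟨hj, by rw [hC.base.chi_mul hj hkε, hC.base.chi_Kk hε hk, mul_one]⟩

theorem dec5 {g : G} {γ δ : Ω} (h : γ ≠ δ) (hT : TB (Ls P γ δ)) (ha : g • γ = γ) (hb : g • δ = δ)
    (h5 : chi P g γ ^ 5 = 1) (h1 : chi P g γ ≠ 1) :
    ∃ j ∈ Ls P γ δ, ∃ k ∈ Kk P γ δ, g = j * k ∧ orderOf j = 5 := by
  have bf := hC.bf1 γ δ h hT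
  obtain ⟨j, hj, k, hk, rfl⟩ := bf.dec g (hC.base.norm_Ls (Or.inl ⟨ha, hb⟩))
  obtain ⟨j1, j2⟩ := fix_left hC hk (left_mem_Ln γ δ) ha
  obtain ⟨j3, -⟩ := fix_left hC hk (right_mem_Ln γ δ) hb
  exact ⟨j, hj, k, hk, rfl,
    bf.ord5 j hj γ (left_mem_Ln γ δ) δ (right_mem_Ln γ δ) h j1 j3 (j2 ▸ h5) (j2 ▸ h1)⟩

theorem data {g : G} {γ δ : Ω} (h : γ ≠ δ) (hT : TB (Ls P γ δ)) (ha : g • γ = γ) (hb : g • δ = δ)
    (h5 : chi P g γ ^ 5 = 1) (h1 : chi P g γ ≠ 1) :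
    ∃ s ∈ Ls P γ δ, ∃ r ∈ Ls P γ δ, orderOf s = 2 ∧ s • γ = γ ∧ chi P s γ = -1 ∧ s * g = g * s ∧
      r * s = s * r ∧ ∀ ε ∈ Ln P γ δ, g • ε = ε → g • r • ε = r • ε ∧ chi P g (r • ε) * chi P g ε = 1 := by
  have hB := hC.base
  obtain ⟨j, hj, k, hk, rfl, oj⟩ := dec5 hC h hT ha hb h5 h1
  obtain ⟨j1, -⟩ := fix_left hC hk (left_mem_Ln γ δ) ha
  obtain ⟨s, hs, os, s1, s2, s3⟩ := (hC.bf1 γ δ h hT).exs j hj γ (left_mem_Ln γ δ) j1 oj
  obtain ⟨r, hr, r1, r2⟩ := hT.inv5 s hs j hj os oj s3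
  refine ⟨s, hs, r, hr, os, s1, s2, ?_, r1, fun ε hε he => ?_⟩
  · rw [← mul_assoc, s3, mul_assoc, mem_Cz.1 hk s hs, mul_assoc]
  · obtain ⟨e1, e2⟩ := fix_left hC hk hε he
    have hkε := hB.Kk_fix hε hk
    have e3 : j⁻¹ • ε = ε := (stabilizer G ε).inv_mem e1
    have e4 : j * k = r * (j⁻¹ * k) * r⁻¹ := by
      have : r * j⁻¹ * r⁻¹ = j := by rw [← conj_inv, r2, inv_inv]
      calc j * k = (r * j⁻¹ * r⁻¹) * k := by rw [this]
        _ = r * j⁻¹ * (r⁻¹ * k) := by group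
        _ = _ := by rw [mem_Cz.1 hk _ (inv_mem hr)]; group
    have e5 : (j⁻¹ * k) • ε = ε := by rw [mul_smul, hkε, e3]
    refine ⟨?_, ?_⟩
    · rw [e4, mul_smul, inv_smul_smul, mul_smul, e5]
    · rw [← e2]
      conv_lhs => rw [e4]
      rw [hB.chi_conj r e5, ← (fix_left hC hk hε e5).2, hB.chi_inv e1]

theorem lemA {g : G} {γ δ δ' : Ω} (h : γ ≠ δ) (h' : γ ≠ δ') (ha : g • γ = γ) (hb : g • δ = δ) (hb' : g • δ' = δ')
    (e : chi P g δ = chi P g γ) (e' : chi P g δ' = chi P g γ) (h5 : chi P g γ ^ 5 = 1) (h1 : chi P g γ ≠ 1) :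
    Ls P γ δ' = Ls P γ δ := by
  have hB := hC.base
  have hT := typeB hC h ha hb e h5 h1
  have hT' := typeB hC h' ha hb' e' h5 h1
  obtain ⟨s, hs, r, hr, os, s1, s2, s3, r1, r2⟩ := data hC h hT ha hb h5 h1
  obtain ⟨b1, b2⟩ := r2 γ (left_mem_Ln γ δ) ha
  have kc : ∀ c : ZMod 11, c ^ 5 = 1 → c ≠ 1 → c * c ≠ 1 ∧ (-1 * c) ^ 2 ≠ 1 ∧ (-1 * c) ^ 5 ≠ 1 := by decide
  obtain ⟨k1, k2, k3⟩ := kc _ h5 h1
  have ss : s * s = 1 := by rw [← pow_two, ← os, pow_orderOf_eq_one]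
  set β := r • γ with hβ
  have βL : β ∈ Ln P γ δ := hB.smul_mem_Ln_of_mem hr (left_mem_Ln γ δ)
  have sβ : s • β = β := by rw [hβ, ← mul_smul, ← r1, mul_smul, s1]
  have hγβ : γ ≠ β := fun e0 => k1 (by rw [← e0] at b2; exact b2)
  have F : ∀ ε : Ω, s • ε = ε → g • ε = ε → ε = γ ∨ ε = β := fun ε a1 a2 => by
    refine three hC (g := s * g) hγβ (by rw [mul_smul, ha, s1]) (by rw [mul_smul, b1, sβ])
      (by rw [mul_smul, a2, a1]) ?_ ?_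
    · rw [hB.chi_mul s1 ha, s2]; exact k2
    · rw [hB.chi_mul s1 ha, s2]; exact k3
  have hTβ : TB (Ls P γ β) := (hB.pair γ β hγβ).resolve_left fun hA => by
    obtain ⟨s', hs', w, hw, os', ow, -, -, -, c3⟩ := (hC.lf3 γ β hγβ hA).d8 s s1 sβ s2
    have hle := Ls_le (left_mem_Ln γ δ) βL
    have ww : w * w = 1 := by rw [← pow_two, ← ow, pow_orderOf_eq_one]
    have y2 : (s * w) ^ 2 = s' := by
      have : s⁻¹ = s := inv_eq_of_mul_eq_one_right ss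
      rw [this] at c3
      rw [pow_two, ← mul_assoc, c3, mul_assoc, ww, mul_one]
    have y4 : (s * w) ^ 4 = 1 := by
      rw [show 4 = 2 * 2 from rfl, pow_mul, y2, ← os', pow_orderOf_eq_one]
    have := hT.no4 _ (mul_mem hs (hle hw)) y4
    rw [y2] at this
    rw [this, orderOf_one] at os'
    omega
  have L1 : Ls P γ β = Ls P γ δ := (hC.bf1 γ δ h hT).sub γ (left_mem_Ln γ δ) β βL hγβ hTβ
  have d1 : δ' ≠ s • δ' := fun e0 => by
    rcases F δ' e0.symm hb' with a | a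
    · exact h' a.symm
    · rw [← a, e'] at b2; exact k1 b2
  have d2 : g • s • δ' = s • δ' := by rw [← mul_smul, ← s3, mul_smul, hb']
  have d3 : chi P g (s • δ') = chi P g δ' := by
    have : g = s * g * s⁻¹ := by rw [s3]; group
    conv_lhs => rw [this]
    exact hB.chi_conj s hb'
  have d4 : s • s • δ' = δ' := by rw [← mul_smul, ss, one_smul]
  have hT3 := typeB hC d1 hb' d2 d3 (e' ▸ h5) (e' ▸ h1)
  obtain ⟨j3, hj3, k3, hk3, eg, oj3⟩ := dec5 hC d1 hT3 hb' d2 (e' ▸ h5) (e' ▸ h1)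
  have bf3 := hC.bf1 _ _ d1 hT3
  obtain ⟨t, ht, k4, hk4, es⟩ := bf3.dec s (hB.norm_Ls (Or.inr ⟨rfl, d4⟩))
  have t2 : t * t = 1 := by
    refine hB.eq_one_of_LK d1 (mul_mem ht ht) ?_
    have : t * t = (k4 * k4)⁻¹ := by
      rw [eq_inv_iff_mul_eq_one, ← ss]
      conv_rhs => rw [es]
      calc t * t * (k4 * k4) = t * (t * k4) * k4 := by group
        _ = t * (k4 * t) * k4 := by rw [← mem_Cz.1 hk4 t ht]
        _ = _ := by group
    rw [this]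
    exact inv_mem (mul_mem hk4 hk4)
  have t1 : t ≠ 1 := fun e0 => d1 (by
    have := hB.Kk_fix (left_mem_Ln δ' (s • δ')) hk4
    rw [e0, one_mul] at es
    rw [← es] at this
    exact this.symm)
  have ot : orderOf t = 2 := orderOf_eq_prime (by rw [pow_two, t2]) t1
  have tj : t * j3 = j3 * t := by
    have a1 : t * j3 * (k4 * k3) = j3 * t * (k3 * k4) := by
      calc t * j3 * (k4 * k3) = t * (j3 * k4) * k3 := by group
        _ = (t * k4) * (j3 * k3) := by rw [mem_Cz.1 hk4 j3 hj3]; group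
        _ = (j3 * k3) * (t * k4) := by rw [← es, ← eg, s3]
        _ = j3 * (k3 * t) * k4 := by group
        _ = _ := by rw [← mem_Cz.1 hk3 t ht]; group
    have a2 : (j3 * t)⁻¹ * (t * j3) = (k3 * k4) * (k4 * k3)⁻¹ := by
      calc (j3 * t)⁻¹ * (t * j3) = (j3 * t)⁻¹ * (t * j3 * (k4 * k3)) * (k4 * k3)⁻¹ := by group
        _ = _ := by rw [a1]; group
    have a3 : (j3 * t)⁻¹ * (t * j3) = 1 :=
      hB.eq_one_of_LK d1 (mul_mem (inv_mem (mul_mem hj3 ht)) (mul_mem ht hj3))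
        (a2 ▸ mul_mem (mul_mem hk3 hk4) (inv_mem (mul_mem hk4 hk3)))
    exact (inv_mul_eq_one.1 a3).symm
  obtain ⟨ε, hε, ε', hε', ne, a1, a2, a3, a4⟩ := (hC.bf2 _ _ d1 hT3).two t ht j3 hj3 ot oj3 tj
  have F' : ∀ x ∈ Ln P δ' (s • δ'), t • x = x → j3 • x = x → x = γ ∨ x = β := fun x hx c1 c2 => by
    refine F x ?_ ?_
    · have : (t * k4) • x = x := by rw [mul_smul, hB.Kk_fix hx hk4, c1]
      rwa [← es] at this
    · have : (j3 * k3) • x = x := by rw [mul_smul, hB.Kk_fix hx hk3, c2]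
      rwa [← eg] at this
  have hm : γ ∈ Ln P δ' (s • δ') ∧ β ∈ Ln P δ' (s • δ') := by
    rcases F' ε hε a1 a2 with c | c <;> rcases F' ε' hε' a3 a4 with c' | c'
    · exact absurd (c.trans c'.symm) ne
    · exact ⟨c ▸ hε, c' ▸ hε'⟩
    · exact ⟨c' ▸ hε', c ▸ hε⟩
    · exact absurd (c.trans c'.symm) ne
  rw [bf3.sub γ hm.1 δ' (left_mem_Ln _ _) h' hT', ← L1, bf3.sub γ hm.1 β hm.2 hγβ hTβ]

end JC

open JC in
theorem jc : JCs.{u} := by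
  intro G Ω _ _ _ _ P hC g γ δ h ha hb e h5 h1
  have hB := hC.base
  have hT := typeB hC h ha hb e h5 h1
  refine ⟨hT, fun ε he => ?_⟩
  by_cases c0 : γ = ε
  · exact c0 ▸ left_mem_Ln γ δ
  rcases pm hC c0 ha he with c | c
  · rw [← Ln_congr (lemA hC h c0 ha hb he e c h5 h1)]
    exact right_mem_Ln _ _
  obtain ⟨s, -, r, hr, -, -, -, -, -, r2⟩ := data hC h hT ha hb h5 h1
  obtain ⟨b1, b2⟩ := r2 γ (left_mem_Ln γ δ) ha
  obtain ⟨b3, b4⟩ := r2 δ (right_mem_Ln γ δ) hb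
  rw [e] at b4
  have m1 := hB.smul_mem_Ln_of_mem hr (left_mem_Ln γ δ)
  have m2 := hB.smul_mem_Ln_of_mem hr (right_mem_Ln γ δ)
  have ne : r • γ ≠ r • δ := fun e0 => h (smul_left_cancel r e0)
  have k1 : ∀ a b c : ZMod 11, a * c = 1 → b * c = 1 → a = b := by decide
  have k2 : ∀ a c : ZMod 11, a * c = 1 → c ^ 5 = 1 → c ≠ 1 → a ^ 5 = 1 ∧ a ≠ 1 := by decide
  obtain ⟨k5, k6⟩ := k2 _ _ b2 h5 h1
  have L1 := (hC.bf1 γ δ h hT).sub _ m1 _ m2 ne (typeB hC ne b1 b3 (k1 _ _ _ b4 b2) k5 k6)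
  by_cases c1 : r • γ = ε
  · exact c1 ▸ m1
  rw [← Ln_congr ((lemA hC ne c1 b1 b3 he (k1 _ _ _ b4 b2) (k1 _ _ _ c b2) k5 k6).trans L1)]
  exact right_mem_Ln _ _

end CL.E11
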