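/-
Project E11 (S3403): in the `J₁` case, an element interchanging two points normalises a conjugate of `J`.
-/
import Cfsg.Agent.E11.St

set_option autoImplicit false
set_option linter.unusedSectionVars false

namespace CL.E11

open MulAction Subgroup

universe u

namespace JD

variable {G Ω : Type u} [Group G] [Finite G] [MulAction G Ω] {P : Ω → Subgroup G}

/-- the `J`-components of the elements of `W` -/
def comp (J W : Subgroup G) : Subgroup G where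
  carrier := {j | j ∈ J ∧ ∃ k ∈ Cz J, j * k ∈ W}
  one_mem' := ⟨one_mem _, 1, one_mem _, by simp⟩
  mul_mem' := by
    rintro a b ⟨ha, k, hk, hak⟩ ⟨hb, l, hl, hbl⟩
    refine ⟨mul_mem ha hb, k * l, mul_mem hk hl, ?_⟩
    have e : a * b * (k * l) = a * k * (b * l) := by
      rw [mul_assoc a b, ← mul_assoc b k l, mem_Cz.1 hk b hb]; group
    rw [e]; exact mul_mem hak hbl
  inv_mem' := by
    rintro a ⟨ha, k, hk, hak⟩
    refine ⟨inv_mem ha, k⁻¹, inv_mem hk, ?_⟩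
    have e : a⁻¹ * k⁻¹ = (a * k)⁻¹ := by
      rw [mem_Cz.1 hk a ha]; group
    rw [e]; exact inv_mem hak

theorem comp_eq (hB : Base P) {α β : Ω} (hne : α ≠ β) (hT : TB (Ls P α β)) {W : Subgroup G}
    (hW : IsPGroup 5 W) {h : G} (hJ : h ∈ Ls P α β) (ho : orderOf h = 5) (hh : h ∈ W) :
    comp (Ls P α β) W = zpowers h := by
  have : Fact (Nat.Prime 5) := ⟨by norm_num⟩
  have hp : IsPGroup 5 (comp (Ls P α β) W) := by
    rintro ⟨j, hj, k, hk, hjk⟩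
    obtain ⟨n, hn⟩ := hW ⟨j * k, hjk⟩
    refine ⟨n, Subtype.ext ?_⟩
    have h1 : (j * k) ^ 5 ^ n = 1 := congrArg Subtype.val hn
    have hc : Commute j k := mem_Cz.1 hk j hj
    rw [hc.mul_pow] at h1
    have h2 : j ^ 5 ^ n = (k ^ 5 ^ n)⁻¹ := eq_inv_of_mul_eq_one_left h1
    have h3 : j ^ 5 ^ n ∈ Kk P α β := by rw [h2]; exact inv_mem (pow_mem hk _)
    exact hB.eq_one_of_LK hne (pow_mem hj _) h3
  obtain ⟨e, he⟩ := IsPGroup.iff_card.1 hp
  have hle : comp (Ls P α β) W ≤ Ls P α β := fun _ hx => hx.1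
  have hd := card_dvd_of_le hle
  rw [he, hT.card] at hd
  have he1 : e ≤ 1 := by
    by_contra hc
    have : 5 ^ 2 ∣ 175560 := (pow_dvd_pow 5 (by omega)).trans hd
    norm_num at this
  symm
  refine eq_of_le_of_card_ge (zpowers_le.2 ⟨hJ, 1, one_mem _, by simpa using hh⟩) ?_
  rw [Nat.card_zpowers, ho, he]
  interval_cases e <;> norm_num

/-- the data at the base pair -/
structure Dt (P : Ω → Subgroup G) (α β : Ω) (h : G) (δ : Ω) : Prop where
  hJ : h ∈ Ls P α β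
  ho : orderOf h = 5
  ha : h • α = α
  hd : h • δ = δ
  ne : α ≠ δ
  dX : δ ∈ Ln P α β
  c1 : chi P h α ≠ 1
  c5 : chi P h α ^ 5 = 1
  ce : chi P h δ = chi P h α
  tb : TB (Ls P α δ)
  eq : Ls P α δ = Ls P α β
  fix : ∀ ε : Ω, h • ε = ε → ε ∈ Ln P α β

theorem chi_pow5 (hB : Base P) {h : G} {α : Ω} (ho : orderOf h = 5) (ha : h • α = α) : chi P h α ^ 5 = 1 := by
  rw [← hB.chi_pow ha, ← ho, pow_orderOf_eq_one, hB.chi_one]

theorem exDt (cb : CB P) (hA : ClA P) {α β : Ω} (hne : α ≠ β) (hT : TB (Ls P α β)) :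
    ∃ (h : G) (δ : Ω), Dt P α β h δ := by
  have b1 := cb.bf1 α β hne hT
  obtain ⟨h, hJ, ho, ha⟩ := b1.exh
  obtain ⟨δ, dX, hδ, hd, ce⟩ := b1.mate h hJ α (left_mem_Ln α β) ha ho
  have c1 := b1.chi5 h hJ α (left_mem_Ln α β) ha ho
  have c5 := chi_pow5 cb.base ho ha
  obtain ⟨tb, hf⟩ := hA h α δ hδ.symm ha hd ce c5 c1
  have e := b1.sub α (left_mem_Ln α β) δ dX hδ.symm tb
  exact ⟨h, δ, hJ, ho, ha, hd, hδ.symm, dX, c1, c5, ce, tb, e, fun ε hε => Ln_congr e ▸ hf ε hε⟩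

/-- elements `h ^ i * k` fix the two points -/
theorem fix_of_dec (hB : Base P) {α β δ : Ω} {h j k : G} (D : Dt P α β h δ) (hj : j ∈ zpowers h)
    (hk : k ∈ Kk P α β) : (j * k) • α = α ∧ (j * k) • δ = δ := by
  have h1 : j • α = α := (zpowers_le (H := stabilizer G α)).2 D.ha hj
  have h2 : j • δ = δ := (zpowers_le (H := stabilizer G δ)).2 D.hd hj
  rw [mul_smul, mul_smul, hB.Kk_fix (left_mem_Ln α β) hk, hB.Kk_fix D.dX hk]
  exact ⟨h1, h2⟩

/-- every element of a `5`-subgroup containing `h` is `h ^ i * k` -/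
theorem dec_W (cb : CB P) {α β δ : Ω} (hne : α ≠ β) (hT : TB (Ls P α β)) {h : G} (D : Dt P α β h δ)
    {W : Subgroup G} (hW : IsPGroup 5 W) (hh : h ∈ W) :
    ∀ w ∈ W, ∃ j ∈ zpowers h, ∃ k ∈ Kk P α β, w = j * k := by
  have hB := cb.base
  have b1 := cb.bf1 α β hne hT
  have : Fact (Nat.Prime 5) := ⟨by norm_num⟩
  have h0 : ∀ w ∈ W, w ∈ normalizer (Ls P α β : Set G) → ∃ j ∈ zpowers h, ∃ k ∈ Kk P α β, w = j * k := by
    intro w hw hn
    obtain ⟨j, hj, k, hk, e⟩ := b1.dec w fun x hx => (mem_normalizer_iff.1 hn x).1 hx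
    refine ⟨j, ?_, k, hk, e⟩
    rw [← comp_eq hB hne hT hW D.hJ D.ho hh]
    exact ⟨hj, k, hk, e ▸ hw⟩
  have hnil := hW.isNilpotent
  have hN : (normalizer (Ls P α β : Set G)).subgroupOf W = ⊤ := by
    by_contra hc
    have hlt := Group.normalizerCondition_of_isNilpotent (G := W) _ (lt_top_iff_ne_top.2 hc)
    obtain ⟨y, hy, hy'⟩ := SetLike.exists_of_lt hlt
    apply hy'
    have hhN : (⟨h, hh⟩ : W) ∈ (normalizer (Ls P α β : Set G)).subgroupOf W :=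
      le_normalizer (H := Ls P α β) D.hJ
    have h1 : y⁻¹ * ⟨h, hh⟩ * y⁻¹⁻¹ ∈ (normalizer (Ls P α β : Set G)).subgroupOf W :=
      (mem_normalizer_iff.1 (inv_mem hy) _).1 hhN
    rw [inv_inv] at h1
    obtain ⟨j, hj, k, hk, e⟩ := h0 ((y : G)⁻¹ * h * y) (mul_mem (mul_mem (inv_mem y.2) hh) y.2) h1
    obtain ⟨f1, f2⟩ := fix_of_dec hB D hj hk
    rw [← e] at f1 f2
    have g1 : ∀ a : Ω, ((y : G)⁻¹ * h * y) • a = a → (y : G) • a ∈ Ln P α β := fun a ha => by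
      refine D.fix _ ?_
      conv_rhs => rw [← ha]
      simp [mul_smul]
    have hne' : (y : G) • α ≠ (y : G) • δ := fun e => D.ne (smul_left_cancel _ e)
    have e2 := b1.sub _ (g1 α f1) _ (g1 δ f2) hne' (hB.TB_smul y D.ne D.tb)
    rw [mem_subgroupOf]
    refine mem_normalizer_iff.2 fun x => ?_
    have := hB.conj_Ls_iff y α δ x
    rw [e2, D.eq] at this
    exact this.symm
  intro w hw
  have : (⟨w, hw⟩ : W) ∈ (normalizer (Ls P α β : Set G)).subgroupOf W := hN ▸ mem_top _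
  exact h0 w hw this

/-- an element trivial on one fixed member is trivial on all of them -/
theorem chi_one_of (cb : CB P) {u : G} {α γ : Ω} (ha : u • α = α) (hc : u • γ = γ) (h1 : chi P u α = 1) :
    chi P u γ = 1 := by
  by_cases e : α = γ
  · exact e ▸ h1
  rcases cb.base.pair α γ e with hA | hT
  · have := (cb.lf1 α γ e hA).inv u ha hc
    rwa [h1, mul_one] at this
  · rcases (cb.bf2 α γ e hT).pm u ha hc with h | h
    · rw [h, h1]
    · rwa [h1, mul_one] at h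

/-- Lemma C -/
theorem lemC (cb : CB P) (hA : ClA P) {α β : Ω} (hne : α ≠ β) (hT : TB (Ls P α β)) {h' : G} {γ : Ω}
    (ho : orderOf h' = 5) (hg : h' • γ = γ) (hc : chi P h' γ ≠ 1) :
    ∃ g : G, ∀ ε : Ω, h' • ε = ε → g • ε ∈ Ln P α β := by
  have hB := cb.base
  have : Fact (Nat.Prime 5) := ⟨by norm_num⟩
  obtain ⟨h, δ, D⟩ := exDt cb hA hne hT
  have p5 : ∀ x : G, orderOf x = 5 → IsPGroup 5 (zpowers x) := fun x hx =>
    IsPGroup.of_card (n := 1) (by rw [Nat.card_zpowers, hx, pow_one])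
  obtain ⟨W, hW⟩ := (p5 h D.ho).exists_le_sylow
  obtain ⟨W', hW'⟩ := (p5 h' ho).exists_le_sylow
  obtain ⟨g, hgW⟩ := exists_smul_eq G W' W
  have hu : g * h' * g⁻¹ ∈ (W : Subgroup G) := by
    rw [← hgW, Sylow.coe_subgroup_smul]
    exact ⟨h', hW' (mem_zpowers h'), rfl⟩
  obtain ⟨j, hj, k, hk, e⟩ := dec_W cb hne hT D W.isPGroup' (hW (mem_zpowers h)) _ hu
  obtain ⟨f1, f2⟩ := fix_of_dec hB D hj hk
  have fx : ∀ ε : Ω, h' • ε = ε → (j * k) • g • ε = g • ε := fun ε hε => by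
    rw [← e, mul_smul, mul_smul, inv_smul_smul, hε]
  rw [← mem_powers_iff_mem_zpowers] at hj
  obtain ⟨i, rfl⟩ := hj
  simp only at f1 f2 fx e
  have ca : chi P (h ^ i * k) α = chi P h α ^ i := by
    rw [hB.chi_mul ((stabilizer G α).pow_mem D.ha i) (hB.Kk_fix (left_mem_Ln α β) hk),
      hB.chi_Kk (left_mem_Ln α β) hk, mul_one, hB.chi_pow D.ha]
  have cd : chi P (h ^ i * k) δ = chi P h α ^ i := by
    rw [hB.chi_mul ((stabilizer G δ).pow_mem D.hd i) (hB.Kk_fix D.dX hk),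
      hB.chi_Kk D.dX hk, mul_one, hB.chi_pow D.hd, D.ce]
  have c1 : chi P (h ^ i * k) α ≠ 1 := fun h1 => by
    have := chi_one_of cb f1 (fx γ hg) h1
    rw [← e, hB.chi_conj g hg] at this
    exact hc this
  have c5 : chi P (h ^ i * k) α ^ 5 = 1 := by
    rw [ca, ← pow_mul, mul_comm, pow_mul, D.c5, one_pow]
  obtain ⟨-, hf⟩ := hA _ α δ D.ne f1 f2 (cd.trans ca.symm) c5 c1
  exact ⟨g, fun ε hε => Ln_congr D.eq ▸ hf _ (fx ε hε)⟩

end JD

open JD in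
theorem jd : JDs.{u} := by
  intro G Ω _ _ _ _ P cb hA α β hne hT y γ δ hγδ hy1 hy2
  have hB := cb.base
  have b1 := cb.bf1 α β hne hT
  rcases hB.pair γ δ hγδ with hA' | hT'
  · obtain ⟨h, s, H⟩ := (cb.lf1 γ δ hγδ hA').hs
    have c1 : chi P h γ ≠ 1 := by rw [H.hc]; decide
    obtain ⟨g, hg⟩ := lemC cb hA hne hT H.ho H.ha c1
    have hne' : g⁻¹ • α ≠ g⁻¹ • β := fun e => hne (smul_left_cancel _ e)
    have hT2 := hB.TB_smul g⁻¹ hne hT
    have b2 := cb.bf1 _ _ hne' hT2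
    have hX : ∀ ε : Ω, h • ε = ε → ε ∈ Ln P (g⁻¹ • α) (g⁻¹ • β) := fun ε hε => by
      simpa using hB.smul_mem_Ln g⁻¹ (hg ε hε)
    have hJ : h ∈ Ls P (g⁻¹ • α) (g⁻¹ • β) := Ls_le (hX γ H.ha) (hX δ H.hb) H.hL
    have i1 : y⁻¹ • γ = δ := by rw [← hy2, inv_smul_smul]
    have i2 : y⁻¹ • δ = γ := by rw [← hy1, inv_smul_smul]
    have hz : y⁻¹ * h * y ∈ zpowers h := by
      refine H.st _ (by simpa using hB.norm_Ls (Or.inr ⟨i1, i2⟩) h H.hL) ?_ ?_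
      · rw [mul_smul, mul_smul, hy1, H.hb, i2]
      · rw [mul_smul, mul_smul, hy2, H.ha, i1]
    have hF : ∀ ε : Ω, h • ε = ε → h • y • ε = y • ε := fun ε hε => by
      have : (y⁻¹ * h * y) • ε = ε := (zpowers_le (H := stabilizer G ε)).2 hε hz
      conv_rhs => rw [← this]
      simp [mul_smul]
    obtain ⟨δ2, dX, hδ, hd, ce⟩ := b2.mate h hJ γ (hX γ H.ha) H.ha H.ho
    obtain ⟨tb, -⟩ := hA h γ δ2 hδ.symm H.ha hd ce (chi_pow5 hB H.ho H.ha) c1
    have e1 := b2.sub γ (hX γ H.ha) δ2 dX hδ.symm tb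
    have e2 := b2.sub _ (hX _ (hF γ H.ha)) _ (hX _ (hF δ2 hd))
      (fun e => hδ.symm (smul_left_cancel _ e)) (hB.TB_smul y hδ.symm tb)
    refine ⟨g⁻¹, hX γ H.ha, fun x hx => ?_⟩
    rw [← e2]
    exact hB.conj_Ls y γ δ2 (e1 ▸ hx)
  · obtain ⟨h, δ', D⟩ := exDt cb hA hγδ hT'
    obtain ⟨g, hg⟩ := lemC cb hA hne hT D.ho D.ha D.c1
    have e1 := b1.sub _ (hg γ D.ha) _ (hg δ' D.hd) (fun e => D.ne (smul_left_cancel _ e))
      (hB.TB_smul g D.ne D.tb)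
    have e2 : Ls P (g⁻¹ • α) (g⁻¹ • β) = Ls P γ δ := by
      rw [hB.Ls_smul, ← e1, ← hB.Ls_smul, inv_smul_smul, inv_smul_smul, D.eq]
    refine ⟨g⁻¹, ?_, ?_⟩
    · rw [Ln_congr e2]; exact left_mem_Ln γ δ
    · rw [e2]; exact hB.norm_Ls (Or.inr ⟨hy1, hy2⟩)

end CL.E11
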