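/-
Project E11 (S3403): the end of the `J₁` case.
-/
import Cfsg.Agent.E11.St

set_option autoImplicit false

namespace CL.E11

open MulAction Subgroup

universe u

namespace JEx

variable {G Ω : Type u} [Group G] [Finite G] [MulAction G Ω] {P : Ω → Subgroup G} {α β : Ω}

theorem ord2 {G : Type u} [Group G] {t : G} (h : t ^ 2 = 1) (h1 : t ≠ 1) : orderOf t = 2 := orderOf_eq_prime h h1

variable (h : CB P) (ne : α ≠ β) (hJ : TB (Ls P α β)) (sw : SwB P α β)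
include h ne hJ sw

theorem dec {y : G} {γ : Ω} (h1 : y • γ ≠ γ) (h2 : y • y • γ = γ) {n : ℕ} (hn : y ^ n = 1) :
    ∃ a b, a ≠ b ∧ TB (Ls P a b) ∧ γ ∈ Ln P a b ∧ ∃ j ∈ Ls P a b, ∃ k ∈ Kk P a b, y = j * k ∧ j ^ n = 1 ∧ k ^ n = 1 := by
  obtain ⟨g, hγ, hy⟩ := sw y γ _ h1.symm rfl h2
  have n' : g • α ≠ g • β := fun e => ne (smul_left_cancel g e)
  have hJ' := h.base.TB_smul g ne hJ
  obtain ⟨j, hj, k, hk, rfl⟩ := (h.bf1 _ _ n' hJ').dec y hy
  rw [Commute.mul_pow (mem_Cz.1 hk j hj)] at hn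
  have e := h.base.eq_one_of_LK n' (pow_mem hj n) (eq_inv_of_mul_eq_one_left hn ▸ inv_mem (pow_mem hk n))
  exact ⟨_, _, n', hJ', hγ, j, hj, k, hk, rfl, e, by rwa [e, one_mul] at hn⟩

theorem fix {t : G} (t2 : t ^ 2 = 1) (t1 : t ≠ 1) : ∃ ε, t • ε = ε ∧ chi P t ε = -1 := by
  obtain ⟨γ, hγ⟩ : ∃ γ : Ω, t • γ ≠ γ := not_forall.1 fun e => t1 (h.base.faithful e)
  obtain ⟨a, b, n, hJ', hl, j, hj, k, hk, rfl, j2, -⟩ := dec h ne hJ sw hγ (by rw [← mul_smul, ← pow_two, t2, one_smul]) t2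
  obtain ⟨ε, hε, e1, e2⟩ := (h.bf1 a b n hJ').inv j hj (ord2 j2 fun e => hγ (by rw [e, one_mul, h.base.Kk_fix hl hk]))
  exact ⟨ε, by rw [mul_smul, h.base.Kk_fix hε hk, e1],
    by rw [h.base.chi_mul e1 (h.base.Kk_fix hε hk), e2, h.base.chi_Kk hε hk, mul_one]⟩

theorem noK {a b : Ω} {k : G} (hk : k ∈ Kk P a b) (k2 : k ^ 2 = 1) : k = 1 := by
  by_contra k1
  obtain ⟨ε, e1, e2⟩ := fix h ne hJ sw k2 k1
  have a1 := h.base.Kk_fix (left_mem_Ln a b) hk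
  have a2 := h.base.chi_Kk (left_mem_Ln a b) hk
  have n : a ≠ ε := fun e => absurd ((e ▸ a2).symm.trans e2) (by decide)
  rcases h.base.pair a ε n with c | c
  · have := (h.lf1 a ε n c).inv k a1 e1
    rw [a2, e2] at this
    exact absurd this (by decide)
  · have := (h.bf2 a ε n c).pm k a1 e1
    rw [a2, e2] at this
    exact absurd this (by decide)

theorem no4 {y : G} (y4 : y ^ 4 = 1) : y ^ 2 = 1 := by
  by_contra y2
  obtain ⟨ε, e1, e2⟩ := fix h ne hJ sw (t := y ^ 2) (by rw [← pow_mul, y4]) y2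
  obtain ⟨a, b, -, hJ', -, j, hj, k, hk, rfl, j4, k4⟩ := dec h ne hJ sw (γ := ε) (fun e => by
    rw [h.base.chi_pow e] at e2
    exact (by decide : ∀ c : ZMod 11, c ^ 2 ≠ -1) _ e2) (by rw [← mul_smul, ← pow_two, e1]) y4
  rw [noK h ne hJ sw hk (noK h ne hJ sw (pow_mem hk 2) (by rw [← pow_mul, k4])), mul_one] at y2
  exact y2 (hJ'.no4 j hj j4)

theorem sq (n : ℕ) : ∀ y : G, y ^ 2 ^ n = 1 → y ^ 2 = 1 := by
  induction n with
  | zero => exact fun y e => by rw [pow_zero, pow_one] at e; rw [e, one_pow]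
  | succ n ih => exact fun y e => no4 h ne hJ sw (by rw [show 4 = 2 * 2 from rfl, pow_mul, ih _ (by rwa [← pow_mul, ← pow_succ'])])

end JEx

theorem je (hAB : ABs.{u}) : JEs.{u} := by
  intro G Ω _ _ _ _ P h α β ne hJ sw
  have d : 175560 ∣ Nat.card G := hJ.card ▸ card_subgroup_dvd_card _
  obtain ⟨y, -, hy⟩ := hJ.six
  refine eq_top_of_card_eq _ (hJ.card.trans (hAB G h.base.simple (fun S => ⟨⟨fun a b => ?_⟩⟩)
    (dvd_trans (by norm_num) d) (dvd_trans (by norm_num) d) ⟨y, hy⟩).symm)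
  have k : ∀ a : (S : Subgroup G), a⁻¹ = a := fun a => by
    obtain ⟨n, hn⟩ := S.isPGroup' a
    exact inv_eq_of_mul_eq_one_right (Subtype.ext ((pow_two _).symm.trans (JEx.sq h ne hJ sw n a (congrArg Subtype.val hn))))
  rw [← k (a * b), mul_inv_rev, k, k]

end CL.E11
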