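/-
Project E11, job K132: no group of order 132 or 264 has a self-centralising element of order 11.
-/
import Cfsg.Agent.E11.St
import Cfsg.Agent.Z2S.Basic

set_option autoImplicit false

namespace CL.E11

open MulAction Subgroup

universe u

namespace K132

instance : Fact (Nat.Prime 11) := ⟨by norm_num⟩

variable {X : Type*} [Group X] [Finite X] {k : X} (hk : orderOf k = 11) (hC : ∀ y, y * k = k * y → y ∈ zpowers k)
include hk

theorem gen {x : X} (hx : x ∈ zpowers k) (h1 : x ≠ 1) : zpowers x = zpowers k := by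
  have : orderOf x = 11 := ((Nat.dvd_prime Fact.out).1 (hk ▸ orderOf_dvd_of_mem_zpowers hx)).resolve_left
    (mt orderOf_eq_one_iff.1 h1)
  exact eq_of_le_of_card_ge (zpowers_le.2 hx) (by rw [Nat.card_zpowers, Nat.card_zpowers, this, hk])

include hC

theorem not_comm {x y : X} (hx : x ∈ zpowers k) (h1 : x ≠ 1) (h : Commute y x) : orderOf y ∣ 11 := by
  obtain ⟨n, hn⟩ := (gen hk hx h1).ge (mem_zpowers k)
  exact hk ▸ orderOf_dvd_of_mem_zpowers (hC y ((show x ^ n = k from hn) ▸ h.zpow_right n).eq)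

theorem setup {m : ℕ} (h : Nat.card X = 11 * m) (hm : m = 12 ∨ m = 24) :
    ∃ S : Sylow 11 X, (S : Subgroup X) = zpowers k ∧ Nat.card (Sylow 11 X) = 12 := by
  have c := (zpowers k).card_mul_index
  rw [Nat.card_zpowers, hk, h] at c
  have i : (zpowers k).index = m := by omega
  let S : Sylow 11 X := (IsPGroup.of_card (n := 1) (by rw [Nat.card_zpowers, hk, pow_one])).toSylow
    (by rw [i]; omega)
  refine ⟨S, rfl, ?_⟩
  have h1 := card_sylow_modEq_one 11 X
  have h2 : Nat.card (Sylow 11 X) ∣ 24 := S.card_dvd_index.trans (by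
    change (zpowers k).index ∣ 24
    rcases hm with rfl | rfl <;> rw [i]
    norm_num)
  have h3 : Nat.card (Sylow 11 X) ≠ 1 := fun e => by
    haveI : Fact (Nat.Prime 3) := ⟨by norm_num⟩
    obtain ⟨b, hb⟩ := exists_prime_orderOf_dvd_card' (G := X) 3 (by rw [h]; omega)
    have hS : b • S = S := (Nat.card_eq_one_iff_unique.1 e).1.elim _ _
    obtain ⟨j, hj⟩ := mem_powers_iff_mem_zpowers.2
      ((mem_normalizer_iff.1 (Sylow.smul_eq_iff_mem_normalizer.1 hS) k).1 (mem_zpowers k))
    replace hj : k ^ j = b * k * b⁻¹ := hj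
    have e3 : k ^ (j * j * j) = k ^ 1 := by
      have : b ^ 3 = 1 := hb ▸ pow_orderOf_eq_one b
      calc k ^ (j * j * j) = b ^ 3 * k * (b ^ 3)⁻¹ := by
            rw [pow_mul, pow_mul, hj, conj_pow, hj, conj_pow, conj_pow, hj, pow_three]; group
        _ = _ := by rw [this]; group
    rw [pow_eq_pow_iff_modEq, hk] at e3
    have e1 : j ≡ 1 [MOD 11] := by
      have := (ZMod.natCast_eq_natCast_iff _ _ _).2 e3
      push_cast at this
      refine (ZMod.natCast_eq_natCast_iff _ _ _).1 ?_
      push_cast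
      revert this
      generalize (j : ZMod 11) = c
      revert c
      decide
    rw [← hk, ← pow_eq_pow_iff_modEq, hj, pow_one, mul_inv_eq_iff_eq_mul] at e1
    have := orderOf_dvd_of_mem_zpowers (hC b e1)
    rw [hb, hk] at this
    omega
  have := Nat.le_of_dvd (by norm_num) h2
  unfold Nat.ModEq at h1
  generalize Nat.card (Sylow 11 X) = n at *
  interval_cases n <;> omega

theorem lemA (h : Nat.card X = 132) : False := by
  classical
  obtain ⟨S, hS, hn⟩ := setup hk hC (m := 12) h (.inl rfl)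
  have c := (normalizer (S : Set X)).card_mul_index
  rw [← S.card_eq_index_normalizer, hn, h] at c
  have e : (S : Subgroup X) = normalizer (S : Set X) := eq_of_le_of_card_ge le_normalizer (by
    rw [hS, Nat.card_zpowers, hk]; omega)
  have hP : normalizer (S : Set X) ≤ centralizer (S : Set X) := by
    rw [← e]
    change (S : Subgroup X) ≤ centralizer ((S : Subgroup X) : Set X)
    rw [hS]
    exact le_centralizer _
  have hM := (MonoidHom.ker_transferSylow_isComplement' S hP).card_mul_card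
  generalize hMd : (MonoidHom.transferSylow S hP).ker = M at hM
  have nM : M.Normal := hMd ▸ inferInstance
  rw [hS, Nat.card_zpowers, hk, h] at hM
  haveI : Fact (Nat.Prime 3) := ⟨by norm_num⟩
  obtain ⟨a, ha⟩ := exists_prime_orderOf_dvd_card' (G := M) 2 (by omega)
  obtain ⟨b, hb⟩ := exists_prime_orderOf_dvd_card' (G := M) 3 (by omega)
  let f : zpowers k → M := fun x => ⟨x * a * x⁻¹, nM.conj_mem _ a.2 _⟩
  have ho : ∀ x, orderOf (f x) = 2 := fun x => by
    rw [← ha, ← orderOf_coe, ← orderOf_coe a]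
    exact (MulAut.conj (x : X)).orderOf_eq a
  have fi : Function.Injective f := fun x y e => by
    by_contra ne
    have e' : (x : X) * a * (x : X)⁻¹ = y * a * (y : X)⁻¹ := congrArg Subtype.val e
    have := not_comm hk hC (y := a) (y⁻¹ * x).2 (fun e => ne (inv_mul_eq_one.1 (Subtype.ext e)).symm) (by
      change (a : X) * ((y : X)⁻¹ * x) = (y : X)⁻¹ * x * a
      calc (a : X) * ((y : X)⁻¹ * x) = (y : X)⁻¹ * (y * a * (y : X)⁻¹) * x := by group
        _ = _ := by rw [← e']; group)
    rw [orderOf_coe, ha] at this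
    omega
  let F : Option (Option (zpowers k)) → M := fun o => o.elim 1 fun o => o.elim b f
  have Fi : Function.Injective F := by
    have b1 : b ≠ 1 := fun e => by simp [e] at hb
    have f1 : ∀ x, f x ≠ 1 := fun x e => by simpa [e] using ho x
    have fb : ∀ x, f x ≠ b := fun x e => by simpa [e, hb] using ho x
    rintro (_ | _ | x) (_ | _ | y) e
    exacts [rfl, absurd e.symm b1, absurd e.symm (f1 y), absurd e b1, rfl, absurd e.symm (fb y), absurd e (f1 x),
      absurd e (fb x), by rw [fi e]]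
  have := Nat.card_le_card_of_injective F Fi
  rw [Finite.card_option, Finite.card_option, Nat.card_zpowers, hk] at this
  omega

theorem lemB (h : Nat.card X = 264) : False := by
  classical
  obtain ⟨S, hS, hn⟩ := setup hk hC (m := 24) h (.inr rfl)
  have c := (normalizer (S : Set X)).card_mul_index
  rw [← S.card_eq_index_normalizer, hn, h] at c
  obtain ⟨r, hr⟩ := exists_prime_orderOf_dvd_card' (G := normalizer (S : Set X)) 2 (by omega)
  have r2 : (r : X) * r = 1 := by
    rw [← pow_two, ← hr, ← orderOf_coe, pow_orderOf_eq_one]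
  have rS : (r : X) • S = S := Sylow.smul_eq_iff_mem_normalizer.2 r.2
  have free : ∀ Q : Sylow 11 X, Q ≠ S → ∀ x ∈ zpowers k, x • Q = Q → x = 1 := fun Q hQ x hx e => by
    by_contra h1
    have le : (S : Subgroup X) ≤ Q := S.2.sylow_mem_fixedPoints_iff.1 ((sylow_mem_fixedPoints_iff _).2 (by
      rw [hS, ← gen hk hx h1]
      exact zpowers_le.2 (Sylow.smul_eq_iff_mem_normalizer.1 e)))
    exact hQ (Sylow.ext (S.3 Q.2 le))
  have kS : ∀ x ∈ zpowers k, x • S = S := fun x hx => Sylow.smul_eq_iff_mem_normalizer.2 (le_normalizer (hS ▸ hx))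
  have tr : ∀ Q Q' : Sylow 11 X, Q ≠ S → Q' ≠ S → ∃ x ∈ zpowers k, x • Q = Q' := fun Q Q' hQ hQ' => by
    let F : Option (zpowers k) → Sylow 11 X := fun o => o.elim S fun x => (x : X) • Q
    have ne : ∀ x : zpowers k, (x : X) • Q ≠ S := fun x e => hQ (smul_left_cancel (x : X) (e.trans (kS x x.2).symm))
    have Fi : Function.Injective F := by
      rintro (_ | x) (_ | y) e
      exacts [rfl, absurd e.symm (ne y), absurd e (ne x), congrArg some (Subtype.ext (inv_mul_eq_one.1
        (free Q hQ _ (y⁻¹ * x).2 (by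
          change ((y : X)⁻¹ * x) • Q = Q
          rw [mul_smul, show (x : X) • Q = (y : X) • Q from e, inv_smul_smul]))).symm)]
    obtain ⟨_ | x, e⟩ := ((Nat.bijective_iff_injective_and_card F).2
      ⟨Fi, by rw [Finite.card_option, Nat.card_zpowers, hk, hn]⟩).2 Q'
    exacts [absurd e.symm hQ', ⟨x, x.2, e⟩]
  have uq : ∀ Q Q' : Sylow 11 X, Q ≠ S → Q' ≠ S → (r : X) • Q = Q → (r : X) • Q' = Q' → Q = Q' := by
    intro Q Q' hQ hQ' e e'
    obtain ⟨x, hx, rfl⟩ := tr Q Q' hQ hQ'
    by_contra ne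
    have hx' : (r : X) * x * (r : X)⁻¹ ∈ zpowers k := hS ▸ (mem_normalizer_iff.1 r.2 x).1 (hS ▸ hx)
    have := free Q hQ _ (mul_mem (inv_mem hx) hx') (by
      rw [mul_smul, mul_smul, mul_smul, inv_smul_eq_iff.2 e.symm, e', inv_smul_smul])
    have := not_comm hk hC (y := r) hx (fun e => ne (by rw [e, one_smul]))
      (mul_inv_eq_iff_eq_mul.1 (inv_mul_eq_one.1 this).symm)
    rw [orderOf_coe, hr] at this
    omega
  have le2 : Nat.card {w : Sylow 11 X // (r : X) • w = w} ≤ 2 := by
    refine (Nat.card_le_card_of_injective (fun w => decide (w.1 = S)) fun w w' e => Subtype.ext ?_).trans_eq (by simp)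
    have e' : w.1 = S ↔ w'.1 = S := decide_eq_decide.1 e
    by_cases k : w.1 = S
    · rw [k, e'.1 k]
    · exact uq _ _ k (mt e'.2 k) w.2 w'.2
  have pos : 0 < Nat.card {w : Sylow 11 X // (r : X) • w = w} := Nat.card_pos_iff.2 ⟨⟨⟨S, rS⟩⟩, inferInstance⟩
  have ev : Nat.card (Sylow 11 X) ≡ Nat.card {w : Sylow 11 X // (r : X) • w = w} [MOD 2] := by
    have := (IsPGroup.of_card (G := zpowers (r : X)) (p := 2) (n := 1)
      (by rw [Nat.card_zpowers, orderOf_coe, hr, pow_one])).card_modEq_card_fixedPoints (Sylow 11 X)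
    refine this.trans (by
      rw [Nat.card_congr (Equiv.subtypeEquivRight fun w => ?_)]
      exact ⟨fun k => k ⟨r, mem_zpowers _⟩, fun k g => (zpowers_le (H := stabilizer X w)).2 k g.2⟩)
  unfold Nat.ModEq at ev
  obtain ⟨N, hN⟩ := Z2S.index_two_of_sign (Ω := Sylow 11 X) r2 (by rw [hn]) (by omega)
  have kN : k ∈ N := by
    have h2 : k ^ 12 = k := by rw [pow_succ, ← hk, pow_orderOf_eq_one, one_mul]
    have := pow_mem (sq_mem_of_index_two hN k) 6
    rwa [← pow_mul, h2] at this
  have cN := N.card_mul_index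
  rw [hN, h] at cN
  refine lemA (X := N) (k := ⟨k, kN⟩) ((orderOf_mk _ _).trans hk) (fun y e => ?_) (by omega)
  obtain ⟨n, hn⟩ := hC y (congrArg Subtype.val e)
  exact ⟨n, Subtype.ext hn⟩

end K132

theorem k132 : K132s.{u} := by
  intro G _ _ K k hK hk hC
  have h2 : ∀ y : K, y * ⟨k, hK⟩ = ⟨k, hK⟩ * y → y ∈ zpowers (⟨k, hK⟩ : K) := fun y e =>
    let ⟨n, hn⟩ := hC y y.2 (congrArg Subtype.val e); ⟨n, Subtype.ext hn⟩
  exact ⟨K132.lemA ((orderOf_mk _ _).trans hk) h2, K132.lemB ((orderOf_mk _ _).trans hk) h2⟩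

end CL.E11
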