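/-
Project E11 (S3403): the geometry of a line of type A.
-/
import Cfsg.Agent.E11.St
import Cfsg.Agent.Grp.SylowIn

set_option autoImplicit false
set_option linter.unusedSectionVars false

namespace CL.E11

open MulAction Subgroup CL.Grp

universe u

namespace LF1x

variable {G Ω : Type u} [Group G] [Finite G] [Finite Ω] [MulAction G Ω] {P : Ω → Subgroup G} {α β γ δ : Ω}

theorem card_orb (K : Subgroup G) (a : Ω) :
    Nat.card K = (orbit K a).ncard * Nat.card ↥(K ⊓ stabilizer G a) := by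
  rw [← (stabilizer K a).index_mul_card, index_stabilizer, show stabilizer K a = (stabilizer G a).subgroupOf K from rfl,
    ← inf_subgroupOf_left, Nat.card_congr (subgroupOfEquivOfLe inf_le_left).toEquiv]

theorem rel {S L : Subgroup G} (h : S ≤ L) : S.relIndex L * Nat.card S = Nat.card L := by
  rw [← (S.subgroupOf L).index_mul_card, Nat.card_congr (subgroupOfEquivOfLe h).toEquiv]; rfl

instance f11 : Fact (Nat.Prime 11) := ⟨by norm_num⟩

instance f5 : Fact (Nat.Prime 5) := ⟨Nat.prime_five⟩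

variable (hB : Base P) (hne : α ≠ β) (hA : TA (Ls P α β))
include hB hA

theorem idx : (P α).relIndex (Ls P α β) = 60 := by
  have := rel (left_mem_Ln (P := P) α β)
  rw [hB.card, hA.2] at this
  omega

theorem sylP : IsSylowIn 11 (P α) (Ls P α β) :=
  ⟨le_sup_left, IsPGroup.of_card (n := 1) (hB.card α), by rw [idx hB hA]; norm_num⟩

theorem cj {x : G} (hx : x ∈ Ls P α β) (ho : orderOf x = 11) : ∃ l ∈ Ls P α β, l * x * l⁻¹ ∈ P α := by
  obtain ⟨l, hl, e⟩ := (sylP hB hA).exists_conj_le (U := zpowers x)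
    (IsPGroup.of_card (n := 1) (by rw [Nat.card_zpowers, ho]; rfl)) (zpowers_le.2 hx)
  exact ⟨l, hl, e (conj_mem_conj_smul l (mem_zpowers x))⟩

theorem syl {x : G} (hx : x ∈ Ls P α β) (ho : orderOf x = 11) : ∃ γ ∈ Ln P α β, x ∈ P γ := by
  obtain ⟨l, hl, e⟩ := cj hB hA hx ho
  exact ⟨l⁻¹ • α, hB.smul_mem_Ln_of_mem (inv_mem hl) (left_mem_Ln α β), by
    simpa [mul_assoc] using hB.conj l⁻¹ α _ e⟩

theorem tr (hγ : γ ∈ Ln P α β) : ∃ l ∈ Ls P α β, l • α = γ := by
  obtain ⟨x, hx, h1⟩ := hB.exists_gen γ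
  obtain ⟨l, hl, e⟩ := cj hB hA (hγ hx) (hB.orderOf_eq hx h1)
  exact ⟨l⁻¹, inv_mem hl, inv_smul_eq_iff.2 (hB.smul_eq_of_conj hx h1 e).symm⟩

theorem orb : orbit (Ls P α β) α = Ln P α β :=
  Set.ext fun _ => ⟨fun ⟨l, e⟩ => e ▸ hB.smul_mem_Ln_of_mem l.2 (left_mem_Ln α β),
    fun h => let ⟨l, hl, e⟩ := tr hB hA h; ⟨⟨l, hl⟩, e⟩⟩

include hne

theorem card : (Ln P α β).ncard = 12 := by
  have h1 : normalizer (((sylP hB hA).toSylow : Subgroup (Ls P α β)) : Set (Ls P α β)) = stabilizer _ α := by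
    ext l
    rw [mem_normalizer_iff]
    exact ⟨fun h => hB.fix_of_norm fun x hx => (h ⟨x, left_mem_Ln α β hx⟩).1 hx, fun h x => by
      have := hB.conj_iff l α x
      rw [show (l : G) • α = α from h] at this
      exact this.symm⟩
  have h2 := (sylP hB hA).toSylow.card_eq_index_normalizer
  have h3 := card_sylow_modEq_one 11 (Ls P α β)
  have h4 := (sylP hB hA).toSylow.card_dvd_index
  rw [show ((sylP hB hA).toSylow : Subgroup (Ls P α β)).index = 60 from idx hB hA] at h4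
  erw [h1] at h2
  rw [h2, index_stabilizer, orb hB hA] at h3 h4
  have h5 : 1 < (Ln P α β).ncard := (Set.one_lt_ncard (Set.toFinite _)).2
    ⟨α, left_mem_Ln α β, β, right_mem_Ln α β, hne⟩
  generalize (Ln P α β).ncard = n at *
  have := Nat.le_of_dvd (by norm_num) h4
  unfold Nat.ModEq at h3
  interval_cases n <;> omega

theorem card' : (Ln P α β \ {α}).ncard = 11 := by
  rw [Set.ncard_diff_singleton_of_mem (left_mem_Ln α β), card hB hne hA]

theorem reg (hγ : γ ∈ Ln P α β) (h : γ ≠ α) : ∃ x ∈ P α, x • β = γ := by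
  have h1 : (fun x : G => x • β) '' (P α : Set G) = Ln P α β \ {α} := by
    refine Set.eq_of_subset_of_ncard_le ?_ ?_
    · rintro _ ⟨x, hx, rfl⟩
      exact ⟨hB.smul_mem_Ln_of_mem (left_mem_Ln α β hx) (right_mem_Ln α β), fun e =>
        hne (smul_left_cancel x ((hB.self_fix hx).trans (Set.mem_singleton_iff.1 e).symm))⟩
    · rw [card' hB hne hA, Set.InjOn.ncard_image fun x hx y hy e => hB.free hne.symm hx hy e,
        ← Nat.card_coe_set_eq]
      exact (hB.card α).ge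
  exact h1.ge ⟨hγ, h⟩

theorem t2 (hγ : γ ∈ Ln P α β) (hδ : δ ∈ Ln P α β) (h : γ ≠ δ) : ∃ l ∈ Ls P α β, l • α = γ ∧ l • β = δ := by
  obtain ⟨l, hl, rfl⟩ := tr hB hA hγ
  obtain ⟨x, hx, e⟩ := reg hB hne hA (hB.smul_mem_Ln_of_mem (inv_mem hl) hδ)
    fun e => h (inv_smul_eq_iff.1 e).symm
  exact ⟨l * x, mul_mem hl (left_mem_Ln α β hx), by rw [mul_smul, hB.self_fix hx], by rw [mul_smul, e, smul_inv_smul]⟩

theorem fixL {c : G} (hc : c ∈ Ls P α β) (h : ∀ γ ∈ Ln P α β, c • γ = γ) : c = 1 := by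
  have hN : ((fixingSubgroup G (Ln P α β)).subgroupOf (Ls P α β)).Normal := ⟨fun y hy g =>
    (mem_fixingSubgroup_iff _).2 fun γ hγ => by
      change ((g : G) * y * (g : G)⁻¹) • γ = γ
      rw [mul_smul, mul_smul, (mem_fixingSubgroup_iff G).1 (mem_subgroupOf.1 hy) _
        (hB.smul_mem_Ln_of_mem (inv_mem g.2) hγ), smul_inv_smul]⟩
  rcases hA.1.eq_bot_or_eq_top_of_normal _ hN with e | e
  · have : (⟨c, hc⟩ : Ls P α β) ∈ (fixingSubgroup G (Ln P α β)).subgroupOf (Ls P α β) :=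
      (mem_fixingSubgroup_iff _).2 h
    rw [e, mem_bot] at this
    exact congrArg Subtype.val this
  · obtain ⟨x, hx, h1⟩ := hB.exists_gen α
    have : (⟨x, left_mem_Ln α β hx⟩ : Ls P α β) ∈ (fixingSubgroup G (Ln P α β)).subgroupOf (Ls P α β) :=
      e ▸ mem_top _
    exact (hne (hB.eq_of_fix hx h1 ((mem_fixingSubgroup_iff _).1 this β (right_mem_Ln α β))).symm).elim

theorem cen {g : G} (ha : g • α = α) (hb : g • β = β) (hc : chi P g α = 1) : g ∈ Kk P α β := by
  have h1 : ∀ γ ∈ Ln P α β, g • γ = γ := fun γ hγ => by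
    by_cases e : γ = α
    · rw [e, ha]
    · obtain ⟨x, hx, rfl⟩ := reg hB hne hA hγ e
      rw [← mul_smul, ← mem_Cz.1 ((hB.chi_eq_one_iff ha).1 hc) x hx, mul_smul, hb]
  refine mem_Cz.2 fun l hl => ?_
  have := fixL hB hne hA (mul_mem (inv_mem hl) (hB.norm_Ls (Or.inl ⟨ha, hb⟩) l hl)) fun γ hγ => by
    rw [mul_smul, mul_smul, mul_smul, inv_smul_eq_iff.2 (h1 γ hγ).symm, h1 _ (hB.smul_mem_Ln_of_mem hl hγ),
      inv_smul_smul]
  exact (mul_inv_eq_iff_eq_mul.1 (inv_mul_eq_one.1 this).symm).symm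

theorem three {g : G} (ha : g • α = α) (hb : g • β = β) (hγ : γ ∈ Ln P α β) (h1 : γ ≠ α) (h2 : γ ≠ β)
    (h : g • γ = γ) : g ∈ Kk P α β := by
  obtain ⟨x, hx, rfl⟩ := reg hB hne hA hγ h1
  have e : g * x * g⁻¹ = x := hB.free hne.symm (hB.conj_fix ha hx) hx (by
    rw [mul_smul, mul_smul, inv_smul_eq_iff.2 hb.symm, h])
  exact cen hB hne hA ha hb (by
    exact_mod_cast hB.chi_eq hx (fun e => h2 (by rw [e, one_smul])) (n := 1) (by rw [e, pow_one]))

theorem card5 : Nat.card ↥(Ls P α β ⊓ stabilizer G α ⊓ stabilizer G β) = 5 := by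
  have h1 := card_orb (Ls P α β) α
  have h2 := card_orb (Ls P α β ⊓ stabilizer G α) β
  have h3 : orbit ↥(Ls P α β ⊓ stabilizer G α) β = Ln P α β \ {α} := Set.ext fun γ =>
    ⟨fun ⟨l, e⟩ => e ▸ ⟨hB.smul_mem_Ln_of_mem l.2.1 (right_mem_Ln α β), fun e =>
      hne (smul_left_cancel (l : G) (l.2.2.trans (Set.mem_singleton_iff.1 e).symm))⟩, fun h =>
      let ⟨x, hx, e⟩ := reg hB hne hA h.1 h.2; ⟨⟨x, left_mem_Ln α β hx, hB.self_fix hx⟩, e⟩⟩
  rw [orb hB hA, card hB hne hA, hA.2] at h1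
  rw [h3, card' hB hne hA] at h2
  omega

theorem hs : ∃ h s : G, HS P α β h s := by
  have c5 := card5 hB hne hA
  set H := Ls P α β ⊓ stabilizer G α ⊓ stabilizer G β with hH
  have p5 : ∀ y ∈ H, y ^ 5 = 1 := fun y hy => by
    have := pow_card_eq_one' (x := (⟨y, hy⟩ : H))
    rw [c5] at this
    exact congrArg Subtype.val this
  obtain ⟨h, hh, hc⟩ : ∃ h ∈ H, chi P h α = 3 := by
    obtain ⟨h0, a, b⟩ := (H.bot_or_exists_ne_one).resolve_left fun e => by rw [e, card_bot] at c5; omega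
    obtain ⟨i, hi⟩ := (by decide : ∀ c : ZMod 11, c ^ 5 = 1 → c ≠ 1 → ∃ i : Fin 5, c ^ i.val = 3) (chi P h0 α)
      (by rw [← hB.chi_pow a.1.2, p5 h0 a, hB.chi_one]) fun e =>
        b (hB.eq_one_of_LK hne a.1.1 (cen hB hne hA a.1.2 a.2 e))
    exact ⟨h0 ^ i.val, pow_mem a _, by rw [hB.chi_pow a.1.2, hi]⟩
  have h1 : h ≠ 1 := fun e => by rw [e, hB.chi_one] at hc; exact absurd hc (by decide)
  have ho : orderOf h = 5 := orderOf_eq_prime (p5 h hh) h1
  have hz : zpowers h = H := eq_of_le_of_card_ge (zpowers_le.2 hh) (by rw [Nat.card_zpowers, ho, c5])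
  have cm : ∀ y ∈ H, Commute y h := fun y hy => by
    obtain ⟨k, rfl⟩ := mem_zpowers_iff.1 (hz.ge hy)
    exact Commute.zpow_self h k
  obtain ⟨s, sL, sa, sb⟩ := t2 hB hne hA (right_mem_Ln α β) (left_mem_Ln α β) hne.symm
  have s2 : s * s ∈ H := ⟨⟨mul_mem sL sL, by change (s * s) • α = α; rw [mul_smul, sa, sb]⟩,
    by change (s * s) • β = β; rw [mul_smul, sb, sa]⟩
  have sL' : s⁻¹ ∈ Ls P α β := inv_mem sL
  have sh : s * h * s⁻¹ ∈ H := ⟨⟨mul_mem (mul_mem sL hh.1.1) sL', by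
      change (s * h * s⁻¹) • α = α
      rw [mul_smul, mul_smul, inv_smul_eq_iff.2 sb.symm, show h • β = β from hh.2, sb]⟩, by
      change (s * h * s⁻¹) • β = β
      rw [mul_smul, mul_smul, inv_smul_eq_iff.2 sa.symm, show h • α = α from hh.1.2, sa]⟩
  have ns : ¬ Commute s h := fun cs => by
    have hS : IsSylowIn 5 H (Ls P α β) := ⟨inf_le_left.trans inf_le_left, IsPGroup.of_card (n := 1) c5, by
      have := rel (S := H) (L := Ls P α β) (inf_le_left.trans inf_le_left)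
      rw [c5, hA.2] at this
      omega⟩
    have hN : normalizer ((hS.toSylow : Subgroup (Ls P α β)) : Set (Ls P α β)) ≤
        centralizer ((hS.toSylow : Subgroup (Ls P α β)) : Set (Ls P α β)) := fun y hy => by
      have a : (y : G)⁻¹ * h * y ∈ H := by
        simpa using (show (y : G)⁻¹ * h * (y : G)⁻¹⁻¹ ∈ H from
          (mem_normalizer_iff.1 (inv_mem hy) ⟨h, hh.1.1⟩).1 hh)
      have k : ∀ γ ∈ Ln P α β, ((y : G)⁻¹ * h * y) • γ = γ → (y : G) • γ = α ∨ (y : G) • γ = β := fun γ hγ e => by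
        by_contra n
        push Not at n
        rw [mul_smul, mul_smul, inv_smul_eq_iff] at e
        exact h1 (hB.eq_one_of_LK hne hh.1.1
          (three hB hne hA hh.1.2 hh.2 (hB.smul_mem_Ln_of_mem y.2 hγ) n.1 n.2 e))
      have c : Commute (y : G) h := by
        rcases k α (left_mem_Ln α β) a.1.2 with e | e <;> rcases k β (right_mem_Ln α β) a.2 with e' | e'
        · exact (hne (smul_left_cancel (y : G) (e.trans e'.symm))).elim
        · exact cm y ⟨⟨y.2, e⟩, e'⟩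
        · simpa using cs.mul_left (cm (s⁻¹ * y) ⟨⟨mul_mem sL' y.2, by
            change (s⁻¹ * y) • α = α; rw [mul_smul, e, inv_smul_eq_iff, sa]⟩, by
            change (s⁻¹ * y) • β = β; rw [mul_smul, e', inv_smul_eq_iff, sb]⟩)
        · exact (hne (smul_left_cancel (y : G) (e.trans e'.symm))).elim
      intro x hx
      obtain ⟨k, e⟩ := mem_zpowers_iff.1 (hz.ge (show (x : G) ∈ H from hx))
      exact Subtype.ext (by rw [coe_mul, coe_mul, ← e]; exact (c.symm.zpow_left k).eq)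
    have hC := (MonoidHom.ker_transferSylow_isComplement' hS.toSylow hN).card_mul_card
    have e5 : Nat.card (hS.toSylow : Subgroup (Ls P α β)) = 5 :=
      (Nat.card_congr (subgroupOfEquivOfLe hS.le).toEquiv).trans c5
    rw [e5, hA.2] at hC
    rcases hA.1.eq_bot_or_eq_top_of_normal (MonoidHom.transferSylow hS.toSylow hN).ker inferInstance with e | e <;>
      rw [e] at hC
    · rw [card_bot] at hC; omega
    · rw [card_top, hA.2] at hC; omega
  have inv : s * h * s⁻¹ = h⁻¹ := by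
    obtain ⟨n, hn, e⟩ : ∃ n < 5, s * h * s⁻¹ = h ^ n := by
      obtain ⟨n, e⟩ := mem_powers_iff_mem_zpowers.2 (hz.ge sh)
      exact ⟨n % 5, Nat.mod_lt _ (by norm_num), by rw [← ho, pow_mod_orderOf]; exact e.symm⟩
    have e2 : h ^ (n * n) = h ^ 1 := by
      rw [pow_mul, ← e, conj_pow, ← e, pow_one]
      calc _ = s * s * h * (s * s)⁻¹ := by group
        _ = _ := by rw [(cm _ s2).eq, mul_inv_cancel_right]
    rw [pow_eq_pow_iff_modEq, ho] at e2
    unfold Nat.ModEq at e2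
    interval_cases n <;> try omega
    · exact (ns (mul_inv_eq_iff_eq_mul.1 (e.trans (pow_one h)))).elim
    · rw [e, eq_inv_iff_mul_eq_one, ← pow_succ, p5 h hh]
  have ss : s * s = 1 := by
    obtain ⟨k, e⟩ := mem_zpowers_iff.1 (hz.ge s2)
    have e1 : s * s = (s * s)⁻¹ := by
      calc s * s = s * (s * s) * s⁻¹ := by group
        _ = _ := by rw [← e, ← conj_zpow, inv, inv_zpow]
    have e2 := p5 _ s2
    rw [show (s * s) ^ 5 = (s * s * (s * s)) ^ 2 * (s * s) by rw [← pow_two (s * s), ← pow_mul, ← pow_succ],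
      eq_inv_iff_mul_eq_one.1 e1] at e2
    simpa using e2
  exact ⟨h, s, hh.1.1, sL, hh.1.2, hh.2, ho, hc, sa, sb,
    orderOf_eq_prime ((pow_two s).trans ss) fun e => hne (by rw [← sa, e, one_smul]), inv,
    fun l hl a b => hz.ge ⟨⟨hl, a⟩, b⟩⟩

theorem inv {g : G} (ha : g • α = α) (hb : g • β = β) : chi P g β * chi P g α = 1 := by
  obtain ⟨h, s, H⟩ := hs hB hne hA
  have e1 : chi P h β * 3 = 1 := by
    have := hB.chi_conj s H.hb
    rw [H.sh, H.sb] at this
    rw [← this, ← H.hc, hB.chi_inv H.ha]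
  obtain ⟨i, hi⟩ := (by decide : ∀ c : ZMod 11, c ≠ 0 → ∃ i : Fin 5, c * 3 ^ i.val = 1 ∨ c * 3 ^ i.val = -1) _
    (hB.chi_ne_zero ha)
  have a' : h ^ i.val • α = α := (stabilizer G α).pow_mem H.ha _
  have b' : h ^ i.val • β = β := (stabilizer G β).pow_mem H.hb _
  have a : (g * h ^ i.val) • α = α := by rw [mul_smul, a', ha]
  have b : (g * h ^ i.val) • β = β := by rw [mul_smul, b', hb]
  have c1 : chi P (g * h ^ i.val) α = chi P g α * 3 ^ i.val := by
    rw [hB.chi_mul ha a', hB.chi_pow H.ha, H.hc]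
  have c2 : chi P (g * h ^ i.val) β = chi P g β * chi P h β ^ i.val := by
    rw [hB.chi_mul hb b', hB.chi_pow H.hb]
  have c3 : chi P g β * chi P g α = chi P (g * h ^ i.val) β * chi P (g * h ^ i.val) α := by
    rw [c1, c2, mul_mul_mul_comm, ← mul_pow, e1, one_pow, mul_one]
  rw [← c1] at hi
  generalize g * h ^ i.val = y at a b c3 hi
  rw [c3]
  rcases hi with e | e
  · rw [e, hB.chi_Kk (right_mem_Ln α β) (cen hB hne hA a b e), mul_one]
  · have d1 := hB.chi_Kk (right_mem_Ln α β) (cen hB hne hA (g := y * y) (by rw [mul_smul, a, a])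
      (by rw [mul_smul, b, b]) (by rw [hB.chi_mul a a, e]; decide))
    rw [hB.chi_mul b b] at d1
    have d2 : chi P y β ≠ 1 := fun e' => by
      rw [hB.chi_Kk (right_mem_Ln β α) (cen hB hne.symm (by rwa [Ls_comm (P := P) β α]) b a e')] at e
      exact absurd e (by decide)
    rw [e]
    exact (by decide : ∀ c : ZMod 11, c * c = 1 → c ≠ 1 → c * -1 = 1) _ d1 d2

end LF1x

open LF1x in
theorem lf1 : LF1s.{u} := by
  intro G Ω _ _ _ _ P hB α β hne hA
  exact ⟨card hB hne hA, fun γ hγ δ hδ h => eq_of_le_of_card_ge (Ls_le hγ hδ)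
      (hA.2 ▸ Nat.le_of_dvd Nat.card_pos (hB.dvd_card_Ls h)), fun γ => reg hB hne hA, fun x => syl hB hA,
    fun γ hγ δ => t2 hB hne hA hγ, fun g => cen hB hne hA, fun g ha hb γ => three hB hne hA ha hb,
    hs hB hne hA, fun g => inv hB hne hA⟩

end CL.E11
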