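/-
Project E11 (S3403): the involutions of a group of type A.
-/
import Cfsg.Agent.E11.St

set_option autoImplicit false
set_option linter.unusedSectionVars false

namespace CL.E11

open MulAction Subgroup

universe u

namespace LF2aux

section Abs

variable {L : Type u} [Group L] [Finite L]

theorem fac660 (hc : Nat.card L = 660) : 2 ^ (Nat.card L).factorization 2 = 4 := by
  have h : (660 : ℕ).factorization 2 = 2 := by
    rw [show (660 : ℕ) = 2 ^ 2 * 165 by norm_num, Nat.factorization_mul (by norm_num) (by norm_num),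
      Nat.Prime.factorization_pow Nat.prime_two]
    simp [Nat.factorization_eq_zero_of_not_dvd (show ¬ 2 ∣ 165 by norm_num)]
  rw [hc, h]; rfl

theorem sq_of_ord {v : L} (h : orderOf v = 2) : v * v = 1 := by
  have := pow_orderOf_eq_one v
  rwa [h, pow_two] at this

theorem ne_of_ord {v : L} (h : orderOf v = 2) : v ≠ 1 := by
  rintro rfl
  simp at h

theorem ord_of_sq {v : L} (h : v * v = 1) (h1 : v ≠ 1) : orderOf v = 2 :=
  orderOf_eq_prime (by rwa [pow_two]) h1

theorem no4A (hs : IsSimpleGroup L) (hc : Nat.card L = 660) (y : L) (hy : y ^ 4 = 1) : y ^ 2 = 1 := by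
  by_contra h2
  have ho : orderOf y = 4 := by
    have := orderOf_eq_prime_pow (p := 2) (n := 1) (x := y) (by simpa using h2) (by simpa using hy)
    simpa using this
  have hcard : Nat.card (zpowers y) = 2 ^ (Nat.card L).factorization 2 := by
    rw [fac660 hc, Nat.card_zpowers, ho]
  let S : Sylow 2 L := Sylow.ofCard (zpowers y) hcard
  have hcy : IsCyclic S := inferInstanceAs (IsCyclic (zpowers y))
  have hp : (Nat.card L).minFac = 2 := by rw [hc]; norm_num
  have hcomp := hcy.isComplement' hp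
  have hm := hcomp.card_mul_card
  have hS : Nat.card S = 4 := by rw [S.card_eq_multiplicity, fac660 hc]
  rcases hs.eq_bot_or_eq_top_of_normal
    (MonoidHom.transferSylow S (hcy.normalizer_le_centralizer hp)).ker inferInstance with e | e
  · rw [e, card_bot, hc] at hm
    change 1 * Nat.card S = 660 at hm
    omega
  · rw [e, card_top, hc] at hm
    change 660 * Nat.card S = 660 at hm
    omega

theorem fourA (hs : IsSimpleGroup L) (hc : Nat.card L = 660) {v : L} (hv : orderOf v = 2) :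
    ∃ w : L, orderOf w = 2 ∧ w ≠ v ∧ w * v = v * w := by
  have hp : IsPGroup 2 (zpowers v) := IsPGroup.of_card (n := 1) (by rw [Nat.card_zpowers, hv]; rfl)
  obtain ⟨S, hS⟩ := hp.exists_le_sylow
  have hS4 : Nat.card S = 4 := by rw [S.card_eq_multiplicity, fac660 hc]
  have hsq : ∀ x ∈ (S : Subgroup L), x * x = 1 := fun x hx => by
    have h4 := pow_card_eq_one' (x := (⟨x, hx⟩ : (S : Subgroup L)))
    rw [show Nat.card (S : Subgroup L) = 4 from hS4] at h4
    have := no4A hs hc x (congrArg Subtype.val h4)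
    rwa [pow_two] at this
  have hnle : ¬ (S : Subgroup L) ≤ zpowers v := fun h => by
    have := card_le_of_le h
    rw [Nat.card_zpowers, hv, show Nat.card (S : Subgroup L) = 4 from hS4] at this
    omega
  obtain ⟨w, hw, hwv⟩ := SetLike.not_le_iff_exists.1 hnle
  have hvS : v ∈ (S : Subgroup L) := hS (mem_zpowers v)
  refine ⟨w, ord_of_sq (hsq w hw) (fun e => hwv (e ▸ one_mem _)), fun e => hwv (e ▸ mem_zpowers v), ?_⟩
  have h1 := hsq _ (mul_mem hw hvS)
  have h2 := hsq w hw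
  have h3 := hsq v hvS
  calc w * v = (w * v)⁻¹ := (eq_inv_of_mul_eq_one_left h1)
    _ = v⁻¹ * w⁻¹ := mul_inv_rev _ _
    _ = v * w := by rw [← eq_inv_of_mul_eq_one_left h2, ← eq_inv_of_mul_eq_one_left h3]

theorem no8A (hc : Nat.card L = 660) {v w y : L} (hv : orderOf v = 2) (hw : orderOf w = 2) (hy : orderOf y = 2)
    (hne : w ≠ v) (h1 : w * v = v * w) (h2 : y * v = v * y) (h3 : y * w = w * y) :
    y = v ∨ y = w ∨ y = v * w := by
  by_contra hcon
  push Not at hcon
  obtain ⟨n1, n2, n3⟩ := hcon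
  let S : Subgroup L := closure {v, w, y}
  have hcomm : IsMulCommutative S := isMulCommutative_closure (by
    intro a ha b hb
    simp only [Set.mem_insert_iff, Set.mem_singleton_iff] at ha hb
    rcases ha with rfl | rfl | rfl <;> rcases hb with rfl | rfl | rfl <;>
      first | rfl | assumption | (symm; assumption))
  have hsq : ∀ x ∈ S, x ^ 2 = 1 := by
    intro x hx
    induction hx using closure_induction with
    | mem x hx =>
      simp only [Set.mem_insert_iff, Set.mem_singleton_iff] at hx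
      rcases hx with rfl | rfl | rfl
      · rw [pow_two]; exact sq_of_ord hv
      · rw [pow_two]; exact sq_of_ord hw
      · rw [pow_two]; exact sq_of_ord hy
    | one => simp
    | mul a b ha hb iha ihb =>
      have hab : Commute a b := congrArg Subtype.val (hcomm.is_comm.comm (⟨a, ha⟩ : S) ⟨b, hb⟩)
      rw [hab.mul_pow, iha, ihb, one_mul]
    | inv a _ iha => rw [inv_pow, iha, inv_one]
  have hp : IsPGroup 2 S := fun x => ⟨1, Subtype.ext (by simpa using hsq x x.2)⟩
  obtain ⟨T, hT⟩ := hp.exists_le_sylow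
  have hT4 : Nat.card T = 4 := by rw [T.card_eq_multiplicity, fac660 hc]
  have hle : Nat.card S ≤ 4 := by
    have := card_le_of_le hT
    rwa [show Nat.card (T : Subgroup L) = 4 from hT4] at this
  have hvS : v ∈ S := subset_closure (by simp)
  have hwS : w ∈ S := subset_closure (by simp)
  have hyS : y ∈ S := subset_closure (by simp)
  have hsub : ({1, v, w, v * w, y} : Set L) ⊆ (S : Set L) := by
    intro x hx
    simp only [Set.mem_insert_iff, Set.mem_singleton_iff] at hx
    rcases hx with rfl | rfl | rfl | rfl | rfl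
    · exact one_mem S
    · exact hvS
    · exact hwS
    · exact mul_mem hvS hwS
    · exact hyS
  have v1 := ne_of_ord hv
  have w1 := ne_of_ord hw
  have y1 := ne_of_ord hy
  have vw1 : v * w ≠ 1 := fun e => hne (by
    have := sq_of_ord hv
    exact mul_left_cancel (e.trans this.symm))
  have h5 : ({1, v, w, v * w, y} : Set L).ncard = 5 := by
    rw [Set.ncard_insert_of_notMem (by simp [v1.symm, w1.symm, y1.symm, vw1.symm]),
      Set.ncard_insert_of_notMem (by simp [hne.symm, n1.symm, w1]),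
      Set.ncard_insert_of_notMem (by simp [n2.symm, v1]),
      Set.ncard_pair n3.symm]
  have := Set.ncard_le_ncard hsub
  rw [h5, ← Nat.card_coe_set_eq] at this
  have h6 : Nat.card (S : Set L) = Nat.card S := rfl
  omega

theorem cls_mul (v : L) : {w : L | IsConj w v}.ncard * Nat.card (centralizer ({v} : Set L)) = Nat.card L := by
  have h := index_mul_card (stabilizer (ConjAct L) v)
  rw [index_stabilizer, ← nat_card_centralizer_nat_card_stabilizer] at h
  have e : orbit (ConjAct L) v = {w : L | IsConj w v} := by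
    ext w; exact ConjAct.mem_orbit_conjAct
  rw [e] at h
  exact h

end Abs

section Geo

variable {G Ω : Type u} [Group G] [Finite G] [MulAction G Ω] {P : Ω → Subgroup G} {α β : Ω}

theorem not_fix2 {h s : G} (H : HS P α β h s) {v : G} (hv : v ∈ Ls P α β) (ho : orderOf v = 2)
    (ha : v • α = α) (hb : v • β = β) : False := by
  have h1 := orderOf_dvd_of_mem_zpowers (H.st v hv ha hb)
  rw [ho, H.ho] at h1
  omega

theorem fpfA (hB : Base P) (h1 : LF1 P α β) {v : G} (hv : v ∈ Ls P α β) (ho : orderOf v = 2)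
    {γ : Ω} (hγ : γ ∈ Ln P α β) : v • γ ≠ γ := by
  classical
  intro hfix
  haveI := hB.finite_Ω
  letI : Fintype (Ln P α β) := Fintype.ofFinite _
  have hvv := sq_of_ord ho
  let f : Ln P α β → Ln P α β := fun δ => ⟨v • δ.1, hB.smul_mem_Ln_of_mem hv δ.2⟩
  have hf : Function.Involutive f := fun δ => Subtype.ext (by
    change v • v • δ.1 = δ.1
    rw [← mul_smul, hvv, one_smul])
  have hcard : 2 ∣ Fintype.card (Ln P α β) := by
    rw [← Nat.card_eq_fintype_card, Nat.card_coe_set_eq, h1.card]; norm_num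
  obtain ⟨δ, hδ, hne⟩ := Equiv.Perm.exists_fixed_point_of_prime' (p := 2) (n := 1) hcard
    (σ := hf.toPerm f) (by ext δ; simp [pow_two, hf δ]) (a := ⟨γ, hγ⟩) (Subtype.ext hfix)
  have hδ' : v • δ.1 = δ.1 := congrArg Subtype.val hδ
  obtain ⟨l, hl, la, lb⟩ := h1.t2 γ hγ δ.1 δ.2 (fun e => hne (Subtype.ext e.symm))
  obtain ⟨h, s, H⟩ := h1.hs
  refine not_fix2 H (v := l⁻¹ * v * l) (mul_mem (mul_mem (inv_mem hl) hv) hl) ?_ ?_ ?_
  · rw [← ho]
    have := (MulAut.conj l⁻¹).orderOf_eq v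
    simpa using this
  · rw [mul_smul, mul_smul, la, hfix, ← la, inv_smul_smul]
  · rw [mul_smul, mul_smul, lb, hδ', ← lb, inv_smul_smul]

theorem s_pow {h s : G} (H : HS P α β h s) (i : ℤ) : s * h ^ i * s⁻¹ = h ^ (-i) := by
  rw [← conj_zpow, H.sh, inv_zpow']

theorem sh_sq {h s : G} (H : HS P α β h s) (i : ℤ) : s * h ^ i * (s * h ^ i) = 1 := by
  have hss := sq_of_ord H.so
  have e : s⁻¹ = s := (eq_inv_of_mul_eq_one_left hss).symm
  calc s * h ^ i * (s * h ^ i) = s * h ^ i * s⁻¹ * h ^ i := by rw [e, mul_assoc (s * h ^ i)]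
    _ = 1 := by rw [s_pow H, ← zpow_add]; simp

theorem sh_smul {h s : G} (H : HS P α β h s) (i : ℤ) : (s * h ^ i) • α = β := by
  have : h ^ i • α = α := (stabilizer G α).zpow_mem H.ha i
  rw [mul_smul, this, H.sa]

theorem sh_ord (hne : α ≠ β) {h s : G} (H : HS P α β h s) (i : ℤ) : orderOf (s * h ^ i) = 2 :=
  ord_of_sq (sh_sq H i) fun e => hne (by have := sh_smul H i; rwa [e, one_smul] at this)

/-- an involution of `L` moving `α` to `β` is `s h ^ i` -/
theorem eq_sh {h s : G} (H : HS P α β h s) {v : G} (hv : v ∈ Ls P α β) (ho : orderOf v = 2)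
    (ha : v • α = β) : ∃ i : ℤ, v = s * h ^ i := by
  have hvv := sq_of_ord ho
  have hss := sq_of_ord H.so
  have hb : v • β = α := by rw [← ha, ← mul_smul, hvv, one_smul]
  obtain ⟨i, hi⟩ := H.st (s * v) (mul_mem H.sL hv) (by rw [mul_smul, ha, H.sb]) (by rw [mul_smul, hb, H.sa])
  refine ⟨i, ?_⟩
  have hi' : h ^ i = s * v := hi
  rw [hi', ← mul_assoc, hss, one_mul]

/-- every involution of `L` is `x s h ^ i x⁻¹` -/
theorem eq_conj (hB : Base P) (h1 : LF1 P α β) {h s : G} (H : HS P α β h s) {v : G} (hv : v ∈ Ls P α β)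
    (ho : orderOf v = 2) : ∃ x ∈ P α, ∃ i : ℤ, v = x * (s * h ^ i) * x⁻¹ := by
  obtain ⟨x, hx, e⟩ := h1.reg (v • α) (hB.smul_mem_Ln_of_mem hv (left_mem_Ln α β))
    (fpfA hB h1 hv ho (left_mem_Ln α β))
  have hxL : x ∈ Ls P α β := (le_sup_left : P α ≤ P α ⊔ P β) hx
  obtain ⟨i, hi⟩ := eq_sh H (v := x⁻¹ * v * x) (mul_mem (mul_mem (inv_mem hxL) hv) hxL)
    (by rw [← ho]; simpa using (MulAut.conj x⁻¹).orderOf_eq v)
    (by rw [mul_smul, mul_smul, hB.self_fix hx, ← e, inv_smul_smul])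
  exact ⟨x, hx, i, by rw [← hi]; group⟩

/-- `s h ^ i` is conjugate to `s` -/
theorem sh_conj {h s : G} (H : HS P α β h s) (i : ℤ) : h ^ (2 * i) * s * (h ^ (2 * i))⁻¹ = s * h ^ i := by
  have hss := sq_of_ord H.so
  have e : s⁻¹ = s := (eq_inv_of_mul_eq_one_left hss).symm
  have h5 : h ^ (5 : ℤ) = 1 := by
    have := pow_orderOf_eq_one h
    rw [H.ho] at this
    exact_mod_cast this
  have h1 : h ^ (2 * i) * s = s * h ^ (-(2 * i)) := by
    rw [← s_pow H, ← mul_assoc, ← mul_assoc, hss, one_mul, e]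
  rw [h1, mul_assoc, ← zpow_neg, ← zpow_add, show -(2 * i) + -(2 * i) = 5 * (-i) + i by ring, zpow_add,
    zpow_mul, h5, one_zpow, one_mul]

theorem conj_s (hB : Base P) (h1 : LF1 P α β) {h s : G} (H : HS P α β h s) {v : G} (hv : v ∈ Ls P α β)
    (ho : orderOf v = 2) : ∃ l ∈ Ls P α β, l * s * l⁻¹ = v := by
  obtain ⟨x, hx, i, rfl⟩ := eq_conj hB h1 H hv ho
  have hxL : x ∈ Ls P α β := (le_sup_left : P α ≤ P α ⊔ P β) hx
  refine ⟨x * h ^ (2 * i), mul_mem hxL (zpow_mem H.hL _), ?_⟩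
  rw [← sh_conj H]; group

theorem clsA (hB : Base P) (h1 : LF1 P α β) {v w : G} (hv : v ∈ Ls P α β) (hw : w ∈ Ls P α β)
    (ho : orderOf v = 2) (ho' : orderOf w = 2) : ∃ l ∈ Ls P α β, l * v * l⁻¹ = w := by
  obtain ⟨h, s, H⟩ := h1.hs
  obtain ⟨l, hl, rfl⟩ := conj_s hB h1 H hv ho
  obtain ⟨m, hm, rfl⟩ := conj_s hB h1 H hw ho'
  exact ⟨m * l⁻¹, mul_mem hm (inv_mem hl), by group⟩

theorem c55A (hB : Base P) (hne : α ≠ β) (h1 : LF1 P α β) :
    {v : G | v ∈ Ls P α β ∧ orderOf v = 2}.ncard = 55 := by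
  obtain ⟨h, s, H⟩ := h1.hs
  let F : P α × zpowers h → G := fun p => p.1 * (s * p.2) * (p.1 : G)⁻¹
  have hinj : Function.Injective F := by
    rintro ⟨x, a⟩ ⟨y, b⟩ e
    have hF : ∀ (x : P α) (a : zpowers h), F (x, a) • α = (x : G) • β := by
      rintro x ⟨a, i, rfl⟩
      change ((x : G) * (s * h ^ i) * (x : G)⁻¹) • α = _
      rw [mul_smul, mul_smul, hB.self_fix (inv_mem x.2), sh_smul H]
    have hxy : x = y := Subtype.ext (hB.free hne.symm x.2 y.2 (by rw [← hF x a, e, hF y b]))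
    subst hxy
    have : (a : G) = b := by simpa [F] using e
    rw [Subtype.ext this]
  have hr : Set.range F = {v : G | v ∈ Ls P α β ∧ orderOf v = 2} := by
    ext v
    constructor
    · rintro ⟨⟨x, a, i, rfl⟩, rfl⟩
      have hxL : (x : G) ∈ Ls P α β := (le_sup_left : P α ≤ P α ⊔ P β) x.2
      refine ⟨mul_mem (mul_mem hxL (mul_mem H.sL (zpow_mem H.hL i))) (inv_mem hxL), ?_⟩
      rw [← sh_ord hne H i]
      exact (MulAut.conj (x : G)).orderOf_eq (s * h ^ i)
    · rintro ⟨hv, ho⟩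
      obtain ⟨x, hx, i, rfl⟩ := eq_conj hB h1 H hv ho
      exact ⟨(⟨x, hx⟩, ⟨h ^ i, i, rfl⟩), rfl⟩
  rw [← hr, ← Nat.card_coe_set_eq, Nat.card_range_of_injective hinj, Nat.card_prod, hB.card, Nat.card_zpowers,
    H.ho]

theorem c12A (hB : Base P) (hne : α ≠ β) (hA : TA (Ls P α β)) (h1 : LF1 P α β) {v : G} (hv : v ∈ Ls P α β)
    (ho : orderOf v = 2) : Nat.card ↥(Ls P α β ⊓ Ce v) = 12 := by
  have hm := cls_mul (⟨v, hv⟩ : Ls P α β)
  have e1 : Subtype.val '' {w : Ls P α β | IsConj w ⟨v, hv⟩} = {v : G | v ∈ Ls P α β ∧ orderOf v = 2} := by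
    ext w
    constructor
    · rintro ⟨w, hw, rfl⟩
      refine ⟨w.2, ?_⟩
      obtain ⟨c, hc⟩ := isConj_iff.1 hw
      have hc' : (c : G) * w * (c : G)⁻¹ = v := congrArg Subtype.val hc
      rw [← ho, ← hc']
      exact ((MulAut.conj (c : G)).orderOf_eq w).symm
    · rintro ⟨hw, ho'⟩
      obtain ⟨l, hl, e⟩ := clsA hB h1 hw hv ho' ho
      exact ⟨⟨w, hw⟩, isConj_iff.2 ⟨⟨l, hl⟩, Subtype.ext e⟩, rfl⟩
  have e2 : (centralizer ({⟨v, hv⟩} : Set (Ls P α β))).map (Ls P α β).subtype = Ls P α β ⊓ Ce v := by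
    ext y
    constructor
    · rintro ⟨y, hy, rfl⟩
      exact ⟨y.2, mem_Ce.2 (congrArg Subtype.val (mem_centralizer_singleton_iff.1 hy))⟩
    · rintro ⟨hy, hc⟩
      exact ⟨⟨y, hy⟩, mem_centralizer_singleton_iff.2 (Subtype.ext (mem_Ce.1 hc)), rfl⟩
  have e3 := Set.ncard_image_of_injective {w : Ls P α β | IsConj w ⟨v, hv⟩} Subtype.val_injective
  rw [e1, c55A hB hne h1] at e3
  rw [← e2, card_map_of_injective (Ls P α β).subtype_injective]
  rw [← e3, hA.2] at hm
  omega

end Geo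

end LF2aux

open LF2aux in
theorem lf2 : LF2s.{u} := by
  intro G Ω _ _ _ _ P hB α β hne hA h1
  refine ⟨fun v hv ho γ hγ => fpfA hB h1 hv ho hγ, fun v hv w hw ho ho' => clsA hB h1 hv hw ho ho',
    c55A hB hne h1, fun v hv ho => c12A hB hne hA h1 hv ho, fun y hy h4 => ?_, fun v hv ho => ?_,
    fun v hv w hw y hy ho ho' ho'' hn e1 e2 e3 => ?_⟩
  · exact congrArg Subtype.val (no4A hA.1 hA.2 ⟨y, hy⟩ (Subtype.ext h4))
  · obtain ⟨w, o, n, c⟩ := fourA hA.1 hA.2 (v := ⟨v, hv⟩) (by rw [← orderOf_coe]; exact ho)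
    exact ⟨w, w.2, by rw [orderOf_coe]; exact o, fun e => n (Subtype.ext e), congrArg Subtype.val c⟩
  · have := no8A hA.2 (v := ⟨v, hv⟩) (w := ⟨w, hw⟩) (y := ⟨y, hy⟩) (by rw [← orderOf_coe]; exact ho)
      (by rw [← orderOf_coe]; exact ho') (by rw [← orderOf_coe]; exact ho'')
      (fun e => hn (congrArg Subtype.val e)) (Subtype.ext e1) (Subtype.ext e2) (Subtype.ext e3)
    rcases this with e | e | e
    · exact Or.inl (congrArg Subtype.val e)
    · exact Or.inr (Or.inl (congrArg Subtype.val e))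
    · exact Or.inr (Or.inr (congrArg Subtype.val e))

end CL.E11
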