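/-
Project E11 (S3403): elements normalising a group of type A.
-/
import Cfsg.Agent.E11.St

set_option autoImplicit false
set_option linter.unusedSectionVars false

namespace CL.E11

open MulAction Subgroup

universe u

/-- an involutive self-map of a set of odd size has a fixed point -/
private theorem lf3_odd {X : Type*} (S : Set X) (hS : Odd S.ncard) (f : X → X) (hf : ∀ x ∈ S, f x ∈ S)
    (h2 : ∀ x ∈ S, f (f x) = x) : ∃ x ∈ S, f x = x := by
  classical
  have hfin : S.Finite := Set.finite_of_ncard_ne_zero fun e => by rw [e] at hS; exact absurd hS (by decide)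
  have := hfin.fintype
  let g : S → S := fun x => ⟨f x, hf x x.2⟩
  have hg : Function.Involutive g := fun x => Subtype.ext (h2 x x.2)
  have hc : ¬ 2 ∣ Fintype.card S := by
    rw [← Nat.card_eq_fintype_card, Nat.card_coe_set_eq, ← even_iff_two_dvd, Nat.not_even_iff_odd]; exact hS
  obtain ⟨x, hx⟩ := Equiv.Perm.exists_fixed_point_of_prime (p := 2) (n := 1) hc (σ := hg.toPerm)
    (by ext x; exact congrArg Subtype.val (hg x))
  exact ⟨x, x.2, congrArg Subtype.val hx⟩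

private theorem lf3_sgn {X : Type*} [Fintype X] [DecidableEq X] (hX : Fintype.card X = 10) (σ : Equiv.Perm X)
    (h2 : σ ^ 2 = 1) (hf : ∀ x, σ x ≠ x) : Equiv.Perm.sign σ = -1 := by
  have : Fintype.card (Function.fixedPoints σ) = 0 := Fintype.card_eq_zero_iff.2 ⟨fun x => hf x x.2⟩
  rw [Equiv.Perm.sign_of_pow_two_eq_one h2, hX, this]
  decide

section

variable {G Ω : Type u} [Group G] [MulAction G Ω]

/-- the permutation induced on an invariant set -/
private def lf3_res (X : Set Ω) (g : G) (h : ∀ x, g • x ∈ X ↔ x ∈ X) : Equiv.Perm X :=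
  Equiv.Perm.subtypePerm (toPerm g) h

private theorem lf3_pairA (X : Set Ω) (hX : X.ncard = 10) (a b : G) (ha : ∀ x, a • x ∈ X ↔ x ∈ X)
    (hb : ∀ x, b • x ∈ X ↔ x ∈ X) (ha2 : ∀ x ∈ X, (a ^ 2) • x = x) (hb2 : ∀ x ∈ X, (b ^ 2) • x = x)
    (hab2 : ∀ x ∈ X, ((a * b) ^ 2) • x = x) (fa : ∀ x ∈ X, a • x ≠ x) (fb : ∀ x ∈ X, b • x ≠ x)
    (fab : ∀ x ∈ X, (a * b) • x ≠ x) : False := by
  classical
  have hfin : X.Finite := Set.finite_of_ncard_ne_zero (by omega)
  have := hfin.fintype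
  have hc : Fintype.card X = 10 := by rw [← Nat.card_eq_fintype_card, Nat.card_coe_set_eq, hX]
  have s1 := lf3_sgn hc (lf3_res X a ha)
    (by ext x; have := ha2 x x.2; rw [pow_two, mul_smul] at this; exact this)
    fun x e => fa x x.2 (congrArg Subtype.val e)
  have s2 := lf3_sgn hc (lf3_res X b hb)
    (by ext x; have := hb2 x x.2; rw [pow_two, mul_smul] at this; exact this)
    fun x e => fb x x.2 (congrArg Subtype.val e)
  have s3 := lf3_sgn hc (lf3_res X a ha * lf3_res X b hb)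
    (by ext x; have := hab2 x x.2; rw [pow_two, mul_smul, mul_smul, mul_smul] at this; exact this)
    fun x e => fab x x.2 (by rw [mul_smul]; exact congrArg Subtype.val e)
  rw [map_mul, s1, s2] at s3
  exact absurd s3 (by decide)

private theorem lf3_pairB (X : Set Ω) (hX : X.ncard = 10) (b : G) (hb : ∀ x, b • x ∈ X ↔ x ∈ X)
    (hb4 : ∀ x ∈ X, ((b ^ 2) ^ 2) • x = x) (fb : ∀ x ∈ X, (b ^ 2) • x ≠ x) : False := by
  classical
  have hfin : X.Finite := Set.finite_of_ncard_ne_zero (by omega)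
  have := hfin.fintype
  have hc : Fintype.card X = 10 := by rw [← Nat.card_eq_fintype_card, Nat.card_coe_set_eq, hX]
  have s3 := lf3_sgn hc (lf3_res X b hb * lf3_res X b hb)
    (by ext x; have := hb4 x x.2; rw [pow_two, pow_two, mul_smul, mul_smul, mul_smul] at this; exact this)
    fun x e => fb x x.2 (by rw [pow_two, mul_smul]; exact congrArg Subtype.val e)
  rw [map_mul, Int.units_mul_self] at s3
  exact absurd s3 (by decide)

variable [Finite G] {P : Ω → Subgroup G} {α β : Ω}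

/-- the line without the two points -/
private def lf3_X (P : Ω → Subgroup G) (α β : Ω) : Set Ω := Ln P α β \ {α, β}

private theorem lf3_card (hne : α ≠ β) (h1 : LF1 P α β) : (lf3_X P α β).ncard = 10 := by
  have hsub : ({α, β} : Set Ω) ⊆ Ln P α β := by
    rintro x (rfl | rfl)
    · exact left_mem_Ln _ _
    · exact right_mem_Ln _ _
  rw [lf3_X, Set.ncard_sdiff hsub, h1.card, Set.ncard_pair hne]

private theorem lf3_inv (hB : Base P) {g : G} (h : g • α = α ∧ g • β = β ∨ g • α = β ∧ g • β = α) (x : Ω) :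
    g • x ∈ lf3_X P α β ↔ x ∈ lf3_X P α β := by
  have h1 := hB.smul_mem_Ln_iff g α β x
  simp only [lf3_X, Set.mem_sdiff, Set.mem_insert_iff, Set.mem_singleton_iff]
  rcases h with ⟨ha, hb⟩ | ⟨ha, hb⟩ <;> rw [ha, hb] at h1
  · have e1 : g • x = α ↔ x = α := by rw [← smul_left_cancel_iff g (x := x) (y := α), ha]
    have e2 : g • x = β ↔ x = β := by rw [← smul_left_cancel_iff g (x := x) (y := β), hb]
    rw [h1, e1, e2]
  · have e1 : g • x = β ↔ x = α := by rw [← smul_left_cancel_iff g (x := x) (y := α), ha]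
    have e2 : g • x = α ↔ x = β := by rw [← smul_left_cancel_iff g (x := x) (y := β), hb]
    rw [Ln_congr (Ls_comm (P := P) β α)] at h1
    rw [h1, e1, e2, or_comm]

private theorem lf3_fpf (hB : Base P) (h1 : LF1 P α β) {g : G} (ha : g • α = α) (hb : g • β = β)
    (hc : chi P g α = -1) : ∀ x ∈ lf3_X P α β, g • x ≠ x := fun x hx e => by
  have hk := h1.three g ha hb x hx.1 (fun e => hx.2 (Or.inl e)) (fun e => hx.2 (Or.inr e)) e
  rw [hB.chi_Kk (left_mem_Ln α β) hk] at hc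
  exact absurd hc (by decide)

private theorem lf3_sq (hB : Base P) (h1 : LF1 P α β) {g : G} (ha : g • α = α) (hb : g • β = β)
    (hc : chi P g α = -1) : g ^ 2 ∈ Kk P α β :=
  h1.cen _ (by rw [pow_two, mul_smul, ha, ha]) (by rw [pow_two, mul_smul, hb, hb])
    (by rw [hB.chi_pow ha, hc]; decide)

private theorem lf3_cc {u : G} (hu : u ^ 2 ∈ Kk P α β) {x : G} (hx : x ∈ Ls P α β) :
    u * (u * x * u⁻¹) * u⁻¹ = x := by
  have := mem_Cz.1 hu x hx
  calc u * (u * x * u⁻¹) * u⁻¹ = u ^ 2 * x * (u ^ 2)⁻¹ := by rw [pow_two]; group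
    _ = x := by rw [← this]; group

private theorem lf3_sw (hB : Base P) (hne : α ≠ β) (h1 : LF1 P α β) (u : G)
    (hu : u • α = α ∧ u • β = β ∨ u • α = β ∧ u • β = α) (hu2 : u ^ 2 ∈ Kk P α β) :
    ∃ s ∈ Ls P α β, orderOf s = 2 ∧ s • α = β ∧ s • β = α ∧ u * s = s * u := by
  obtain ⟨h, s, hs⟩ := h1.hs
  have hss : s * s = 1 := by rw [← pow_two, ← hs.so, pow_orderOf_eq_one]
  let T : Set G := {v | v ∈ Ls P α β ∧ v • α = β ∧ v • β = α}
  have hT : T = (fun x => s * x) '' (zpowers h : Set G) := by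
    ext v
    constructor
    · rintro ⟨hv, ha, hb⟩
      refine ⟨s * v, hs.st _ (mul_mem hs.sL hv) ?_ ?_, by simp only [← mul_assoc, hss, one_mul]⟩
      · rw [mul_smul, ha, hs.sb]
      · rw [mul_smul, hb, hs.sa]
    · rintro ⟨x, hx, rfl⟩
      have hle : zpowers h ≤ Ls P α β ⊓ St G α β := zpowers_le.2 ⟨hs.hL, hs.ha, hs.hb⟩
      obtain ⟨hL, ha, hb⟩ := hle hx
      refine ⟨mul_mem hs.sL hL, ?_, ?_⟩
      · rw [mul_smul, show x • α = α from ha, hs.sa]
      · rw [mul_smul, show x • β = β from hb, hs.sb]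
  have hc : T.ncard = 5 := by
    rw [hT, Set.ncard_image_of_injective _ (mul_right_injective s), ← Nat.card_coe_set_eq]
    exact (Nat.card_zpowers h).trans hs.ho
  obtain ⟨v, hv, e⟩ := lf3_odd T (by rw [hc]; decide) (fun x => u * x * u⁻¹) (by
    rintro x ⟨hx, ha, hb⟩
    refine ⟨hB.norm_Ls hu x hx, ?_, ?_⟩
    · rcases hu with ⟨h1, h2⟩ | ⟨h1, h2⟩
      · rw [mul_smul, mul_smul, inv_smul_eq_iff.2 h1.symm, ha, h2]
      · rw [mul_smul, mul_smul, inv_smul_eq_iff.2 h2.symm, hb, h1]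
    · rcases hu with ⟨h1, h2⟩ | ⟨h1, h2⟩
      · rw [mul_smul, mul_smul, inv_smul_eq_iff.2 h2.symm, hb, h1]
      · rw [mul_smul, mul_smul, inv_smul_eq_iff.2 h1.symm, ha, h2]) fun x hx => lf3_cc hu2 hx.1
  refine ⟨v, hv.1, ?_, hv.2.1, hv.2.2, mul_inv_eq_iff_eq_mul.1 e⟩
  have hv1 : v ≠ 1 := fun e => hne (by have := hv.2.1; rwa [e, one_smul] at this)
  refine orderOf_eq_prime ?_ hv1
  rw [hT] at hv
  obtain ⟨x, ⟨n, rfl⟩, rfl⟩ := hv
  have hsi : s⁻¹ = s := inv_eq_of_mul_eq_one_right hss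
  calc (s * h ^ n) ^ 2 = (s * h * s⁻¹) ^ n * h ^ n := by rw [conj_zpow, hsi, pow_two]; group
    _ = 1 := by rw [hs.sh]; group

private theorem lf3_d8 (hB : Base P) (hne : α ≠ β) (h1 : LF1 P α β) (h2 : LF2 P α β) (u : G)
    (ha : u • α = α) (hb : u • β = β) (hc : chi P u α = -1) : ∃ s ∈ Ls P α β, ∃ w ∈ Ls P α β,
    orderOf s = 2 ∧ orderOf w = 2 ∧ w ≠ s ∧ s * w = w * s ∧ u * s = s * u ∧ u * w * u⁻¹ = s * w := by
  have hu2 := lf3_sq hB h1 ha hb hc
  obtain ⟨s, hsL, hso, hsa, hsb, hus⟩ := lf3_sw hB hne h1 u (Or.inl ⟨ha, hb⟩) hu2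
  have sq : ∀ x : G, orderOf x = 2 → x * x = 1 := fun x hx => by rw [← pow_two, ← hx, pow_orderOf_eq_one]
  have hss := sq s hso
  -- no involution of `C_L(s)` other than `s` is centralised by `u`
  have hno : ∀ w ∈ Ls P α β, orderOf w = 2 → w ≠ s → w * s = s * w → u * w * u⁻¹ ≠ w := by
    intro w hw hwo hws hcm e
    have e' : u * w = w * u := mul_inv_eq_iff_eq_mul.1 e
    have hwa : w • α = β := by
      by_contra hn
      refine lf3_fpf hB h1 ha hb hc (w • α) ⟨hB.smul_mem_Ln_of_mem hw (left_mem_Ln α β), ?_⟩ ?_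
      · rintro (h | h)
        · exact h2.fpf w hw hwo α (left_mem_Ln α β) h
        · exact hn h
      · rw [← mul_smul, e', mul_smul, ha]
    have hwb : w • β = α := by rw [← hwa, ← mul_smul, sq w hwo, one_smul]
    obtain ⟨h, s', hs⟩ := h1.hs
    have hm := hs.st (s * w) (mul_mem hsL hw) (by rw [mul_smul, hwa, hsb]) (by rw [mul_smul, hwb, hsa])
    have h5 : orderOf (s * w) ∣ 5 := hs.ho ▸ orderOf_dvd_of_mem_zpowers hm
    have h2' : orderOf (s * w) ∣ 2 := orderOf_dvd_of_pow_eq_one (by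
      calc (s * w) ^ 2 = s * (w * s) * w := by rw [pow_two]; group
        _ = (s * s) * (w * w) := by rw [hcm]; group
        _ = 1 := by rw [hss, sq w hwo, one_mul])
    have h1' : s * w = 1 := orderOf_eq_one_iff.1 (Nat.eq_one_of_dvd_coprimes (by norm_num) h5 h2')
    exact hws (mul_left_cancel (h1'.trans hss.symm))
  have conjo : ∀ g x : G, orderOf (g * x * g⁻¹) = orderOf x := fun g x =>
    (MulAut.conj g).orderOf_eq x
  obtain ⟨w, hwL, hwo, hws, hcm⟩ := h2.four s hsL hso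
  by_cases hw' : u * w * u⁻¹ = s * w
  · exact ⟨s, hsL, w, hwL, hso, hwo, hws, hcm.symm, hus, hw'⟩
  set w' := u * w * u⁻¹ with hw'def
  have hw'L : w' ∈ Ls P α β := hB.norm_Ls (Or.inl ⟨ha, hb⟩) w hwL
  have hw'o : orderOf w' = 2 := (conjo u w).trans hwo
  have husu : u * s * u⁻¹ = s := by rw [hus]; group
  have hw's : w' ≠ s := fun e => hws (by
    have := e.trans husu.symm
    rwa [hw'def, mul_left_inj, mul_right_inj] at this)
  have hcm' : w' * s = s * w' :=
    mem_Ce.1 (mul_mem (mul_mem (mem_Ce.2 hus) (mem_Ce.2 hcm)) (inv_mem (mem_Ce.2 hus)))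
  have hww' : w' ≠ w := hno w hwL hwo hws hcm
  have hww := sq w hwo
  have hw'w' := sq w' hw'o
  have hwi : w⁻¹ = w := inv_eq_of_mul_eq_one_right hww
  have hw'i : w'⁻¹ = w' := inv_eq_of_mul_eq_one_right hw'w'
  have huw' : u * w' * u⁻¹ = w := lf3_cc hu2 hwL
  -- the third pair
  set z := (w * w') ^ 3 with hz
  have hmC : w * w' ∈ Ls P α β ⊓ Ce s := mul_mem ⟨hwL, mem_Ce.2 hcm⟩ ⟨hw'L, mem_Ce.2 hcm'⟩
  have hzC : z ∈ Ls P α β ⊓ Ce s := pow_mem hmC 3
  have hz2 : z ^ 2 = 1 := h2.no4 z hzC.1 (by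
    have := pow_card_eq_one' (x := (⟨w * w', hmC⟩ : ↥(Ls P α β ⊓ Ce s)))
    rw [h2.c12 s hsL hso] at this
    rw [hz, ← pow_mul]
    exact congrArg Subtype.val this)
  have hzi : z⁻¹ = z := inv_eq_of_mul_eq_one_right (by rw [← pow_two, hz2])
  have hzi' : z = (w' * w) ^ 3 := by rw [← hzi, hz, ← inv_pow, mul_inv_rev, hwi, hw'i]
  have hzw : z * w = w * z := by
    conv_rhs => rw [hzi']
    rw [hz]; simp only [pow_succ, pow_zero, one_mul, mul_assoc]
  have hzw' : z * w' = w' * z := by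
    conv_lhs => rw [hzi']
    rw [hz]; simp only [pow_succ, pow_zero, one_mul, mul_assoc]
  have hkey : u * (w * w' * w⁻¹) * u⁻¹ = (w * w' * w⁻¹) * z := by
    calc u * (w * w' * w⁻¹) * u⁻¹ = (u * w * u⁻¹) * (u * w' * u⁻¹) * (u * w * u⁻¹)⁻¹ := by group
      _ = w' * w * w' := by rw [huw', ← hw'def, hw'i]
      _ = (w * w' * w⁻¹) * z := by
        rw [hz]
        simp only [pow_succ, pow_zero, one_mul, mul_assoc, inv_mul_cancel_left]
        rw [← mul_assoc w' w', hw'w', one_mul, ← mul_assoc w w, hww, one_mul]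
  have hyL : w * w' * w⁻¹ ∈ Ls P α β := mul_mem (mul_mem hwL hw'L) (inv_mem hwL)
  have hyo : orderOf (w * w' * w⁻¹) = 2 := (conjo w w').trans hw'o
  have hys : w * w' * w⁻¹ ≠ s := fun e => hw's (by
    rw [mul_inv_eq_iff_eq_mul, ← hcm] at e
    exact mul_left_cancel e)
  have hyc : w * w' * w⁻¹ * s = s * (w * w' * w⁻¹) :=
    mem_Ce.1 (mul_mem hmC.2 (inv_mem (mem_Ce.2 hcm)))
  by_cases hz1 : z = 1
  · exact absurd (by rw [hkey, hz1, mul_one]) (hno _ hyL hyo hys hyc)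
  by_cases hzs : z = s
  · exact ⟨s, hsL, _, hyL, hso, hyo, hys, hyc.symm, hus, by rw [hkey, hzs, hyc]⟩
  exfalso
  have hzo : orderOf z = 2 := orderOf_eq_prime hz2 hz1
  have c1 := (h2.no8 s hsL w hwL z hzC.1 hso hwo hzo hws hcm (mem_Ce.1 hzC.2) hzw).resolve_left hzs
  have c2 := (h2.no8 s hsL w' hw'L z hzC.1 hso hw'o hzo hw's hcm' (mem_Ce.1 hzC.2) hzw').resolve_left hzs
  rcases c1 with c1 | c1 <;> rcases c2 with c2 | c2
  · exact hww' (c2.symm.trans c1)
  · exact hw' (by rw [c1.symm.trans c2, ← mul_assoc, hss, one_mul])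
  · exact hw' (c2.symm.trans c1)
  · exact hww' (mul_left_cancel (c2.symm.trans c1))

end

theorem lf3 : LF3s.{u} := by
  intro G Ω _ _ _ _ P hB α β hne _ h1 h2
  refine ⟨lf3_sw hB hne h1, lf3_d8 hB hne h1 h2, fun t ha hb ht hf => ?_, fun y ha hb hc => ?_⟩
  · obtain ⟨s, hsL, hso, hsa, hsb, hts⟩ := lf3_sw hB hne h1 t (Or.inr ⟨ha, hb⟩) ht
    have hs2 : s ^ 2 = 1 := by rw [← hso, pow_orderOf_eq_one]
    have ga : (t * s) • α = α := by rw [mul_smul, hsa, hb]
    have gb : (t * s) • β = β := by rw [mul_smul, hsb, ha]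
    have g2 : (t * s) ^ 2 = t ^ 2 := by rw [Commute.mul_pow hts, hs2, mul_one]
    have hchi : chi P (t * s) α ^ 2 = 1 := by rw [← hB.chi_pow ga, g2, hB.chi_Kk (left_mem_Ln α β) ht]
    rcases (by decide : ∀ c : ZMod 11, c ^ 2 = 1 → c = 1 ∨ c = -1) _ hchi with e | e
    · exact ⟨s, hsL, hso, h1.cen _ ga gb e⟩
    · exact (lf3_pairA (lf3_X P α β) (lf3_card hne h1) t s (lf3_inv hB (Or.inr ⟨ha, hb⟩))
        (lf3_inv hB (Or.inr ⟨hsa, hsb⟩)) (fun x hx => hB.Kk_fix hx.1 ht) (fun x _ => by rw [hs2, one_smul])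
        (fun x hx => by rw [g2]; exact hB.Kk_fix hx.1 ht) (fun x hx => hf x hx.1)
        (fun x hx => h2.fpf s hsL hso x hx.1) (lf3_fpf hB h1 ga gb e)).elim
  · have ga : (y ^ 2) • α = α := by rw [pow_two, mul_smul, ha, hb]
    have gb : (y ^ 2) • β = β := by rw [pow_two, mul_smul, hb, ha]
    exact lf3_pairB (lf3_X P α β) (lf3_card hne h1) y (lf3_inv hB (Or.inr ⟨ha, hb⟩))
      (fun x hx => hB.Kk_fix hx.1 (lf3_sq hB h1 ga gb hc)) (lf3_fpf hB h1 ga gb hc)

end CL.E11
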