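/-
Project E11 (S3403): step O1, the degree modulo 8 from Wielandt's fixed point formula.
-/
import Cfsg.Agent.E11.St
import Cfsg.Agent.S1545
import Cfsg.Agent.S0205

set_option autoImplicit false
set_option linter.unusedSectionVars false

namespace CL.E11

open MulAction Subgroup

universe u

theorem o1_mem_two {G : Type u} [Group G] {u e : G} (hu : orderOf u = 2) (he : e ∈ zpowers u) :
    e = 1 ∨ e = u := by
  have huu : u ^ 2 = 1 := hu ▸ pow_orderOf_eq_one u
  have hfin : IsOfFinOrder u := isOfFinOrder_iff_pow_eq_one.2 ⟨2, by norm_num, huu⟩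
  obtain ⟨n, rfl⟩ := (hfin.mem_powers_iff_mem_zpowers).2 he
  have h : u ^ n = u ^ (n % 2) := pow_eq_pow_mod n huu
  rcases Nat.mod_two_eq_zero_or_one n with h' | h' <;> rw [h'] at h
  · left; simpa using h
  · right; simpa using h

/-- the dihedral group generated by `x` and an involution `u` inverting it -/
theorem o1_dih {G : Type u} [Group G] {u x : G} (hu : orderOf u = 2) (hinv : ∀ y ∈ zpowers x, u * y * u⁻¹ = y⁻¹)
    {z : G} (hz : z ∈ zpowers x ⊔ zpowers u) : z ∈ zpowers x ∨ z ^ 2 = 1 := by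
  have huu : u * u = 1 := by rw [← pow_two, ← hu, pow_orderOf_eq_one]
  have hui : u⁻¹ = u := inv_eq_of_mul_eq_one_right huu
  have hc : ∀ y ∈ zpowers x, u * y * u⁻¹ ∈ zpowers x := fun y hy => by rw [hinv y hy]; exact inv_mem hy
  let D : Subgroup G :=
    { carrier := {z | z ∈ zpowers x ∨ z * u ∈ zpowers x}
      one_mem' := Or.inl (one_mem _)
      mul_mem' := by
        rintro a b (ha | ha) (hb | hb)
        · exact Or.inl (mul_mem ha hb)
        · exact Or.inr (by rw [mul_assoc]; exact mul_mem ha hb)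
        · refine Or.inr ?_
          have : a * b * u = (a * u) * (u * b * u⁻¹) := by
            rw [hui]; calc a * b * u = a * (u * u) * b * u := by rw [huu, mul_one]
              _ = _ := by group
          rw [this]; exact mul_mem ha (hc b hb)
        · refine Or.inl ?_
          have : a * b = (a * u) * (u * (b * u) * u⁻¹) := by
            calc a * b = a * (u * u) * b := by rw [huu, mul_one]
              _ = _ := by group
          rw [this]; exact mul_mem ha (hc _ hb)
      inv_mem' := by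
        rintro a (ha | ha)
        · exact Or.inl (inv_mem ha)
        · refine Or.inr ?_
          have : a⁻¹ * u = u * (a * u)⁻¹ * u⁻¹ := by
            conv_lhs => rw [← hui]
            group
          rw [this]; exact hc _ (inv_mem ha) }
  have hle : zpowers x ⊔ zpowers u ≤ D :=
    sup_le (fun y hy => Or.inl hy) (zpowers_le.2 (Or.inr (by rw [huu]; exact one_mem _)))
  rcases hle hz with h | h
  · exact Or.inl h
  · right
    have h1 := hinv _ h
    have h2 : u * z = (z * u)⁻¹ := by rw [← h1]; group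
    rw [mul_inv_rev, hui] at h2
    have h3 : z = z⁻¹ := mul_left_cancel h2
    rw [pow_two]
    exact eq_inv_iff_mul_eq_one.1 h3

theorem o1 : O1s.{u} := by
  intro G Ω _ _ _ _ P hG hO α β Q hne hK hQ u huS hu hchi ⟨k, hk, hku⟩
  have hB := hG.ca.base
  have huu : u * u = 1 := by rw [← pow_two, ← hu, pow_orderOf_eq_one]
  have hui : u⁻¹ = u := inv_eq_of_mul_eq_one_right huu
  have hua : u • α = α := huS.1
  set x : G := k⁻¹ * (u * k * u⁻¹) with hx
  have hxK : x ∈ Kk P α β := mul_mem (inv_mem hk) (hB.norm_Kk (Or.inl huS) k hk)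
  have hx1 : x ≠ 1 := fun e => hku (by
    have := inv_mul_eq_one.1 e
    exact mul_inv_eq_iff_eq_mul.1 this.symm)
  have hxi : u * x * u⁻¹ = x⁻¹ := by
    calc u * x * u⁻¹ = (u * k⁻¹ * u⁻¹) * ((u * u) * k * (u * u)⁻¹) := by rw [hx]; group
      _ = x⁻¹ := by rw [huu, hx]; group
  have hinv : ∀ y ∈ zpowers x, u * y * u⁻¹ = y⁻¹ := by
    rintro y ⟨j, rfl⟩
    show u * x ^ j * u⁻¹ = (x ^ j)⁻¹
    rw [← conj_zpow, hxi, inv_zpow]
  have hUK : zpowers x ≤ Kk P α β := zpowers_le.2 hxK
  have hUodd : Odd (Nat.card (zpowers x)) := hK.of_dvd_nat (card_dvd_of_le hUK)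
  have hE2 : Nat.card (zpowers u) = 2 := by rw [Nat.card_zpowers, hu]
  have hu1 : u ≠ 1 := fun e => by rw [e, orderOf_one] at hu; omega
  have hodd1 : ∀ y ∈ zpowers x, y ^ 2 = 1 → y = 1 := fun y hy h2 => by
    have h1 : orderOf y ∣ Nat.card (zpowers x) := orderOf_dvd_natCard _ hy
    have h3 : orderOf y ∣ 2 := orderOf_dvd_of_pow_eq_one h2
    rcases (Nat.dvd_prime Nat.prime_two).1 h3 with h | h
    · exact orderOf_eq_one_iff.1 h
    · rw [h] at h1
      exact absurd (even_iff_two_dvd.2 h1) (Nat.not_even_iff_odd.2 hUodd)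
  -- the order of `Q` is odd
  obtain ⟨m, hm, -, -⟩ := hG.g1.deg
  have h4 := hO.four
  have ht11 : Nat.card ↥(Q ⊓ P α) ∣ 11 := hB.card α ▸ card_dvd_of_le inf_le_right
  have htodd : Odd (Nat.card ↥(Q ⊓ P α)) := (by decide : Odd 11).of_dvd_nat ht11
  have hn1 : Odd (Nat.card Ω - 1) := by rw [Nat.odd_iff]; omega
  have hQodd : Odd (Nat.card Q) := by
    have : Odd (11 * Nat.card Q) := by rw [hQ.card]; exact hn1.mul htodd
    exact (Nat.odd_mul.1 this).2
  have hcop : Nat.Coprime (Nat.card Q) (Nat.card ↥(zpowers x ⊔ zpowers u)) := by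
    refine Nat.coprime_of_dvd fun r hr h1 h2 => ?_
    haveI : Fact r.Prime := ⟨hr⟩
    obtain ⟨z, hz⟩ := exists_prime_orderOf_dvd_card' r h2
    have hz' : orderOf (z : G) = r := by rw [Subgroup.orderOf_coe, hz]
    rcases o1_dih hu hinv z.2 with h | h
    · have h3 : r ∣ Nat.card (Kk P α β) := hz' ▸ orderOf_dvd_natCard _ (hUK h)
      exact hr.one_lt.ne' (Nat.eq_one_of_dvd_coprimes hQ.cop h1 h3)
    · have h3 : r ∣ 2 := hz' ▸ orderOf_dvd_of_pow_eq_one h
      have h5 := (Nat.prime_dvd_prime_iff_eq hr Nat.prime_two).1 h3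
      rw [h5] at h1
      exact absurd (even_iff_two_dvd.2 h1) (Nat.not_even_iff_odd.2 hQodd)
  have hst : zpowers x ⊔ zpowers u ≤ stabilizer G α :=
    sup_le (zpowers_le.2 (hB.Kk_fix (left_mem_Ln α β) hxK)) (zpowers_le.2 hua)
  have hW := Cfsg.Agent.S1545.result (zpowers x) (zpowers u) Q
    (fun e => hx1 (zpowers_eq_bot.1 e)) (fun e => hu1 (zpowers_eq_bot.1 e))
    (disjoint_of_coprime_natCard (by rw [hE2]; exact Nat.coprime_two_right.2 hUodd)).eq_bot
    (fun e he y hy => by
      rcases o1_mem_two hu he with rfl | rfl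
      · simpa using hy
      · rw [hinv y hy]; exact inv_mem hy)
    (fun e he he1 y hy h => by
      rcases o1_mem_two hu he with rfl | rfl
      · exact absurd rfl he1
      · refine hodd1 y hy ?_
        have h1 := hinv y hy
        rw [h, mul_inv_cancel_right] at h1
        rw [pow_two]; exact eq_inv_iff_mul_eq_one.1 h1)
    (fun g hg y hy => hQ.nrm g (hst hg) y hy)
    (disjoint_of_coprime_natCard hcop).eq_bot (Cfsg.Agent.S0205.result hQodd) hcop
  have hCU : Q ⊓ centralizer ((zpowers x : Subgroup G) : Set G) = Q ⊓ P α := by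
    apply le_antisymm
    · intro y hy
      exact ⟨hy.1, hQ.fpf x hxK hx1 y hy.1 (mem_centralizer_iff.1 hy.2 x (mem_zpowers x))⟩
    · intro y hy
      refine ⟨hy.1, mem_centralizer_iff.2 fun w hw => ?_⟩
      exact (mem_Cz.1 (hB.Kk_le_Cz (left_mem_Ln α β) (hUK hw)) y hy.2).symm
  have hCD : Q ⊓ centralizer ((zpowers x ⊔ zpowers u : Subgroup G) : Set G) = ⊥ := by
    refine (eq_bot_iff_forall _).2 fun y hy => ?_
    have hyP : y ∈ P α := hQ.fpf x hxK hx1 y hy.1
      (mem_centralizer_iff.1 hy.2 x (mem_sup_left (mem_zpowers x)))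
    have h1 : u * y = y * u := mem_centralizer_iff.1 hy.2 u (mem_sup_right (mem_zpowers u))
    have h2 := hB.inv_of_chi hua hchi hyP
    rw [h1, mul_inv_cancel_right] at h2
    have h3 : y ^ 2 = 1 := by rw [pow_two]; exact eq_inv_iff_mul_eq_one.1 h2
    have h5 := hB.pow11 hyP
    have : y = y ^ 11 * ((y ^ 2) ^ 5)⁻¹ := by group
    rw [this, h5, h3]; simp
  rw [hCU, hCD, hE2, card_bot, one_pow, one_mul] at hW
  set c := Nat.card ↥(Q ⊓ centralizer ((zpowers u : Subgroup G) : Set G)) with hc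
  have hcard := hQ.card
  rw [hW, ← mul_assoc] at hcard
  have hn : 11 * c ^ 2 = Nat.card Ω - 1 := Nat.eq_of_mul_eq_mul_right Nat.card_pos hcard
  have hcodd : Odd c := by
    rw [← hn] at hn1
    exact (Nat.odd_pow_iff (by norm_num)).1 (Nat.odd_mul.1 hn1).2
  have h8 : c ^ 2 % 8 = 1 := by
    have : c % 8 = 1 ∨ c % 8 = 3 ∨ c % 8 = 5 ∨ c % 8 = 7 := by rw [Nat.odd_iff] at hcodd; omega
    rcases this with h | h | h | h <;> rw [Nat.pow_mod, h]
  omega

end CL.E11
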