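/-
Project E11: the structure of `K` when its order is odd (Case I).
-/
import Cfsg.Agent.E11.St
import Cfsg.Agent.S0058
import Cfsg.Agent.S3977
import Cfsg.Agent.S1545
import Cfsg.Agent.S0205

set_option autoImplicit false
set_option linter.unusedSectionVars false

namespace CL.E11

open MulAction Subgroup

universe u

namespace O2Ax

variable {G Ω : Type u} [Group G] [Finite G] [MulAction G Ω] {P : Ω → Subgroup G}

theorem gen {x u : G} (hp : (orderOf x).Prime) (hu : u ∈ zpowers x) (h1 : u ≠ 1) : x ∈ zpowers u := by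
  have h := (hp.eq_one_or_self_of_dvd _ (orderOf_dvd_of_mem_zpowers hu)).resolve_left (by simpa using h1)
  rw [eq_of_le_of_card_ge (zpowers_le.2 hu) (by rw [Nat.card_zpowers, Nat.card_zpowers, h])]
  exact mem_zpowers x

theorem comm {x y u v : G} (h : x * y = y * x) (hu : u ∈ zpowers x) (hv : v ∈ zpowers y) : Commute u v := by
  obtain ⟨i, rfl⟩ := hu
  obtain ⟨j, rfl⟩ := hv
  exact Commute.zpow_zpow h i j

theorem exA {x y : G} {r : ℕ} (hr : r.Prime) (hx : orderOf x = r) (hy : orderOf y = r) (h : x * y = y * x)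
    (hn : y ∉ zpowers x) : ∃ A : Subgroup G, IsMulCommutative A ∧ ¬ IsCyclic A ∧ (∃ i, Nat.card A = r ^ i) ∧
      ∀ a ∈ A, ∃ u ∈ zpowers x, ∃ v ∈ zpowers y, a = u * v := by
  have := Fact.mk hr
  let A : Subgroup G :=
    { carrier := {a | ∃ u ∈ zpowers x, ∃ v ∈ zpowers y, a = u * v}
      one_mem' := ⟨1, one_mem _, 1, one_mem _, (mul_one 1).symm⟩
      mul_mem' := by
        rintro _ _ ⟨u, hu, v, hv, rfl⟩ ⟨u', hu', v', hv', rfl⟩
        exact ⟨_, mul_mem hu hu', _, mul_mem hv hv', (comm h hu' hv).symm.mul_mul_mul_comm _ _⟩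
      inv_mem' := by
        rintro _ ⟨u, hu, v, hv, rfl⟩
        exact ⟨_, inv_mem hu, _, inv_mem hv, (comm h hu hv).mul_inv⟩ }
  have e : ∀ a : A, a ^ r = 1 := by
    rintro ⟨_, u, hu, v, hv, rfl⟩
    refine Subtype.ext (show (u * v) ^ r = 1 from ?_)
    rw [(comm h hu hv).mul_pow, orderOf_dvd_iff_pow_eq_one.1 (hx ▸ orderOf_dvd_of_mem_zpowers hu),
      orderOf_dvd_iff_pow_eq_one.1 (hy ▸ orderOf_dvd_of_mem_zpowers hv), mul_one]
  refine ⟨A, ⟨⟨?_⟩⟩, fun ⟨g, hg⟩ => hn ?_, IsPGroup.iff_card.1 fun a => ⟨1, by rw [pow_one, e]⟩, fun _ h => h⟩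
  · rintro ⟨_, u, hu, v, hv, rfl⟩ ⟨_, u', hu', v', hv', rfl⟩
    exact Subtype.ext (((comm rfl hu hu').mul_right (comm h hu hv')).mul_left
      ((comm h hu' hv).symm.mul_right (comm rfl hv hv'))).eq
  · have h1 : zpowers x ≤ A := fun u hu => ⟨u, hu, 1, one_mem _, (mul_one u).symm⟩
    rw [eq_of_le_of_card_ge h1 (by
      rw [Nat.card_zpowers, hx, ← orderOf_eq_card_of_forall_mem_zpowers hg]
      exact Nat.le_of_dvd hr.pos (orderOf_dvd_of_pow_eq_one (e g)))]
    exact ⟨1, one_mem _, y, mem_zpowers y, (one_mul y).symm⟩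

/-- a non-cyclic group of odd prime power order contains two commuting elements of prime order -/
theorem two_gen {R : Type u} [Group R] [Finite R] {r : ℕ} (hr : r.Prime) (h2 : r ≠ 2) (hR : IsPGroup r R)
    (hc : ¬ IsCyclic R) : ∃ x y : R, orderOf x = r ∧ orderOf y = r ∧ x * y = y * x ∧ y ∉ zpowers x := by
  have := Fact.mk hr
  obtain ⟨m, hm⟩ := IsPGroup.iff_card.1 hR
  have : Nontrivial R := not_subsingleton_iff_nontrivial.1 fun _ => hc inferInstance
  have := hR.center_nontrivial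
  obtain ⟨z, hz⟩ := exists_prime_orderOf_dvd_card' (G := center R) r
    ((hR.to_subgroup _).card_eq_or_dvd.resolve_left Finite.one_lt_card.ne')
  rw [← orderOf_coe] at hz
  by_contra! h
  have k : ∀ H : Subgroup R, Nat.card H = r ^ 1 → H = zpowers (z : R) := fun H hH => by
    rw [pow_one] at hH
    refine eq_of_le_of_card_ge (fun y hy => ?_) (by rw [Nat.card_zpowers, hz, hH])
    rcases hr.eq_one_or_self_of_dvd _ (hH ▸ H.orderOf_dvd_natCard hy) with e | e
    · rw [orderOf_eq_one_iff.1 e]; exact one_mem _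
    · exact h _ _ hz e (mem_center_iff.1 z.2 y).symm
  rcases m with _ | _ | m
  · exact absurd hm Finite.one_lt_card.ne'
  · exact hc (isCyclic_of_prime_card (p := r) (by simpa using hm))
  · exact hc (Cfsg.Agent.S3977.result r _ 1 hr hm le_rfl (by omega) (.inl h2) fun H K a b => (k H a).trans (k K b).symm)

theorem same {x z : G} (hp : (orderOf x).Prime) (e : orderOf z = orderOf x) (h : z * x * z⁻¹ ∈ zpowers x) :
    z * x = x * z := by
  have := Fact.mk hp
  obtain ⟨i, hi⟩ := mem_powers_iff_mem_zpowers.2 h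
  replace hi : x ^ i = z * x * z⁻¹ := hi
  have k : ∀ n : ℕ, z ^ n * x * (z ^ n)⁻¹ = x ^ i ^ n := fun n => by
    induction n with
    | zero => simp
    | succ n ih => rw [pow_succ' i, pow_mul, hi, conj_pow, ← ih, pow_succ']; group
  have h1 := k (orderOf x)
  rw [show z ^ orderOf x = 1 by rw [← e, pow_orderOf_eq_one], pow_eq_pow_iff_modEq.2
    ((ZMod.natCast_eq_natCast_iff _ i _).1 (by rw [Nat.cast_pow, ZMod.pow_card])), hi] at h1
  rw [← mul_inv_eq_iff_eq_mul, ← h1]; simp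

end O2Ax

open O2Ax in
theorem o2a : O2As.{u} := by
  intro G Ω _ _ _ _ P hG hE α β Q ne hK hQ
  have hB := hG.ca.base
  have lf := hG.ca.lf1 α β ne
  have Kα : ∀ k ∈ Kk P α β, k • α = α := fun k hk => hB.Kk_fix (left_mem_Ln α β) hk
  have QK : Q ⊓ Kk P α β = ⊥ := inf_eq_bot_of_coprime hQ.cop
  obtain ⟨m, m1, -, m2⟩ := hG.g1.deg
  have nQ : ¬ Q ≤ P α := fun h => by
    have := hQ.card
    rw [inf_eq_left.2 h, Nat.mul_left_inj Nat.card_pos.ne'] at this
    omega
  have lemA : ∀ {x y : G} {r : ℕ}, r.Prime → r ∣ Nat.card (Kk P α β) → orderOf x = r → orderOf y = r → x * y = y * x →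
      y ∉ zpowers x → x • α = α → y • α = α → (∀ u ∈ zpowers x, ∀ v ∈ zpowers y, u * v ≠ 1 → ∀ q ∈ Q,
        u * v * q = q * (u * v) → q ∈ P α) → False := fun hr hd hx hy h hn xa ya k => by
    obtain ⟨A, a1, a2, ⟨i, a3⟩, a4⟩ := exA hr hx hy h hn
    refine nQ ((Cfsg.Agent.S0058.result A Q a2 (fun a ha => mem_normalizer_fintype (hQ.nrm a ?_))
      (a3 ▸ (hQ.cop.coprime_dvd_right hd).symm.pow_left i)).ge.trans (iSup₂_le fun a ha q hq => ?_))
    · obtain ⟨u, hu, v, hv, rfl⟩ := a4 a ha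
      exact (stabilizer G α).mul_mem (zpowers_le.2 xa hu) (zpowers_le.2 ya hv)
    · obtain ⟨u, hu, v, hv, rfl⟩ := a4 a ha.1
      exact k u hu v hv ha.2 q hq.1 (mem_Ce.1 hq.2).symm
  refine ⟨fun h5 => ?_, fun r R hr RK hR => ?_, fun x hx z hz px pz h => ?_⟩
  · have := Fact.mk Nat.prime_five
    obtain ⟨⟨k, hk⟩, ko⟩ := exists_prime_orderOf_dvd_card' 5 h5
    rw [← orderOf_coe] at ko
    obtain ⟨h, s, hs⟩ := lf.hs
    have kK := zpowers_le.2 hk
    refine lemA Nat.prime_five h5 ko hs.ho (mem_Cz.1 hk h hs.hL).symm (fun e => ?_) (Kα k hk) hs.ha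
      fun u hu v hv a q hq e => ?_
    · have := hs.ho
      rw [hB.eq_one_of_LK ne hs.hL (kK e), orderOf_one] at this
      omega
    by_cases v1 : v = 1
    · rw [v1, mul_one] at a e
      exact hQ.fpf u (kK hu) a q hq e
    have va : v • α = α := (zpowers_le (H := stabilizer G α)).2 hs.ha hv
    have vb : v • β = β := (zpowers_le (H := stabilizer G β)).2 hs.hb hv
    have aa : (u * v) • α = α := by rw [mul_smul, va, Kα u (kK hu)]
    have ab : (u * v) • β = β := by rw [mul_smul, vb, hB.Kk_fix (right_mem_Ln α β) (kK hu)]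
    have qa := hB.fix_of_cent (hQ.le hq)
    have qb : q • β = β := by
      by_contra c
      have h1 := hG.g1.two (u * v) α β (q • β) ne (fun e => ne (smul_left_cancel q (qa.trans e))) (Ne.symm c) aa ab
        (by rw [← mul_smul, e, mul_smul, ab])
      rw [hB.chi_mul (Kα u (kK hu)) va, hB.chi_Kk (left_mem_Ln α β) (kK hu), one_mul] at h1
      have h2 := hB.chi_pow va 5
      rw [orderOf_dvd_iff_pow_eq_one.1 (hs.ho ▸ orderOf_dvd_of_mem_zpowers hv), hB.chi_one] at h2
      exact v1 (hB.eq_one_of_LK ne (zpowers_le.2 hs.hL hv)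
        (lf.cen v va vb ((by decide : ∀ c : ZMod 11, 1 = c ^ 5 → c ^ 2 = 1 → c = 1) _ h2 h1)))
    rw [mem_bot.1 (QK.le ⟨hq, lf.cen q qa qb (hB.chi_of_cent (hQ.le hq))⟩)]
    exact one_mem _
  · by_contra hc
    have := Fact.mk hr
    have : Nontrivial R := not_subsingleton_iff_nontrivial.1 fun _ => hc inferInstance
    have hd := (hR.card_eq_or_dvd.resolve_left Finite.one_lt_card.ne').trans (card_dvd_of_le RK)
    obtain ⟨x, y, hx, hy, h, hn⟩ := two_gen hr (fun e => hK.not_two_dvd_nat (e ▸ hd)) hR hc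
    refine lemA hr hd ((orderOf_coe x).trans hx) ((orderOf_coe y).trans hy) (congrArg Subtype.val h)
      (fun ⟨i, e⟩ => hn ⟨i, Subtype.ext e⟩) (Kα _ (RK x.2)) (Kα _ (RK y.2)) fun u hu v hv a q hq e => ?_
    exact hQ.fpf _ (mul_mem (zpowers_le.2 (RK x.2) hu) (zpowers_le.2 (RK y.2) hv)) a q hq e
  · by_cases e : orderOf z = orderOf x
    · exact same px e h
    by_contra hc
    have x1 : x ≠ 1 := fun e => by simp [e, Nat.not_prime_one] at px
    have z1 : z ≠ 1 := fun e => by simp [e, Nat.not_prime_one] at pz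
    have UK : zpowers x ⊔ zpowers z ≤ Kk P α β := sup_le (zpowers_le.2 hx) (zpowers_le.2 hz)
    have k : ∀ X : Subgroup G, X ≤ Kk P α β → ∀ y ∈ X, y ≠ 1 → Q ⊓ centralizer (X : Set G) = Q ⊓ P α :=
      fun X a y b c => le_antisymm (fun q hq => ⟨hq.1, hQ.fpf y (a b) c q hq.1 (mem_Cz.1 hq.2 y b)⟩)
        fun q hq => ⟨hq.1, mem_Cz.2 fun w hw => (mem_Cz.1 (a hw) q (le_sup_left (a := P α) hq.2)).symm⟩
    have zn : zpowers z ≤ normalizer (zpowers x : Set G) := zpowers_le.2 (mem_normalizer_fintype fun u hu => by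
      obtain ⟨i, rfl⟩ := hu
      exact (show z * x ^ i * z⁻¹ ∈ zpowers x by simpa only [conj_zpow] using zpow_mem h i))
    have od : Odd (Nat.card Q) := by
      have h1 : Odd (Nat.card Ω - 1) := by rw [Nat.odd_iff]; rw [Nat.even_iff] at hE; omega
      have h2 : Odd (Nat.card ↥(Q ⊓ P α)) :=
        Odd.of_dvd_nat (by decide : Odd 11) (hB.card α ▸ card_dvd_of_le inf_le_right)
      exact (Nat.odd_mul.1 (hQ.card ▸ h1.mul h2)).2
    have f := Cfsg.Agent.S1545.result (zpowers x) (zpowers z) Q (by simpa using x1) (by simpa using z1)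
      (inf_eq_bot_of_coprime (by
        rw [Nat.card_zpowers, Nat.card_zpowers]; exact (Nat.coprime_primes px pz).2 (Ne.symm e)))
      (fun e he u hu => (mem_normalizer_iff.1 (zn he) u).1 hu)
      (fun e he e1 u hu c => by_contra fun u1 => hc (comm c (gen pz he e1) (gen px hu u1)).eq)
      (fun y hy => hQ.nrm y (Kα y (UK hy))) (eq_bot_iff.2 ((inf_le_inf_left _ UK).trans QK.le))
      (Cfsg.Agent.S0205.result od) (hQ.cop.coprime_dvd_right (card_dvd_of_le UK))
    rw [k _ UK x (mem_sup_left (mem_zpowers x)) x1, k _ (zpowers_le.2 hz) z (mem_zpowers z) z1,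
      k _ (zpowers_le.2 hx) x (mem_zpowers x) x1, Nat.mul_right_inj (pow_pos Nat.card_pos _).ne'] at f
    exact nQ (inf_eq_left.1 (eq_of_le_of_card_ge inf_le_left f.le))

end CL.E11
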