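/-
Project E11 (S3403), step O3: in Case II with `|K|` odd, `|K| = 11`.
-/
import Cfsg.Agent.E11.St
import Cfsg.Agent.S1545
import Cfsg.Agent.S0205

set_option autoImplicit false
set_option linter.unusedSectionVars false
set_option linter.style.haveILetI false

namespace CL.E11

open MulAction Subgroup

universe u

section O3Aux

variable {G : Type u} [Group G] [Finite G]

theorem o3_pow_one {z : G} {a b : ℕ} (h : Nat.Coprime a b) (ha : z ^ a = 1) (hb : z ^ b = 1) : z = 1 := by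
  have h1 := Nat.dvd_gcd (orderOf_dvd_of_pow_eq_one ha) (orderOf_dvd_of_pow_eq_one hb)
  rw [h.gcd_eq_one, Nat.dvd_one, orderOf_eq_one_iff] at h1
  exact h1

theorem o3_pow_card {H : Subgroup G} {z : G} (hz : z ∈ H) : z ^ Nat.card H = 1 := by
  have := pow_card_eq_one' (x := (⟨z, hz⟩ : H))
  exact congrArg Subtype.val this

/-- Burnside's normal complement for a cyclic Sylow subgroup of order 11 -/
theorem o3_burn (K : Subgroup G) (k : G) (hk : k ∈ K) (ho : orderOf k = 11) (m : ℕ)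
    (hm : Nat.card K = 11 * m) (h11 : ¬ 11 ∣ m)
    (hN : ∀ y ∈ K, y * k * y⁻¹ ∈ zpowers k → y * k = k * y) :
    ∃ M : Subgroup G, M ≤ K ∧ Nat.card M = m ∧ ∀ y ∈ K, ∀ c ∈ M, y * c * y⁻¹ ∈ M := by
  haveI : Fact (Nat.Prime 11) := ⟨by norm_num⟩
  set k' : K := ⟨k, hk⟩ with hk'
  have ho' : orderOf k' = 11 := by rw [← ho]; exact (Subgroup.orderOf_mk k hk)
  have hc : Nat.card (zpowers k') = 11 := by rw [Nat.card_zpowers, ho']
  have hidx : (zpowers k').index = m := by
    have := (zpowers k').card_mul_index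
    rw [hc, hm] at this
    omega
  have hp : IsPGroup 11 (zpowers k') := IsPGroup.of_card (n := 1) (by rw [hc]; norm_num)
  let S : Sylow 11 K := hp.toSylow (by rw [hidx]; exact h11)
  have hS : (S : Subgroup K) = zpowers k' := rfl
  have hNC : Subgroup.normalizer (S : Set K) ≤ Subgroup.centralizer (S : Set K) := by
    intro y hy
    have h1 : y * k' * y⁻¹ ∈ zpowers k' := by
      have := (Subgroup.mem_normalizer_iff.1 hy k').1 (mem_zpowers k')
      exact this
    have h2 : (y : G) * k * (y : G)⁻¹ ∈ zpowers k := by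
      obtain ⟨j, hj⟩ := h1
      exact ⟨j, by simpa using congrArg Subtype.val hj⟩
    have h3 := hN y y.2 h2
    have h4 : Commute k' y := Subtype.ext h3.symm
    rw [Subgroup.mem_centralizer_iff]
    intro x hx
    obtain ⟨j, rfl⟩ := (show x ∈ zpowers k' from hx)
    exact (h4.zpow_left j).eq
  have hcomp := MonoidHom.ker_transferSylow_isComplement' S hNC
  have hnorm : (MonoidHom.transferSylow S hNC).ker.Normal := MonoidHom.normal_ker _
  generalize (MonoidHom.transferSylow S hNC).ker = N at hcomp hnorm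
  refine ⟨N.map K.subtype, map_subtype_le _, ?_, ?_⟩
  · rw [Subgroup.card_map_of_injective K.subtype_injective]
    have := hcomp.card_mul_card
    rw [hS, hc, hm] at this
    omega
  · rintro y hy c ⟨c', hc', rfl⟩
    exact ⟨⟨y, hy⟩ * c' * ⟨y, hy⟩⁻¹, hnorm.conj_mem c' hc' _, rfl⟩

/-- the derived series of a subgroup, inside the ambient group -/
def o3D (C : Subgroup G) : ℕ → Subgroup G
  | 0 => C
  | n + 1 => ⁅o3D C n, o3D C n⁆

theorem o3D_eq (C : Subgroup G) (n : ℕ) : o3D C n = (derivedSeries C n).map C.subtype := by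
  induction n with
  | zero => simp [o3D, ← MonoidHom.range_eq_map]
  | succ n ih => rw [o3D, ih, derivedSeries_succ, Subgroup.map_commutator]

theorem o3_map_le {X : Subgroup G} {g : G} :
    X.map (MulAut.conj g).toMonoidHom ≤ X ↔ ∀ y ∈ X, g * y * g⁻¹ ∈ X :=
  ⟨fun h y hy => h ⟨y, hy, rfl⟩, fun h => by rintro _ ⟨y, hy, rfl⟩; exact h y hy⟩

theorem o3D_inv (C : Subgroup G) {g : G} (hg : ∀ y ∈ C, g * y * g⁻¹ ∈ C) (n : ℕ) :
    ∀ y ∈ o3D C n, g * y * g⁻¹ ∈ o3D C n := by
  induction n with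
  | zero => exact hg
  | succ n ih =>
    rw [← o3_map_le] at ih ⊢
    rw [o3D, Subgroup.map_commutator]
    exact Subgroup.commutator_mono ih ih

/-- an invariant `11`-subgroup above `P`, or an invariant abelian `11'`-subgroup -/
theorem o3_exW (A : G → Prop) (C P : Subgroup G) (hsol : Group.IsSolvable C) (hPC : P ≤ C) (hne : ¬ C ≤ P)
    (hcen : ∀ x ∈ P, ∀ c ∈ C, x * c = c * x) (h11 : ∀ x ∈ P, x ^ 11 = 1)
    (hAC : ∀ g, A g → ∀ y ∈ C, g * y * g⁻¹ ∈ C) (hAP : ∀ g, A g → ∀ y ∈ P, g * y * g⁻¹ ∈ P) :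
    (∃ W : Subgroup G, W ≤ C ∧ P ≤ W ∧ W ≠ P ∧ (∀ g, A g → ∀ y ∈ W, g * y * g⁻¹ ∈ W) ∧ IsPGroup 11 W) ∨
    (∃ V : Subgroup G, V ≤ C ∧ V ≠ ⊥ ∧ (∀ g, A g → ∀ y ∈ V, g * y * g⁻¹ ∈ V) ∧
      (∀ v ∈ V, ∀ w ∈ V, v * w = w * v) ∧ ¬ 11 ∣ Nat.card V) := by
  classical
  haveI : Fact (Nat.Prime 11) := ⟨by norm_num⟩
  have hex : ∃ n, o3D C n ≤ P := by
    obtain ⟨n, hn⟩ := hsol.solvable
    exact ⟨n, by rw [o3D_eq, hn, Subgroup.map_bot]; exact bot_le⟩
  have h0 : Nat.find hex ≠ 0 := fun h => hne (by have := Nat.find_spec hex; rwa [h] at this)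
  obtain ⟨n, hn⟩ := Nat.exists_eq_succ_of_ne_zero h0
  have hD1 : ⁅o3D C n, o3D C n⁆ ≤ P := by have := Nat.find_spec hex; rwa [hn] at this
  have hD2 : ¬ o3D C n ≤ P := Nat.find_min hex (by omega)
  have hDC : o3D C n ≤ C := by rw [o3D_eq]; exact map_subtype_le _
  have hDi : ∀ g, A g → ∀ y ∈ o3D C n, g * y * g⁻¹ ∈ o3D C n := fun g hg => o3D_inv C (hAC g hg) n
  generalize o3D C n = D at hD1 hD2 hDC hDi
  obtain ⟨a, m, hm, hG⟩ := Nat.exists_eq_pow_mul_and_not_dvd (n := Nat.card G) Nat.card_pos.ne' 11 (by norm_num)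
  have hcop : Nat.Coprime 11 m := (Nat.Prime.coprime_iff_not_dvd (by norm_num)).2 hm
  have key : ∀ d ∈ D, d ^ m = 1 → ∀ e ∈ D, e * d = d * e := by
    intro d hd hdm e he
    have hz : e * d * e⁻¹ * d⁻¹ ∈ P := hD1 (Subgroup.commutator_mem_commutator he hd)
    set z := e * d * e⁻¹ * d⁻¹ with hzd
    have h1 : e * d * e⁻¹ = z * d := by rw [hzd]; group
    have h2 : Commute z d := hcen z hz d (hDC hd)
    have h3 : z ^ m = 1 := by
      have h4 : (e * d * e⁻¹) ^ m = 1 := by rw [conj_pow, hdm]; group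
      rw [h1, h2.mul_pow, hdm, mul_one] at h4
      exact h4
    have h5 : z = 1 := o3_pow_one hcop (h11 z hz) h3
    rw [h5, one_mul] at h1
    calc e * d = e * d * e⁻¹ * e := by group
      _ = d * e := by rw [h1]
  let V : Subgroup G :=
    { carrier := {d | d ∈ D ∧ d ^ m = 1}
      one_mem' := ⟨D.one_mem, one_pow m⟩
      mul_mem' := fun {x y} hx hy => ⟨D.mul_mem hx.1 hy.1, by
        have : Commute x y := key y hy.1 hy.2 x hx.1
        rw [this.mul_pow, hx.2, hy.2, one_mul]⟩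
      inv_mem' := fun {x} hx => ⟨D.inv_mem hx.1, by rw [inv_pow, hx.2, inv_one]⟩ }
  by_cases hV : V = ⊥
  · left
    have hDp : IsPGroup 11 D := by
      intro d
      refine ⟨a, Subtype.ext ?_⟩
      have : (d : G) ^ 11 ^ a ∈ V := ⟨D.pow_mem d.2 _, by rw [← pow_mul, ← hG]; exact pow_card_eq_one'⟩
      rw [hV, Subgroup.mem_bot] at this
      simpa using this
    have hPp : IsPGroup 11 P := fun x => ⟨1, Subtype.ext (by simpa using h11 x x.2)⟩
    refine ⟨D ⊔ P, sup_le hDC hPC, le_sup_right, fun h => hD2 (h ▸ le_sup_left), ?_, ?_⟩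
    · intro g hg
      rw [← o3_map_le, Subgroup.map_sup]
      exact sup_le_sup (o3_map_le.2 (hDi g hg)) (o3_map_le.2 (hAP g hg))
    · refine IsPGroup.to_sup_of_normal_right' hDp hPp ?_
      intro d hd
      rw [Subgroup.mem_normalizer_iff]
      intro x
      constructor
      · intro hx
        rw [← hcen x hx d (hDC hd), mul_inv_cancel_right]; exact hx
      · intro hx
        have h1 := hcen _ hx d (hDC hd)
        have h2 : d * x * d⁻¹ = x := by
          have : d * x = d * (d * x * d⁻¹) := by rw [← h1]; group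
          exact (mul_left_cancel this).symm
        rwa [h2] at hx
  · right
    refine ⟨V, fun x hx => hDC hx.1, hV, ?_, ?_, ?_⟩
    · intro g hg y hy
      exact ⟨hDi g hg y hy.1, by rw [conj_pow, hy.2]; group⟩
    · intro v hv w hw
      exact key w hw.1 hw.2 v hv.1
    · intro h
      obtain ⟨x, hx⟩ := exists_prime_orderOf_dvd_card' 11 h
      have h1 : (x : G) ^ 11 = 1 := by
        have := pow_orderOf_eq_one x
        rw [hx] at this
        exact congrArg Subtype.val this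
      have h2 : (x : G) = 1 := o3_pow_one hcop h1 x.2.2
      have h3 : x = 1 := Subtype.ext h2
      rw [h3, orderOf_one] at hx
      omega

/-- an element of prime order `r` normalising a group of order divisible by `r` centralises a non-trivial element -/
theorem o3_fix (V : Subgroup G) (c : G) (r : ℕ) (hr : r.Prime) (hc : orderOf c = r)
    (hn : ∀ g ∈ zpowers c, ∀ v ∈ V, g * v * g⁻¹ ∈ V) (hV : r ∣ Nat.card V) :
    ∃ v ∈ V, v ≠ 1 ∧ v * c = c * v := by
  haveI : Fact r.Prime := ⟨hr⟩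
  letI act : MulAction (zpowers c) V :=
    { smul := fun g v => ⟨g * v * (g : G)⁻¹, hn g g.2 v v.2⟩
      one_smul := fun v => Subtype.ext (show ((1 : zpowers c) : G) * v * ((1 : zpowers c) : G)⁻¹ = v by simp)
      mul_smul := fun g h v => Subtype.ext (show ((g * h : zpowers c) : G) * v * ((g * h : zpowers c) : G)⁻¹ =
        g * (h * v * (h : G)⁻¹) * (g : G)⁻¹ by simp [mul_assoc]) }
  have hp : IsPGroup r (zpowers c) := IsPGroup.of_card (n := 1) (by rw [Nat.card_zpowers, hc, pow_one])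
  have h1 : (1 : V) ∈ fixedPoints (zpowers c) V := fun g =>
    Subtype.ext (show (g : G) * (1 : V) * (g : G)⁻¹ = (1 : V) by simp)
  obtain ⟨b, hb, hne⟩ := hp.exists_fixed_point_of_prime_dvd_card_of_fixed_point V hV h1
  refine ⟨b, b.2, fun h => hne (Subtype.ext h.symm), ?_⟩
  have h2 : c * b * c⁻¹ = b := congrArg Subtype.val (hb ⟨c, mem_zpowers c⟩)
  calc (b : G) * c = c * b * c⁻¹ * c := by rw [h2]
    _ = c * b := by group

end O3Aux

theorem o3 (hA : O3As.{u}) : O3s.{u} := by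
  intro G Ω _ _ _ _ P hG hev α β k hab hk hI hodd
  haveI : Fact (Nat.Prime 11) := ⟨by norm_num⟩
  have hB := hG.ca.base
  obtain ⟨d, ν, hd, hκ, hν⟩ := hI.cnt
  have h11 : ¬ 11 ∣ d * ν := by rcases hd with rfl | rfl <;> omega
  have hk1 : k ≠ 1 := fun h => by have := hI.ord; rw [h, orderOf_one] at this; omega
  have hk11 : k ^ 11 = 1 := by rw [← hI.ord]; exact pow_orderOf_eq_one k
  have hN : ∀ y ∈ Kk P α β, y * k * y⁻¹ ∈ zpowers k → y * k = k * y := by
    intro y hy h
    have h2 : Commute (y ^ 2) k := by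
      rcases hI.nor y hy h with e | e
      · have : Commute y k := by
          calc y * k = y * k * y⁻¹ * y := by group
            _ = k * y := by rw [e]
        exact this.pow_left 2
      · have e2 : y * k⁻¹ * y⁻¹ = k := by rw [← conj_inv, e, inv_inv]
        calc y ^ 2 * k = y * (y * k * y⁻¹) * y⁻¹ * y ^ 2 := by simp only [pow_two]; group
          _ = k * y ^ 2 := by rw [e, e2]
    obtain ⟨j, hj⟩ := hodd
    have h3 : y = (y ^ 2) ^ (j + 1) := by
      have := o3_pow_card hy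
      rw [hj] at this
      calc y = y ^ (2 * j + 1) * y := by rw [this, one_mul]
        _ = (y ^ 2) ^ (j + 1) := by group
    have h4 := h2.pow_left (j + 1)
    rw [← h3] at h4
    exact h4
  obtain ⟨M, hMK, hMc, hMn⟩ := o3_burn (Kk P α β) k hk hI.ord (d * ν) (by rw [hκ, mul_assoc]) h11 hN
  by_cases hM : M = ⊥
  · rw [hM, Subgroup.card_bot] at hMc
    rw [hκ, mul_assoc, ← hMc, mul_one]
  exfalso
  have hM11 : ¬ 11 ∣ Nat.card M := by rw [hMc]; exact h11
  have hcop : Nat.Coprime 11 (Nat.card M) := (Nat.Prime.coprime_iff_not_dvd (by norm_num)).2 hM11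
  have hMS : ∀ c ∈ M, c ∈ zpowers k → c = 1 := by
    rintro c hc ⟨j, rfl⟩
    refine o3_pow_one hcop ?_ (o3_pow_card hc)
    show (k ^ j) ^ 11 = 1
    rw [← zpow_natCast, ← zpow_mul, mul_comm, zpow_mul, zpow_natCast, hk11, one_zpow]
  have hMk : ∀ c ∈ M, c * k = k * c → c = 1 := fun c hc h => hMS c hc (hI.cen c (hMK hc) h)
  have hKC : Kk P α β ≤ Cz (P α) := hB.Kk_le_Cz (left_mem_Ln α β)
  have hKa : ∀ y ∈ Kk P α β, y • α = α := fun y hy => hB.Kk_fix (left_mem_Ln α β) hy
  have hCodd : Odd (Nat.card (Cz (P α))) := by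
    rw [hG.g2.cardC hev α β hab]
    refine Odd.mul ?_ hodd
    haveI : Nonempty Ω := ⟨α⟩
    have : 0 < Nat.card Ω := Nat.card_pos
    exact Nat.Even.sub_odd this hev odd_one
  have hne : ¬ Cz (P α) ≤ P α := fun h =>
    hk1 (hB.eq_one_of_LK hab ((le_sup_left : P α ≤ Ls P α β) (h (hKC hk))) hk)
  have hAC : ∀ g : G, g • α = α → ∀ y ∈ Cz (P α), g * y * g⁻¹ ∈ Cz (P α) := by
    intro g hg y hy
    rw [mem_Cz] at hy ⊢
    intro x hx
    have hg' : g⁻¹ • α = α := by rw [inv_smul_eq_iff, hg]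
    have h1 := hy _ (hB.conj_fix hg' hx)
    calc x * (g * y * g⁻¹) = g * (g⁻¹ * x * g⁻¹⁻¹ * y) * g⁻¹ := by group
      _ = g * y * g⁻¹ * x := by rw [h1]; group
  rcases o3_exW (fun g : G => g • α = α) (Cz (P α)) (P α) (Cfsg.Agent.S0205.result hCodd) (hB.P_le_Cz α) hne
    (fun x hx c hc => mem_Cz.1 hc x hx) (fun x hx => hB.pow11 hx) hAC (fun g hg y hy => hB.conj_fix hg hy) with
    ⟨W, hWC, hPW, hWP, hWi, hWp⟩ | ⟨V, hVC, hV1, hVi, hVc, hV11⟩
  · refine hWP (hA G Ω P hG α β k M W hab hk hI.ord hMK hM hM11 (hMn k hk) hWC hPW hWi hWp ?_)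
    by_contra hWK
    have hp : IsPGroup 11 ↥(W ⊓ Kk P α β) := hWp.to_le inf_le_left
    have hdvd : 11 ∣ Nat.card ↥(W ⊓ Kk P α β) :=
      hp.card_eq_or_dvd.resolve_left fun h => hWK (Subgroup.card_eq_one.1 h)
    obtain ⟨x, hx⟩ := exists_prime_orderOf_dvd_card' 11 hdvd
    have hx' : orderOf (x : G) = 11 := by rw [Subgroup.orderOf_coe, hx]
    obtain ⟨y, hy, hxy⟩ := hI.syl x x.2.2 hx'
    have hz : zpowers (x : G) = zpowers (y * k * y⁻¹) :=
      eq_of_le_of_card_ge (zpowers_le.2 hxy) (by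
        rw [Nat.card_zpowers, Nat.card_zpowers, hx']
        have : orderOf (y * k * y⁻¹) = orderOf k := (MulAut.conj y).orderOf_eq k
        rw [this, hI.ord])
    have h1 : y * k * y⁻¹ ∈ W := (zpowers_le.2 x.2.1) (hz ▸ mem_zpowers _)
    have hkW : k ∈ W := by
      have := hWi y⁻¹ (hKa _ (Subgroup.inv_mem _ hy)) _ h1
      simpa [mul_assoc] using this
    apply hM
    rw [Subgroup.eq_bot_iff_forall]
    intro c hc
    apply hMk c hc
    have hW1 : c * k * c⁻¹ * k⁻¹ ∈ W := W.mul_mem (hWi c (hKa c (hMK hc)) k hkW) (W.inv_mem hkW)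
    have hM1 : c * k * c⁻¹ * k⁻¹ ∈ M := by
      have := M.mul_mem hc (hMn k hk _ (M.inv_mem hc))
      simpa [mul_assoc] using this
    obtain ⟨j, hj⟩ := hWp ⟨_, hW1⟩
    have h2 : c * k * c⁻¹ * k⁻¹ = 1 :=
      o3_pow_one (hcop.pow_left j) (congrArg Subtype.val hj) (o3_pow_card hM1)
    calc c * k = c * k * c⁻¹ * k⁻¹ * (k * c) := by group
      _ = k * c := by rw [h2, one_mul]
  · have hcV : Nat.Coprime 11 (Nat.card V) := (Nat.Prime.coprime_iff_not_dvd (by norm_num)).2 hV11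
    have h0 : ∀ v ∈ V, ∀ c ∈ Kk P α β, c ≠ 1 → v * c = c * v → v ∈ Kk P α β := by
      intro v hv c hc hc1 h
      have h1 : v * c * v⁻¹ ∈ Kk P α β := by rw [h, mul_inv_cancel_right]; exact hc
      have h2 := hG.g1.cenK α β hab c hc hc1 v h1 β (right_mem_Ln α β)
      obtain ⟨x, hx, k', hk', e⟩ := hG.g2.pk α β hab v (hVC hv) h2
      have h3 : Commute x k' := mem_Cz.1 (hKC hk') x hx
      have h4 : v ^ 11 ∈ Kk P α β := by
        rw [e, h3.mul_pow, hB.pow11 hx, one_mul]; exact Subgroup.pow_mem _ hk' _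
      have h5 : Nat.Coprime (orderOf v) 11 :=
        (hcV.coprime_dvd_right (orderOf_dvd_of_pow_eq_one (o3_pow_card hv))).symm
      obtain ⟨j, hj⟩ := exists_pow_eq_self_of_coprime h5.symm
      rw [← hj]
      exact Subgroup.pow_mem _ h4 _
    have hVK : ∀ c ∈ V, c ∈ Kk P α β → c = 1 := by
      intro c hcV hcK
      by_contra hc1
      have hle : ∀ v ∈ V, v ∈ Kk P α β := fun v hv => h0 v hv c hcK hc1 (hVc v hv c hcV)
      obtain ⟨γ, hγ⟩ := hG.g1.out α β hab
      have hαγ : α ≠ γ := fun h => hγ (h ▸ left_mem_Ln α β)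
      obtain ⟨g, hg1, hg2⟩ := hG.g1.t2 α β α γ hab hαγ
      have hg' : g⁻¹ • α = α := by rw [inv_smul_eq_iff, hg1]
      have h1 := hB.conj_Kk g α β (hle _ (hVi g⁻¹ hg' c hcV))
      rw [hg1, hg2] at h1
      have h2 : g * (g⁻¹ * c * g⁻¹⁻¹) * g⁻¹ = c := by group
      rw [h2] at h1
      exact hγ (hG.g1.fixK α β hab c hcK hc1 γ (hB.Kk_fix (right_mem_Ln α γ) h1))
    have hd1 : ∀ v ∈ V, ∀ c ∈ Kk P α β, c ≠ 1 → v * c = c * v → v = 1 :=
      fun v hv c hc hc1 h => hVK v hv (h0 v hv c hc hc1 h)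
    have hSK : zpowers k ≤ Kk P α β := zpowers_le.2 hk
    have hUE : M ⊔ zpowers k ≤ Kk P α β := sup_le hMK hSK
    have hcop2 : Nat.Coprime (Nat.card V) (Nat.card ↥(M ⊔ zpowers k)) := by
      apply Nat.coprime_of_dvd
      intro r hr h1 h2
      haveI : Fact r.Prime := ⟨hr⟩
      obtain ⟨c, hc⟩ := exists_prime_orderOf_dvd_card' r h2
      have hc' : orderOf (c : G) = r := by rw [Subgroup.orderOf_coe, hc]
      have hcK : (c : G) ∈ Kk P α β := hUE c.2
      obtain ⟨v, hv, hv1, e⟩ := o3_fix V c r hr hc'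
        (fun g hg v hv => hVi g (hKa g (zpowers_le.2 hcK hg)) v hv) h1
      refine hv1 (hd1 v hv c hcK (fun h => ?_) e)
      rw [h, orderOf_one] at hc'
      exact hr.one_lt.ne hc'
    have hres := Cfsg.Agent.S1545.result M (zpowers k) V hM (by simpa using hk1)
      (by rw [Subgroup.eq_bot_iff_forall]; exact fun c hc => hMS c hc.1 hc.2)
      (fun e he c hc => hMn e (hSK he) c hc)
      (by
        intro e he he1 c hc h
        have hz : zpowers e = zpowers k :=
          eq_of_le_of_card_ge (zpowers_le.2 he) (by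
            rw [Nat.card_zpowers, Nat.card_zpowers, hI.ord]
            obtain ⟨j, rfl⟩ := he
            have h1 : (k ^ j) ^ 11 = 1 := by
              rw [← zpow_natCast, ← zpow_mul, mul_comm, zpow_mul, zpow_natCast, hk11, one_zpow]
            exact (orderOf_eq_prime h1 he1).ge)
        obtain ⟨j, hj⟩ : k ∈ zpowers e := hz ▸ mem_zpowers k
        apply hMk c hc
        have h2 : Commute e c := h
        have h3 := (h2.zpow_left j).symm
        simp only at hj
        rw [hj] at h3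
        exact h3)
      (fun x hx v hv => hVi x (hKa x (hUE hx)) v hv)
      (by rw [Subgroup.eq_bot_iff_forall]; exact fun c hc => hVK c hc.1 (hUE hc.2))
      (Cfsg.Agent.S0205.result (hCodd.of_dvd_nat (Subgroup.card_dvd_of_le hVC))) hcop2
    have e1 : V ⊓ Subgroup.centralizer (zpowers k : Set G) = ⊥ := by
      rw [Subgroup.eq_bot_iff_forall]
      intro v hv
      exact hd1 v hv.1 k hk hk1 (Subgroup.mem_centralizer_iff.1 hv.2 k (mem_zpowers k)).symm
    have e2 : V ⊓ Subgroup.centralizer (M : Set G) = ⊥ := by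
      rw [Subgroup.eq_bot_iff_forall]
      intro v hv
      obtain ⟨c, hc1⟩ := (Subgroup.ne_bot_iff_exists_ne_one).1 hM
      exact hd1 v hv.1 c (hMK c.2) (fun h => hc1 (Subtype.ext h))
        (Subgroup.mem_centralizer_iff.1 hv.2 c c.2).symm
    rw [e1, e2, Subgroup.card_bot, one_pow, one_mul] at hres
    exact hV1 (Subgroup.card_eq_one.1 (Nat.eq_one_of_mul_eq_one_left hres))

end CL.E11
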