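/-
Project E11 (S3403), step O3A: the normal `11`-subgroups of a point stabiliser.
-/
import Cfsg.Agent.E11.St
import Cfsg.Agent.Loc.Chief
import Cfsg.Agent.Grp.Coprime2

set_option autoImplicit false
set_option linter.unusedSectionVars false

namespace CL.E11

open MulAction Subgroup
open scoped commutatorElement

universe u

theorem o3a : O3As.{u} := by
  intro G Ω _ _ _ _ P hG α β k M W hne hk ok MK M1 M11 kM WC PW nW pW WK
  have hB := hG.ca.base
  have F11 : Fact (Nat.Prime 11) := ⟨by norm_num⟩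
  obtain ⟨h, s, H⟩ := (hG.ca.lf1 α β hne).hs
  have KC : Kk P α β ≤ Cz (P α) := hB.Kk_le_Cz (left_mem_Ln α β)
  have k1 : k ≠ 1 := fun e => by rw [e, orderOf_one] at ok; omega
  have st1 : ∀ y ∈ W, ∀ c ∈ Kk P α β, c ≠ 1 → y * c = c * y → y ∈ P α := fun y hy c hc c1 e => by
    obtain ⟨x, hx, k', hk', rfl⟩ := hG.g2.pk α β hne y (WC hy) (hG.g1.cenK α β hne c hc c1 y
      (by rw [e, mul_inv_cancel_right]; exact hc) β (right_mem_Ln α β))
    have : k' = 1 := mem_bot.1 (WK.le ⟨(W.mul_mem_cancel_left (PW hx)).1 hy, hk'⟩)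
    rw [this, mul_one]
    exact hx
  have st2 : ∀ y ∈ W, y * h = h * y → y = 1 := fun y hy e => by
    have ya := hB.fix_of_cent (WC hy)
    have yb : y • β = β := by
      by_contra n
      have := hG.g1.two h α β (y • β) hne (fun e' => hne (smul_left_cancel y (ya.trans e'))) (Ne.symm n) H.ha H.hb
        (by rw [← mul_smul, ← e, mul_smul, H.hb])
      rw [H.hc] at this
      exact absurd this (by decide)
    exact mem_bot.1 (WK.le ⟨hy, (hG.ca.lf1 α β hne).cen y ya yb (hB.chi_of_cent (WC hy))⟩)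
  have nK : ∀ c ∈ Kk P α β, c ∈ normalizer (W : Set G) := fun c hc =>
    mem_normalizer_fintype (nW c (hB.Kk_fix (left_mem_Ln α β) hc))
  have pk : IsPGroup 11 (zpowers k) := IsPGroup.of_card (n := 1) (by rw [Nat.card_zpowers, ok, pow_one])
  have kN : zpowers k ≤ normalizer (W : Set G) := zpowers_le.2 (nK k hk)
  have nil : Group.IsNilpotent (W ⊔ zpowers k : Subgroup G) := (pW.to_sup_of_normal_left' pk kN).isNilpotent
  have XC : W ⊔ zpowers k ≤ Cz (P α) := sup_le WC (zpowers_le.2 (KC hk))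
  refine le_antisymm (by_contra fun hn => ?_) PW
  obtain ⟨w, hw, wP, hc⟩ := Loc.exists_not_mem_commutator_mem nil le_sup_left le_rfl (sup_le le_normalizer kN) hn
  have f1 : ∀ o, w * o * w⁻¹ = ⁅w, o⁆ * o := fun o => by rw [commutatorElement_def]; group
  have f3 : ∀ o ∈ W ⊔ zpowers k, w ^ 3 * o * (w ^ 3)⁻¹ = ⁅w, o⁆ ^ 3 * o := fun o ho => by
    have c : w * ⁅w, o⁆ * w⁻¹ = ⁅w, o⁆ := by rw [← mem_Cz.1 (WC hw) _ (hc o ho), mul_inv_cancel_right]
    have d : ∀ x, w * (⁅w, o⁆ * x) * w⁻¹ = ⁅w, o⁆ * (w * x * w⁻¹) := fun x => by rw [← conj_mul, c]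
    have : w ^ 3 * o * (w ^ 3)⁻¹ = w * (w * (w * o * w⁻¹) * w⁻¹) * w⁻¹ := by
      simp only [pow_succ, pow_zero, one_mul, mul_inv_rev, mul_assoc]
    rw [this, f1 o, d, f1 o, d, d, f1 o]
    simp only [pow_succ, pow_zero, one_mul, mul_assoc]
  have f4 : ∀ o ∈ W ⊔ zpowers k, h * w * h⁻¹ * (h * o * h⁻¹) * (h * w * h⁻¹)⁻¹ = ⁅w, o⁆ ^ 3 * (h * o * h⁻¹) :=
    fun o ho => by
    have := hB.chi_spec H.ha (hc o ho)
    rw [H.hc, show (3 : ZMod 11).val = 3 from rfl] at this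
    rw [← this, conj_mul, conj_mul, ← f1]
    group
  have hk1 : h * k * h⁻¹ = k := by rw [mem_Cz.1 hk h H.hL, mul_inv_cancel_right]
  have kX : k ∈ W ⊔ zpowers k := mem_sup_right (mem_zpowers k)
  have p1 : (w ^ 3)⁻¹ * (h * w * h⁻¹) ∈ P α := by
    refine st1 _ (mul_mem (inv_mem (pow_mem hw 3)) (nW h H.ha w hw)) k hk k1 ?_
    have := f4 k kX
    rw [hk1, ← f3 k kX] at this
    rw [← mul_inv_eq_iff_eq_mul, show (w ^ 3)⁻¹ * (h * w * h⁻¹) * k * ((w ^ 3)⁻¹ * (h * w * h⁻¹))⁻¹ =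
      (w ^ 3)⁻¹ * (h * w * h⁻¹ * k * (h * w * h⁻¹)⁻¹) * w ^ 3 by group, this]
    group
  have f5 : ∀ o ∈ W, w * (o⁻¹ * (h * o * h⁻¹)) * w⁻¹ = o⁻¹ * (h * o * h⁻¹) := fun o ho => by
    have o1 := nW h H.ha o ho
    have a := f4 o (mem_sup_left ho)
    have b := f3 _ (mem_sup_left (T := zpowers k) o1)
    have c := mem_Cz.1 (WC o1) _ p1
    have e : ⁅w, o⁆ ^ 3 = ⁅w, h * o * h⁻¹⁆ ^ 3 := by
      refine mul_right_cancel (a.symm.trans (Eq.trans ?_ b))
      rw [show h * w * h⁻¹ * (h * o * h⁻¹) * (h * w * h⁻¹)⁻¹ = w ^ 3 * ((w ^ 3)⁻¹ * (h * w * h⁻¹) * (h * o * h⁻¹)) *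
        (h * w * h⁻¹)⁻¹ by group, c]
      group
    have t : ∀ x ∈ P α, (x ^ 3) ^ 4 = x := fun x hx => by
      rw [← pow_mul, show 3 * 4 = 11 + 1 from rfl, pow_succ, hB.pow11 hx, one_mul]
    have e' : ⁅w, o⁆ = ⁅w, h * o * h⁻¹⁆ := by
      rw [← t _ (hc o (mem_sup_left ho)), e, t _ (hc _ (mem_sup_left o1))]
    rw [← conj_mul, ← conj_inv, f1 o, f1 (h * o * h⁻¹), ← e']
    group
  have wc : ∀ y ∈ W, y * w = w * y := fun y hy => by
    let g : W → W := fun o => ⟨o⁻¹ * (h * o * h⁻¹), mul_mem (inv_mem o.2) (nW h H.ha o o.2)⟩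
    have gi : Function.Injective g := fun a b e => by
      have e1 : (a : G)⁻¹ * (h * a * h⁻¹) = (b : G)⁻¹ * (h * b * h⁻¹) := congrArg Subtype.val e
      have := st2 ((b : G) * (a : G)⁻¹) (mul_mem b.2 (inv_mem a.2)) (by
        rw [show (b : G) * (a : G)⁻¹ * h = b * ((a : G)⁻¹ * (h * a * h⁻¹)) * h * (a : G)⁻¹ by group, e1]
        group)
      exact Subtype.ext (mul_inv_eq_one.1 this).symm
    obtain ⟨o, e⟩ := Finite.surjective_of_injective gi ⟨y, hy⟩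
    have e1 : (o : G)⁻¹ * (h * o * h⁻¹) = y := congrArg Subtype.val e
    have := f5 o o.2
    rw [e1] at this
    exact (mul_inv_eq_iff_eq_mul.1 this).symm
  have ab : IsMulCommutative (W ⊓ Cz W : Subgroup G) := ⟨⟨fun a b => Subtype.ext (mem_Cz.1 b.2.2 a a.2.1)⟩⟩
  have nZ : ∀ {A : Subgroup G}, A ≤ normalizer (W : Set G) → A ≤ normalizer ((W ⊓ Cz W : Subgroup G) : Set G) :=
    fun hA => Grp.le_normalizer_inf' hA (Grp.le_normalizer_centralizer' hA)
  have MN := nZ (A := M) fun c hc => nK c (MK hc)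
  obtain ⟨n, hn'⟩ := IsPGroup.iff_card.1 (pW.to_le (inf_le_left : W ⊓ Cz W ≤ W))
  have fit := Grp.inf_centralizer_inf_commutator_eq_bot MN (by
    rw [hn']
    exact ((Nat.Prime.coprime_iff_not_dvd F11.out).2 M11).symm.pow_right n)
  have le : ⁅W ⊓ Cz W, M⁆ ≤ W ⊓ Cz W := (commutator_le (H₃ := W ⊓ Cz W)).2 fun a ha c hc => by
    rw [commutatorElement_def, mul_assoc, mul_assoc, ← mul_assoc c]
    exact mul_mem ha ((mem_normalizer_iff.1 (MN hc) _).1 (inv_mem ha))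
  obtain ⟨x, hx, x1, xk⟩ := Loc.exists_not_mem_commutator_mem (C := ⁅W ⊓ Cz W, M⁆) (D := ⊥) nil
    ((le.trans inf_le_left).trans le_sup_left) le_sup_right (Grp.le_normalizer_commutator' (nZ kN)
      (zpowers_le.2 (mem_normalizer_fintype kM))) fun e => by
      obtain ⟨⟨c, hc'⟩, c1⟩ := ne_bot_iff_exists_ne_one.1 M1
      exact wP (st1 w hw c (MK hc') (fun e => c1 (Subtype.ext e)) (commutatorElement_eq_one_iff_mul_comm.1
        (mem_bot.1 (e (commutator_mem_commutator ⟨hw, mem_Cz.2 wc⟩ hc')))))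
  have xP := st1 x (le hx).1 k hk k1 (commutatorElement_eq_one_iff_mul_comm.1 (mem_bot.1 (xk k (mem_zpowers k))))
  exact x1 (fit.le ⟨⟨le hx, fun c hc => (mem_Cz.1 (KC (MK hc)) x xP).symm⟩, hx⟩)

end CL.E11
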