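/-
Project E11 (S3403): the degree modulo 8 when `K` has order 11 and is inverted.
-/
import Cfsg.Agent.E11.St
import Cfsg.Agent.Grp.Cores
import Cfsg.Agent.S1545
import Cfsg.Agent.S0205

set_option autoImplicit false

namespace CL.E11

open MulAction Subgroup

universe u

theorem o4_arith {m c e : ℕ} (hc : Odd c) (h4 : 4 ∣ 1 + 11 * m) (h : 121 * m = c ^ 2 * 11 ^ e) :
    (1 + 11 * m) % 8 = 4 := by
  have h1 : c ^ 2 % 8 = 1 := by
    have : c % 8 = 1 ∨ c % 8 = 3 ∨ c % 8 = 5 ∨ c % 8 = 7 := by rw [Nat.odd_iff] at hc; omega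
    rw [Nat.pow_mod]
    rcases this with h | h | h | h <;> rw [h]
  have h2 : 11 ^ e % 8 = 1 ∨ 11 ^ e % 8 = 3 := by
    clear h
    induction e with
    | zero => simp
    | succ e ih => rw [pow_succ]; omega
  have h3 := congrArg (· % 8) h
  simp only [Nat.mul_mod (c ^ 2), h1] at h3
  omega

theorem o4 (hPG : PGs.{u}) : O4s.{u} := by
  intro G Ω _ _ _ _ P hG hO α β k hne hK hk hk1 u hu ou huk
  have hB := hG.ca.base
  obtain ⟨m, hn, m5, -⟩ := hG.g1.deg
  obtain ⟨h, s, H⟩ := (hG.ca.lf1 α β hne).hs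
  have h4 := hO.four
  have : Fact (Nat.Prime 11) := ⟨by norm_num⟩
  have K11 : ∀ y ∈ Kk P α β, y ^ 11 = 1 := fun y hy => by
    have := pow_card_eq_one' (x := (⟨y, hy⟩ : Kk P α β))
    rw [hK] at this
    exact congrArg Subtype.val this
  have ok : orderOf k = 11 := orderOf_eq_prime (K11 k hk) hk1
  have zk : zpowers k = Kk P α β := eq_of_le_of_card_ge (zpowers_le.2 hk) (by rw [Nat.card_zpowers, ok, hK])
  have KC : Kk P α β ≤ Cz (P α) := hB.Kk_le_Cz (left_mem_Ln α β)
  have cC : Nat.card (Cz (P α)) = 121 * m := by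
    rw [hG.g2.cardC (even_iff_two_dvd.2 (dvd_trans (by norm_num) h4)) α β hne, hK, hn]
    omega
  rw [hn] at h4 ⊢
  have oC : Odd (Nat.card (Cz (P α))) := by rw [cC, Nat.odd_iff]; omega
  have nC : ∀ g : G, g • α = α → ∀ y ∈ Cz (P α), g * y * g⁻¹ ∈ Cz (P α) := fun g hg y hy => by
    have h1 := hB.fix_of_cent hy
    refine (hB.chi_eq_one_iff ?_).1 ?_
    · exact mul_mem (mul_mem (show g ∈ stabilizer G α from hg) h1) (inv_mem (show g ∈ stabilizer G α from hg))
    · rw [← hB.chi_of_cent hy, ← hB.chi_conj g h1, hg]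
  have dec : ∀ y ∈ Cz (P α) ⊓ Ce k, ∃ x ∈ P α, ∃ k' ∈ Kk P α β, y = x * k' := fun y hy =>
    hG.g2.pk α β hne y hy.1 (hG.g1.cenK α β hne k hk hk1 y (by rw [mem_Ce.1 hy.2, mul_inv_cancel_right]; exact hk) β
      (right_mem_Ln α β))
  obtain ⟨Q, hQ, nQ, Q11, e, he⟩ := hPG G (Cz (P α)) h k oC (by omega) H.ho (nC h H.ha) (KC hk) ok
    (fun y hy => by
      rw [zk]
      refine ⟨fun e => ?_, fun e => mem_Cz.1 e h H.hL⟩
      have h1 := hB.fix_of_cent hy
      refine (hG.ca.lf1 α β hne).cen y h1 ?_ (hB.chi_of_cent hy)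
      by_contra h2
      have := hG.g1.two h α β (y • β) hne (fun e' => hne (smul_left_cancel y (h1.trans e'))) (Ne.symm h2) H.ha H.hb
        (by rw [← mul_smul, e, mul_smul, H.hb])
      rw [H.hc] at this
      exact absurd this (by decide))
    (by
      choose x hx k' hk' e using dec
      have := Nat.card_le_card_of_injective (fun y : ↥(Cz (P α) ⊓ Ce k) =>
        ((⟨x y y.2, hx y y.2⟩, ⟨k' y y.2, hk' y y.2⟩) : P α × Kk P α β)) fun y y' h' => Subtype.ext (by
          simp only [Prod.mk.injEq, Subtype.mk.injEq] at h'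
          rw [e y y.2, e y' y'.2, h'.1, h'.2])
      rwa [Nat.card_prod, hB.card, hK] at this)
  have oQ : Odd (Nat.card Q) := oC.of_dvd_nat (card_dvd_of_le hQ)
  have cU : Nat.card (zpowers k) = 11 := by rw [Nat.card_zpowers, ok]
  have cE : Nat.card (zpowers u) = 2 := by rw [Nat.card_zpowers, ou]
  have mE : ∀ e ∈ zpowers u, e = 1 ∨ e = u := fun e he => by
    rw [← mem_powers_iff_mem_zpowers] at he
    obtain ⟨n, rfl⟩ := he
    beta_reduce
    rw [← pow_mod_orderOf, ou]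
    rcases Nat.mod_two_eq_zero_or_one n with h' | h' <;> simp [h']
  have inv : ∀ y ∈ zpowers k, u * y * u⁻¹ = y⁻¹ := by
    rintro _ ⟨n, rfl⟩
    rw [← conj_zpow, huk, inv_zpow]
  have UE : zpowers k ⊓ zpowers u = ⊥ := (disjoint_of_coprime_natCard (by rw [cU, cE]; norm_num)).eq_bot
  have Un : ∀ e ∈ zpowers u, ∀ y ∈ zpowers k, e * y * e⁻¹ ∈ zpowers k := fun e he y hy => by
    rcases mE e he with rfl | rfl
    · simpa using hy
    · rw [inv y hy]; exact inv_mem hy
  have cUE := CL.Grp.card_sup_mul_card_inf (K := zpowers k) (H := zpowers u) fun e he => mem_normalizer_fintype (Un e he)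
  rw [inf_comm, sup_comm, UE, card_bot, cU, cE, mul_one, mul_comm] at cUE
  have cop : (Nat.card Q).Coprime (Nat.card ↥(zpowers k ⊔ zpowers u)) := by
    rw [cUE]
    exact Nat.Coprime.mul_right ((Nat.Prime.coprime_iff_not_dvd (by norm_num)).2 Q11).symm (Nat.coprime_two_right.2 oQ)
  have bot : Q ⊓ centralizer (zpowers k : Set G) = ⊥ := (eq_bot_iff_forall _).2 fun y hy => by
    obtain ⟨x, hx, k', hk', e⟩ := dec y ⟨hQ hy.1, mem_Ce.2 (hy.2 k (mem_zpowers k)).symm⟩
    by_contra h1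
    have h2 : orderOf y = 11 := orderOf_eq_prime (by
      rw [e, Commute.mul_pow (mem_Cz.1 (KC hk') x hx), hB.pow11 hx, K11 k' hk', mul_one]) h1
    exact Q11 (h2 ▸ orderOf_dvd_natCard Q hy.1)
  have key := Cfsg.Agent.S1545.result (zpowers k) (zpowers u) Q (by simpa using hk1)
    (by rw [Ne, zpowers_eq_bot]; rintro rfl; simp at ou) UE Un
    (fun e he h1 y hy h2 => by
      have h3 := inv y hy
      rw [← (mE e he).resolve_left h1, h2, mul_inv_cancel_right] at h3
      have h4 := K11 y (zk ▸ hy)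
      rwa [show 11 = 2 * 5 + 1 from rfl, pow_succ, pow_mul, pow_two, eq_inv_iff_mul_eq_one.1 h3, one_pow, one_mul] at h4)
    (fun x hx => nQ x (nC x ((sup_le (zpowers_le.2 (hB.fix_of_cent (KC hk))) (zpowers_le.2 hu.1) :
      _ ≤ stabilizer G α) hx)))
    (disjoint_of_coprime_natCard cop).eq_bot (Cfsg.Agent.S0205.result oQ) cop
  rw [bot, le_bot_iff.1 ((inf_le_inf_left Q (centralizer_le (SetLike.coe_mono
    (le_sup_left : zpowers k ≤ zpowers k ⊔ zpowers u)))).trans bot.le), card_bot, cE, one_pow,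
    one_mul, mul_one] at key
  rw [key] at oQ he
  exact o4_arith ((Nat.odd_pow_iff two_ne_zero).1 oQ) h4 (cC.symm.trans he)

end CL.E11
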