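/-
Project E11 (S3403): the degree is not `4` modulo `8` when `|K|` is odd and `χ` takes the value `-1`.
-/
import Cfsg.Agent.E11.St

set_option autoImplicit false

namespace CL.E11

open MulAction Subgroup
open scoped Pointwise

universe u

section

variable {G : Type u} [Group G] [Finite G]

omit [Finite G] in
private theorem o8_pz {x : G} (hx : orderOf x = 2) : IsPGroup 2 (zpowers x) :=
  IsPGroup.of_card (n := 1) (by rw [Nat.card_zpowers, hx, pow_one])

private theorem o8_le {T : Subgroup G} (hT : IsPGroup 2 T) (h16 : ¬ 16 ∣ Nat.card G) : Nat.card T ≤ 8 := by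
  obtain ⟨k, hk⟩ := IsPGroup.iff_card.1 hT
  by_contra h
  have h4 : 4 ≤ k := by
    by_contra h4
    have := Nat.pow_le_pow_right two_pos (show k ≤ 3 by omega)
    omega
  exact h16 ((pow_dvd_pow 2 h4).trans (hk ▸ T.card_subgroup_dvd_card))

/-- a conjugate of `u` is central in a `2`-subgroup containing `D` -/
private theorem o8_cen {u : G} (hu : orderOf u = 2) (h8 : 8 ∣ Nat.card (Ce u)) (h16 : ¬ 16 ∣ Nat.card G)
    {D : Subgroup G} (hD : IsPGroup 2 D) : ∃ T : Subgroup G, D ≤ T ∧ Nat.card T ≤ 8 ∧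
      ∃ g : G, g * u * g⁻¹ ∈ T ∧ ∀ x ∈ T, x * (g * u * g⁻¹) = g * u * g⁻¹ * x := by
  obtain ⟨T, hT⟩ := hD.exists_le_sylow
  have huY : u ∈ Ce u := mem_Ce.2 rfl
  obtain ⟨S, hS⟩ := (o8_pz (x := (⟨u, huY⟩ : Ce u)) (by rw [← Subgroup.orderOf_coe, hu])).exists_le_sylow
  obtain ⟨Q, hQ⟩ := (S.2.map (Ce u).subtype).exists_le_sylow
  have h1 : (S : Subgroup (Ce u)).map (Ce u).subtype = Q := by
    refine eq_of_le_of_card_ge hQ ((o8_le Q.2 h16).trans ?_)
    rw [card_map_of_injective (Ce u).subtype_injective]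
    exact Nat.le_of_dvd Nat.card_pos (S.pow_dvd_card_of_pow_dvd_card (n := 3) h8)
  obtain ⟨g, rfl⟩ := exists_smul_eq G Q T
  refine ⟨_, hT, o8_le (g • Q).2 h16, g, ?_, fun x hx => ?_⟩
  · rw [Sylow.coe_subgroup_smul, mem_pointwise_smul_iff_inv_smul_mem]
    simpa [mul_assoc] using hQ ⟨⟨u, huY⟩, hS (mem_zpowers _), rfl⟩
  · rw [Sylow.coe_subgroup_smul, mem_pointwise_smul_iff_inv_smul_mem, ← h1] at hx
    obtain ⟨y, -, hy⟩ := hx
    have h2 := mem_Ce.1 y.2
    have h3 : x = g * y * g⁻¹ := by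
      have : (y : G) = g⁻¹ * x * g := by simpa using hy
      rw [this]; group
    calc x * (g * u * g⁻¹) = g * (y * u) * g⁻¹ := by rw [h3]; group
      _ = _ := by rw [h2, h3]; group

private theorem o8_d8 {L : Subgroup G} {u s w : G} (hu : orderOf u = 2) (h8 : 8 ∣ Nat.card (Ce u))
    (h16 : ¬ 16 ∣ Nat.card G) (hsL : s ∈ L) (hwL : w ∈ L) (hs : orderOf s = 2) (hw : orderOf w = 2) (hne : w ≠ s)
    (hsw : s * w = w * s) (hus : u * s = s * u) (huw : u * w * u⁻¹ = s * w) : ∃ g : G, g * u * g⁻¹ ∈ L := by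
  by_contra hL
  have hs1 : s ≠ 1 := fun e => by rw [e, orderOf_one] at hs; omega
  have hw1 : w ≠ 1 := fun e => by rw [e, orderOf_one] at hw; omega
  have hw2 : w * w = 1 := by rw [← sq, ← hw, pow_orderOf_eq_one]
  have h1 : IsPGroup 2 ↥(zpowers s ⊔ zpowers w) := (o8_pz hs).to_sup_of_normal_left' (o8_pz hw)
    (zpowers_le.2 (mem_normalizer_fintype fun n hn => by
      obtain ⟨k, rfl⟩ := mem_zpowers_iff.1 hn
      rw [← conj_zpow, ← hsw, mul_inv_cancel_right]
      exact hn))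
  have ms : s ∈ zpowers s ⊔ zpowers w := mem_sup_left (mem_zpowers s)
  have mw : w ∈ zpowers s ⊔ zpowers w := mem_sup_right (mem_zpowers w)
  have h2 : zpowers s ⊔ zpowers w ≤ (zpowers s ⊔ zpowers w).comap (MulAut.conj u).toMonoidHom :=
    sup_le (zpowers_le.2 (show u * s * u⁻¹ ∈ _ by rw [hus, mul_inv_cancel_right]; exact ms))
      (zpowers_le.2 (show u * w * u⁻¹ ∈ _ by rw [huw]; exact mul_mem ms mw))
  obtain ⟨T, hT, hc, g, h3, h4⟩ := o8_cen hu h8 h16 (h1.to_sup_of_normal_left' (o8_pz hu)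
    (zpowers_le.2 (mem_normalizer_fintype fun n hn => h2 hn)))
  have huT : u ∈ T := hT (mem_sup_right (mem_zpowers u))
  have hsT : s ∈ T := hT (mem_sup_left ms)
  have hwT : w ∈ T := hT (mem_sup_left mw)
  set V : Subgroup T := (L ⊓ Ce w).subgroupOf T
  have h5 : 4 ≤ Nat.card V := by
    have : ({1, ⟨s, hsT⟩, ⟨w, hwT⟩, ⟨s * w, mul_mem hsT hwT⟩} : Set T).ncard = 4 := by
      have e1 : s * w ≠ 1 := fun e => hne (mul_right_cancel (hw2.trans e.symm))
      rw [Set.ncard_insert_of_notMem, Set.ncard_insert_of_notMem, Set.ncard_pair]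
      · simp [hs1]
      · simp [hw1, hne.symm]
      · simp [Subtype.ext_iff, hs1.symm, hw1.symm, e1.symm]
    rw [← this]
    refine Set.ncard_le_ncard (t := (V : Set T)) ?_
    rintro x (rfl | rfl | rfl | rfl)
    · exact one_mem V
    · exact ⟨hsL, mem_Ce.2 hsw⟩
    · exact ⟨hwL, mem_Ce.2 rfl⟩
    · exact ⟨mul_mem hsL hwL, mem_Ce.2 (show s * w * w = w * (s * w) by rw [hsw, mul_assoc, hsw])⟩
  have h6 : (⟨u, huT⟩ : T) ∉ V := fun h => hL ⟨1, by simpa using h.1⟩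
  have h7 : (⟨_, h3⟩ : T) ∉ V := fun h => hL ⟨g, h.1⟩
  have h9 : V.index = 2 := by
    have e1 := V.index_mul_card
    have e2 : V.index ≠ 1 := fun e => h6 (index_eq_one.1 e ▸ mem_top _)
    have e3 : V.index ≠ 0 := index_ne_zero_of_finite
    by_contra e4
    have := Nat.mul_le_mul (show 3 ≤ V.index by omega) h5
    omega
  have h10 : g * u * g⁻¹ * u * w = w * (g * u * g⁻¹ * u) :=
    mem_Ce.1 ((mul_mem_iff_of_index_two h9).2 (iff_of_false h7 h6)).2
  rw [← mul_assoc w, h4 w hwT, mul_assoc _ u, mul_assoc _ w, mul_right_inj] at h10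
  rw [h10, mul_inv_cancel_right] at huw
  exact hs1 (by simpa using huw)

end

theorem o8 : O8s.{u} := by
  intro G Ω _ _ _ _ P hG hO α β hne hK u hu ho hc h4
  classical
  have hB := hG.ca.base
  have := Fintype.ofFinite Ω
  have hu2 : u ^ 2 = 1 := ho ▸ pow_orderOf_eq_one u
  have hf : 4 ∣ {γ : Ω | u • γ = γ}.ncard := by
    have e0 : (toPerm u : Equiv.Perm Ω) ^ 2 = 1 := by
      have := map_pow (toPermHom G Ω) u 2
      rw [hu2, map_one] at this
      exact this.symm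
    have e1 := Equiv.Perm.sign_of_pow_two_eq_one e0
    have e2 := Equiv.Perm.card_fixedPoints_modEq (f := ⇑(toPerm u : Equiv.Perm Ω)) (p := 2) (n := 1)
      (funext fun x => congrArg (fun σ : Equiv.Perm Ω => σ x) e0)
    have e3 : Fintype.card (Function.fixedPoints (toPerm u : Equiv.Perm Ω)) = {γ : Ω | u • γ = γ}.ncard := by
      rw [← Nat.card_eq_fintype_card]; rfl
    have e4 : {γ : Ω | u • γ = γ}.ncard ≤ Fintype.card Ω := e3 ▸ Fintype.card_subtype_le _
    rw [hB.sign_eq_one, e3, eq_comm, neg_one_pow_eq_one_iff_even (by decide), Nat.even_iff] at e1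
    rw [Nat.card_eq_fintype_card] at h4
    have e5 : Fintype.card Ω % 2 = {γ : Ω | u • γ = γ}.ncard % 2 := e3 ▸ e2
    omega
  have h8 : 8 ∣ Nat.card (Ce u) := by
    have e1 : orbit (Ce u) α = {γ : Ω | u • γ = γ} := by
      ext γ
      constructor
      · rintro ⟨y, rfl⟩
        show u • (y : G) • α = (y : G) • α
        rw [← mul_smul, ← mem_Ce.1 y.2, mul_smul, hu.1]
      · intro hγ
        by_cases e : α = γ
        · exact e ▸ mem_orbit_self α
        obtain ⟨s, -, -, e2, -, e3⟩ := (hG.ca.lf3 α γ e).sw u (.inl ⟨hu.1, hγ⟩) (hu2 ▸ one_mem _)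
        exact ⟨⟨s, mem_Ce.2 e3.symm⟩, e2⟩
    have e2 : 2 ∣ Nat.card (stabilizer (Ce u) α) := by
      have := orderOf_dvd_natCard (⟨⟨u, mem_Ce.2 rfl⟩, hu.1⟩ : stabilizer (Ce u) α)
      rwa [← Subgroup.orderOf_coe, ← Subgroup.orderOf_coe, ho] at this
    rw [← (stabilizer (Ce u) α).index_mul_card, index_stabilizer, e1]
    exact Nat.mul_dvd_mul hf e2
  have h16 : ¬ 16 ∣ Nat.card G := by
    rcases hG.g2.cardS α β hne with ⟨-, e⟩ | ⟨e, -⟩
    · have := e u hu
      rw [hc] at this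
      exact absurd this (by decide)
    rw [hG.g2.cardG α β hne, e]
    obtain ⟨k, hk⟩ := hK
    obtain ⟨m, hm⟩ : ∃ m, Nat.card Ω = 8 * m + 4 := ⟨Nat.card Ω / 8, by omega⟩
    rw [hk, hm, show 8 * m + 4 - 1 = 8 * m + 3 by omega,
      show (8 * m + 4) * (8 * m + 3) * (10 * (2 * k + 1)) = 8 * ((2 * m + 1) * (8 * m + 3) * (5 * (2 * k + 1))) by ring]
    intro h
    have h' : 2 ∣ (2 * m + 1) * (8 * m + 3) * (5 * (2 * k + 1)) := Nat.dvd_of_mul_dvd_mul_left (by norm_num : 0 < 8) h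
    simp only [Nat.prime_two.dvd_mul] at h'
    omega
  obtain ⟨s, hsL, w, hwL, hs, hw, e1, e2, e3, e4⟩ := (hG.ca.lf3 α β hne).d8 u hu.1 hu.2 hc
  obtain ⟨g, hg⟩ := o8_d8 ho h8 h16 hsL hwL hs hw e1 e2 e3 e4
  refine hO.fpf α β hne _ hg ((MulAut.conj g).orderOf_eq u ▸ ho) (g • α) ?_
  rw [mul_smul, inv_smul_smul, mul_smul, hu.1]

end CL.E11
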