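/-
Project E11 (S3403): the case `|K|` odd.
-/
import Cfsg.Agent.E11.St

set_option autoImplicit false

namespace CL.E11

open MulAction Subgroup

universe u

theorem od : ODs.{u} := by
  intro G Ω _ _ _ _ P hG odd
  have hB := hG.ca.base
  have sq : ∀ {v : G}, orderOf v = 2 → v ^ 2 = 1 := fun h => h ▸ pow_orderOf_eq_one _
  have ch : ∀ (v : G) (γ δ : Ω), orderOf v = 2 → γ ≠ δ → v • γ = γ → v • δ = δ → chi P v γ = -1 :=
    fun v γ δ h2 ne h3 h4 => by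
    have := hB.chi_pow h3 2
    rw [sq h2, hB.chi_one] at this
    refine ((by decide : ∀ c : ZMod 11, 1 = c ^ 2 → c = 1 ∨ c = -1) _ this).resolve_left fun e => ?_
    have := Subgroup.orderOf_dvd_natCard _ ((hG.ca.lf1 γ δ ne).cen v h3 h4 e)
    rw [h2] at this
    exact (Nat.not_even_iff_odd.2 (odd γ δ ne)) (even_iff_two_dvd.2 this)
  have ns : ∀ (y : G) (γ δ : Ω), orderOf (y ^ 2) = 2 → γ ≠ δ → y ^ 2 • γ = γ → y ^ 2 • δ = δ → False :=
    fun y γ δ h2 ne h3 h4 => by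
    have c := ch _ γ δ h2 ne h3 h4
    by_cases e : γ = y • γ
    · rw [hB.chi_pow e.symm] at c
      exact (by decide : ∀ c : ZMod 11, c ^ 2 ≠ -1) _ c
    · exact (hG.ca.lf3 γ _ e).nsq y rfl (by rwa [← mul_smul, ← pow_two]) c
  have one : ∀ α β : Ω, α ≠ β → ∀ v ∈ Ls P α β, orderOf v = 2 → ∀ γ δ : Ω, v • γ = γ → v • δ = δ → γ = δ :=
    fun α β ne v hv h2 γ δ h3 h4 => by_contra fun ne' => by
    obtain ⟨s, hs, w, -, so, wo, -, -, -, e⟩ := (hG.ca.lf3 γ δ ne').d8 v h3 h4 (ch v γ δ h2 ne' h3 h4)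
    obtain ⟨g, rfl, rfl⟩ := hG.g1.t2 γ δ α β ne' ne
    obtain ⟨l, -, k⟩ := (hG.ca.lf2 _ _ ne).cls _ (hB.conj_Ls g γ δ hs) v hv
      ((MulAut.conj g).orderOf_eq s ▸ so) h2
    have : (l * g * (v * w) * (l * g)⁻¹) ^ 2 = v := by
      rw [conj_pow, show (v * w) ^ 2 = v * w * v⁻¹ * v ^ 2 * w by simp only [pow_two]; group, sq h2, e, mul_one,
        mul_assoc s, ← pow_two, sq wo, mul_one, ← k]
      group
    exact ns _ γ δ (this.symm ▸ h2) ne' (this.symm ▸ h3) (this.symm ▸ h4)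
  have fpf : ∀ α β : Ω, α ≠ β → ∀ v ∈ Ls P α β, orderOf v = 2 → ∀ γ : Ω, v • γ ≠ γ :=
    fun α β ne v hv h2 γ h3 => hG.ca.se α β ne fun w hw wo => by
    obtain ⟨l, -, rfl⟩ := (hG.ca.lf2 _ _ ne).cls v hv w hw h2 wo
    have : (l * v * l⁻¹) • l • γ = l • γ := by rw [mul_smul, inv_smul_smul, mul_smul, h3]
    exact ⟨_, this, fun δ e => one α β ne _ hw wo _ _ e this⟩
  refine ⟨fpf, ?_, fun α β ne g hg e => ?_⟩
  · obtain ⟨α, β, ne⟩ := hB.two
    have : Fact (Nat.Prime 2) := ⟨Nat.prime_two⟩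
    obtain ⟨V, hV⟩ := Sylow.exists_subgroup_card_pow_prime 2 (n := 2) (G := Ls P α β)
      (dvd_trans (by norm_num) (hB.dvd_card_Ls ne))
    rw [Nat.card_congr (selfEquivOrbitsQuotientProd (G := V) fun γ => (eq_bot_iff_forall _).2 fun x hx =>
      by_contra fun x1 => fpf α β ne _ x.1.2 (orderOf_eq_prime ((hG.ca.lf2 _ _ ne).no4 _ x.1.2 ?_)
        fun e => x1 (Subtype.ext (Subtype.ext e))) γ hx), Nat.card_prod, hV]
    · exact Dvd.intro_left _ rfl
    · have := pow_card_eq_one' (x := x)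
      rw [hV] at this
      exact congrArg (fun y : V => ((y : Ls P α β) : G)) this
  · have k : g ^ 2 ∈ Kk P α β := (hG.ca.lf1 α β ne).cen _ (pow_mem hg 2).1 (pow_mem hg 2).2 (by
      rw [hB.chi_pow hg.1, e]; decide)
    have c : chi P (g ^ Nat.card (Kk P α β)) α = -1 := by rw [hB.chi_pow hg.1, e, (odd α β ne).neg_one_pow]
    have : Fact (Nat.Prime 2) := ⟨Nat.prime_two⟩
    refine ⟨_, pow_mem hg _, orderOf_eq_prime ?_ fun e1 => ?_, c⟩
    · rw [← pow_mul, mul_comm, pow_mul]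
      exact orderOf_dvd_iff_pow_eq_one.1 (Subgroup.orderOf_dvd_natCard _ k)
    · rw [e1, hB.chi_one] at c
      exact absurd c (by decide)

end CL.E11
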