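/-
Project E11 (S3403): a group of order prime to 10 with an automorphism of order 5 whose fixed
points form a group of order 11 with small centralizer has a normal 11-complement.
-/
import Cfsg.Agent.E11.St
import Cfsg.Agent.S0205
import Cfsg.Agent.S0033
import Cfsg.Agent.Grp.PGroupMaxClass
import Cfsg.Agent.Grp.PNilp

set_option autoImplicit false

namespace CL.E11

open MulAction Subgroup

universe u

theorem pg_count {α : Type*} [Finite α] (f : α → α) (hf : ∀ x, f (f (f (f (f x)))) = x)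
    (S : Set α) (hS : ∀ x ∈ S, f x ∈ S) :
    Nat.card S ≡ Nat.card {x | x ∈ S ∧ f x = x} [MOD 5] := by
  classical
  have := Fintype.ofFinite S
  have : Fact (Nat.Prime 5) := ⟨by norm_num⟩
  let g : Function.End S := fun x => ⟨f x, hS x x.2⟩
  have hg : g ^ 5 ^ 1 = 1 := by
    funext x
    apply Subtype.ext
    exact hf x
  have h := Equiv.Perm.card_fixedPoints_modEq hg
  rw [← Nat.card_eq_fintype_card, ← Nat.card_eq_fintype_card] at h
  have e : Function.fixedPoints g ≃ {x | x ∈ S ∧ f x = x} :=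
    { toFun := fun x => ⟨x.1.1, x.1.2, congrArg Subtype.val x.2⟩
      invFun := fun x => ⟨⟨x.1, x.2.1⟩, Subtype.ext x.2.2⟩
      left_inv := fun _ => rfl
      right_inv := fun _ => rfl }
  rwa [Nat.card_congr e] at h

theorem pg_nil {Y : Type*} [Group Y] [Finite Y] (f : Y →* Y)
    (hf : ∀ x, f (f (f (f (f x)))) = x) (hfix : ∀ y, f y = y → y = 1) : Group.IsNilpotent Y := by
  rcases subsingleton_or_nontrivial Y with hY | hY
  · infer_instance
  let φ : Y ≃* Y :=
    { f with invFun := fun x => f (f (f (f x))), left_inv := hf, right_inv := hf }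
  refine Cfsg.Agent.S0033.result φ (fun y hy => hfix y hy) 5 (by norm_num) ?_
  have : Fact (Nat.Prime 5) := ⟨by norm_num⟩
  refine orderOf_eq_prime ?_ ?_
  · ext x
    exact hf x
  · intro h
    obtain ⟨y, hy⟩ := exists_ne (1 : Y)
    exact hy (hfix y (congrArg (fun ψ : Y ≃* Y => ψ y) h))

theorem pg_zp {E : Type*} [Group E] [Finite E] {x y : E} (hx : orderOf x = 11)
    (hy : y ∈ zpowers x) (h1 : y ≠ 1) : x ∈ zpowers y := by
  have hd : orderOf y ∣ 11 := hx ▸ orderOf_dvd_of_mem_zpowers hy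
  have ho : orderOf y = 11 :=
    ((Nat.dvd_prime (by norm_num)).1 hd).resolve_left (fun h => h1 (orderOf_eq_one_iff.1 h))
  have : zpowers y = zpowers x :=
    eq_of_le_of_card_ge (zpowers_le.2 hy) (by rw [Nat.card_zpowers, Nat.card_zpowers, hx, ho])
  rw [this]
  exact mem_zpowers x

theorem pg_norm {E : Type*} [Group E] [Finite E] (hE : (Nat.card E).Coprime 10) {x g : E}
    (hx : orderOf x = 11) (h : g * x * g⁻¹ ∈ zpowers x) : g * x * g⁻¹ = x := by
  obtain ⟨m, hm⟩ := (mem_powers_iff_mem_zpowers.2 h)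
  have hm : x ^ m = g * x * g⁻¹ := hm
  have key : ∀ n : ℕ, g ^ n * x * (g ^ n)⁻¹ = x ^ m ^ n := by
    intro n
    induction n with
    | zero => simp
    | succ n ih =>
      calc g ^ (n + 1) * x * (g ^ (n + 1))⁻¹ = g * (g ^ n * x * (g ^ n)⁻¹) * g⁻¹ := by
            rw [pow_succ']; group
        _ = (g * x * g⁻¹) ^ m ^ n := by rw [ih, conj_pow]
        _ = x ^ m ^ (n + 1) := by rw [← hm, ← pow_mul, pow_succ']
  have hm0 : ¬ 11 ∣ m := by
    intro hd
    have h1 : x ^ m = 1 := orderOf_dvd_iff_pow_eq_one.1 (hx ▸ hd)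
    rw [hm, conj_eq_one_iff] at h1
    rw [h1, orderOf_one] at hx
    omega
  have h10 : m ^ 10 ≡ 1 [MOD 11] :=
    Nat.ModEq.pow_totient (n := 11) (x := m)
      (((Nat.Prime.coprime_iff_not_dvd (by norm_num)).2 hm0).symm)
  have hc : g ^ 10 * x * (g ^ 10)⁻¹ = x := by
    rw [key, ← hx] at *
    conv_rhs => rw [← pow_one x]
    exact pow_eq_pow_iff_modEq.2 h10
  have hc' : g ^ 10 ∈ centralizer ({x} : Set E) := by
    rw [mem_centralizer_singleton_iff]
    exact mul_inv_eq_iff_eq_mul.1 hc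
  have hco : (10 : ℕ).Coprime (orderOf g) := (hE.coprime_dvd_left (orderOf_dvd_natCard g)).symm
  have hg : g ∈ zpowers (g ^ 10) := mem_zpowers_pow_iff.2 hco
  have := (zpowers_le.2 hc') hg
  rw [mem_centralizer_singleton_iff] at this
  exact mul_inv_eq_iff_eq_mul.2 this

theorem pg_index {E : Type*} [Group E] [Finite E] (hE : (Nat.card E).Coprime 10) {k : E}
    (hk : orderOf k = 11) (hc : ∀ g : E, g * k * g⁻¹ ∈ centralizer ({k} : Set E)) :
    (centralizer ({k} : Set E)).index * 10 ≤ Nat.card (centralizer ({k} : Set E)) := by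
  set C := centralizer ({k} : Set E) with hC
  let F : (E ⧸ C) × Fin 10 → C := fun q =>
    ⟨(q.1.out * k * q.1.out⁻¹) ^ (q.2.1 + 1), C.pow_mem (hc _) _⟩
  have ho : ∀ g : E, orderOf (g * k * g⁻¹) = 11 := fun g => by
    rw [← hk]
    exact (MulAut.conj g).orderOf_eq k
  have hF : Function.Injective F := by
    rintro ⟨a, i⟩ ⟨b, j⟩ hab
    have hab : (a.out * k * a.out⁻¹) ^ (i.1 + 1) = (b.out * k * b.out⁻¹) ^ (j.1 + 1) :=
      congrArg Subtype.val hab
    have hne : (b.out * k * b.out⁻¹) ^ (j.1 + 1) ≠ 1 := by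
      intro h
      have := orderOf_dvd_iff_pow_eq_one.2 h
      rw [ho] at this
      have := Nat.le_of_dvd (by omega) this
      omega
    have h1 : b.out * k * b.out⁻¹ ∈ zpowers (a.out * k * a.out⁻¹) := by
      have h2 := pg_zp (ho b.out) (npow_mem_zpowers _ _) hne
      rw [← hab] at h2
      exact (zpowers_le.2 (npow_mem_zpowers _ _)) h2
    have h3 : (b.out * a.out⁻¹) * (a.out * k * a.out⁻¹) * (b.out * a.out⁻¹)⁻¹ =
        b.out * k * b.out⁻¹ := by group
    have h4 := pg_norm hE (ho a.out) (h3 ▸ h1)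
    rw [h3] at h4
    have h5 : a = b := by
      rw [← a.out_eq, ← b.out_eq]
      refine QuotientGroup.eq.2 ?_
      refine mem_centralizer_singleton_iff.2 ?_
      calc a.out⁻¹ * b.out * k = a.out⁻¹ * (b.out * k * b.out⁻¹) * b.out := by group
        _ = k * (a.out⁻¹ * b.out) := by rw [h4]; group
    subst h5
    have h6 := pow_eq_pow_iff_modEq.1 hab
    rw [ho] at h6
    have h7 : i = j := by
      apply Fin.ext
      have := i.2
      have := j.2
      unfold Nat.ModEq at h6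
      omega
    rw [h7]
  have := Nat.card_le_card_of_injective F hF
  rwa [Nat.card_prod, Nat.card_eq_fintype_card (α := Fin 10), Fintype.card_fin] at this

theorem pg_top {E : Type*} [Group E] [Finite E] [Group.IsSolvable E] (f : E →* E)
    (hf : ∀ x, f (f (f (f (f x)))) = x) {k : E} (hk : orderOf k = 11) (hodd : Odd (Nat.card E))
    (h5 : ¬ 5 ∣ Nat.card E) (hfix : ∀ y, f y = y ↔ y ∈ zpowers k)
    (hc : Nat.card (centralizer ({k} : Set E)) ≤ 121)
    (hmin : ∀ A : Subgroup E, A.Normal → (∀ y ∈ A, f y ∈ A) → A ≠ ⊥ → k ∈ A) : IsPGroup 11 E := by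
  classical
  have hk1 : k ≠ 1 := by
    rintro rfl
    rw [orderOf_one] at hk
    omega
  have hE : (Nat.card E).Coprime 10 := by
    have h2 : (Nat.card E).Coprime 2 := (Nat.coprime_two_right).2 hodd
    have h5' : (Nat.card E).Coprime 5 :=
      ((Nat.Prime.coprime_iff_not_dvd (by norm_num)).2 h5).symm
    exact Nat.Coprime.mul_right h2 h5'
  have hex : ∃ n, derivedSeries E n = ⊥ := Group.IsSolvable.solvable
  have hn := Nat.find_spec hex
  have hn0 : Nat.find hex ≠ 0 := by
    intro h0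
    rw [h0, derivedSeries_zero] at hn
    exact hk1 (mem_bot.1 (hn ▸ mem_top k))
  obtain ⟨m, hm⟩ := Nat.exists_eq_succ_of_ne_zero hn0
  have hA : derivedSeries E m ≠ ⊥ := Nat.find_min hex (by omega)
  rw [hm, derivedSeries_succ] at hn
  have hkA : k ∈ derivedSeries E m :=
    hmin _ inferInstance (fun y hy => map_derivedSeries_le_derivedSeries f m ⟨y, hy, rfl⟩) hA
  have hcc : ∀ g : E, g * k * g⁻¹ ∈ centralizer ({k} : Set E) := by
    intro g
    rw [mem_centralizer_singleton_iff, ← commutatorElement_eq_one_iff_mul_comm, ← mem_bot, ← hn]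
    exact commutator_mem_commutator ((derivedSeries_normal E m).conj_mem _ hkA g) hkA
  have hi := pg_index hE hk hcc
  set C := centralizer ({k} : Set E) with hC
  have hfk : f k = k := (hfix k).2 (mem_zpowers k)
  have hkC : zpowers k ≤ C := zpowers_le.2 (mem_centralizer_singleton_iff.2 rfl)
  have c1 := pg_count f hf Set.univ (fun _ _ => trivial)
  have c2 := pg_count f hf (C : Set E) (fun x hx => by
    have hx : x * k = k * x := mem_centralizer_singleton_iff.1 hx
    refine mem_centralizer_singleton_iff.2 ?_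
    rw [← hfk, ← map_mul, ← map_mul, hx])
  have e1 : {x | x ∈ (Set.univ : Set E) ∧ f x = x} = (zpowers k : Set E) := by
    ext x
    simp [hfix]
  have e2 : {x | x ∈ (C : Set E) ∧ f x = x} = (zpowers k : Set E) := by
    ext x
    exact ⟨fun h => (hfix x).1 h.2, fun h => ⟨hkC h, (hfix x).2 h⟩⟩
  have e3 : Nat.card (zpowers k : Set E) = 11 := by
    rw [← hk, ← Nat.card_zpowers]
    rfl
  rw [e1, e3, Nat.card_univ] at c1
  rw [e2, e3] at c2
  change Nat.card C ≡ 11 [MOD 5] at c2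
  obtain ⟨c, hcc'⟩ : 11 ∣ Nat.card C := by
    have := card_dvd_of_le hkC
    rwa [Nat.card_zpowers, hk] at this
  have hmul := C.card_mul_index
  have ho1 : Odd (Nat.card C) := Odd.of_dvd_nat hodd (card_subgroup_dvd_card C)
  have ho2 : Odd C.index := Odd.of_dvd_nat hodd (index_dvd_card C)
  rw [Nat.odd_iff] at ho1 ho2
  unfold Nat.ModEq at c1 c2
  have hc1 : Nat.card C = 11 ∨ Nat.card C = 121 := by omega
  have hν : C.index = 1 ∨ C.index = 11 := by
    rcases hc1 with h | h <;> rw [h] at hmul hi <;> omega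
  rcases hc1 with h | h <;> rcases hν with h' | h' <;> rw [h, h'] at hmul
  · exact IsPGroup.of_card (n := 1) (by rw [← hmul]; norm_num)
  · exact IsPGroup.of_card (n := 2) (by rw [← hmul]; norm_num)
  · exact IsPGroup.of_card (n := 2) (by rw [← hmul]; norm_num)
  · exact IsPGroup.of_card (n := 3) (by rw [← hmul]; norm_num)

theorem pg_abs {E : Type*} [Group E] [Finite E] (f : E →* E)
    (hf : ∀ x, f (f (f (f (f x)))) = x) {k : E} (hk : orderOf k = 11) (hodd : Odd (Nat.card E))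
    (h5 : ¬ 5 ∣ Nat.card E) (hfix : ∀ y, f y = y ↔ y ∈ zpowers k)
    (hc : Nat.card (centralizer ({k} : Set E)) ≤ 121) : Cfsg.HasNormalPComplement 11 E := by
  have : Fact (Nat.Prime 11) := ⟨by norm_num⟩
  have : Group.IsSolvable E := Cfsg.Agent.S0205.result hodd
  have hk1 : k ≠ 1 := by
    rintro rfl
    rw [orderOf_one] at hk
    omega
  obtain ⟨Y, ⟨hYn, hYf, hYk⟩, hmax⟩ := Set.exists_max_image
    {Y : Subgroup E | Y.Normal ∧ (∀ y ∈ Y, f y ∈ Y) ∧ k ∉ Y} (fun Y => Nat.card Y) (Set.toFinite _)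
    ⟨⊥, inferInstance, fun y hy => by rw [mem_bot.1 hy, map_one]; exact one_mem _,
      fun h => hk1 (mem_bot.1 h)⟩
  have hnil : Group.IsNilpotent Y := by
    refine pg_nil ((f.comp Y.subtype).codRestrict Y (fun y => hYf y y.2))
      (fun x => Subtype.ext (hf x)) (fun y hy => ?_)
    by_contra h1
    have h2 : (y : E) ∈ zpowers k := (hfix y).1 (congrArg Subtype.val hy)
    exact hYk ((zpowers_le.2 y.2) (pg_zp hk h2 (fun h => h1 (Subtype.ext h))))
  refine CL.Grp.hasNormalPComplement_of_normal_of_isPGroup_quotient (N := Y)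
    CL.Grp.hasNormalPComplement_of_isNilpotent ?_
  let g : E ⧸ Y →* E ⧸ Y := QuotientGroup.map Y Y f (fun y hy => hYf y hy)
  have hg : ∀ x : E, g (x : E ⧸ Y) = (f x : E ⧸ Y) := fun x => rfl
  have hdq : Nat.card (E ⧸ Y) ∣ Nat.card E := card_quotient_dvd_card Y
  have hkq : orderOf (k : E ⧸ Y) = 11 := by
    refine orderOf_eq_prime ?_ (fun h => hYk ((QuotientGroup.eq_one_iff k).1 h))
    rw [← QuotientGroup.mk_pow, ← hk, pow_orderOf_eq_one, QuotientGroup.mk_one]
  have hzp : ∀ x ∈ zpowers k, (x : E ⧸ Y) ∈ zpowers (k : E ⧸ Y) := by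
    rintro _ ⟨i, rfl⟩
    exact ⟨i, rfl⟩
  refine pg_top g (fun x => ?_) hkq (Odd.of_dvd_nat hodd hdq) (fun h => h5 (h.trans hdq))
    (fun y => ⟨fun hy => ?_, fun hy => ?_⟩)
    ((CL.Grp.card_centralizer_quotient_le Y k).trans hc) (fun A hA hAg hA1 => ?_)
  · obtain ⟨x, rfl⟩ := QuotientGroup.mk_surjective x
    simp only [hg, hf]
  · obtain ⟨e, rfl⟩ := QuotientGroup.mk_surjective y
    rw [hg] at hy
    have c := pg_count f hf {x | e⁻¹ * x ∈ Y} (fun x hx => by
      have h1 : (f e)⁻¹ * f x ∈ Y := by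
        rw [← map_inv, ← map_mul]
        exact hYf _ hx
      have h2 : e⁻¹ * f e ∈ Y := QuotientGroup.eq.1 hy.symm
      have := Y.mul_mem h2 h1
      rwa [mul_assoc, mul_inv_cancel_left] at this)
    have e1 : {x | e⁻¹ * x ∈ Y} ≃ Y :=
      { toFun := fun x => ⟨e⁻¹ * x, x.2⟩
        invFun := fun y => ⟨e * y, by simp⟩
        left_inv := fun x => by simp
        right_inv := fun y => by simp }
    rw [Nat.card_congr e1] at c
    have hne : Nat.card {x | x ∈ {x | e⁻¹ * x ∈ Y} ∧ f x = x} ≠ 0 := by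
      intro h0
      rw [h0] at c
      exact h5 (((Nat.modEq_zero_iff_dvd).1 c).trans (card_subgroup_dvd_card Y))
    obtain ⟨⟨x, hx1, hx2⟩⟩ := (Nat.card_ne_zero.1 hne).1
    rw [QuotientGroup.eq.2 hx1]
    exact hzp x ((hfix x).1 hx2)
  · obtain ⟨i, rfl⟩ := hy
    change g ((k : E ⧸ Y) ^ i) = (k : E ⧸ Y) ^ i
    rw [map_zpow, hg, (hfix k).2 (mem_zpowers k)]
  · by_contra hkA
    have h1 := hmax (A.comap (QuotientGroup.mk' Y))
      ⟨hA.comap _, fun y hy => hAg _ hy, hkA⟩
    have h2 : Y ≤ A.comap (QuotientGroup.mk' Y) := fun y hy => by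
      rw [mem_comap, QuotientGroup.mk'_apply, (QuotientGroup.eq_one_iff y).2 hy]
      exact one_mem _
    have h3 := eq_of_le_of_card_ge h2 h1
    apply hA1
    rw [eq_bot_iff]
    intro a ha
    obtain ⟨x, rfl⟩ := QuotientGroup.mk_surjective a
    have : x ∈ A.comap (QuotientGroup.mk' Y) := ha
    rw [← h3] at this
    exact mem_bot.2 ((QuotientGroup.eq_one_iff x).2 this)

theorem pg : PGs.{u} := by
  intro G _ _ C h k hodd h5 hh hC hkC hk hfix hc
  have : Fact (Nat.Prime 11) := ⟨by norm_num⟩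
  let f : C →* C := ((MulAut.conj h).toMonoidHom.comp C.subtype).codRestrict C (fun y => hC y y.2)
  have hf0 : ∀ x : C, (f x : G) = h * x * h⁻¹ := fun x => rfl
  have hh5 : h ^ 5 = 1 := hh ▸ pow_orderOf_eq_one h
  have hzp : ∀ y : C, y ∈ zpowers (⟨k, hkC⟩ : C) ↔ (y : G) ∈ zpowers k := by
    intro y
    constructor
    · rintro ⟨i, rfl⟩
      exact ⟨i, rfl⟩
    · rintro ⟨i, hi⟩
      exact ⟨i, Subtype.ext hi⟩
  have H : Cfsg.HasNormalPComplement 11 C := by
    refine pg_abs f (fun x => Subtype.ext ?_) (k := ⟨k, hkC⟩) ?_ hodd h5 (fun y => ?_) ?_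
    · simp only [hf0]
      calc h * (h * (h * (h * (h * x * h⁻¹) * h⁻¹) * h⁻¹) * h⁻¹) * h⁻¹ = h ^ 5 * x * (h ^ 5)⁻¹ := by
            simp only [pow_succ, pow_zero, one_mul, mul_inv_rev, mul_assoc]
        _ = x := by rw [hh5]; group
    · rw [← hk, ← orderOf_coe]
    · rw [hzp, ← hfix y y.2, Subtype.ext_iff, hf0, mul_inv_eq_iff_eq_mul]
    · refine le_trans (Nat.card_le_card_of_injective
        (fun x : centralizer ({(⟨k, hkC⟩ : C)} : Set C) =>
          (⟨x.1.1, x.1.2, mem_Ce.2 (congrArg Subtype.val (mem_centralizer_singleton_iff.1 x.2))⟩ :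
            ↥(C ⊓ Ce k))) ?_) hc
      intro a b hab
      exact Subtype.ext (Subtype.ext (congrArg (fun z : ↥(C ⊓ Ce k) => (z : G)) hab))
  refine ⟨(Cfsg.pResidual 11 C).map C.subtype, map_subtype_le _, ?_, ?_, ?_⟩
  · rintro g hg _ ⟨y, hy, rfl⟩
    refine ⟨⟨g * y * g⁻¹, hg y y.2⟩, CL.Grp.mem_pResidual_of_coprime ?_, rfl⟩
    have h1 := CL.Grp.hasNormalPComplement_iff_forall_mem.1 H y hy
    rw [← orderOf_coe] at h1 ⊢
    have h2 : orderOf (g * (y : G) * g⁻¹) = orderOf (y : G) := (MulAut.conj g).orderOf_eq (y : G)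
    rwa [h2]
  · rw [card_map_of_injective C.subtype_injective]
    exact CL.Grp.hasNormalPComplement_iff_not_dvd_pResidual.1 H
  · obtain ⟨e, he⟩ := CL.Grp.index_pResidual 11 C
    exact ⟨e, by rw [card_map_of_injective C.subtype_injective, ← he, card_mul_index]⟩

end CL.E11
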