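/-
Project E11 (S3403): the reduction of the simple case to the core statement.
-/
import Cfsg.Agent.E11.St

set_option autoImplicit false
set_option linter.unusedSectionVars false

namespace CL.E11

open MulAction Subgroup

universe u

namespace R1

/-- the isomorphism invariant form of the alternative -/
def TJ (H : Type u) [Group H] : Prop := (IsSimpleGroup H ∧ Nat.card H = 660) ∨ Cfsg.Spor.IsoJ1 H

theorem TJ.of_equiv {H H' : Type u} [Group H] [Group H'] (e : H ≃* H') (h : TJ H) : TJ H' := by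
  rcases h with ⟨h1, h2⟩ | ⟨⟨f⟩⟩
  · exact Or.inl ⟨e.symm.isSimpleGroup, (Nat.card_congr e.toEquiv).symm.trans h2⟩
  · exact Or.inr ⟨e.symm.trans f⟩

section Abs

variable {G Ω : Type u} [Group G] [Finite G] [MulAction G Ω] {P : Ω → Subgroup G}

/-- two members are conjugate in the subgroup they generate -/
theorem exists_smul (hB : Base P) {α β : Ω} (h : α ≠ β) : ∃ l ∈ Ls P α β, l • α = β := by
  have : Fact (Nat.Prime 11) := ⟨by norm_num⟩
  have hc : Nat.card (Ls P α β) = 660 ∨ Nat.card (Ls P α β) = 175560 :=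
    (hB.pair α β h).imp (fun h => h.2) (fun h => h.card)
  have key : ∀ γ : Ω, P γ ≤ Ls P α β → ∃ S : Sylow 11 (Ls P α β),
      (S : Subgroup (Ls P α β)) = (P γ).subgroupOf (Ls P α β) := by
    intro γ hγ
    have h11 : Nat.card ((P γ).subgroupOf (Ls P α β)) = 11 :=
      (Nat.card_congr (subgroupOfEquivOfLe hγ).toEquiv).trans (hB.card γ)
    have hp : IsPGroup 11 ((P γ).subgroupOf (Ls P α β)) := IsPGroup.of_card (n := 1) (by simpa using h11)
    have hi := ((P γ).subgroupOf (Ls P α β)).card_mul_index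
    rw [h11] at hi
    exact ⟨hp.toSylow (by rcases hc with hc | hc <;> omega), rfl⟩
  obtain ⟨S, hS⟩ := key α le_sup_left
  obtain ⟨T, hT⟩ := key β le_sup_right
  obtain ⟨g, hg⟩ := exists_smul_eq (Ls P α β) S T
  obtain ⟨x, hx, h1⟩ := hB.exists_gen α
  refine ⟨g, g.2, hB.smul_eq_of_conj hx h1 ?_⟩
  have h2 : (⟨x, le_sup_left (a := P α) hx⟩ : Ls P α β) ∈ (S : Subgroup (Ls P α β)) := by rw [hS]; exact hx
  have h3 : g * (⟨x, le_sup_left (a := P α) hx⟩ : Ls P α β) * g⁻¹ ∈ (T : Subgroup (Ls P α β)) := by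
    rw [← hg, Sylow.coe_subgroup_smul]
    exact smul_mem_pointwise_smul _ (MulAut.conj g) _ h2
  rw [hT] at h3
  exact h3

/-- the induction hypothesis applied to the subgroup generated by the members inside `X` -/
theorem ind (hB : Base P) (hT : ∀ α β : Ω, α ≠ β → TJ (Ls P α β))
    (IH : ∀ Y : Subgroup G, Y ≠ ⊤ → ∀ P' : Subgroup Y, Hy P' → Cn P') (X : Subgroup G) (hX : X ≠ ⊤)
    (α β : Ω) (hne : α ≠ β) (ha : P α ≤ X) (hb : P β ≤ X) :
    ∃ γ δ : Ω, γ ≠ δ ∧ ∀ ε : Ω, P ε ≤ X → ε ∈ Ln P γ δ := by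
  obtain ⟨Y, hYX, hPY, hYle⟩ : ∃ Y : Subgroup G, Y ≤ X ∧ (∀ ε : Ω, P ε ≤ X → P ε ≤ Y) ∧
      ∀ Z : Subgroup G, (∀ ε : Ω, P ε ≤ X → P ε ≤ Z) → Y ≤ Z :=
    ⟨⨆ ε : {ε : Ω // P ε ≤ X}, P ε.1, iSup_le fun ε => ε.2,
      fun ε hε => le_iSup (fun ε : {ε : Ω // P ε ≤ X} => P ε.1) ⟨ε, hε⟩, fun Z hZ => iSup_le fun ε => hZ ε.1 ε.2⟩
  have hinj : Function.Injective Y.subtype := Y.subtype_injective
  have m1 : ((P α).subgroupOf Y).map Y.subtype = P α := map_subgroupOf_eq_of_le (hPY α ha)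
  have m2 : ∀ y : Y, (((P α).subgroupOf Y).map (MulAut.conj y).toMonoidHom).map Y.subtype = P ((y : G) • α) := by
    intro y
    rw [hB.P_smul, ← m1, map_map, map_map, m1]
    rfl
  have m3 : ∀ y : Y, ((P α).subgroupOf Y ⊔ ((P α).subgroupOf Y).map (MulAut.conj y).toMonoidHom).map Y.subtype =
      Ls P α ((y : G) • α) := fun y => by rw [Subgroup.map_sup, m1, m2]
  have m4 : ∀ y : Y, ((P α).subgroupOf Y).map (MulAut.conj y).toMonoidHom ≠ (P α).subgroupOf Y →
      α ≠ (y : G) • α := fun y hy e => hy (map_injective hinj (by rw [m1, m2, ← e]))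
  have hy : Hy ((P α).subgroupOf Y) := by
    refine ⟨(Nat.card_congr (subgroupOfEquivOfLe (hPY α ha)).toEquiv).trans (hB.card α), fun hN => ?_, ?_,
      fun y hy => ?_⟩
    · obtain ⟨l, hl, hla⟩ := exists_smul hB hne
      have hlY : l ∈ Y := (sup_le (hPY α ha) (hPY β hb) : Ls P α β ≤ Y) hl
      refine hne (Eq.trans (hB.fix_of_norm fun x hx => ?_).symm hla)
      exact hN.conj_mem ⟨x, hPY α ha hx⟩ hx ⟨l, hlY⟩
    · have : Y ≤ (normalClosure ((P α).subgroupOf Y : Set Y)).map Y.subtype := by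
        refine hYle _ fun ε hε => ?_
        obtain ⟨l, hl, hla⟩ : ∃ l ∈ Y, l • α = ε := by
          by_cases e : α = ε
          · exact ⟨1, Y.one_mem, by rw [one_smul, e]⟩
          · obtain ⟨l, hl, hla⟩ := exists_smul hB e
            exact ⟨l, (sup_le (hPY α ha) (hPY ε hε) : Ls P α ε ≤ Y) hl, hla⟩
        rw [← hla, ← m2 ⟨l, hl⟩]
        refine map_mono ?_
        rintro _ ⟨x, hx, rfl⟩
        exact (normalClosure_normal).conj_mem x (subset_normalClosure hx) ⟨l, hl⟩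
      refine eq_top_iff.2 fun y _ => ?_
      obtain ⟨z, hz, e⟩ := this y.2
      rwa [← hinj (e : Y.subtype z = Y.subtype y)]
    · exact (hT _ _ (m4 y hy)).of_equiv
        ((equivMapOfInjective _ Y.subtype hinj).trans (MulEquiv.subgroupCongr (m3 y))).symm
  obtain ⟨y, h1, h2⟩ := IH Y (fun e => hX (eq_top_iff.2 (e ▸ hYX))) _ hy
  refine ⟨α, (y : G) • α, m4 y h1, fun ε hε => ?_⟩
  rw [mem_Ln, ← m3 y, h2, ← MonoidHom.range_eq_map, range_subtype]
  exact hPY ε hε

end Abs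

section Conc

variable {G : Type u} [Group G]

/-- the conjugate of a subgroup -/
abbrev cj (g : G) (Q : Subgroup G) : Subgroup G := Q.map (MulAut.conj g).toMonoidHom

theorem cj_cj (a b : G) (Q : Subgroup G) : cj a (cj b Q) = cj (a * b) Q := by
  unfold cj
  rw [map_map]
  congr 1
  ext x
  simp [mul_assoc]

theorem cj_one (Q : Subgroup G) : cj 1 Q = Q := by
  ext x
  simp [cj]

theorem cj_inj (a : G) {Q R : Subgroup G} (h : cj a Q = cj a R) : Q = R :=
  map_injective (f := (MulAut.conj a).toMonoidHom) (MulAut.conj a).injective h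

theorem cj_sup (a b : G) (P : Subgroup G) : cj a (P ⊔ cj (a⁻¹ * b) P) = cj a P ⊔ cj b P := by
  rw [show cj a (P ⊔ cj (a⁻¹ * b) P) = cj a P ⊔ cj a (cj (a⁻¹ * b) P) from Subgroup.map_sup _ _ _, cj_cj,
    mul_inv_cancel_left]

theorem cj_ne {a b : G} {P : Subgroup G} (h : cj a P ≠ cj b P) : cj (a⁻¹ * b) P ≠ P := fun e => h (by
  have := congrArg (cj a) e
  rw [cj_cj, mul_inv_cancel_left] at this
  exact this.symm)

/-- the conjugacy class of `P` -/
def Om (P : Subgroup G) : Type u := {Q : Subgroup G // ∃ g : G, Q = cj g P}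

/-- the conjugation action on the class -/
instance omAction (P : Subgroup G) : MulAction G (Om P) where
  smul g Q := ⟨cj g Q.1, Q.2.elim fun a ha => ⟨g * a, by rw [ha, cj_cj]⟩⟩
  one_smul Q := Subtype.ext (cj_one Q.1)
  mul_smul a b Q := Subtype.ext (cj_cj a b Q.1).symm

/-- the members of the class -/
def fam (P : Subgroup G) : Om P → Subgroup G := Subtype.val

theorem fam_smul (P : Subgroup G) (g : G) (α : Om P) : fam P (g • α) = cj g (fam P α) := rfl

theorem fam_inj (P : Subgroup G) : Function.Injective (fam P) := Subtype.val_injective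

theorem fam_eq {P : Subgroup G} (α : Om P) : ∃ g : G, fam P α = cj g P := α.2

theorem tj_pair {P : Subgroup G} (hy : Hy P) (α β : Om P) (h : α ≠ β) : TJ (Ls (fam P) α β) := by
  obtain ⟨a, ha⟩ := fam_eq α
  obtain ⟨b, hb⟩ := fam_eq β
  have hne : cj a P ≠ cj b P := fun e => h (fam_inj P (by rw [ha, hb, e]))
  have h1 : TJ ↥(P ⊔ cj (a⁻¹ * b) P) := hy.pair _ (cj_ne hne)
  have h2 : cj a (P ⊔ cj (a⁻¹ * b) P) = Ls (fam P) α β := by
    rw [cj_sup, ← ha, ← hb]
  exact h1.of_equiv ((equivMapOfInjective _ (MulAut.conj a).toMonoidHom (MulAut.conj a).injective).trans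
    (MulEquiv.subgroupCongr h2))

theorem base [Finite G] (hJ : JFs.{u}) {P : Subgroup G} (hy : Hy P) (hs : IsSimpleGroup G) : Base (fam P) := by
  refine ⟨hs, fun α => ?_, fun g α x hx => ⟨x, hx, rfl⟩, fam_inj P, fun α β => ?_, ?_, fun α β h => ?_⟩
  · obtain ⟨a, ha⟩ := fam_eq α
    rw [ha]
    exact (card_map_of_injective (MulAut.conj a).injective).trans hy.card
  · obtain ⟨a, ha⟩ := fam_eq α
    obtain ⟨b, hb⟩ := fam_eq β
    refine ⟨b * a⁻¹, fam_inj P ?_⟩
    rw [fam_smul, ha, hb, cj_cj, inv_mul_cancel_right]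
  · by_contra hcon
    refine hy.nn ⟨fun x hx g => ?_⟩
    have e : (⟨cj g P, g, rfl⟩ : Om P) = ⟨P, 1, (cj_one P).symm⟩ := by
      by_contra hne
      exact hcon ⟨_, _, hne⟩
    have e' : cj g P = P := congrArg (fam P) e
    rw [← e']
    exact ⟨x, hx, rfl⟩
  · exact (tj_pair hy α β h).imp id (hJ G _)

end Conc

end R1

theorem red1 (hJ : JFs.{u}) (hC : Core.{u}) : Red1s.{u} := by
  intro G _ _ P hy hs IH
  have hB := R1.base hJ hy hs
  have := hB.finite_Ω
  obtain ⟨α, β, hne, htop⟩ := hC G (R1.Om P) (R1.fam P) hB (R1.ind hB (R1.tj_pair hy) IH)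
  obtain ⟨a, ha⟩ := R1.fam_eq α
  obtain ⟨b, hb⟩ := R1.fam_eq β
  have h : R1.cj a P ≠ R1.cj b P := fun e => hne (R1.fam_inj P (by rw [ha, hb, e]))
  refine ⟨a⁻¹ * b, R1.cj_ne h, R1.cj_inj a ?_⟩
  rw [R1.cj_sup, ← ha, ← hb]
  exact htop.trans (map_top_of_surjective _ (MulAut.conj a).surjective).symm

end CL.E11
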