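/-
Project E11 (S3403): the reduction to the simple case.
-/
import Cfsg.Agent.E11.Red1
import Cfsg.Agent.JTW.J1Mat

set_option autoImplicit false
set_option linter.unusedSectionVars false

namespace CL.E11

open MulAction Subgroup

universe u

namespace R2

/-- the conjugate subgroup -/
abbrev cj {G : Type u} [Group G] (P : Subgroup G) (g : G) : Subgroup G := P.map (MulAut.conj g).toMonoidHom

theorem map_cj {G H : Type u} [Group G] [Group H] (f : G →* H) (P : Subgroup G) (g : G) :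
    (cj P g).map f = cj (P.map f) (f g) := by
  unfold cj
  rw [map_map, map_map]
  congr 1
  ext x
  simp

theorem equiv_map {G : Type u} [Group G] (N L : Subgroup G) [N.Normal] (h : L ⊓ N = ⊥) :
    Nonempty (L ≃* L.map (QuotientGroup.mk' N)) := by
  have hi : Function.Injective ((QuotientGroup.mk' N).comp L.subtype) := by
    rw [injective_iff_map_eq_one]
    intro x hx
    have h1 : (x : G) ∈ L ⊓ N := ⟨x.2, (QuotientGroup.eq_one_iff _).1 hx⟩
    rw [h, mem_bot] at h1
    exact Subtype.ext h1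
  exact ⟨(MonoidHom.ofInjective hi).trans (MulEquiv.subgroupCongr (by
    rw [MonoidHom.range_comp, range_subtype]))⟩

variable {G : Type u} [Group G] [Finite G] {P : Subgroup G}

theorem pair' (h : Hy P) {g : G} (hg : cj P g ≠ P) :
    IsSimpleGroup ↥(P ⊔ cj P g) ∧ 60 ∣ Nat.card ↥(P ⊔ cj P g) := by
  rcases h.pair g hg with ⟨h1, h2⟩ | ⟨⟨e⟩⟩
  · exact ⟨h1, h2 ▸ by norm_num⟩
  · refine ⟨e.isSimpleGroup, ?_⟩
    rw [Nat.card_congr e.toEquiv, CL.JTW.card_J1]
    norm_num

theorem not_le (h : Hy P) {N : Subgroup G} [N.Normal] (hN : N ≠ ⊤) : ¬ P ≤ N := fun hle =>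
  hN (top_le_iff.1 (h.gen ▸ normalClosure_le_normal hle))

theorem inf_bot (h : Hy P) {N : Subgroup G} [N.Normal] (hN : N ≠ ⊤) : P ⊓ N = ⊥ := by
  have hd : Nat.card ↥(P ⊓ N) ∣ 11 := h.card ▸ card_dvd_of_le inf_le_left
  rcases (Nat.dvd_prime (by norm_num)).1 hd with e | e
  · exact eq_bot_of_card_eq _ e
  · exfalso
    have : P ⊓ N = P := eq_of_le_of_card_ge inf_le_left (by rw [e, h.card])
    exact not_le h hN (inf_eq_left.1 this)

/-- a proper normal subgroup is central -/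
theorem central (h : Hy P) {N : Subgroup G} [hn : N.Normal] (hN : N ≠ ⊤) :
    ∀ n ∈ N, ∀ g : G, n * g = g * n := by
  have h1 : P ≤ Cz N := by
    intro x hx
    refine mem_Cz.2 fun n hnN => ?_
    have hc : n * x * n⁻¹ * x⁻¹ ∈ N := by
      have := mul_mem hnN (hn.conj_mem _ (inv_mem hnN) x)
      simpa [mul_assoc] using this
    have hx' : n * x * n⁻¹ ∈ cj P n := ⟨x, hx, rfl⟩
    suffices e : n * x * n⁻¹ * x⁻¹ = 1 by
      rw [mul_inv_eq_one, mul_inv_eq_iff_eq_mul] at e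
      exact e
    by_cases hP : cj P n = P
    · rw [hP] at hx'
      have : n * x * n⁻¹ * x⁻¹ ∈ P ⊓ N := ⟨P.mul_mem hx' (P.inv_mem hx), hc⟩
      rwa [inf_bot h hN, mem_bot] at this
    · have hL : n * x * n⁻¹ * x⁻¹ ∈ P ⊔ cj P n :=
        Subgroup.mul_mem _ (mem_sup_right hx') (Subgroup.inv_mem _ (mem_sup_left hx))
      rcases (pair' h hP).1.eq_bot_or_eq_top_of_normal (N.subgroupOf (P ⊔ cj P n)) inferInstance with e | e
      · have : (⟨_, hL⟩ : ↥(P ⊔ cj P n)) ∈ N.subgroupOf (P ⊔ cj P n) := hc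
        rw [e, mem_bot] at this
        exact congrArg Subtype.val this
      · exact absurd (le_sup_left.trans (subgroupOf_eq_top.1 e)) (not_le h hN)
  have h2 : Cz N = ⊤ := by
    by_contra hne
    exact not_le h hne h1
  intro n hnN g
  exact mem_Cz.1 (h2 ▸ mem_top g : g ∈ Cz N) n hnN

theorem L_inf (h : Hy P) {N : Subgroup G} [N.Normal] (hN : N ≠ ⊤) {g : G} (hg : cj P g ≠ P) :
    (P ⊔ cj P g) ⊓ N = ⊥ := by
  rw [eq_bot_iff]
  intro z hz
  exact eq_one_of_central (pair' h hg).1 (pair' h hg).2 hz.1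
    (mem_Cz.2 fun x _ => (central h hN z hz.2 x).symm)

theorem exists_ne (h : Hy P) : ∃ g : G, cj P g ≠ P := by
  by_contra hc
  push Not at hc
  exact h.nn ⟨fun x hx g => hc g ▸ (⟨x, hx, rfl⟩ : g * x * g⁻¹ ∈ cj P g)⟩

theorem hy_quot (h : Hy P) {N : Subgroup G} [N.Normal] (hN : N ≠ ⊤) : Hy (P.map (QuotientGroup.mk' N)) := by
  have hc : Nat.card (P.map (QuotientGroup.mk' N)) = 11 := by
    obtain ⟨e⟩ := equiv_map N P (inf_bot h hN)
    rw [← Nat.card_congr e.toEquiv, h.card]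
  refine ⟨hc, fun hn => ?_, ?_, fun q hq => ?_⟩
  · obtain ⟨g, hg⟩ := exists_ne h
    obtain ⟨e⟩ := equiv_map N _ (L_inf h hN hg)
    have h1 : (P ⊔ cj P g).map (QuotientGroup.mk' N) ≤ P.map (QuotientGroup.mk' N) := by
      rw [Subgroup.map_sup, map_cj]
      refine sup_le le_rfl ?_
      rintro _ ⟨x, hx, rfl⟩
      exact hn.conj_mem x hx _
    have h2 := Nat.le_of_dvd Nat.card_pos (card_dvd_of_le h1)
    have h3 := Nat.le_of_dvd Nat.card_pos (pair' h hg).2
    rw [← Nat.card_congr e.toEquiv, hc] at h2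
    omega
  · rw [coe_map, ← map_normalClosure _ _ (QuotientGroup.mk'_surjective N), h.gen]
    exact map_top_of_surjective _ (QuotientGroup.mk'_surjective N)
  · obtain ⟨g, rfl⟩ := QuotientGroup.mk'_surjective N q
    have hg : cj P g ≠ P := fun e => hq (by
      have := map_cj (QuotientGroup.mk' N) P g
      rw [e] at this
      exact this.symm)
    obtain ⟨e⟩ := equiv_map N _ (L_inf h hN hg)
    have h1 : (P ⊔ cj P g).map (QuotientGroup.mk' N) =
        P.map (QuotientGroup.mk' N) ⊔ cj (P.map (QuotientGroup.mk' N)) (QuotientGroup.mk' N g) := by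
      rw [Subgroup.map_sup, map_cj]
    exact R1.TJ.of_equiv (e.trans (MulEquiv.subgroupCongr h1)) (h.pair g hg)

end R2

open R2 in
theorem red2 : Red2s.{u} := by
  intro G _ _ P h hs IH
  have hnt : Nontrivial G := by
    by_contra hc
    rw [not_nontrivial_iff_subsingleton] at hc
    exact h.nn ⟨fun x hx g => by rwa [Subsingleton.elim (g * x * g⁻¹) x]⟩
  obtain ⟨N, hn, hb, hN⟩ : ∃ N : Subgroup G, N.Normal ∧ N ≠ ⊥ ∧ N ≠ ⊤ := by
    by_contra hc
    push Not at hc
    exact hs ⟨fun N hn => by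
      by_cases hb : N = ⊥
      · exact Or.inl hb
      · exact Or.inr (hc N hn hb)⟩
  obtain ⟨q, hq, ht⟩ := IH N hb _ (hy_quot h hN)
  obtain ⟨g, rfl⟩ := QuotientGroup.mk'_surjective N q
  have hg : cj P g ≠ P := fun e => hq (by
    have := map_cj (QuotientGroup.mk' N) P g
    rw [e] at this
    exact this.symm)
  refine ⟨g, hg, ?_⟩
  have h1 : (P ⊔ cj P g).map (QuotientGroup.mk' N) = ⊤ := by
    rw [Subgroup.map_sup, map_cj]
    exact ht
  have h2 : (P ⊔ cj P g).Normal := ⟨fun x hx y => by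
    obtain ⟨l, hl, e⟩ : QuotientGroup.mk' N y ∈ (P ⊔ cj P g).map (QuotientGroup.mk' N) := h1 ▸ mem_top _
    have hm : l⁻¹ * y ∈ N := QuotientGroup.eq.1 e
    have hc := central h hN _ hm x
    have : y * x * y⁻¹ = l * x * l⁻¹ := by
      calc y * x * y⁻¹ = l * ((l⁻¹ * y) * x) * y⁻¹ := by group
        _ = l * x * l⁻¹ := by rw [hc]; group
    rw [this]
    exact mul_mem (mul_mem hl hx) (inv_mem hl)⟩
  by_contra hne
  exact not_le h hne le_sup_left

end CL.E11
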