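/-
Project E11 (S3403): not every involution of a group of type A fixes exactly one point.
-/
import Cfsg.Agent.E11.St
import Cfsg.Agent.Fgs.FrobSol

set_option autoImplicit false

namespace CL.E11

open MulAction Subgroup

universe u

private theorem se_class {X : Type*} [Group X] (d : X) :
    {g | IsConj d g}.ncard * Nat.card (centralizer ({d} : Set X)) = Nat.card X := by
  have h := MulAction.index_stabilizer (ConjAct X) d
  rw [ConjAct.stabilizer_eq_centralizer, ConjAct.orbit_eq_carrier_conjClasses] at h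
  have e : (ConjClasses.mk d).carrier = {g | IsConj d g} := by
    ext x; rw [ConjClasses.mem_carrier_iff_mk_eq, ConjClasses.mk_eq_mk_iff_isConj, isConj_comm]; rfl
  rw [e] at h
  rw [← h]
  exact index_mul_card _

/-- a group of order dividing 60 with one class of involutions, centralisers of order 12, no element of order 4 -/
private theorem se_grp {X : Type*} [Group X] [Finite X] (v : X) (hv : orderOf v = 2) (h60 : Nat.card X ∣ 60)
    (hc : Nat.card (centralizer ({v} : Set X)) = 12) (hcl : ∀ w : X, orderOf w = 2 → IsConj v w)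
    (h4 : ∀ y : X, y ^ 4 = 1 → y ^ 2 = 1) : False := by
  have h1 := se_class v
  rw [hc] at h1
  have h2 : 4 ∣ Nat.card X := by rw [← h1]; exact Dvd.dvd.mul_left (by norm_num) _
  have h3 := CL.Fgs.dvd_card_pow_eq_one (G := X) h2
  have e : {x : X | x ^ 4 = 1} = insert 1 {g | IsConj v g} := by
    ext x
    simp only [Set.mem_ofPred_eq, Set.mem_insert_iff]
    constructor
    · intro hx
      by_cases h1 : x = 1
      · exact Or.inl h1
      · exact Or.inr (hcl x (orderOf_eq_prime (h4 x hx) h1))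
    · rintro (rfl | hx)
      · exact one_pow _
      · obtain ⟨c, rfl⟩ := isConj_iff.1 hx
        have : v ^ 4 = 1 := orderOf_dvd_iff_pow_eq_one.1 (by rw [hv]; norm_num)
        rw [conj_pow, this]; simp
  have hn : (1 : X) ∉ {g | IsConj v g} := fun h => by
    have : v = 1 := isConj_one_left.1 h
    rw [this, orderOf_one] at hv
    omega
  have h5 : Nat.card {x : X // x ^ 4 = 1} = {g | IsConj v g}.ncard + 1 := by
    rw [← Set.ncard_insert_of_notMem hn, ← e]; rfl
  rw [h5] at h3
  rw [← h1] at h60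
  have h6 : {g | IsConj v g}.ncard ∣ 5 := Nat.dvd_of_mul_dvd_mul_right (by norm_num : 0 < 12) h60
  rcases (Nat.dvd_prime Nat.prime_five).1 h6 with h | h <;> rw [h] at h3 <;> omega

theorem se : SEs.{u} := by
  intro G Ω _ _ _ _ P hB α β hne hA h1 h2 H
  obtain ⟨h, s, hs⟩ := h1.hs
  obtain ⟨γ, hγ, huγ⟩ := H s hs.sL hs.so
  have hγl : γ ∉ Ln P α β := fun h => h2.fpf s hs.sL hs.so γ h hγ
  set M : Subgroup G := Ls P α β ⊓ stabilizer G γ with hM
  have hsM : s ∈ M := ⟨hs.sL, hγ⟩
  have key : ∀ l ∈ Ls P α β, l * s * l⁻¹ ∈ M → l ∈ M := fun l hl hm => by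
    refine ⟨hl, ?_⟩
    have h3 : s • l⁻¹ • γ = l⁻¹ • γ := by
      have h4 : (l * s * l⁻¹) • γ = γ := hm.2
      rw [mul_smul, mul_smul] at h4
      rw [eq_inv_smul_iff, h4]
    have h5 := huγ _ h3
    change l • γ = γ
    rw [inv_smul_eq_iff] at h5
    exact h5.symm
  refine se_grp (X := M) ⟨s, hsM⟩ ((orderOf_coe _).symm.trans hs.so) ?_ ?_ ?_ ?_
  · have h660 : Nat.card M ∣ 660 := hA.2 ▸ card_dvd_of_le inf_le_left
    have h11 : ¬ 11 ∣ Nat.card M := fun hd => by
      have : Fact (Nat.Prime 11) := ⟨by norm_num⟩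
      obtain ⟨x, hx⟩ := exists_prime_orderOf_dvd_card' 11 hd
      have hx' : orderOf (x : G) = 11 := (orderOf_coe x).trans hx
      obtain ⟨δ, hδ, hxδ⟩ := h1.syl x x.2.1 hx'
      have hx1 : (x : G) ≠ 1 := fun e => by rw [e, orderOf_one] at hx'; omega
      exact hγl (hB.eq_of_fix hxδ hx1 x.2.2 ▸ hδ)
    have hco : (Nat.card M).Coprime 11 := ((Nat.Prime.coprime_iff_not_dvd (by norm_num)).2 h11).symm
    exact hco.dvd_of_dvd_mul_right (by simpa using h660)
  · have hle : Ls P α β ⊓ Ce s ≤ M := fun l hl => key l hl.1 (by rw [mem_Ce.1 hl.2]; simpa using hsM)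
    have e : centralizer ({⟨s, hsM⟩} : Set M) = (Ls P α β ⊓ Ce s).subgroupOf M := by
      ext y
      rw [mem_centralizer_singleton_iff, mem_subgroupOf]
      exact ⟨fun h => ⟨y.2.1, mem_Ce.2 (congrArg Subtype.val h)⟩, fun h => Subtype.ext (mem_Ce.1 h.2)⟩
    rw [e, Nat.card_congr (subgroupOfEquivOfLe hle).toEquiv, h2.c12 s hs.sL hs.so]
  · intro w hw
    obtain ⟨l, hl, e⟩ := h2.cls s hs.sL w w.2.1 hs.so ((orderOf_coe w).trans hw)
    exact isConj_iff.2 ⟨⟨l, key l hl (e ▸ w.2)⟩, Subtype.ext e⟩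
  · intro y hy
    exact Subtype.ext (h2.no4 y y.2.1 (congrArg Subtype.val hy))

end CL.E11
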