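/-
Project E11 (S3403): an involution of `K` and the lines it fixes.
-/
import Cfsg.Agent.E11.St

set_option autoImplicit false
set_option linter.unusedSectionVars false

namespace CL.E11

open MulAction Subgroup

universe u

section

variable {G Ω : Type u} [Group G] [Finite G] [Finite Ω] [MulAction G Ω] {P : Ω → Subgroup G}

theorem tl_sq {t : G} (h : orderOf t = 2) : t * t = 1 := by
  rw [← pow_two, ← h, pow_orderOf_eq_one]

theorem tl_ne {t : G} (h : orderOf t = 2) : t ≠ 1 := by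
  rintro rfl
  rw [orderOf_one] at h
  omega

theorem tl_mv (hG : Geo P) {α β : Ω} (hab : α ≠ β) {t : G} (ht : t ∈ Kk P α β) (ho : orderOf t = 2)
    (γ : Ω) (hγ : γ ∉ Ln P α β) : t • γ ≠ γ ∧ (∀ ε ∈ Ln P γ (t • γ), ε ∉ Ln P α β) ∧
    ∃ v ∈ Ls P γ (t • γ), orderOf v = 2 ∧ t * v ∈ Kk P γ (t • γ) := by
  have hB := hG.ca.base
  have h1 := tl_ne ho
  have h2 := tl_sq ho
  have hmv : t • γ ≠ γ := fun e => hγ (hG.g1.fixK α β hab t ht h1 γ e)
  have hback : t • t • γ = γ := by rw [← mul_smul, h2, one_smul]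
  have hdis : ∀ ε ∈ Ln P γ (t • γ), ε ∉ Ln P α β := by
    intro ε hε hεl
    have e1 : ε ≠ γ := fun e => hγ (e ▸ hεl)
    have e2 : t • γ ≠ ε := by
      intro e
      have := hB.Kk_fix hεl ht
      rw [← e, hback] at this
      exact hmv this.symm
    have hL : Ls P ε γ = Ls P γ (t • γ) :=
      (hG.ca.lf1 γ (t • γ) hmv.symm).sub ε hε γ (left_mem_Ln _ _) e1
    have hm : t • γ ∈ Ln P ε γ := by rw [Ln_congr hL]; exact right_mem_Ln _ _
    obtain ⟨x, hx, hxg⟩ := (hG.ca.lf1 ε γ e1).reg _ hm e2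
    have hc : x * t = t * x := mem_Cz.1 (hB.Kk_le_Cz hεl ht) x hx
    have e3 : (x * x) • γ = (1 : G) • γ := by
      rw [one_smul, mul_smul, hxg, ← mul_smul, hc, mul_smul, hxg, hback]
    have e4 : x * x = 1 := hB.free e1.symm (mul_mem hx hx) (one_mem _) e3
    have e5 : x = 1 := by
      have h11 := hB.pow11 hx
      have : x ^ 11 = (x * x) ^ 5 * x := by rw [← pow_two, ← pow_mul, ← pow_succ]
      rw [this, e4, one_pow, one_mul] at h11
      exact h11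
    rw [e5, one_smul] at hxg
    exact hmv hxg.symm
  refine ⟨hmv, hdis, (hG.ca.lf3 γ (t • γ) hmv.symm).inner t rfl hback ?_ ?_⟩
  · rw [pow_two, h2]; exact one_mem _
  · intro ε hε e
    exact hdis ε hε (hG.g1.fixK α β hab t ht h1 ε e)

theorem tl_split (hG : Geo P) {α β : Ω} (hab : α ≠ β) :
    Nat.card Ω = 12 + (Ln P α β)ᶜ.ncard := by
  rw [← (hG.ca.lf1 α β hab).card, Set.ncard_add_ncard_compl]

theorem tl_dvd (hG : Geo P) {α β : Ω} (hab : α ≠ β) {t : G} (ht : t ∈ Kk P α β) (ho : orderOf t = 2) :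
    12 ∣ Nat.card Ω := by
  classical
  have hB := hG.ca.base
  have h2 := tl_sq ho
  rw [tl_split hG hab]
  refine dvd_add dvd_rfl ?_
  have hfin : ((Ln P α β)ᶜ).Finite := Set.toFinite _
  rw [Set.ncard_eq_toFinset_card _ hfin,
    Finset.card_eq_sum_card_image (fun γ => Ln P γ (t • γ)) hfin.toFinset]
  refine Finset.dvd_sum fun b hb => ?_
  obtain ⟨γ, hγ, rfl⟩ := Finset.mem_image.1 hb
  have hγ' : γ ∉ Ln P α β := by simpa using hγ
  obtain ⟨hmv, hdis, -⟩ := tl_mv hG hab ht ho γ hγ'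
  have hback : t • t • γ = γ := by rw [← mul_smul, h2, one_smul]
  have hlf := hG.ca.lf1 γ (t • γ) hmv.symm
  rw [← hlf.card, ← Set.ncard_coe_finset]
  refine dvd_of_eq ?_
  congr 1
  ext ε
  simp only [Finset.coe_filter, Set.Finite.mem_toFinset, Set.mem_compl_iff, Set.mem_ofPred_eq]
  constructor
  · intro hε
    have hε' := hdis ε hε
    refine ⟨hε', Ln_congr (hlf.sub ε hε _ ?_ (tl_mv hG hab ht ho ε hε').1.symm)⟩
    exact hB.smul_mem_Ln_of_norm (hB.norm_Ls (Or.inr ⟨rfl, hback⟩)) hε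
  · rintro ⟨-, e⟩
    rw [← e]
    exact left_mem_Ln _ _

theorem tl_le (hG : Geo P) {α β : Ω} (hab : α ≠ β) {t : G} (ht : t ∈ Kk P α β) (ho : orderOf t = 2)
    (Z : Set G) (hZ : ∀ γ : Ω, γ ∉ Ln P α β → ∃ z ∈ Z, z ≠ 1 ∧ z ∈ Kk P γ (t • γ)) :
    Nat.card Ω ≤ 12 + 12 * Z.ncard := by
  classical
  have hB := hG.ca.base
  rw [tl_split hG hab]
  refine Nat.add_le_add_left ?_ _
  have hfin : ((Ln P α β)ᶜ).Finite := Set.toFinite _
  have hZf : Z.Finite := Set.toFinite _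
  choose! f hfZ hf1 hfK using hZ
  rw [Set.ncard_eq_toFinset_card _ hfin, Set.ncard_eq_toFinset_card _ hZf]
  refine Finset.card_le_mul_card_image_of_maps_to (f := f) (fun a ha => ?_) 12 fun z _ => ?_
  · simpa using hfZ a (by simpa using ha)
  · rcases Finset.eq_empty_or_nonempty (hfin.toFinset.filter fun a => f a = z) with e | ⟨γ, hγ⟩
    · rw [e]; simp
    · obtain ⟨hγ1, hγ2⟩ := Finset.mem_filter.1 hγ
      have hγ' : γ ∉ Ln P α β := by simpa using hγ1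
      have hmv := (tl_mv hG hab ht ho γ hγ').1
      rw [← (hG.ca.lf1 γ (t • γ) hmv.symm).card, ← Set.ncard_coe_finset]
      refine Set.ncard_le_ncard (fun ε hε => ?_) (Set.toFinite _)
      obtain ⟨hε1, hε2⟩ := Finset.mem_filter.1 (Finset.mem_coe.1 hε)
      have hε' : ε ∉ Ln P α β := by simpa using hε1
      refine hG.g1.fixK γ (t • γ) hmv.symm (f γ) (hfK γ hγ') (hf1 γ hγ') ε ?_
      rw [hγ2, ← hε2]
      exact hB.Kk_fix (left_mem_Ln _ _) (hfK ε hε')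

theorem tl_dec (hG : Geo P) {α β : Ω} (hab : α ≠ β) {t : G} (ht : t ∈ Kk P α β) (ho : orderOf t = 2)
    (z : G) (γ δ : Ω) (hgd : γ ≠ δ) (hz : z ∈ Kk P γ δ) (hzo : orderOf z = 2) (hzt : z * t = t * z)
    (hzK : z ∉ Kk P α β) :
    ∃ k ∈ Kk P α β, ∃ v ∈ Ls P α β, orderOf v = 2 ∧ z = k * v ∧ k ^ 2 = 1 ∧ k * t = t * k ∧
      Nat.card ↥(Kk P α β ⊓ Ce k) ∣ 12 ∧ ∀ ε ∈ Ln P γ δ, ε ∉ Ln P α β := by
  have hB := hG.ca.base
  have hz1 := tl_ne hzo
  have hperm : ∀ ε ∈ Ln P α β, z • ε ∈ Ln P α β :=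
    hG.g1.cenK α β hab t ht (tl_ne ho) z (by rw [hzt, mul_inv_cancel_right]; exact ht)
  have hex : ∃ a ∈ Ln P α β, z • a ≠ a := by
    by_contra hc
    push Not at hc
    have ha := hc α (left_mem_Ln _ _)
    exact hzK ((hG.ca.lf1 α β hab).cen z ha (hc β (right_mem_Ln _ _))
      (hB.chi_Kk (hG.g1.fixK γ δ hgd z hz hz1 α ha) hz))
  obtain ⟨a, hal, hza⟩ := hex
  have ha' : a ∉ Ln P γ δ := fun h => hza (hB.Kk_fix h hz)
  obtain ⟨-, hdis, v, hv, hvo, hk⟩ := tl_mv hG hgd hz hzo a ha'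
  have hL : Ls P a (z • a) = Ls P α β := (hG.ca.lf1 α β hab).sub a hal _ (hperm a hal) hza.symm
  rw [Ln_congr hL] at hdis
  have hk' : z * v ∈ Kk P α β := by unfold Kk at hk ⊢; rwa [hL] at hk
  rw [hL] at hv
  have hv2 := tl_sq hvo
  have hzk : z = z * v * v := by rw [mul_assoc, hv2, mul_one]
  have hkv : v * (z * v) = z * v * v := mem_Cz.1 hk' v hv
  have hvt : v * t = t * v := mem_Cz.1 ht v hv
  have hd : ∀ ε ∈ Ln P γ δ, ε ∉ Ln P α β := fun ε h1 h2 => hdis ε h2 h1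
  refine ⟨z * v, hk', v, hv, hvo, hzk, ?_, ?_, ?_, hd⟩
  · calc (z * v) ^ 2 = z * (v * (z * v)) := by rw [pow_two, mul_assoc]
      _ = 1 := by rw [hkv, ← hzk, tl_sq hzo]
  · rw [mul_assoc, hvt, ← mul_assoc, hzt, mul_assoc]
  · refine hG.g2.semi α β γ δ hab hgd hd _ inf_le_left fun y hy => ?_
    refine hG.g1.cenK γ δ hgd z hz hz1 y ?_
    have e1 : y * (z * v) = z * v * y := mem_Ce.1 hy.2
    have e2 : v * y = y * v := mem_Cz.1 hy.1 v hv
    have e3 : y * z = z * y := by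
      have : y * z * v = z * y * v := by rw [mul_assoc, e1, mul_assoc, e2, mul_assoc]
      exact mul_right_cancel this
    rw [e3, mul_inv_cancel_right]
    exact hz

end

theorem tl : TLs.{u} := by
  intro G Ω _ _ _ _ P hG α β hab t ht ho
  exact ⟨tl_mv hG hab ht ho, tl_dvd hG hab ht ho, tl_le hG hab ht ho, tl_dec hG hab ht ho⟩

end CL.E11
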