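/-
Project E11 (S3403): the step `ZKs`.
-/
import Cfsg.Agent.E11.St

set_option autoImplicit false

namespace CL.E11

open MulAction Subgroup

universe u

/-- the order of an automorphism of a cyclic Sylow subgroup -/
theorem zk_key {G : Type u} [Group G] [Finite G] (K : Subgroup G) {r : ℕ} (hr : r.Prime) (hd : r ∣ Nat.card K) {ρ y : G}
    (hρ : ρ ∈ K) (ho : orderOf ρ = r ^ (Nat.card K).factorization r) (hy : y ∈ K) (hn : y * ρ * y⁻¹ ∈ zpowers ρ)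
    (hc : y * ρ ≠ ρ * y) : ∃ m : ℕ, m ≠ 1 ∧ m ∣ r - 1 ∧ m ∣ orderOf y ∧ ∀ n : ℕ, y ^ n * ρ = ρ * y ^ n → m ∣ n := by
  have nm : ∀ g : G, g * ρ * g⁻¹ ∈ zpowers ρ → g ∈ normalizer (zpowers ρ : Set G) := fun g hg =>
    mem_normalizer_fintype fun x hx => by
      obtain ⟨k, rfl⟩ := mem_zpowers_iff.1 hx
      rw [← conj_zpow]
      exact zpow_mem hg k
  set N := K ⊓ normalizer (zpowers ρ : Set G) with hN
  let f : N →* MulAut (zpowers ρ) := (zpowers ρ).normalizerMonoidHom.comp (inclusion inf_le_right)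
  have kf : ∀ g : N, f g = 1 ↔ g.1 * ρ = ρ * g.1 := fun g => by
    rw [← MonoidHom.mem_ker, ← MonoidHom.comap_ker, normalizerMonoidHom_ker, mem_comap, mem_subgroupOf,
      mem_centralizer_iff]
    refine ⟨fun h => (h ρ (mem_zpowers ρ)).symm, fun h x hx => ?_⟩
    obtain ⟨k, rfl⟩ := mem_zpowers_iff.1 hx
    exact ((Commute.zpow_right h k).eq).symm
  let y' : N := ⟨y, hy, nm y hn⟩
  have l : zpowers ρ ≤ N := le_inf (zpowers_le.2 hρ) le_normalizer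
  have h1 : orderOf (f y') ∣ ((zpowers ρ).subgroupOf N).index := by
    refine (f.range.orderOf_dvd_natCard ⟨y', rfl⟩).trans ?_
    rw [← index_ker]
    refine index_dvd_of_le fun g hg => (kf g).2 ?_
    obtain ⟨k, e⟩ := mem_zpowers_iff.1 (mem_subgroupOf.1 hg)
    rw [← e]
    exact (Commute.zpow_self ρ k).eq
  have h2 : ¬ r ∣ ((zpowers ρ).subgroupOf N).index := fun h => by
    have e := card_mul_index ((zpowers ρ).subgroupOf N)
    rw [Nat.card_congr (subgroupOfEquivOfLe l).toEquiv, Nat.card_zpowers, ho] at e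
    refine Nat.pow_succ_factorization_not_dvd (Nat.card_pos (α := K)).ne' hr ?_
    rw [pow_succ]
    exact ((Nat.mul_dvd_mul_left _ h).trans e.dvd).trans (card_dvd_of_le inf_le_left)
  have h3 := orderOf_dvd_natCard (f y')
  rw [IsCyclic.card_mulAut, Nat.card_zpowers, ho,
    Nat.totient_prime_pow hr (hr.factorization_pos_of_dvd (Nat.card_pos (α := K)).ne' hd)] at h3
  refine ⟨orderOf (f y'), fun e => hc ((kf y').1 (orderOf_eq_one_iff.1 e)), ?_, ?_, fun n e => ?_⟩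
  · exact Nat.Coprime.dvd_of_dvd_mul_left (Nat.Coprime.pow_right _
      ((hr.coprime_iff_not_dvd.2 fun h => h2 (h.trans h1)).symm)) h3
  · exact (orderOf_map_dvd f y').trans (orderOf_coe y').symm.dvd
  · rw [orderOf_dvd_iff_pow_eq_one, ← map_pow]
    exact (kf _).2 e

theorem zk : ZKs.{u} := by
  intro G _ _ K hodd h5 cy rs bt
  have k0 : Nat.card K ≠ 0 := Nat.card_pos.ne'
  have ex : ∀ r : ℕ, r.Prime → ∃ ρ ∈ K, orderOf ρ = r ^ (Nat.card K).factorization r := fun r hr => by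
    have := Fact.mk hr
    obtain ⟨S⟩ : Nonempty (Sylow r K) := inferInstance
    have := cy r ((S : Subgroup K).map K.subtype) hr (map_subtype_le _) (S.isPGroup'.map _)
    obtain ⟨g, hg⟩ := IsCyclic.exists_ofOrder_eq_natCard (α := (S : Subgroup K).map K.subtype)
    refine ⟨g, map_subtype_le _ g.2, ?_⟩
    rw [orderOf_coe, hg, card_map_of_injective K.subtype_injective, S.card_eq_multiplicity]
  have key : ∀ r : ℕ, r.Prime → r ∣ Nat.card K → (r ≠ 3 ∨ 9 ∣ Nat.card K) → ∃ ρ ∈ K, ∃ y ∈ K, ∃ m : ℕ,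
      orderOf ρ = r ^ (Nat.card K).factorization r ∧ y * ρ * y⁻¹ ∈ zpowers ρ ∧ m ≠ 1 ∧ m ∣ Nat.card K ∧
      m ∣ orderOf y ∧ (∀ n : ℕ, y ^ n * ρ = ρ * y ^ n → m ∣ n) ∧ ∀ p : ℕ, p ∣ m → p < r := fun r hr hd h3 => by
    obtain ⟨ρ, hρ, ho⟩ := ex r hr
    obtain ⟨y, hy, hn, hc⟩ := bt r ρ hr hd h3 hρ ho
    obtain ⟨m, m1, a, b, c⟩ := zk_key K hr hd hρ ho hy hn hc
    refine ⟨ρ, hρ, y, hy, m, ho, hn, m1, b.trans (K.orderOf_dvd_natCard hy), b, c, fun p hp => ?_⟩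
    have := hr.two_le
    have := Nat.le_of_dvd (by omega) (hp.trans a)
    omega
  by_contra hne
  rw [not_or] at hne
  have h3 : ¬ ((Nat.card K).minFac ≠ 3 ∨ 9 ∣ Nat.card K) := fun h => by
    obtain ⟨-, -, -, -, m, -, -, m1, md, -, -, lt⟩ := key _ (Nat.minFac_prime hne.1) (Nat.minFac_dvd _) h
    exact (lt _ (Nat.minFac_dvd m)).not_ge
      (Nat.minFac_le_of_dvd (Nat.minFac_prime m1).two_le ((Nat.minFac_dvd m).trans md))
  rw [not_or, not_not] at h3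
  obtain ⟨k, hk⟩ : 3 ∣ Nat.card K := h3.1 ▸ Nat.minFac_dvd _
  have k1 : k ≠ 1 := fun e => hne.2 (by rw [hk, e])
  have k3 : ¬ 3 ∣ k := fun ⟨j, e⟩ => h3.2 ⟨j, by rw [hk, e]; ring⟩
  have hr := Nat.minFac_prime k1
  have rk := Nat.minFac_dvd k
  set r := k.minFac with hrd
  have r3 : r ≠ 3 := fun e => k3 (e ▸ rk)
  have rK : r ∣ Nat.card K := hk ▸ rk.mul_left 3
  obtain ⟨ρ, hρ, y, hy, m, ho, hn, m1, md, my, mc, lt⟩ := key r hr rK (.inl r3)
  have m3 : 3 ∣ m := by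
    have p := Nat.minFac_prime m1
    rcases p.dvd_mul.1 (hk ▸ (Nat.minFac_dvd m).trans md) with e | e
    · exact (Nat.prime_dvd_prime_iff_eq p Nat.prime_three).1 e ▸ Nat.minFac_dvd m
    · exact absurd (Nat.minFac_le_of_dvd p.two_le e) (lt _ (Nat.minFac_dvd m)).not_ge
  obtain ⟨u, hu⟩ := m3.trans my
  have u3 : ¬ 3 ∣ u := fun ⟨j, e⟩ => h3.2 ((Dvd.intro j (by rw [hu, e]; ring)).trans (K.orderOf_dvd_natCard hy))
  have u0 : u ≠ 0 := fun e => u3 (e ▸ dvd_zero 3)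
  have oz : orderOf (y ^ u) = 3 := by
    rw [orderOf_pow_of_dvd u0 (hu ▸ dvd_mul_left u 3), hu, Nat.mul_div_cancel _ (Nat.pos_of_ne_zero u0)]
  have hz : y ^ u * ρ * (y ^ u)⁻¹ ∈ zpowers ρ := by
    clear oz u0 u3 hu
    induction u with
    | zero => simp
    | succ n ih =>
      obtain ⟨j, e⟩ := mem_zpowers_iff.1 ih
      rw [show y ^ (n + 1) * ρ * (y ^ (n + 1))⁻¹ = y * (y ^ n * ρ * (y ^ n)⁻¹) * y⁻¹ by group, ← e, ← conj_zpow]
      exact zpow_mem hn j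
  generalize hzz : y ^ u = z at hz oz
  obtain ⟨i, hi⟩ := mem_zpowers_iff.1 hz
  obtain ⟨a, ha⟩ := Nat.exists_eq_succ_of_ne_zero (hr.factorization_pos_of_dvd k0 rK).ne'
  rw [ha] at ho
  have r0 : r ^ a ≠ 0 := pow_ne_zero _ hr.ne_zero
  have ox : orderOf (ρ ^ r ^ a) = r := by
    rw [orderOf_pow_of_dvd r0 (ho ▸ pow_dvd_pow r a.le_succ), ho, pow_succ, Nat.mul_div_cancel_left _ (Nat.pos_of_ne_zero r0)]
  have cx : z * ρ ^ r ^ a * z⁻¹ = (ρ ^ r ^ a) ^ i := by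
    rw [← conj_pow, ← hi, ← zpow_natCast, ← zpow_natCast, ← zpow_mul, ← zpow_mul, mul_comm]
  have cm := rs _ (pow_mem hρ _) z (hzz ▸ pow_mem hy u) (ox ▸ hr) (oz ▸ Nat.prime_three) (cx ▸ zpow_mem (mem_zpowers _) i)
  have i1 : (r : ℤ) ∣ i - 1 := by
    rw [← ox, orderOf_dvd_iff_zpow_eq_one, zpow_sub, ← cx, cm]
    simp
  have i3 : ((r : ℤ) ^ (a + 1)) ∣ (i - 1) * (i ^ 2 + i + 1) := by
    have z3 : z * z * z = 1 := by rw [← pow_three', ← oz, pow_orderOf_eq_one]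
    have : ρ ^ (i * i * i) = ρ := by
      rw [zpow_mul, zpow_mul, hi, conj_zpow, conj_zpow, hi, conj_zpow, hi]
      calc _ = z * z * z * ρ * (z * z * z)⁻¹ := by group
        _ = ρ := by rw [z3]; simp
    rw [← Nat.cast_pow, ← ho, orderOf_dvd_iff_zpow_eq_one, show (i - 1) * (i ^ 2 + i + 1) = i * i * i - 1 by ring,
      zpow_sub, this]
    simp
  have co : IsCoprime ((r : ℤ) ^ (a + 1)) (i ^ 2 + i + 1) := by
    refine IsCoprime.pow_left ((Nat.prime_iff_prime_int.1 hr).coprime_iff_not_dvd.2 fun h => r3 ?_)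
    have : (r : ℤ) ∣ (3 : ℕ) := by
      have := dvd_sub h (i1.mul_right (i + 2))
      rwa [show i ^ 2 + i + 1 - (i - 1) * (i + 2) = 3 by ring] at this
    exact (Nat.prime_dvd_prime_iff_eq hr Nat.prime_three).1 (Int.natCast_dvd_natCast.1 this)
  have fin := co.dvd_of_dvd_mul_right i3
  rw [← Nat.cast_pow, ← ho, orderOf_dvd_iff_zpow_eq_one, zpow_sub, hi, zpow_one, mul_inv_eq_one,
    mul_inv_eq_iff_eq_mul] at fin
  exact u3 (m3.trans (mc u (hzz ▸ fin)))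

end CL.E11
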